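import Cfsg.Agent.H10.MinNormal

set_option autoImplicit false

namespace Cfsg.Agent.H10

theorem nontrivial_of_faithful_of_ne_bot {G : Type*} [Group G] {Ω : Type*} [MulAction G Ω]
    [FaithfulSMul G Ω] (M : Subgroup G) (hM : M ≠ ⊥) : Nontrivial Ω := by
  by_contra hn
  rw [not_nontrivial_iff_subsingleton] at hn
  apply hM
  rw [eq_bot_iff]
  intro m _
  rw [Subgroup.mem_bot]
  exact FaithfulSMul.eq_of_smul_eq_smul (α := Ω) fun x => Subsingleton.elim _ _

theorem stabilizer_normalCore_eq_bot {G : Type*} [Group G] {Ω : Type*} [MulAction G Ω]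
    [FaithfulSMul G Ω] [MulAction.IsPretransitive G Ω] (ω : Ω) :
    (MulAction.stabilizer G ω).normalCore = ⊥ := by
  rw [eq_bot_iff]
  intro x hx
  rw [Subgroup.mem_bot]
  apply FaithfulSMul.eq_of_smul_eq_smul (α := Ω)
  intro ω'
  obtain ⟨g, rfl⟩ := MulAction.exists_smul_eq G ω ω'
  have h1 : g⁻¹ * x * g ∈ (MulAction.stabilizer G ω).normalCore :=
    (MulAction.stabilizer G ω).normalCore_normal.conj_mem' x hx g
  have h2 : g⁻¹ * x * g ∈ MulAction.stabilizer G ω := Subgroup.normalCore_le _ h1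
  rw [MulAction.mem_stabilizer_iff, mul_smul, mul_smul, inv_smul_eq_iff] at h2
  rw [h2, one_smul]

theorem corefree_complement_of_comm {G : Type*} [Group G] [Finite G] {U : Subgroup G}
    (hU : IsCoatom U) (hcore : U.normalCore = ⊥) (M : Subgroup G) [M.Normal]
    [IsMulCommutative M] (hM : M ≠ ⊥) : M ⊓ U = ⊥ ∧ M ⊔ U = ⊤ ∧ Subgroup.IsComplement' M U := by
  have h1 := centralizer_inf_eq_bot_of_corefree hU hcore hM
  have h2 := sup_eq_top_of_corefree hU hcore hM
  have h3 : M ⊓ U = ⊥ := by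
    rw [eq_bot_iff, ← h1]
    exact inf_le_inf_right U (Subgroup.le_centralizer M)
  refine ⟨h3, h2, ?_⟩
  apply Subgroup.isComplement'_of_disjoint_and_mul_eq_univ
  · exact disjoint_iff.mpr h3
  · rw [← Subgroup.normal_mul, h2]
    rfl

end Cfsg.Agent.H10
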