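import Cfsg.Agent.H52.Four
import Cfsg.Agent.H4.Final
import Cfsg.Agent.Transfer.NPC

/-! `|C_D(u)| = |C_D(v)| = |C_D(uv)|` for a normal subgroup `D` of odd order and a
self-centralising four-group `⟨u,v⟩`, in a group without normal 2-complement all of whose
involution centralizers have one. -/

set_option autoImplicit false

namespace Cfsg.Agent.H10

universe u

theorem inv_of_fpf {O : Type*} [Group O] [Finite O] (hodd : Odd (Nat.card O))
    (α β : O →* O) (hα : ∀ x, α (α x) = x) (hαβ : ∀ x, α (β x) = β (α x))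
    (h1 : ∀ x, α x = x → β x = x → x = 1) {x : O} (hx : β x = x) : α x = x⁻¹ := by
  obtain ⟨r, hr⟩ : ∃ r, Nat.card O + 1 = 2 * r := by
    obtain ⟨m, hm⟩ := hodd
    exact ⟨m + 1, by omega⟩
  have hsq : ∀ y : O, y ^ r * y ^ r = y := by
    intro y
    rw [← pow_add, ← two_mul, ← hr, pow_succ, pow_card_eq_one', one_mul]
  obtain ⟨i, hi⟩ : ∃ i : O, i = ((α x)⁻¹ * x) ^ r := ⟨_, rfl⟩
  have hii : i * i = (α x)⁻¹ * x := by rw [hi]; exact hsq _
  have hαi : α i = i⁻¹ := by
    rw [hi, map_pow, map_mul, map_inv, hα, ← inv_pow]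
    congr 1; group
  have hβi : β i = i := by
    rw [hi, map_pow, map_mul, map_inv, ← hαβ, hx]
  obtain ⟨c, hc⟩ : ∃ c : O, c = x * i⁻¹ := ⟨_, rfl⟩
  have hαc : α c = c := by
    rw [hc, map_mul, map_inv, hαi, inv_inv, eq_mul_inv_iff_mul_eq, mul_assoc, hii]
    group
  have hβc : β c = c := by
    rw [hc, map_mul, map_inv, hβi, hx]
  have hc1 := h1 c hαc hβc
  have hxi : x = i := by
    rw [hc] at hc1
    exact mul_inv_eq_one.1 hc1
  rw [hxi, hαi]

theorem sq_inj {O : Type*} [Group O] [Finite O] (hodd : Odd (Nat.card O)) {x y : O}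
    (h : x * x = y * y) : x = y := by
  obtain ⟨r, hr⟩ : ∃ r, Nat.card O + 1 = 2 * r := by
    obtain ⟨m, hm⟩ := hodd
    exact ⟨m + 1, by omega⟩
  have hsq : ∀ y : O, (y * y) ^ r = y := by
    intro y
    rw [← pow_two, ← pow_mul, ← hr, pow_succ, pow_card_eq_one', one_mul]
  rw [← hsq x, ← hsq y, h]

theorem order_formula_aux {O : Type*} [Group O] [Finite O] (hodd : Odd (Nat.card O))
    (α β : O →* O) (hα : ∀ x, α (α x) = x) (hβ : ∀ x, β (β x) = x)
    (hαβ : ∀ x, α (β x) = β (α x)) (h1 : ∀ x, α x = x → β x = x → x = 1) :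
    Nat.card O = Nat.card {x : O // α x = x} * (Nat.card {x : O // β x = x} *
      Nat.card {x : O // α (β x) = x}) := by
  have hd : ∀ d : O, β d = d → α d = d⁻¹ := fun d hd => inv_of_fpf hodd α β hα hαβ h1 hd
  have hk : ∀ k : O, α (β k) = k → α k = k⁻¹ := by
    intro k hk
    refine inv_of_fpf hodd α (α.comp β) hα ?_ ?_ hk
    · intro x; simp only [MonoidHom.comp_apply]; rw [hαβ]
    · intro x hx1 hx2
      simp only [MonoidHom.comp_apply] at hx2
      refine h1 x hx1 ?_
      have := congrArg α hx2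
      rw [hα, hx1] at this
      exact this
  have hk' : ∀ k : O, α (β k) = k → β k = k⁻¹ := by
    intro k hkk
    have := congrArg α hkk
    rw [hα, hk k hkk] at this
    exact this
  rw [← Nat.card_prod, ← Nat.card_prod]
  refine (Nat.card_congr (Equiv.ofBijective
    (fun p : {x : O // α x = x} × ({x : O // β x = x} × {x : O // α (β x) = x}) =>
      (p.1 : O) * ((p.2.1 : O) * (p.2.2 : O) * (p.2.1 : O))) ⟨?_, ?_⟩)).symm
  · rintro ⟨⟨c, hc⟩, ⟨d, hdd⟩, ⟨k, hkk⟩⟩ ⟨⟨c', hc'⟩, ⟨d', hdd'⟩, ⟨k', hkk'⟩⟩ h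
    simp only at h
    obtain ⟨i, hi⟩ : ∃ i : O, i = d * k * d := ⟨_, rfl⟩
    obtain ⟨i', hi'⟩ : ∃ i' : O, i' = d' * k' * d' := ⟨_, rfl⟩
    rw [← hi, ← hi'] at h
    have hαi : α i = i⁻¹ := by
      rw [hi, map_mul, map_mul, hd d hdd, hk k hkk]; group
    have hαi' : α i' = i'⁻¹ := by
      rw [hi', map_mul, map_mul, hd d' hdd', hk k' hkk']; group
    have h2 : c * i⁻¹ = c' * i'⁻¹ := by
      have := congrArg α h
      rwa [map_mul, map_mul, hc, hc', hαi, hαi'] at this
    have h3 : i * i = i' * i' := by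
      calc i * i = (c * i⁻¹)⁻¹ * (c * i) := by group
        _ = (c' * i'⁻¹)⁻¹ * (c' * i') := by rw [h, h2]
        _ = i' * i' := by group
    have h4 : i = i' := sq_inj hodd h3
    have h5 : c = c' := by
      rw [h4] at h; exact mul_right_cancel h
    have h6 : d * k * d = d' * k' * d' := by rw [← hi, ← hi', h4]
    -- commuting of d, d'
    have hcom : d * d' = d' * d := by
      have h7 : β (d * d') = d * d' := by rw [map_mul, hdd, hdd']
      have h8 := hd _ h7
      rw [map_mul, hd d hdd, hd d' hdd', mul_inv_rev] at h8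
      have := congrArg (fun z => z⁻¹) h8
      simp only [mul_inv_rev, inv_inv] at this
      exact this.symm
    obtain ⟨t, ht⟩ : ∃ t : O, t = d'⁻¹ * d := ⟨_, rfl⟩
    have ht' : d * d'⁻¹ = t := by
      rw [ht, eq_inv_mul_iff_mul_eq, ← mul_assoc, ← hcom]; group
    have hβt : β t = t := by rw [ht, map_mul, map_inv, hdd, hdd']
    have htk : t * k * t = k' := by
      calc t * k * t = (d'⁻¹ * d) * k * (d * d'⁻¹) := by rw [ht']; rw [ht]
        _ = d'⁻¹ * (d * k * d) * d'⁻¹ := by group
        _ = d'⁻¹ * (d' * k' * d') * d'⁻¹ := by rw [h6]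
        _ = k' := by group
    have h9 : t * k⁻¹ * t = (t * k * t)⁻¹ := by
      have := congrArg β htk
      rw [map_mul, map_mul, hβt, hk' k hkk, hk' k' hkk'] at this
      rw [this, htk]
    obtain ⟨T, hT⟩ : ∃ T : O, T = t * t := ⟨_, rfl⟩
    have h10 : k⁻¹ * T * k = T⁻¹ := by
      have h11 : T * k⁻¹ * T = k⁻¹ := by
        calc T * k⁻¹ * T = t * (t * k⁻¹ * t) * t := by rw [hT]; group
          _ = t * (t * k * t)⁻¹ * t := by rw [h9]
          _ = k⁻¹ := by group
      calc k⁻¹ * T * k = T⁻¹ * (T * k⁻¹ * T) * k := by group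
        _ = T⁻¹ * k⁻¹ * k := by rw [h11]
        _ = T⁻¹ := by group
    have h12 : k * T * k⁻¹ = T⁻¹ := by
      have h13 : (k⁻¹ * T * k)⁻¹ = T := by rw [h10, inv_inv]
      calc k * T * k⁻¹ = k * (k⁻¹ * T * k)⁻¹ * k⁻¹ := by rw [h13]
        _ = T⁻¹ := by group
    have h14 : Commute (k * k) T := by
      show k * k * T = T * (k * k)
      calc k * k * T = k * (k * T * k⁻¹) * k := by group
        _ = k * T⁻¹ * k := by rw [h12]
        _ = (k * T * k⁻¹)⁻¹ * k * k := by group
        _ = T * (k * k) := by rw [h12]; group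
    have h15 : Commute k T := by
      obtain ⟨r, hr⟩ : ∃ r, Nat.card O + 1 = 2 * r := by
        obtain ⟨m, hm⟩ := hodd
        exact ⟨m + 1, by omega⟩
      have hkr : (k * k) ^ r = k := by
        rw [← pow_two, ← pow_mul, ← hr, pow_succ, pow_card_eq_one', one_mul]
      rw [← hkr]
      exact h14.pow_left r
    have h16 : T = T⁻¹ := by
      rw [← h12, h15.eq]; group
    have h17 : T = 1 := by
      apply sq_inj hodd
      rw [mul_one]
      calc T * T = T * T⁻¹ := by rw [← h16]
        _ = 1 := by group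
    have h18 : t = 1 := by
      apply sq_inj hodd
      rw [← hT, h17, mul_one]
    have h19 : d = d' := by
      rw [h18] at ht
      exact (inv_mul_eq_one.1 ht.symm).symm
    have h20 : k = k' := by rw [← htk, h18]; group
    subst h5; subst h19; subst h20
    rfl
  · intro x
    obtain ⟨c, d, k, hc, hdd, hkk, hx⟩ := Cfsg.Agent.H52.four_group_factor hodd α β hα hβ hαβ x
    exact ⟨⟨⟨c, hc⟩, ⟨d, hdd⟩, ⟨k, hkk⟩⟩, hx.symm⟩

/-- Order formula `|D| = |C_D(a)| |C_D(b)| |C_D(ab)|` for a four-group acting on a group of odd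
order with `C_D(⟨a,b⟩) = 1`. -/
theorem order_formula {G : Type*} [Group G] [Finite G] (D : Subgroup G)
    (hodd : Odd (Nat.card D)) (a b : G) (ha : a * a = 1) (hb : b * b = 1) (hab : a * b = b * a)
    (haD : ∀ x ∈ D, a * x * a⁻¹ ∈ D) (hbD : ∀ x ∈ D, b * x * b⁻¹ ∈ D)
    (h1 : ∀ x ∈ D, a * x = x * a → b * x = x * b → x = 1) :
    Nat.card D = Nat.card ↥(D ⊓ Subgroup.centralizer ({a} : Set G)) *
      (Nat.card ↥(D ⊓ Subgroup.centralizer ({b} : Set G)) *
       Nat.card ↥(D ⊓ Subgroup.centralizer ({a * b} : Set G))) := by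
  let α : D →* D :=
    { toFun := fun x => ⟨a * x * a⁻¹, haD x x.2⟩
      map_one' := by ext; simp
      map_mul' := by intro x y; ext; simp }
  let β : D →* D :=
    { toFun := fun x => ⟨b * x * b⁻¹, hbD x x.2⟩
      map_one' := by ext; simp
      map_mul' := by intro x y; ext; simp }
  have hαv : ∀ x : D, ((α x : D) : G) = a * x * a⁻¹ := fun x => rfl
  have hβv : ∀ x : D, ((β x : D) : G) = b * x * b⁻¹ := fun x => rfl
  have key := order_formula_aux hodd α β
    (by intro y; ext; rw [hαv, hαv]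
        calc a * (a * (y : G) * a⁻¹) * a⁻¹ = (a * a) * y * (a * a)⁻¹ := by group
          _ = y := by rw [ha]; group)
    (by intro y; ext; rw [hβv, hβv]
        calc b * (b * (y : G) * b⁻¹) * b⁻¹ = (b * b) * y * (b * b)⁻¹ := by group
          _ = y := by rw [hb]; group)
    (by intro y; ext; rw [hαv, hβv, hβv, hαv]
        calc a * (b * (y : G) * b⁻¹) * a⁻¹ = (a * b) * y * (a * b)⁻¹ := by group
          _ = b * (a * (y : G) * a⁻¹) * b⁻¹ := by rw [hab]; group)
    (by intro y hy1 hy2
        ext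
        refine h1 y y.2 ?_ ?_
        · have := congrArg Subtype.val hy1
          rw [hαv, mul_inv_eq_iff_eq_mul] at this
          exact this
        · have := congrArg Subtype.val hy2
          rw [hβv, mul_inv_eq_iff_eq_mul] at this
          exact this)
  have hcard : ∀ (c : G) (γ : D → D) (hγ : ∀ x : D, ((γ x : D) : G) = c * x * c⁻¹),
      Nat.card {x : D // γ x = x} = Nat.card ↥(D ⊓ Subgroup.centralizer ({c} : Set G)) := by
    intro c γ hγ
    refine Nat.card_congr
      { toFun := fun x => ⟨((x : D) : G), ⟨(x : D).2, ?_⟩⟩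
        invFun := fun y => ⟨⟨(y : G), y.2.1⟩, ?_⟩
        left_inv := fun x => rfl
        right_inv := fun x => rfl }
    · have := congrArg Subtype.val x.2
      rw [hγ, mul_inv_eq_iff_eq_mul] at this
      exact Subgroup.mem_centralizer_singleton_iff.2 this.symm
    · ext
      rw [hγ, mul_inv_eq_iff_eq_mul]
      exact (Subgroup.mem_centralizer_singleton_iff.1 (Subgroup.mem_inf.1 y.2).2).symm
  rw [key, hcard a α hαv, hcard b β hβv, hcard (a * b) (fun x => α (β x))
    (by intro x; rw [hαv, hβv]; group)]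

theorem exists_conj_ne {G : Type u} [Group G] [Finite G] (S : Sylow 2 G) {z : G} (hz1 : z ≠ 1)
    (hz : z * z = 1)
    (hCz : Cfsg.HasNormalPComplement 2 (Subgroup.centralizer ({z} : Set G)))
    (hG : ¬ Cfsg.HasNormalPComplement 2 G) : ∃ g : G, g * z * g⁻¹ ∈ S ∧ g * z * g⁻¹ ≠ z := by
  by_contra hcon
  push Not at hcon
  apply hG
  have ho : orderOf z = 2 := orderOf_eq_prime (by rw [pow_two, hz]) hz1
  have hK : ∀ g : G, z * g * z⁻¹ * g⁻¹ ∈ Cfsg.pPrimeCore 2 G :=
    fun g => Cfsg.Agent.H4.zstar_sylow S ho hcon g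
  have hKodd : Odd (Nat.card (Cfsg.pPrimeCore 2 G)) := Cfsg.Agent.H4.odd_card_pPrimeCore_two
  have hsurj : Function.Surjective ((QuotientGroup.mk' (Cfsg.pPrimeCore 2 G)).comp
      (Subgroup.centralizer ({z} : Set G)).subtype) := by
    intro q
    obtain ⟨g, rfl⟩ := QuotientGroup.mk'_surjective _ q
    have hzi : z⁻¹ = z := inv_eq_of_mul_eq_one_left hz
    obtain ⟨w, hw⟩ : ∃ w : G, w = z * (g * z * g⁻¹) := ⟨_, rfl⟩
    have hwK : w ∈ Cfsg.pPrimeCore 2 G := by
      have := hK g
      rw [hzi] at this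
      rw [hw]
      simpa [mul_assoc] using this
    obtain ⟨r, hr⟩ : ∃ r, Nat.card (Cfsg.pPrimeCore 2 G) + 1 = 2 * r := by
      obtain ⟨m, hm⟩ := hKodd
      exact ⟨m + 1, by omega⟩
    obtain ⟨k, hk⟩ : ∃ k : G, k = (w ^ r)⁻¹ := ⟨_, rfl⟩
    have hkK : k ∈ Cfsg.pPrimeCore 2 G := by rw [hk]; exact inv_mem (pow_mem hwK r)
    have hkk : k⁻¹ * k⁻¹ = w := by
      rw [hk, inv_inv, ← pow_two, ← pow_mul, mul_comm r 2, ← hr, pow_succ]
      have : (⟨w, hwK⟩ : Cfsg.pPrimeCore 2 G) ^ Nat.card (Cfsg.pPrimeCore 2 G) = 1 :=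
        pow_card_eq_one'
      have h2 : w ^ Nat.card (Cfsg.pPrimeCore 2 G) = 1 := congrArg Subtype.val this
      rw [h2, one_mul]
    have hzw : z * w * z⁻¹ = w⁻¹ := by
      have hgz : (g * z * g⁻¹)⁻¹ = g * z * g⁻¹ := by
        rw [mul_inv_rev, mul_inv_rev, inv_inv, hzi, mul_assoc]
      rw [hw, mul_inv_rev, hgz]
      calc z * (z * (g * z * g⁻¹)) * z⁻¹ = (z * z) * (g * z * g⁻¹) * z⁻¹ := by group
        _ = g * z * g⁻¹ * z⁻¹ := by rw [hz, one_mul]
    have hzk : z * k * z⁻¹ = k⁻¹ := by
      rw [hk]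
      calc z * (w ^ r)⁻¹ * z⁻¹ = (z * w ^ r * z⁻¹)⁻¹ := by group
        _ = ((z * w * z⁻¹) ^ r)⁻¹ := by rw [conj_pow]
        _ = (w ^ r)⁻¹⁻¹ := by rw [hzw, inv_pow]
    have hfin : (k⁻¹ * g) * z = z * (k⁻¹ * g) := by
      have h1 : g * z = z * w * g := by
        rw [hw]
        calc g * z = (g * z * g⁻¹) * g := by group
          _ = (z * z) * (g * z * g⁻¹) * g := by rw [hz, one_mul]
          _ = z * (z * (g * z * g⁻¹)) * g := by group
      calc (k⁻¹ * g) * z = k⁻¹ * (g * z) := by group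
        _ = k⁻¹ * (z * w * g) := by rw [h1]
        _ = k⁻¹ * z * (k⁻¹ * k⁻¹) * g := by rw [hkk]; group
        _ = (z * k * z⁻¹) * z * (k⁻¹ * k⁻¹) * g := by rw [hzk]
        _ = z * (k⁻¹ * g) := by group
    refine ⟨⟨k⁻¹ * g, Subgroup.mem_centralizer_singleton_iff.2 hfin⟩, ?_⟩
    · simp only [MonoidHom.comp_apply, Subgroup.coe_subtype, QuotientGroup.mk'_apply]
      rw [QuotientGroup.eq]
      have : (k⁻¹ * g)⁻¹ * g = g⁻¹ * k * (g⁻¹)⁻¹ := by group
      rw [this]
      exact Subgroup.Normal.conj_mem inferInstance k hkK g⁻¹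
  have h5 := Cfsg.Agent.Transfer.HasNPC.of_surjective hCz _ hsurj
  exact Cfsg.Agent.Transfer.HasNPC.of_quotient (Cfsg.pPrimeCore 2 G)
    (Nat.coprime_comm.1 ((Nat.coprime_two_left).2 hKodd)) h5

theorem sylow_swap {G : Type*} [Group G] [Finite G] (S : Sylow 2 G) {a b : G}
    (hb1 : b ≠ 1) (hne : a ≠ b) (hab : a * b = b * a)
    (hC : ∀ g : G, g * a = a * g → g * b = b * g → g = 1 ∨ g = a ∨ g = b ∨ g = a * b)
    (haS : ∀ x ∈ S, x * a = a * x) (haS' : a ∈ S) (hbS : b ∈ S)
    (h4 : 4 < Nat.card S) : ∃ g ∈ S, g * b * g⁻¹ = a * b := by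
  classical
  obtain ⟨V, hV⟩ : ∃ V : Subgroup G, V = Subgroup.centralizer ({a} : Set G) ⊓
    Subgroup.centralizer ({b} : Set G) := ⟨_, rfl⟩
  have hVm : ∀ g : G, g ∈ V ↔ (g * a = a * g ∧ g * b = b * g) := by
    intro g
    rw [hV, Subgroup.mem_inf, Subgroup.mem_centralizer_singleton_iff,
      Subgroup.mem_centralizer_singleton_iff]
  have hVS : V ≤ (S : Subgroup G) := by
    intro g hg
    rw [hVm] at hg
    rcases hC g hg.1 hg.2 with h | h | h | h
    · rw [h]; exact one_mem _
    · rw [h]; exact haS'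
    · rw [h]; exact hbS
    · rw [h]; exact mul_mem haS' hbS
  have hVc : Nat.card V ≤ 4 := by
    have h1 : (V : Set G) ⊆ (({1, a, b, a * b} : Finset G) : Set G) := by
      intro g hg
      have hg' := (hVm g).1 hg
      rcases hC g hg'.1 hg'.2 with h | h | h | h <;> simp [h]
    calc Nat.card V = (V : Set G).ncard := rfl
      _ ≤ (({1, a, b, a * b} : Finset G) : Set G).ncard := Set.ncard_le_ncard h1 (Finset.finite_toSet _)
      _ = ({1, a, b, a * b} : Finset G).card := Set.ncard_coe_finset _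
      _ ≤ 4 := Finset.card_le_four
  have hlt : V.subgroupOf (S : Subgroup G) < ⊤ := by
    rw [lt_top_iff_ne_top]
    intro h
    rw [Subgroup.subgroupOf_eq_top] at h
    have : Nat.card S ≤ Nat.card V := Nat.card_le_card_of_injective
      (Subgroup.inclusion h) (Subgroup.inclusion_injective h)
    omega
  have : Group.IsNilpotent (S : Subgroup G) := S.isPGroup'.isNilpotent
  have hnc : NormalizerCondition (S : Subgroup G) := Group.normalizerCondition_of_isNilpotent
  obtain ⟨n, hn1, hn2⟩ := SetLike.exists_of_lt (hnc _ hlt)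
  refine ⟨n, n.2, ?_⟩
  have hnV : ∀ x ∈ V, (n : G) * x * (n : G)⁻¹ ∈ V := by
    intro x hx
    rw [Subgroup.mem_normalizer_iff] at hn1
    have := (hn1 ⟨x, hVS hx⟩).1 (by rw [Subgroup.mem_subgroupOf]; exact hx)
    rw [Subgroup.mem_subgroupOf] at this
    simpa using this
  have hna : (n : G) * a = a * n := haS n n.2
  have hnb : ¬ (n : G) * b = b * n := by
    intro h
    apply hn2
    rw [Subgroup.mem_subgroupOf]
    exact (hVm _).2 ⟨hna, h⟩
  have hbV : b ∈ V := (hVm b).2 ⟨hab.symm, rfl⟩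
  have h5 := (hVm _).1 (hnV b hbV)
  rcases hC _ h5.1 h5.2 with h | h | h | h
  · exfalso
    apply hb1
    have := congrArg (fun t => (n : G)⁻¹ * t * n) h
    simpa [mul_assoc] using this
  · exfalso
    apply hne
    have h6 : (n : G) * b = a * n := by rw [← h]; group
    rw [← hna] at h6
    exact (mul_left_cancel h6).symm
  · exfalso
    apply hnb
    calc (n : G) * b = (n * b * (n : G)⁻¹) * n := by group
      _ = b * n := by rw [h]
  · exact h

theorem card_inf_centralizer_conj {G : Type*} [Group G] [Finite G] (D : Subgroup G) [D.Normal]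
    (g s : G) : Nat.card ↥(D ⊓ Subgroup.centralizer ({g * s * g⁻¹} : Set G)) =
      Nat.card ↥(D ⊓ Subgroup.centralizer ({s} : Set G)) := by
  refine (Nat.card_congr (Equiv.ofBijective
    (fun x : ↥(D ⊓ Subgroup.centralizer ({s} : Set G)) =>
      (⟨g * x * g⁻¹, ?_, ?_⟩ : ↥(D ⊓ Subgroup.centralizer ({g * s * g⁻¹} : Set G)))) ⟨?_, ?_⟩)).symm
  · exact Subgroup.Normal.conj_mem inferInstance _ x.2.1 g
  · refine Subgroup.mem_centralizer_singleton_iff.2 ?_
    have h := Subgroup.mem_centralizer_singleton_iff.1 (Subgroup.mem_inf.1 x.2).2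
    calc g * (x : G) * g⁻¹ * (g * s * g⁻¹) = g * ((x : G) * s) * g⁻¹ := by group
      _ = g * (s * (x : G)) * g⁻¹ := by rw [h]
      _ = g * s * g⁻¹ * (g * (x : G) * g⁻¹) := by group
  · intro x y h
    have := congrArg Subtype.val h
    simp only at this
    ext
    exact mul_left_cancel (mul_right_cancel this)
  · intro y
    refine ⟨⟨g⁻¹ * y * g, ?_, ?_⟩, ?_⟩
    · have := Subgroup.Normal.conj_mem (H := D) inferInstance _ y.2.1 g⁻¹
      simpa using this
    · refine Subgroup.mem_centralizer_singleton_iff.2 ?_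
      have h := Subgroup.mem_centralizer_singleton_iff.1 (Subgroup.mem_inf.1 y.2).2
      calc g⁻¹ * (y : G) * g * s = g⁻¹ * ((y : G) * (g * s * g⁻¹)) * g := by group
        _ = g⁻¹ * ((g * s * g⁻¹) * (y : G)) * g := by rw [h]
        _ = s * (g⁻¹ * (y : G) * g) := by group
    · ext
      simp only
      group

theorem eqfix {G : Type u} [Group G] [Finite G]
    (hC : ∀ a b : G, a ≠ 1 → a * a = 1 → b ≠ 1 → b * b = 1 → a ≠ b → a * b = b * a →
      ∀ g, g * a = a * g → g * b = b * g → g = 1 ∨ g = a ∨ g = b ∨ g = a * b)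
    (hN : ∀ z : G, z ≠ 1 → z * z = 1 →
      Cfsg.HasNormalPComplement 2 (Subgroup.centralizer ({z} : Set G)))
    {u v : G} (hu1 : u ≠ 1) (hu : u * u = 1) (hv1 : v ≠ 1) (hv : v * v = 1) (huv : u ≠ v)
    (hcomm : u * v = v * u) (hG : ¬ Cfsg.HasNormalPComplement 2 G) (D : Subgroup G) [D.Normal]
    (hD : Odd (Nat.card D)) :
    Nat.card ↥(D ⊓ Subgroup.centralizer ({u} : Set G)) =
        Nat.card ↥(D ⊓ Subgroup.centralizer ({v} : Set G)) ∧
      Nat.card ↥(D ⊓ Subgroup.centralizer ({u} : Set G)) =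
        Nat.card ↥(D ⊓ Subgroup.centralizer ({u * v} : Set G)) := by
  classical
  obtain ⟨f, hf⟩ : ∃ f : G → ℕ, ∀ s, f s = Nat.card ↥(D ⊓ Subgroup.centralizer ({s} : Set G)) :=
    ⟨_, fun _ => rfl⟩
  rw [← hf, ← hf, ← hf]
  have hfc : ∀ g s, f (g * s * g⁻¹) = f s := by
    intro g s; rw [hf, hf]; exact card_inf_centralizer_conj D g s
  have hinvD : ∀ x ∈ D, x * x = 1 → x = 1 := by
    intro x hx h
    have h3 : (⟨x, hx⟩ : D) = 1 := by
      apply sq_inj hD
      ext
      simpa using h
    simpa using congrArg Subtype.val h3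
  have hof : ∀ a b : G, a ≠ 1 → a * a = 1 → b ≠ 1 → b * b = 1 → a ≠ b → a * b = b * a →
      Nat.card D = f a * (f b * f (a * b)) := by
    intro a b ha1 ha hb1 hb hne hab
    rw [hf, hf, hf]
    refine order_formula D hD a b ha hb hab
      (fun x hx => Subgroup.Normal.conj_mem inferInstance x hx a)
      (fun x hx => Subgroup.Normal.conj_mem inferInstance x hx b) ?_
    intro x hx h1 h2
    apply hinvD x hx
    rcases hC a b ha1 ha hb1 hb hne hab x h1.symm h2.symm with h | h | h | h
    · rw [h, one_mul]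
    · rw [h, ha]
    · rw [h, hb]
    · rw [h]
      calc a * b * (a * b) = a * b * (b * a) := by rw [← hab]
        _ = a * (b * b) * a := by group
        _ = 1 := by rw [hb, mul_one, ha]
  have hfpos : ∀ s, 0 < f s := by intro s; rw [hf]; exact Nat.card_pos
  -- a Sylow 2-subgroup containing u and v
  obtain ⟨V, hV⟩ : ∃ V : Subgroup G, V = Subgroup.centralizer ({u} : Set G) ⊓
    Subgroup.centralizer ({v} : Set G) := ⟨_, rfl⟩
  have hVm : ∀ g : G, g ∈ V ↔ (g * u = u * g ∧ g * v = v * g) := by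
    intro g
    rw [hV, Subgroup.mem_inf, Subgroup.mem_centralizer_singleton_iff,
      Subgroup.mem_centralizer_singleton_iff]
  have huV : u ∈ V := (hVm u).2 ⟨rfl, hcomm⟩
  have hvV : v ∈ V := (hVm v).2 ⟨hcomm.symm, rfl⟩
  have hVel : ∀ g ∈ V, g = 1 ∨ g = u ∨ g = v ∨ g = u * v := fun g hg =>
    hC u v hu1 hu hv1 hv huv hcomm g ((hVm g).1 hg).1 ((hVm g).1 hg).2
  have huv2 : (u * v) * (u * v) = 1 := by
    calc u * v * (u * v) = u * v * (v * u) := by rw [← hcomm]
      _ = u * (v * v) * u := by group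
      _ = 1 := by rw [hv, mul_one, hu]
  have huv1 : u * v ≠ 1 := by
    intro h
    apply huv
    calc u = u * (v * v) := by rw [hv, mul_one]
      _ = (u * v) * v := by group
      _ = v := by rw [h, one_mul]
  have hVp : IsPGroup 2 V := by
    intro x
    refine ⟨1, ?_⟩
    rw [pow_one]
    ext
    rcases hVel x x.2 with h | h | h | h
    · simp [h]
    · simp only [Subgroup.coe_pow, Subgroup.coe_one]; rw [h, pow_two, hu]
    · simp only [Subgroup.coe_pow, Subgroup.coe_one]; rw [h, pow_two, hv]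
    · simp only [Subgroup.coe_pow, Subgroup.coe_one]; rw [h, pow_two, huv2]
  obtain ⟨S, hVS⟩ := hVp.exists_le_sylow
  by_cases h4 : 4 < Nat.card S
  · -- claim 2
    have claim : ∀ z s : G, z ≠ 1 → z * z = 1 → s ≠ 1 → s * s = 1 → z ≠ s → z ∈ S → s ∈ S →
        (∀ x ∈ S, x * z = z * x) → f s = f z ∧ f (z * s) = f z := by
      intro z s hz1 hz hs1 hs hzs hzS hsS hcen
      have hzscom : z * s = s * z := (hcen s hsS).symm
      obtain ⟨g, -, hg⟩ := sylow_swap S hs1 hzs hzscom
        (hC z s hz1 hz hs1 hs hzs hzscom) hcen hzS hsS h4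
      have h1 : f (z * s) = f s := by rw [← hg, hfc]
      obtain ⟨g', hg1, hg2⟩ := exists_conj_ne S hz1 hz (hN z hz1 hz) hG
      obtain ⟨z', hz'⟩ : ∃ z' : G, z' = g' * z * g'⁻¹ := ⟨_, rfl⟩
      rw [← hz'] at hg1 hg2
      have hz'1 : z' ≠ 1 := by
        rw [hz']
        intro h
        apply hz1
        have := congrArg (fun t => g'⁻¹ * t * g') h
        simpa [mul_assoc] using this
      have hz'2 : z' * z' = 1 := by
        rw [hz']
        calc g' * z * g'⁻¹ * (g' * z * g'⁻¹) = g' * (z * z) * g'⁻¹ := by group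
          _ = 1 := by rw [hz]; group
      have hz'z : z' * z = z * z' := hcen z' hg1
      have hfz' : f z' = f z := by rw [hz', hfc]
      -- Sylow of C(z')
      obtain ⟨T, hT⟩ : ∃ T : Sylow 2 G, T = g' • S := ⟨_, rfl⟩
      have hTm : ∀ x, x ∈ T ↔ g'⁻¹ * x * g' ∈ S := by
        intro x
        rw [hT]
        show x ∈ ((g' • S : Sylow 2 G) : Subgroup G) ↔ _
        rw [Sylow.coe_subgroup_smul, Subgroup.mem_pointwise_smul_iff_inv_smul_mem]
        simp only [MulAut.smul_def, ← map_inv]
        simp only [MulAut.conj_apply, inv_inv]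
        exact Iff.rfl
      have hTcen : ∀ x ∈ T, x * z' = z' * x := by
        intro x hx
        have h2 := hcen _ ((hTm x).1 hx)
        rw [hz']
        calc x * (g' * z * g'⁻¹) = g' * ((g'⁻¹ * x * g') * z) * g'⁻¹ := by group
          _ = g' * (z * (g'⁻¹ * x * g')) * g'⁻¹ := by rw [h2]
          _ = g' * z * g'⁻¹ * x := by group
      have hz'T : z' ∈ T := by
        rw [hTm, hz']
        have : g'⁻¹ * (g' * z * g'⁻¹) * g' = z := by group
        rw [this]; exact hzS
      have hTle : (T : Subgroup G) ≤ Subgroup.centralizer ({z'} : Set G) := fun x hx =>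
        Subgroup.mem_centralizer_singleton_iff.2 (hTcen x hx)
      have hzC : z ∈ Subgroup.centralizer ({z'} : Set G) :=
        Subgroup.mem_centralizer_singleton_iff.2 hz'z.symm
      obtain ⟨c, hcC, hcT⟩ : ∃ c ∈ Subgroup.centralizer ({z'} : Set G), c * z * c⁻¹ ∈ T := by
        have hzp : IsPGroup 2 (Subgroup.zpowers
            (⟨z, hzC⟩ : Subgroup.centralizer ({z'} : Set G))) := by
          rw [IsPGroup.iff_card]
          refine ⟨1, ?_⟩
          rw [Nat.card_zpowers, pow_one]
          refine orderOf_eq_prime ?_ ?_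
          · ext; simp [pow_two, hz]
          · intro h; exact hz1 (by simpa using congrArg Subtype.val h)
        obtain ⟨R, hR⟩ := hzp.exists_le_sylow
        obtain ⟨c, hc⟩ := MulAction.exists_smul_eq (Subgroup.centralizer ({z'} : Set G)) R
          (T.subtype hTle)
        refine ⟨c, c.2, ?_⟩
        have h3 : c * ⟨z, hzC⟩ * c⁻¹ ∈ (T.subtype hTle) := by
          rw [← hc]
          change _ ∈ (((c • R : Sylow 2 (Subgroup.centralizer ({z'} : Set G)))) :
            Subgroup (Subgroup.centralizer ({z'} : Set G)))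
          rw [Sylow.coe_subgroup_smul]
          exact Subgroup.smul_mem_pointwise_smul _ (MulAut.conj c) _
            (hR (Subgroup.mem_zpowers _))
        exact h3
      have hcz' : c * z' = z' * c := Subgroup.mem_centralizer_singleton_iff.1 hcC
      have hb1 : c * z * c⁻¹ ≠ 1 := by
        intro h
        apply hz1
        have := congrArg (fun t => c⁻¹ * t * c) h
        simpa [mul_assoc] using this
      have hb2 : (c * z * c⁻¹) * (c * z * c⁻¹) = 1 := by
        calc c * z * c⁻¹ * (c * z * c⁻¹) = c * (z * z) * c⁻¹ := by group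
          _ = 1 := by rw [hz]; group
      have hbne : z' ≠ c * z * c⁻¹ := by
        intro h
        apply hg2
        have h5 : c * z = c * z' := by
          calc c * z = (c * z * c⁻¹) * c := by group
            _ = z' * c := by rw [← h]
            _ = c * z' := hcz'.symm
        exact (mul_left_cancel h5).symm
      have hbc : z' * (c * z * c⁻¹) = (c * z * c⁻¹) * z' := (hTcen _ hcT).symm
      have hTcard : 4 < Nat.card T := by
        have : Nat.card T = Nat.card S := by
          rw [T.card_eq_multiplicity, S.card_eq_multiplicity]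
        omega
      obtain ⟨g'', -, hg''⟩ := sylow_swap T hb1 hbne hbc
        (hC z' _ hz'1 hz'2 hb1 hb2 hbne hbc) hTcen hz'T hcT hTcard
      have h6 : f (z' * z) = f z := by
        have h7 : z' * (c * z * c⁻¹) = c * (z' * z) * c⁻¹ := by
          calc z' * (c * z * c⁻¹) = (z' * c) * z * c⁻¹ := by group
            _ = (c * z') * z * c⁻¹ := by rw [hcz']
            _ = c * (z' * z) * c⁻¹ := by group
        have h8 : f (z' * (c * z * c⁻¹)) = f z := by
          rw [← hg'', hfc, hfc]
        rw [h7, hfc] at h8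
        exact h8
      have h9 := hof z' z hz'1 hz'2 hz1 hz hg2 hz'z
      have h10 := hof z s hz1 hz hs1 hs hzs hzscom
      rw [hfz', h6] at h9
      rw [h1] at h10
      have h11 : f s * f s = f z * f z := by
        have := hfpos z
        exact Nat.eq_of_mul_eq_mul_left this (h10.symm.trans h9)
      have h12 : f s = f z := Nat.mul_self_inj.1 h11
      exact ⟨h12, h1.trans h12⟩
    -- a central involution
    obtain ⟨z, hz1, hz, hzS, hzc⟩ : ∃ z : G, z ≠ 1 ∧ z * z = 1 ∧ z ∈ S ∧ ∀ x ∈ S, x * z = z * x := by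
      have : Nontrivial (S : Subgroup G) := by
        rw [← Finite.one_lt_card_iff_nontrivial]
        omega
      have hnt := S.isPGroup'.center_nontrivial
      have hdvd : 2 ∣ Nat.card (Subgroup.center (S : Subgroup G)) := by
        obtain ⟨n, hn⟩ := (S.isPGroup'.to_subgroup (Subgroup.center (S : Subgroup G))).exists_card_eq
        rw [hn]
        rcases n with _ | n
        · exfalso
          rw [pow_zero] at hn
          exact absurd hn (ne_of_gt Finite.one_lt_card)
        · exact dvd_pow_self _ (Nat.succ_ne_zero n)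
      obtain ⟨z, hz⟩ := exists_prime_orderOf_dvd_card' 2 hdvd
      refine ⟨((z : (S : Subgroup G)) : G), ?_, ?_, (z : (S : Subgroup G)).2, ?_⟩
      · intro h
        have : z = 1 := by ext; simpa using h
        rw [this, orderOf_one] at hz
        omega
      · have h2 : z ^ 2 = 1 := orderOf_dvd_iff_pow_eq_one.1 (by rw [hz])
        have h3 := congrArg (fun t : Subgroup.center (S : Subgroup G) =>
          ((t : (S : Subgroup G)) : G)) h2
        simpa [pow_two] using h3
      · intro x hx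
        have := Subgroup.mem_center_iff.1 z.2 ⟨x, hx⟩
        exact congrArg Subtype.val this
    have hzV : z ∈ V := (hVm z).2 ⟨(hzc u (hVS huV)).symm, (hzc v (hVS hvV)).symm⟩
    rcases hVel z hzV with h | h | h | h
    · exact absurd h hz1
    · subst h
      have := claim z v hz1 hz hv1 hv huv hzS (hVS hvV) hzc
      exact ⟨this.1.symm, this.2.symm⟩
    · subst h
      have := claim z u hz1 hz hu1 hu (Ne.symm huv) hzS (hVS huV) hzc
      rw [hcomm]
      exact ⟨this.1, this.1.trans this.2.symm⟩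
    · have h5 : z ≠ u := by
        rw [h]
        intro h6
        apply hv1
        exact mul_eq_left.1 h6
      have h6 := claim z u hz1 hz hu1 hu h5 hzS (hVS huV) hzc
      have h7 : z * u = v := by
        rw [h, hcomm, mul_assoc, hu, mul_one]
      rw [h7] at h6
      rw [← h]
      exact ⟨h6.1.trans h6.2.symm, h6.1⟩
  · -- S = V
    have hSV : ∀ x ∈ S, x = 1 ∨ x = u ∨ x = v ∨ x = u * v := by
      have hVc : 4 ≤ Nat.card V := by
        have h1 : (({1, u, v, u * v} : Finset G) : Set G) ⊆ (V : Set G) := by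
          intro g hg
          simp only [Finset.coe_insert, Finset.coe_singleton, Set.mem_insert_iff,
            Set.mem_singleton_iff] at hg
          rcases hg with h | h | h | h <;> rw [h]
          · exact one_mem _
          · exact huV
          · exact hvV
          · exact mul_mem huV hvV
        have h2 : ({1, u, v, u * v} : Finset G).card = 4 := by
          have e1 : u ≠ u * v := fun h => hv1 (mul_eq_left.1 h.symm)
          have e2 : v ≠ u * v := fun h => hu1 (mul_eq_right.1 h.symm)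
          rw [Finset.card_insert_of_notMem, Finset.card_insert_of_notMem,
            Finset.card_insert_of_notMem, Finset.card_singleton]
          · simpa using e2
          · simp only [Finset.mem_insert, Finset.mem_singleton, not_or]
            exact ⟨huv, e1⟩
          · simp only [Finset.mem_insert, Finset.mem_singleton, not_or]
            exact ⟨hu1.symm, hv1.symm, huv1.symm⟩
        calc 4 = ({1, u, v, u * v} : Finset G).card := h2.symm
          _ = (({1, u, v, u * v} : Finset G) : Set G).ncard := (Set.ncard_coe_finset _).symm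
          _ ≤ (V : Set G).ncard := Set.ncard_le_ncard h1 (Set.toFinite _)
          _ = Nat.card V := rfl
      have h3 : V = (S : Subgroup G) := by
        apply Subgroup.eq_of_le_of_card_ge hVS
        exact (not_lt.1 h4).trans hVc
      intro x hx
      exact hVel x (by rw [h3]; exact hx)
    have key : ∀ w : G, w ≠ 1 → w * w = 1 → ∃ w', (w' = u ∨ w' = v ∨ w' = u * v) ∧ w' ≠ w ∧
        f w' = f w := by
      intro w hw1 hw
      obtain ⟨g, hg1, hg2⟩ := exists_conj_ne S hw1 hw (hN w hw1 hw) hG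
      refine ⟨g * w * g⁻¹, ?_, hg2, hfc g w⟩
      rcases hSV _ hg1 with h | h | h | h
      · exfalso
        apply hw1
        have := congrArg (fun t => g⁻¹ * t * g) h
        simpa [mul_assoc] using this
      · exact Or.inl h
      · exact Or.inr (Or.inl h)
      · exact Or.inr (Or.inr h)
    obtain ⟨a, ha, ha', ha''⟩ := key u hu1 hu
    obtain ⟨b, hb, hb', hb''⟩ := key v hv1 hv
    obtain ⟨c, hc, hc', hc''⟩ := key (u * v) huv1 huv2
    rcases ha with rfl | rfl | rfl
    · exact absurd rfl ha'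
    · rcases hc with rfl | rfl | rfl
      · exact ⟨ha''.symm, hc''⟩
      · exact ⟨ha''.symm, ha''.symm.trans hc''⟩
      · exact absurd rfl hc'
    · rcases hb with rfl | rfl | rfl
      · exact ⟨hb'', ha''.symm⟩
      · exact absurd rfl hb'
      · exact ⟨ha''.symm.trans hb'', ha''.symm⟩

end Cfsg.Agent.H10
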