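import Mathlib
import Cfsg.Agent.P3.AffDef

set_option autoImplicit false
set_option linter.unusedSectionVars false

open scoped Pointwise
open MulAction

namespace Cfsg.Agent.H10.Aff3

open Cfsg.Agent.P3

variable {G Ω : Type*} [Group G] [MulAction G Ω] {q : ℕ} {ln : Ω → Ω → Set Ω}
  {Pl : Set (Set Ω)} {A B : Set Ω → Subgroup G}

/-- being a line -/
def IsLn (ln : Ω → Ω → Set Ω) (m : Set Ω) : Prop := ∃ a b, a ≠ b ∧ m = ln a b

theorem mk_ln {a b : Ω} (hab : a ≠ b) : IsLn ln (ln a b) := ⟨a, b, hab, rfl⟩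

theorem ln_eq (h : AffS q ln Pl A B) {m : Set Ω} (hm : IsLn ln m) {a b : Ω} (ha : a ∈ m)
    (hb : b ∈ m) (hab : a ≠ b) : ln a b = m := by
  obtain ⟨c, d, hcd, rfl⟩ := hm
  exact h.line_eq c d a b hcd ha hb hab

theorem ln_unique (h : AffS q ln Pl A B) {m m' : Set Ω} (hm : IsLn ln m) (hm' : IsLn ln m')
    {a b : Ω} (hab : a ≠ b) (ha : a ∈ m) (hb : b ∈ m) (ha' : a ∈ m') (hb' : b ∈ m') : m = m' := by
  rw [← ln_eq h hm ha hb hab, ln_eq h hm' ha' hb' hab]

theorem ln_ncard (h : AffS q ln Pl A B) {m : Set Ω} (hm : IsLn ln m) : m.ncard = q := by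
  obtain ⟨c, d, hcd, rfl⟩ := hm
  exact h.line_card c d hcd

theorem ln_other (h : AffS q ln Pl A B) {m : Set Ω} (hm : IsLn ln m) (x : Ω) :
    ∃ y ∈ m, y ≠ x := by
  by_contra hno
  push Not at hno
  have h1 : m ⊆ {x} := hno
  have h2 := Set.ncard_le_ncard h1 (Set.finite_singleton x)
  rw [Set.ncard_singleton, ln_ncard h hm] at h2
  have := h.pos
  omega

theorem is_smul (h : AffS q ln Pl A B) {m : Set Ω} (hm : IsLn ln m) (g : G) :
    IsLn ln (g • m) := by
  obtain ⟨a, b, hab, rfl⟩ := hm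
  exact ⟨g • a, g • b, fun he => hab (smul_left_cancel g he), (h.line_smul g a b hab).symm⟩

theorem plane_sub (h : AffS q ln Pl A B) {Q m : Set Ω} (hQ : Q ∈ Pl) (hm : IsLn ln m) {a b : Ω}
    (ha : a ∈ m) (hb : b ∈ m) (haQ : a ∈ Q) (hbQ : b ∈ Q) (hab : a ≠ b) : m ⊆ Q := by
  rw [← ln_eq h hm ha hb hab]
  exact h.plane_line Q hQ a haQ b hbQ hab

theorem plane_of (h : AffS q ln Pl A B) {m : Set Ω} (hm : IsLn ln m) {x : Ω} (hx : x ∉ m) :
    ∃ Q ∈ Pl, m ⊆ Q ∧ x ∈ Q := by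
  obtain ⟨a, b, hab, rfl⟩ := hm
  obtain ⟨Q, ⟨hQ, ha, hb, hx⟩, -⟩ := h.plane_ex a b x hab hx
  exact ⟨Q, hQ, h.plane_line Q hQ a ha b hb hab, hx⟩

theorem plane_unique (h : AffS q ln Pl A B) {m : Set Ω} (hm : IsLn ln m) {x : Ω} (hx : x ∉ m)
    {Q Q' : Set Ω} (hQ : Q ∈ Pl) (hQ' : Q' ∈ Pl) (hmQ : m ⊆ Q) (hmQ' : m ⊆ Q') (hxQ : x ∈ Q)
    (hxQ' : x ∈ Q') : Q = Q' := by
  obtain ⟨a, b, hab, rfl⟩ := hm
  exact (h.plane_ex a b x hab hx).unique
    ⟨hQ, hmQ (h.mem_left a b hab), hmQ (h.mem_right a b hab), hxQ⟩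
    ⟨hQ', hmQ' (h.mem_left a b hab), hmQ' (h.mem_right a b hab), hxQ'⟩

theorem two_lines (h : AffS q ln Pl A B) {k k' : Set Ω} (hk : IsLn ln k) (hk' : IsLn ln k')
    (hne : k ≠ k') {x : Ω} (hx : x ∈ k) (hx' : x ∈ k') : ∃ Q ∈ Pl, k ⊆ Q ∧ k' ⊆ Q := by
  obtain ⟨y, hy, hyx⟩ := ln_other h hk' x
  have hyk : y ∉ k := fun hyk => hne (ln_unique h hk hk' hyx hyk hx hy hx')
  obtain ⟨Q, hQ, hkQ, hyQ⟩ := plane_of h hk hyk
  exact ⟨Q, hQ, hkQ, plane_sub h hQ hk' hy hx' hyQ (hkQ hx) hyx⟩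

section fin
variable [Finite Ω]

/-- affine planes: the parallel to `l` through `x` -/
theorem ex_par (h : AffS q ln Pl A B) {Q l : Set Ω} (hQ : Q ∈ Pl) (hl : IsLn ln l) (hlQ : l ⊆ Q)
    {x : Ω} (hxQ : x ∈ Q) (hxl : x ∉ l) :
    ∃! m, IsLn ln m ∧ x ∈ m ∧ m ⊆ Q ∧ Disjoint m l := by
  classical
  have : Fintype Ω := Fintype.ofFinite Ω
  have hq := h.pos
  let s : Finset Ω := (Q \ {x}).toFinset
  let f : Ω → Set Ω := fun y => ln x y
  have hs : s.card = q ^ 2 - 1 := by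
    rw [← Set.ncard_eq_toFinset_card', Set.ncard_sdiff_singleton_of_mem hxQ, h.plane_card Q hQ]
  have hfib : ∀ b ∈ s.image f, (s.filter (fun y => f y = b)).card = q - 1 := by
    intro b hb
    obtain ⟨y, hy, rfl⟩ := Finset.mem_image.1 hb
    have hy' : y ∈ Q ∧ y ≠ x := by simpa [s] using hy
    have h1 : s.filter (fun z => f z = f y) = (ln x y \ {x}).toFinset := by
      ext z
      simp only [Finset.mem_filter, Set.mem_toFinset, s, Set.mem_sdiff, Set.mem_singleton_iff, f]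
      constructor
      · rintro ⟨⟨hz, hzx⟩, he⟩
        exact ⟨he ▸ h.mem_right x z (Ne.symm hzx), hzx⟩
      · rintro ⟨hz, hzx⟩
        exact ⟨⟨h.plane_line Q hQ x hxQ y hy'.1 (Ne.symm hy'.2) hz, hzx⟩,
          h.line_eq x y x z (Ne.symm hy'.2) (h.mem_left x y (Ne.symm hy'.2)) hz (Ne.symm hzx)⟩
    rw [h1, ← Set.ncard_eq_toFinset_card',
      Set.ncard_sdiff_singleton_of_mem (h.mem_left x y (Ne.symm hy'.2)),
      h.line_card x y (Ne.symm hy'.2)]
  have hcard : (s.image f).card = q + 1 := by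
    have h1 := Finset.card_eq_sum_card_image f s
    rw [Finset.sum_congr rfl hfib, Finset.sum_const, hs, smul_eq_mul] at h1
    obtain ⟨k, rfl⟩ : ∃ k, q = k + 1 := ⟨q - 1, by omega⟩
    have h2 : (k + 1) ^ 2 - 1 = (k + 2) * k := by
      have : (k + 1) ^ 2 = (k + 2) * k + 1 := by ring
      omega
    rw [h2, Nat.add_sub_cancel] at h1
    have hk : 0 < k := by omega
    exact (Nat.eq_of_mul_eq_mul_right hk h1).symm
  have hls : l.toFinset.image f ⊆ s.image f := by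
    apply Finset.image_subset_image
    intro y hy
    have hy' : y ∈ l := by simpa using hy
    have : y ≠ x := fun e => hxl (e ▸ hy')
    simp [s, this, hlQ hy']
  have hlc : (l.toFinset.image f).card = q := by
    rw [Finset.card_image_of_injOn, ← Set.ncard_eq_toFinset_card', ln_ncard h hl]
    intro y hy z hz he
    have hy' : y ∈ l := by simpa using hy
    have hz' : z ∈ l := by simpa using hz
    by_contra hyz
    have hxy : x ≠ y := fun e => hxl (e ▸ hy')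
    have hxz : x ≠ z := fun e => hxl (e ▸ hz')
    have he' : ln x y = ln x z := he
    have h1 : l = ln x y := ln_unique h hl (mk_ln hxy) hyz hy' hz' (h.mem_right x y hxy)
      (he' ▸ h.mem_right x z hxz)
    exact hxl (h1 ▸ h.mem_left x y hxy)
  have h1 : (s.image f \ l.toFinset.image f).card = 1 := by
    rw [Finset.card_sdiff_of_subset hls, hcard, hlc]
    omega
  have hkey : ∀ m, m ∈ s.image f \ l.toFinset.image f ↔
      (IsLn ln m ∧ x ∈ m ∧ m ⊆ Q ∧ Disjoint m l) := by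
    intro m
    rw [Finset.mem_sdiff]
    constructor
    · rintro ⟨hm, hml⟩
      obtain ⟨y, hy, rfl⟩ := Finset.mem_image.1 hm
      have hy' : y ∈ Q ∧ y ≠ x := by simpa [s] using hy
      have hxy : x ≠ y := Ne.symm hy'.2
      refine ⟨mk_ln hxy, h.mem_left x y hxy, h.plane_line Q hQ x hxQ y hy'.1 hxy, ?_⟩
      rw [Set.disjoint_left]
      intro p hp hpl
      apply hml
      have hxp : x ≠ p := fun e => hxl (e ▸ hpl)
      refine Finset.mem_image.2 ⟨p, by simpa using hpl, ?_⟩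
      exact h.line_eq x y x p hxy (h.mem_left x y hxy) hp hxp
    · rintro ⟨hm, hxm, hmQ, hd⟩
      obtain ⟨y, hy, hyx⟩ := ln_other h hm x
      have hme : f y = m := ln_eq h hm hxm hy (Ne.symm hyx)
      refine ⟨Finset.mem_image.2 ⟨y, by simp [s, hyx, hmQ hy], hme⟩, ?_⟩
      intro hml
      obtain ⟨p, hp, hpe⟩ := Finset.mem_image.1 hml
      have hp' : p ∈ l := by simpa using hp
      have hxp : x ≠ p := fun e => hxl (e ▸ hp')
      have : p ∈ m := by rw [← hpe]; exact h.mem_right x p hxp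
      exact Set.disjoint_left.1 hd this hp'
  obtain ⟨m, hm⟩ := Finset.card_eq_one.1 h1
  refine ⟨m, (hkey m).1 (by rw [hm]; exact Finset.mem_singleton_self m), ?_⟩
  intro m' hm'
  have := (hkey m').2 hm'
  rw [hm] at this
  exact Finset.mem_singleton.1 this

end fin

/-- parallelism -/
def Pr (Pl : Set (Set Ω)) (m l : Set Ω) : Prop := m = l ∨ (Disjoint m l ∧ ∃ Q ∈ Pl, l ⊆ Q ∧ m ⊆ Q)

open Classical in
/-- the parallel to `l` through `x` -/
noncomputable def par (ln : Ω → Ω → Set Ω) (Pl : Set (Set Ω)) (x : Ω) (l : Set Ω) : Set Ω :=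
  if hx : ∃ m, IsLn ln m ∧ x ∈ m ∧ Pr Pl m l then hx.choose else l

section fin
variable [Finite Ω]

theorem ex_pr (h : AffS q ln Pl A B) {l : Set Ω} (hl : IsLn ln l) (x : Ω) :
    ∃! m, IsLn ln m ∧ x ∈ m ∧ Pr Pl m l := by
  by_cases hx : x ∈ l
  · refine ⟨l, ⟨hl, hx, Or.inl rfl⟩, ?_⟩
    rintro m ⟨hm, hxm, rfl | ⟨hd, -⟩⟩
    · rfl
    · exact absurd hx (Set.disjoint_left.1 hd hxm)
  · obtain ⟨Q, hQ, hlQ, hxQ⟩ := plane_of h hl hx
    obtain ⟨m, ⟨hm, hxm, hmQ, hd⟩, hu⟩ := ex_par h hQ hl hlQ hxQ hx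
    refine ⟨m, ⟨hm, hxm, Or.inr ⟨hd, Q, hQ, hlQ, hmQ⟩⟩, ?_⟩
    rintro m' ⟨hm', hxm', rfl | ⟨hd', Q', hQ', hlQ', hmQ'⟩⟩
    · exact absurd hxm' hx
    · have hQQ : Q' = Q := plane_unique h hl hx hQ' hQ hlQ' hlQ (hmQ' hxm') hxQ
      subst hQQ
      exact hu m' ⟨hm', hxm', hmQ', hd'⟩

theorem par_spec (h : AffS q ln Pl A B) {l : Set Ω} (hl : IsLn ln l) (x : Ω) :
    IsLn ln (par ln Pl x l) ∧ x ∈ par ln Pl x l ∧ Pr Pl (par ln Pl x l) l := by
  unfold par
  have := (ex_pr h hl x).exists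
  rw [dif_pos this]
  exact this.choose_spec

theorem par_eq (h : AffS q ln Pl A B) {l m : Set Ω} (hl : IsLn ln l) (hm : IsLn ln m) {x : Ω}
    (hx : x ∈ m) (hp : Pr Pl m l) : par ln Pl x l = m :=
  (ex_pr h hl x).unique (par_spec h hl x) ⟨hm, hx, hp⟩

theorem par_ln (h : AffS q ln Pl A B) {l : Set Ω} (hl : IsLn ln l) (x : Ω) :
    IsLn ln (par ln Pl x l) := (par_spec h hl x).1

theorem par_mem (h : AffS q ln Pl A B) {l : Set Ω} (hl : IsLn ln l) (x : Ω) :
    x ∈ par ln Pl x l := (par_spec h hl x).2.1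

theorem par_pr (h : AffS q ln Pl A B) {l : Set Ω} (hl : IsLn ln l) (x : Ω) :
    Pr Pl (par ln Pl x l) l := (par_spec h hl x).2.2

theorem par_self (h : AffS q ln Pl A B) {l : Set Ω} (hl : IsLn ln l) {x : Ω} (hx : x ∈ l) :
    par ln Pl x l = l := par_eq h hl hl hx (Or.inl rfl)

theorem par_plane (h : AffS q ln Pl A B) {l Q : Set Ω} (hl : IsLn ln l) {x : Ω} (hQ : Q ∈ Pl)
    (hlQ : l ⊆ Q) (hx : x ∈ Q) : par ln Pl x l ⊆ Q := by
  by_cases hxl : x ∈ l
  · rw [par_self h hl hxl]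
    exact hlQ
  · rcases par_pr h hl x with h1 | ⟨h1, Q', hQ', hlQ', hmQ'⟩
    · exact absurd (h1 ▸ par_mem h hl x) hxl
    · have : Q' = Q := plane_unique h hl hxl hQ' hQ hlQ' hlQ (hmQ' (par_mem h hl x)) hx
      exact this ▸ hmQ'

theorem par_disj (h : AffS q ln Pl A B) {l : Set Ω} (hl : IsLn ln l) {x : Ω} (hx : x ∉ l) :
    Disjoint (par ln Pl x l) l := by
  rcases par_pr h hl x with h1 | ⟨h1, -⟩
  · exact absurd (h1 ▸ par_mem h hl x) hx
  · exact h1

theorem Pr.symm' {m l : Set Ω} (hp : Pr Pl m l) : Pr Pl l m := by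
  rcases hp with rfl | ⟨hd, Q, hQ, hlQ, hmQ⟩
  · exact Or.inl rfl
  · exact Or.inr ⟨hd.symm, Q, hQ, hmQ, hlQ⟩

theorem pr_smul (h : AffS q ln Pl A B) {m l : Set Ω} (hp : Pr Pl m l) (g : G) :
    Pr Pl (g • m) (g • l) := by
  rcases hp with rfl | ⟨hd, Q, hQ, hlQ, hmQ⟩
  · exact Or.inl rfl
  · refine Or.inr ⟨?_, g • Q, h.plane_smul g Q hQ, ?_, ?_⟩
    · exact (Set.disjoint_smul_set).2 hd
    · exact Set.smul_set_mono hlQ
    · exact Set.smul_set_mono hmQ

theorem par_smul (h : AffS q ln Pl A B) {l : Set Ω} (hl : IsLn ln l) (x : Ω) (g : G) :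
    g • par ln Pl x l = par ln Pl (g • x) (g • l) :=
  (par_eq h (is_smul h hl g) (is_smul h (par_ln h hl x) g)
    (Set.smul_mem_smul_set (par_mem h hl x)) (pr_smul h (par_pr h hl x) g)).symm

/-- the action of `A l ∩ B Q` outside of `Q` -/
theorem act_par (h : AffS q ln Pl A B) {l Q : Set Ω} (hl : IsLn ln l) (hQ : Q ∈ Pl) (hlQ : l ⊆ Q)
    {x : Ω} (hx : x ∉ Q) {z : G} (hz : z ∈ A l) (hzB : z ∈ B Q) : z • x ∈ par ln Pl x l := by
  classical
  have : Fintype Ω := Fintype.ofFinite Ω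
  by_cases hz1 : z = 1
  · rw [hz1, one_smul]
    exact par_mem h hl x
  have hzx : x ≠ z • x := fun e => hx ((h.fixB Q hQ z hzB hz1 x).1 e.symm)
  have hzz : z • z • x = x := by rw [smul_smul, h.sqB Q hQ z hzB, one_smul]
  have hm : IsLn ln (ln x (z • x)) := mk_ln hzx
  have hinv : z • ln x (z • x) = ln x (z • x) := by
    rw [← h.line_smul z x (z • x) hzx, hzz]
    exact ln_eq h hm (h.mem_right _ _ hzx) (h.mem_left _ _ hzx) (Ne.symm hzx)
  have hdQ : Disjoint (ln x (z • x)) Q := by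
    rw [Set.disjoint_left]
    intro p hp hpQ
    set m := ln x (z • x) with hmdef
    have hzp : z • p = p := (h.fixB Q hQ z hzB hz1 p).2 hpQ
    have hfix : ∀ y ∈ m, y ≠ p → z • y ≠ y := by
      intro y hy hyp he
      have hyQ := (h.fixB Q hQ z hzB hz1 y).1 he
      exact hx (plane_sub h hQ hm hy hp hyQ hpQ hyp (h.mem_left _ _ hzx))
    have hsum : ∑ y ∈ (m \ {p}).toFinset, (1 : ZMod 2) = 0 := by
      refine Finset.sum_involution (fun y _ => z • y) (fun y _ => by decide) ?_ ?_ ?_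
      · intro y hy _
        have hy' : y ∈ m ∧ y ≠ p := by simpa using hy
        exact hfix y hy'.1 hy'.2
      · intro y hy
        have hy' : y ∈ m ∧ y ≠ p := by simpa using hy
        have h1 : z • y ∈ m := by
          rw [← hinv]
          exact Set.smul_mem_smul_set hy'.1
        have h2 : z • y ≠ p := by
          intro e
          rw [← hzp] at e
          exact hy'.2 (smul_left_cancel z e)
        simp [h1, h2]
      · intro y hy
        rw [smul_smul, h.sqB Q hQ z hzB, one_smul]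
    rw [Finset.sum_const, ← Set.ncard_eq_toFinset_card', Set.ncard_sdiff_singleton_of_mem hp,
      ln_ncard h hm, nsmul_eq_mul, mul_one, ZMod.natCast_eq_zero_iff] at hsum
    have := h.pos
    have h2 := h.even.two_dvd
    omega
  obtain ⟨P, hP, hlP, hxP⟩ := plane_of h hl (fun hxl => hx (hlQ hxl))
  have hzP : z • x ∈ P := by
    obtain ⟨a, b, hab, rfl⟩ := hl
    rw [← h.planeA a b hab P hP (hlP (h.mem_left a b hab)) (hlP (h.mem_right a b hab)) z hz]
    exact Set.smul_mem_smul_set hxP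
  rw [par_eq h hl hm (h.mem_left _ _ hzx) (Or.inr ⟨hdQ.mono_right hlQ, P, hP, hlP,
    h.plane_line P hP x hxP _ hzP hzx⟩)]
  exact h.mem_right _ _ hzx

theorem ln_nonempty (h : AffS q ln Pl A B) {l : Set Ω} (hl : IsLn ln l) : ∃ a b, a ≠ b ∧ l = ln a b ∧ a ∈ l ∧ b ∈ l := by
  obtain ⟨a, b, hab, rfl⟩ := hl
  exact ⟨a, b, hab, rfl, h.mem_left a b hab, h.mem_right a b hab⟩

theorem cardX' (h : AffS q ln Pl A B) {l Q : Set Ω} (hl : IsLn ln l) (hQ : Q ∈ Pl) (hlQ : l ⊆ Q) :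
    Nat.card ↥(A l ⊓ B Q) = q := by
  obtain ⟨a, b, hab, rfl⟩ := hl
  exact h.cardX Q hQ a (hlQ (h.mem_left a b hab)) b (hlQ (h.mem_right a b hab)) hab

theorem act_surj (h : AffS q ln Pl A B) {l Q : Set Ω} (hl : IsLn ln l) (hQ : Q ∈ Pl) (hlQ : l ⊆ Q)
    {x : Ω} (hx : x ∉ Q) {y : Ω} (hy : y ∈ par ln Pl x l) :
    ∃ z ∈ A l ⊓ B Q, z • x = y := by
  have hinj : Set.InjOn (fun z : G => z • x) ((A l ⊓ B Q : Subgroup G) : Set G) := by
    intro z hz w hw he
    have he' : z • x = w • x := he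
    by_contra hne
    have h1 : (w⁻¹ * z) • x = x := by rw [← smul_smul, he', inv_smul_smul]
    have h2 : w⁻¹ * z ∈ B Q := (B Q).mul_mem ((B Q).inv_mem hw.2) hz.2
    have h3 : w⁻¹ * z ≠ 1 := by
      intro e
      exact hne (inv_mul_eq_one.1 e).symm
    exact hx ((h.fixB Q hQ _ h2 h3 x).1 h1)
  have hsub : (fun z : G => z • x) '' ((A l ⊓ B Q : Subgroup G) : Set G) ⊆ par ln Pl x l := by
    rintro _ ⟨z, hz, rfl⟩
    exact act_par h hl hQ hlQ hx hz.1 hz.2
  have hc : ((fun z : G => z • x) '' ((A l ⊓ B Q : Subgroup G) : Set G)).ncard = q := by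
    rw [hinj.ncard_image, ← Nat.card_coe_set_eq]
    exact cardX' h hl hQ hlQ
  have heq := Set.eq_of_subset_of_ncard_le hsub (by rw [hc, ln_ncard h (par_ln h hl x)])
    (Set.toFinite _)
  rw [← heq] at hy
  obtain ⟨z, hz, hzy⟩ := hy
  exact ⟨z, hz, hzy⟩

theorem par_disjQ (h : AffS q ln Pl A B) {l Q : Set Ω} (hl : IsLn ln l) (hQ : Q ∈ Pl)
    (hlQ : l ⊆ Q) {x : Ω} (hx : x ∉ Q) : Disjoint (par ln Pl x l) Q := by
  rw [Set.disjoint_left]
  intro y hy hyQ
  obtain ⟨z, hz, hzy⟩ := act_surj h hl hQ hlQ hx hy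
  have h1 : z • y = y := by
    by_cases hz1 : z = 1
    · rw [hz1, one_smul]
    · exact (h.fixB Q hQ z hz.2 hz1 y).2 hyQ
  rw [← hzy] at h1
  have h2 := smul_left_cancel z h1
  rw [hzy] at h2
  exact hx (h2 ▸ hyQ)

theorem exists_ne (h : AffS q ln Pl A B) {l Q : Set Ω} (hl : IsLn ln l) (hQ : Q ∈ Pl)
    (hlQ : l ⊆ Q) : ∃ z ∈ A l ⊓ B Q, z ≠ 1 := by
  by_contra hno
  push Not at hno
  have h1 : A l ⊓ B Q = ⊥ := (Subgroup.eq_bot_iff_forall _).2 hno
  have h2 := cardX' h hl hQ hlQ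
  rw [h1, Subgroup.card_bot] at h2
  have := h.pos
  omega

theorem X_le (h : AffS q ln Pl A B) {l l' Q : Set Ω} (hl : IsLn ln l) (hl' : IsLn ln l')
    (hQ : Q ∈ Pl) (hlQ : l ⊆ Q) (hlQ' : l' ⊆ Q) (hd : Disjoint l l') {z : G} (hz : z ∈ A l)
    (hzB : z ∈ B Q) : z ∈ A l' := by
  obtain ⟨a', c', hac, -, ha', hc'⟩ := ln_nonempty h hl'
  obtain ⟨b, hb, hba, hzb⟩ := h.coverB Q hQ a' (hlQ' ha') z hzB
  have hal : a' ∉ l := fun hal => Set.disjoint_left.1 hd hal ha'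
  by_cases hdn : Disjoint (ln a' b) l
  · have h1 : ln a' b = l' := by
      refine (ex_par h hQ hl hlQ (hlQ' ha') hal).unique ⟨mk_ln (Ne.symm hba),
        h.mem_left _ _ (Ne.symm hba), h.plane_line Q hQ a' (hlQ' ha') b hb (Ne.symm hba), hdn⟩
        ⟨hl', ha', hlQ', hd.symm⟩
    rw [← h1]
    exact hzb
  · rw [Set.not_disjoint_iff] at hdn
    obtain ⟨p, hpn, hpl⟩ := hdn
    have hpa : p ≠ a' := fun e => hal (e ▸ hpl)
    obtain ⟨c, hc, hcp⟩ := ln_other h hl p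
    have h1 : ln p a' = ln a' b :=
      ln_eq h (mk_ln (Ne.symm hba)) hpn (h.mem_left _ _ (Ne.symm hba)) hpa
    have h2 : ln p c = l := ln_eq h hl hpl hc (Ne.symm hcp)
    have h3 : ln p a' ≠ ln p c := by
      intro e
      apply hal
      rw [← h2, ← e]
      exact h.mem_right _ _ hpa
    have h4 := h.disjA p a' c hpa (Ne.symm hcp) h3
    rw [h1, h2] at h4
    have h5 : z ∈ (⊥ : Subgroup G) := by
      rw [← h4]
      exact ⟨hzb, hz⟩
    rw [Subgroup.mem_bot] at h5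
    rw [h5]
    exact one_mem _

theorem par_out (h : AffS q ln Pl A B) {l l' Q : Set Ω} (hl : IsLn ln l) (hl' : IsLn ln l')
    (hQ : Q ∈ Pl) (hlQ : l ⊆ Q) (hlQ' : l' ⊆ Q) (hd : Disjoint l l') {x : Ω} (hx : x ∉ Q) :
    par ln Pl x l = par ln Pl x l' := by
  obtain ⟨z, hz, hz1⟩ := exists_ne h hl hQ hlQ
  have hzx : x ≠ z • x := fun e => hx ((h.fixB Q hQ z hz.2 hz1 x).1 e.symm)
  exact ln_unique h (par_ln h hl x) (par_ln h hl' x) hzx (par_mem h hl x)
    (act_par h hl hQ hlQ hx hz.1 hz.2) (par_mem h hl' x)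
    (act_par h hl' hQ hlQ' hx (X_le h hl hl' hQ hlQ hlQ' hd hz.1 hz.2) hz.2)

/-- transitivity of parallelism -/
theorem par_par (h : AffS q ln Pl A B) {l : Set Ω} (hl : IsLn ln l) (x y : Ω) :
    par ln Pl y (par ln Pl x l) = par ln Pl y l := by
  have hm := par_ln h hl x
  have hpr := par_pr h hl x
  set m := par ln Pl x l with hmdef
  by_cases hym : y ∈ m
  · rw [par_self h hm hym, par_eq h hl hm hym hpr]
  by_cases hyl : y ∈ l
  · rw [par_self h hl hyl]
    exact par_eq h hm hl hyl hpr.symm'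
  rcases hpr with h1 | ⟨hd, Q, hQ, hlQ, hmQ⟩
  · rw [h1]
  by_cases hyQ : y ∈ Q
  · have hn := par_ln h hl y
    refine par_eq h hm hn (par_mem h hl y) (Or.inr ⟨?_, Q, hQ, hmQ, par_plane h hl hQ hlQ hyQ⟩)
    rw [Set.disjoint_left]
    intro p hp hpm
    have h2 : par ln Pl p l = m := par_eq h hl hm hpm (Or.inr ⟨hd, Q, hQ, hlQ, hmQ⟩)
    have h3 : par ln Pl p l = par ln Pl y l := par_eq h hl hn hp (par_pr h hl y)
    exact hym (by rw [← h2, h3]; exact par_mem h hl y)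
  · exact (par_out h hl hm hQ hlQ hmQ hd.symm hyQ).symm

theorem par_of_mem (h : AffS q ln Pl A B) {l : Set Ω} (hl : IsLn ln l) {x y : Ω}
    (hy : y ∈ par ln Pl x l) : par ln Pl y l = par ln Pl x l := by
  rw [← par_par h hl x y, par_self h (par_ln h hl x) hy]


/-! ### points off lines and planes -/

theorem off_ln (h : AffS q ln Pl A B) {l : Set Ω} (hl : IsLn ln l) : ∃ c, c ∉ l := by
  by_contra hno
  push Not at hno
  have h1 : l = Set.univ := Set.eq_univ_of_forall hno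
  have h2 := ln_ncard h hl
  rw [h1, Set.ncard_univ, h.card] at h2
  have := h.pos
  nlinarith [Nat.pow_lt_pow_right (show 1 < q by omega) (show 1 < 3 by norm_num)]

theorem off_plane (h : AffS q ln Pl A B) {Q : Set Ω} (hQ : Q ∈ Pl) : ∃ c, c ∉ Q := by
  by_contra hno
  push Not at hno
  have h1 : Q = Set.univ := Set.eq_univ_of_forall hno
  have h2 := h.plane_card Q hQ
  rw [h1, Set.ncard_univ, h.card] at h2
  have := h.pos
  have h3 := Nat.pow_lt_pow_right (show 1 < q by omega) (show 2 < 3 by norm_num)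
  omega

theorem off_in (h : AffS q ln Pl A B) {Q l : Set Ω} (hQ : Q ∈ Pl) (hl : IsLn ln l) :
    ∃ c ∈ Q, c ∉ l := by
  have := h.pos
  have h3 := Nat.pow_lt_pow_right (show 1 < q by omega) (show 1 < 2 by norm_num)
  rw [pow_one] at h3
  exact Set.exists_mem_notMem_of_ncard_lt_ncard (by rw [ln_ncard h hl, h.plane_card Q hQ]; exact h3)
    (Set.toFinite _)

theorem plane_ne (h : AffS q ln Pl A B) {Q : Set Ω} (hQ : Q ∈ Pl) (a : Ω) : ∃ b ∈ Q, b ≠ a := by
  by_contra hno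
  push Not at hno
  have h1 : Q ⊆ {a} := hno
  have h2 := Set.ncard_le_ncard h1 (Set.finite_singleton a)
  rw [Set.ncard_singleton, h.plane_card Q hQ] at h2
  have := h.pos
  nlinarith

/-- a plane through `x` missing `Q` -/
theorem ex_plane (h : AffS q ln Pl A B) {Q : Set Ω} (hQ : Q ∈ Pl) {x : Ω} (hx : x ∉ Q) :
    ∃ Q' ∈ Pl, x ∈ Q' ∧ Disjoint Q' Q := by
  obtain ⟨a, haQ, hax⟩ := plane_ne h hQ x
  obtain ⟨b, hbQ, hba⟩ := plane_ne h hQ a
  have hl1 : IsLn ln (ln a b) := mk_ln (Ne.symm hba)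
  obtain ⟨c, hcQ, hcl⟩ := off_in h hQ hl1
  have hac : a ≠ c := fun e => hcl (e ▸ h.mem_left a b (Ne.symm hba))
  have hl2 : IsLn ln (ln a c) := mk_ln hac
  have h1Q : ln a b ⊆ Q := h.plane_line Q hQ a haQ b hbQ (Ne.symm hba)
  have h2Q : ln a c ⊆ Q := h.plane_line Q hQ a haQ c hcQ hac
  have hne : par ln Pl x (ln a b) ≠ par ln Pl x (ln a c) := by
    intro e
    have h1 : par ln Pl a (par ln Pl x (ln a b)) = ln a b := by
      rw [par_par h hl1, par_self h hl1 (h.mem_left _ _ (Ne.symm hba))]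
    have h2 : par ln Pl a (par ln Pl x (ln a c)) = ln a c := by
      rw [par_par h hl2, par_self h hl2 (h.mem_left _ _ hac)]
    rw [e, h2] at h1
    exact hcl (h1 ▸ h.mem_right _ _ hac)
  obtain ⟨Q', hQ', hk1, hk2⟩ := two_lines h (par_ln h hl1 x) (par_ln h hl2 x) hne
    (par_mem h hl1 x) (par_mem h hl2 x)
  have hxQ' : x ∈ Q' := hk1 (par_mem h hl1 x)
  refine ⟨Q', hQ', hxQ', ?_⟩
  rw [Set.disjoint_left]
  intro p hpQ' hpQ
  obtain ⟨b', hb'p, hb'Q', hb'Q⟩ := h.plane_meet Q' hQ' Q hQ p hpQ' hpQ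
  have hn : IsLn ln (ln p b') := mk_ln (Ne.symm hb'p)
  have hnQ : ln p b' ⊆ Q := h.plane_line Q hQ p hpQ b' hb'Q (Ne.symm hb'p)
  have hnQ' : ln p b' ⊆ Q' := h.plane_line Q' hQ' p hpQ' b' hb'Q' (Ne.symm hb'p)
  apply hne
  refine (ex_par h hQ' hn hnQ' hxQ' (fun hxn => hx (hnQ hxn))).unique
    ⟨par_ln h hl1 x, par_mem h hl1 x, hk1, (par_disjQ h hl1 hQ h1Q hx).mono_right hnQ⟩
    ⟨par_ln h hl2 x, par_mem h hl2 x, hk2, (par_disjQ h hl2 hQ h2Q hx).mono_right hnQ⟩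

/-- disjoint planes have the same directions -/
theorem par_in (h : AffS q ln Pl A B) {Q Q' : Set Ω} (hQ : Q ∈ Pl) (hd : Disjoint Q' Q)
    {k : Set Ω} (hk : IsLn ln k) (hkQ : k ⊆ Q') {a : Ω} (ha : a ∈ Q) : par ln Pl a k ⊆ Q := by
  have hak : a ∉ k := fun hak => Set.disjoint_left.1 hd (hkQ hak) ha
  obtain ⟨R, hR, hkR, haR⟩ := plane_of h hk hak
  obtain ⟨b, hba, hbR, hbQ⟩ := h.plane_meet R hR Q hQ a haR ha
  have hnQ : ln a b ⊆ Q := h.plane_line Q hQ a ha b hbQ (Ne.symm hba)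
  rw [par_eq h hk (mk_ln (Ne.symm hba)) (h.mem_left a b (Ne.symm hba)) (Or.inr
    ⟨(hd.mono hkQ hnQ).symm, R, hR, hkR, h.plane_line R hR a haR b hbR (Ne.symm hba)⟩)]
  exact hnQ

/-! ### dilations -/

/-- the group of dilations -/
def Dil (h : AffS q ln Pl A B) : Subgroup G where
  carrier := {g | ∀ m, IsLn ln m → ∀ x, par ln Pl x (g • m) = par ln Pl x m}
  one_mem' := by
    intro m _ x
    rw [one_smul]
  mul_mem' := by
    intro f g hf hg m hm x
    rw [mul_smul, hf (g • m) (is_smul h hm g) x, hg m hm x]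
  inv_mem' := by
    intro g hg m hm x
    rw [← hg (g⁻¹ • m) (is_smul h hm _) x, smul_inv_smul]

theorem dil_def (h : AffS q ln Pl A B) {g : G} :
    g ∈ Dil h ↔ ∀ m, IsLn ln m → ∀ x, par ln Pl x (g • m) = par ln Pl x m := Iff.rfl

theorem dil_conj (h : AffS q ln Pl A B) {g : G} (hg : g ∈ Dil h) (c : G) :
    c * g * c⁻¹ ∈ Dil h := by
  intro m hm x
  have h1 : ∀ k, IsLn ln k → par ln Pl x (c • k) = c • par ln Pl (c⁻¹ • x) k := by
    intro k hk
    rw [par_smul h hk, smul_inv_smul]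
  have hm' := is_smul h hm c⁻¹
  rw [mul_smul, mul_smul, h1 _ (is_smul h hm' g), (dil_def h).1 hg _ hm', ← h1 _ hm',
    smul_inv_smul]

theorem dil_fix_line (h : AffS q ln Pl A B) {g : G} (hg : g ∈ Dil h) {m : Set Ω}
    (hm : IsLn ln m) {x : Ω} (hx : x ∈ m) (hgx : g • x ∈ m) : g • m = m := by
  have h1 := (dil_def h).1 hg m hm (g • x)
  rw [par_self h (is_smul h hm g) (Set.smul_mem_smul_set hx), par_self h hm hgx] at h1
  exact h1

theorem dil_fix2 (h : AffS q ln Pl A B) [FaithfulSMul G Ω] {g : G} (hg : g ∈ Dil h) {a b : Ω}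
    (hab : a ≠ b) (ha : g • a = a) (hb : g • b = b) : g = 1 := by
  have step : ∀ c d x, c ≠ d → g • c = c → g • d = d → x ∉ ln c d → g • x = x := by
    intro c d x hcd hc hd hx
    have hxc : c ≠ x := fun e => hx (e ▸ h.mem_left c d hcd)
    have hxd : d ≠ x := fun e => hx (e ▸ h.mem_right c d hcd)
    have h1 : g • ln c x = ln c x := dil_fix_line h hg (mk_ln hxc) (h.mem_left _ _ hxc)
      (by rw [hc]; exact h.mem_left _ _ hxc)
    have h2 : g • ln d x = ln d x := dil_fix_line h hg (mk_ln hxd) (h.mem_left _ _ hxd)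
      (by rw [hd]; exact h.mem_left _ _ hxd)
    by_contra hne
    have h3 : ln c x = ln d x := by
      refine ln_unique h (mk_ln hxc) (mk_ln hxd) hne ?_ (h.mem_right _ _ hxc) ?_
        (h.mem_right _ _ hxd)
      · rw [← h1]; exact Set.smul_mem_smul_set (h.mem_right _ _ hxc)
      · rw [← h2]; exact Set.smul_mem_smul_set (h.mem_right _ _ hxd)
    have h4 : ln c d = ln c x := ln_eq h (mk_ln hxc) (h.mem_left _ _ hxc)
      (h3 ▸ h.mem_left _ _ hxd) hcd
    exact hx (h4 ▸ h.mem_right _ _ hxc)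
  obtain ⟨c, hc⟩ := off_ln h (mk_ln hab)
  have hgc := step a b c hab ha hb hc
  have hac : a ≠ c := fun e => hc (e ▸ h.mem_left a b hab)
  apply FaithfulSMul.eq_of_smul_eq_smul (α := Ω)
  intro x
  rw [one_smul]
  by_cases hx : x ∈ ln a b
  · by_cases hxa : x = a
    · rw [hxa, ha]
    · refine step a c x hac ha hgc ?_
      intro hxc
      have := ln_unique h (mk_ln hab) (mk_ln hac) (Ne.symm hxa) (h.mem_left _ _ hab) hx
        (h.mem_left _ _ hac) hxc
      exact hc (this ▸ h.mem_right _ _ hac)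
  · exact step a b x hab ha hb hx

/-- fixed point free dilations move all points in one direction -/
theorem trans_dir (h : AffS q ln Pl A B) {g : G} (hg : g ∈ Dil h) (hf : ∀ x : Ω, g • x ≠ x)
    {m : Set Ω} (hm : IsLn ln m) {x : Ω} (hx : x ∈ m) (hgx : g • x ∈ m) (z : Ω) :
    g • z ∈ par ln Pl z m := by
  have hgm := dil_fix_line h hg hm hx hgx
  by_cases hzm : z ∈ m
  · rw [par_self h hm hzm, ← hgm]
    exact Set.smul_mem_smul_set hzm
  have hz := Ne.symm (hf z)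
  have hn : IsLn ln (ln z (g • z)) := mk_ln hz
  have hgn := dil_fix_line h hg hn (h.mem_left _ _ hz) (h.mem_right _ _ hz)
  obtain ⟨P, hP, hmP, hzP⟩ := plane_of h hm hzm
  have hxz : x ≠ z := fun e => hzm (e ▸ hx)
  have hk : IsLn ln (ln x z) := mk_ln hxz
  have hkP : ln x z ⊆ P := h.plane_line P hP x (hmP hx) z hzP hxz
  have h1 : g • ln x z ⊆ P := by
    have h2 := (dil_def h).1 hg _ hk (g • x)
    rw [par_self h (is_smul h hk g) (Set.smul_mem_smul_set (h.mem_left _ _ hxz))] at h2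
    rw [h2]
    exact par_plane h hk hP hkP (hmP hgx)
  have hgz : g • z ∈ P := h1 (Set.smul_mem_smul_set (h.mem_right _ _ hxz))
  have hnP : ln z (g • z) ⊆ P := h.plane_line P hP z hzP _ hgz hz
  have hd : Disjoint (ln z (g • z)) m := by
    rw [Set.disjoint_left]
    intro p hpn hpm
    have h2 : g • p ∈ ln z (g • z) := by
      rw [← hgn]; exact Set.smul_mem_smul_set hpn
    have h3 : g • p ∈ m := by
      rw [← hgm]; exact Set.smul_mem_smul_set hpm
    have h4 := ln_unique h hn hm (hf p) h2 hpn h3 hpm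
    exact hzm (h4 ▸ h.mem_left _ _ hz)
  rw [par_eq h hm hn (h.mem_left _ _ hz) (Or.inr ⟨hd, P, hP, hmP, hnP⟩)]
  exact h.mem_right _ _ hz

/-- the group of translations -/
def Tr (h : AffS q ln Pl A B) [FaithfulSMul G Ω] : Subgroup G where
  carrier := {g | g ∈ Dil h ∧ ∀ x : Ω, g • x = x → g = 1}
  one_mem' := ⟨one_mem _, fun _ _ => rfl⟩
  inv_mem' := by
    rintro g ⟨hg, hf⟩
    refine ⟨inv_mem hg, fun x hx => ?_⟩
    rw [inv_eq_one]
    apply hf x
    rw [← hx, smul_inv_smul, hx]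
  mul_mem' := by
    rintro f g ⟨hf, hff⟩ ⟨hg, hgf⟩
    refine ⟨mul_mem hf hg, fun x hx => ?_⟩
    by_cases hf1 : f = 1
    · rw [hf1, one_mul] at hx ⊢
      exact hgf x hx
    by_cases hg1 : g = 1
    · rw [hg1, mul_one] at hx ⊢
      exact hff x hx
    have hf' : ∀ y : Ω, f • y ≠ y := fun y hy => hf1 (hff y hy)
    have hg' : ∀ y : Ω, g • y ≠ y := fun y hy => hg1 (hgf y hy)
    have hxy : x ≠ g • x := Ne.symm (hg' x)
    have hm : IsLn ln (ln x (g • x)) := mk_ln hxy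
    have h1 := trans_dir h hg hg' hm (h.mem_left _ _ hxy) (h.mem_right _ _ hxy)
    have h2 := trans_dir h hf hf' hm (h.mem_right _ _ hxy) (by
      rw [smul_smul, hx]; exact h.mem_left _ _ hxy)
    have h3 : ∀ z : Ω, (f * g) • z ∈ par ln Pl z (ln x (g • x)) := by
      intro z
      rw [mul_smul, ← par_of_mem h hm (h1 z)]
      exact h2 (g • z)
    obtain ⟨z, hz⟩ := off_ln h hm
    have hxz : x ≠ z := fun e => hz (e ▸ h.mem_left _ _ hxy)
    have hk : IsLn ln (ln x z) := mk_ln hxz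
    have hfk := dil_fix_line h (mul_mem hf hg) hk (h.mem_left _ _ hxz)
      (by rw [hx]; exact h.mem_left _ _ hxz)
    have hzfix : (f * g) • z = z := by
      by_contra hne
      have h4 : (f * g) • z ∈ ln x z := by
        rw [← hfk]; exact Set.smul_mem_smul_set (h.mem_right _ _ hxz)
      have h5 := ln_unique h hk (par_ln h hm z) hne h4 (h.mem_right _ _ hxz) (h3 z)
        (par_mem h hm z)
      have h6 : x ∈ par ln Pl z (ln x (g • x)) := h5 ▸ h.mem_left _ _ hxz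
      have h7 := par_of_mem h hm h6
      rw [par_self h hm (h.mem_left _ _ hxy)] at h7
      exact hz (h7 ▸ par_mem h hm z)
    exact dil_fix2 h (mul_mem hf hg) hxz hx hzfix

theorem tr_def (h : AffS q ln Pl A B) [FaithfulSMul G Ω] {g : G} :
    g ∈ Tr h ↔ g ∈ Dil h ∧ ∀ x : Ω, g • x = x → g = 1 := Iff.rfl

theorem tr_normal (h : AffS q ln Pl A B) [FaithfulSMul G Ω] : (Tr h).Normal := by
  constructor
  intro g hg c
  refine ⟨dil_conj h hg.1 c, fun x hx => ?_⟩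
  have h1 : g • (c⁻¹ • x) = c⁻¹ • x := by
    rw [mul_smul, mul_smul] at hx
    rw [← inv_smul_smul c (g • c⁻¹ • x), hx]
  rw [hg.2 _ h1, mul_one, mul_inv_cancel]

/-! ### a translation -/

theorem fixB' (h : AffS q ln Pl A B) {Q : Set Ω} (hQ : Q ∈ Pl) {z : G} (hz : z ∈ B Q) {x : Ω}
    (hx : x ∈ Q) : z • x = x := by
  by_cases hz1 : z = 1
  · rw [hz1, one_smul]
  · exact (h.fixB Q hQ z hz hz1 x).2 hx

theorem act_all (h : AffS q ln Pl A B) {l Q : Set Ω} (hl : IsLn ln l) (hQ : Q ∈ Pl)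
    (hlQ : l ⊆ Q) {z : G} (hz : z ∈ A l) (hzB : z ∈ B Q) (x : Ω) : z • x ∈ par ln Pl x l := by
  by_cases hx : x ∈ Q
  · rw [fixB' h hQ hzB hx]
    exact par_mem h hl x
  · exact act_par h hl hQ hlQ hx hz hzB

theorem fix_dir (h : AffS q ln Pl A B) {n Q : Set Ω} (hn : IsLn ln n) (hQ : Q ∈ Pl)
    (hnQ : n ⊆ Q) {z : G} (hzB : z ∈ B Q) (y : Ω) :
    z • par ln Pl y n = par ln Pl (z • y) n := by
  have h1 : z • n = n := by
    obtain ⟨a, b, hab, rfl⟩ := hn
    rw [← h.line_smul z a b hab, fixB' h hQ hzB (hnQ (h.mem_left a b hab)),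
      fixB' h hQ hzB (hnQ (h.mem_right a b hab))]
  rw [par_smul h hn, h1]

theorem ex_tr (h : AffS q ln Pl A B) [FaithfulSMul G Ω] [Finite G] [Nonempty Ω] :
    ∃ g ∈ Tr h, g ≠ 1 := by
  classical
  have : Fintype Ω := Fintype.ofFinite Ω
  have : Fintype G := Fintype.ofFinite G
  have hq := h.pos
  -- the first plane
  obtain ⟨l, Q1, hl, hQ1, hlQ1⟩ : ∃ l Q1, IsLn ln l ∧ Q1 ∈ Pl ∧ l ⊆ Q1 := by
    obtain ⟨a⟩ := (inferInstance : Nonempty Ω)
    have hb : ∃ b : Ω, b ≠ a := by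
      by_contra hno
      push Not at hno
      have h1 : (Set.univ : Set Ω) ⊆ {a} := fun b _ => hno b
      have h2 := Set.ncard_le_ncard h1 (Set.finite_singleton a)
      rw [Set.ncard_singleton, Set.ncard_univ, h.card] at h2
      have := Nat.pow_le_pow_left hq 3
      omega
    obtain ⟨b, hba⟩ := hb
    have hl : IsLn ln (ln a b) := mk_ln (Ne.symm hba)
    obtain ⟨c, hc⟩ := off_ln h hl
    obtain ⟨Q, hQ, hlQ, -⟩ := plane_of h hl hc
    exact ⟨_, Q, hl, hQ, hlQ⟩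
  obtain ⟨x2, hx2⟩ := off_plane h hQ1
  obtain ⟨Q2, hQ2, hx2Q, hd21⟩ := ex_plane h hQ1 hx2
  have hl2 : IsLn ln (par ln Pl x2 l) := par_ln h hl x2
  have hl2Q : par ln Pl x2 l ⊆ Q2 := par_in h hQ2 hd21.symm hl hlQ1 hx2Q
  set l2 := par ln Pl x2 l with hl2def
  obtain ⟨z1, hz1, hz11⟩ := exists_ne h hl hQ1 hlQ1
  have hdir1 : ∀ x, z1 • x ∈ par ln Pl x l := act_all h hl hQ1 hlQ1 hz1.1 hz1.2
  have hdir2 : ∀ z ∈ A l2 ⊓ B Q2, ∀ x, z • x ∈ par ln Pl x l := by
    intro z hz x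
    rw [← par_par h hl x2 x]
    exact act_all h hl2 hQ2 hl2Q hz.1 hz.2 x
  have hdir : ∀ z ∈ A l2 ⊓ B Q2, ∀ x, z1 • z • x ∈ par ln Pl x l := by
    intro z hz x
    rw [← par_of_mem h hl (hdir2 z hz x)]
    exact hdir1 _
  -- the fixed points of `z1 z`
  have hfix : ∀ z ∈ A l2 ⊓ B Q2, ∀ x, z1 • z • x = x → x ∉ Q1 → ∀ Q3 ∈ Pl, x ∈ Q3 →
      Disjoint Q3 Q1 → ∀ y ∈ Q3, y ∉ par ln Pl x l → z1 • z • y = y := by
    intro z hz x hx hxQ1 Q3 hQ3 hxQ3 hd31 y hy hyl
    have hxy : x ≠ y := fun e => hyl (e ▸ par_mem h hl x)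
    have hk : IsLn ln (ln x y) := mk_ln hxy
    have hkQ3 : ln x y ⊆ Q3 := h.plane_line Q3 hQ3 x hxQ3 y hy hxy
    obtain ⟨a, haQ1, -⟩ := plane_ne h hQ1 x
    have hn : IsLn ln (par ln Pl a (ln x y)) := par_ln h hk a
    have hnQ1 : par ln Pl a (ln x y) ⊆ Q1 := par_in h hQ1 hd31 hk hkQ3 haQ1
    have hkn : par ln Pl x (par ln Pl a (ln x y)) = ln x y := by
      rw [par_par h hk, par_self h hk (h.mem_left _ _ hxy)]
    set n := par ln Pl a (ln x y) with hndef
    have hn2 : IsLn ln (par ln Pl x2 n) := par_ln h hn x2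
    have hn2Q : par ln Pl x2 n ⊆ Q2 := par_in h hQ2 hd21.symm hn hnQ1 hx2Q
    have e1 : ∀ w, z • par ln Pl w n = par ln Pl (z • w) n := by
      intro w
      have := fix_dir h hn2 hQ2 hn2Q hz.2 w
      rwa [par_par h hn, par_par h hn] at this
    have e2 : ∀ w, z1 • par ln Pl w n = par ln Pl (z1 • w) n := fix_dir h hn hQ1 hnQ1 hz1.2
    have e3 : z1 • z • ln x y = ln x y := by
      rw [← hkn, e1, e2, hx]
    by_contra hne
    have h1 : z1 • z • y ∈ ln x y := by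
      rw [← e3]
      exact Set.smul_mem_smul_set (Set.smul_mem_smul_set (h.mem_right _ _ hxy))
    have h2 := ln_unique h hk (par_ln h hl y) hne h1 (h.mem_right _ _ hxy) (hdir z hz y)
      (par_mem h hl y)
    have h3 : x ∈ par ln Pl y l := h2 ▸ h.mem_left _ _ hxy
    have h4 := par_of_mem h hl h3
    exact hyl (h4 ▸ par_mem h hl y)
  -- there is `z` such that `z1 z` has no fixed point
  have hex : ∃ z ∈ A l2 ⊓ B Q2, z ≠ 1 ∧ ∀ x : Ω, z1 • z • x ≠ x := by
    by_contra hno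
    push Not at hno
    let S : Finset G := Finset.univ.filter (fun z => z ∈ A l2 ⊓ B Q2 ∧ z ≠ 1)
    let F : G → Finset Ω := fun z => Finset.univ.filter (fun y => z1 • z • y = y)
    have hS : S.card = q - 1 := by
      have h1 : S = (Finset.univ.filter (fun z : G => z ∈ A l2 ⊓ B Q2)).erase 1 := by
        ext z
        simp [S, and_comm]
      rw [h1, Finset.card_erase_of_mem (by simp [one_mem])]
      have h2 := cardX' h hl2 hQ2 hl2Q
      rw [Nat.card_eq_fintype_card, Fintype.card_subtype] at h2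
      rw [h2]
    have hFQ1 : ∀ z ∈ S, ∀ y ∈ F z, y ∉ Q1 ∧ y ∉ Q2 := by
      intro z hz y hy
      have hz' : z ∈ A l2 ⊓ B Q2 ∧ z ≠ 1 := (Finset.mem_filter.1 hz).2
      have hy' : z1 • z • y = y := (Finset.mem_filter.1 hy).2
      constructor
      · intro hyQ
        have h1 : z1 • y = y := fixB' h hQ1 hz1.2 hyQ
        have h2 : z • y = y := by
          apply smul_left_cancel z1
          rw [hy', h1]
        exact Set.disjoint_left.1 hd21 ((h.fixB Q2 hQ2 z hz'.1.2 hz'.2 y).1 h2) hyQ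
      · intro hyQ
        rw [fixB' h hQ2 hz'.1.2 hyQ] at hy'
        exact Set.disjoint_left.1 hd21 hyQ ((h.fixB Q1 hQ1 z1 hz1.2 hz11 y).1 hy')
    have hFc : ∀ z ∈ S, q ^ 2 - q ≤ (F z).card := by
      intro z hz
      have hz' : z ∈ A l2 ⊓ B Q2 ∧ z ≠ 1 := (Finset.mem_filter.1 hz).2
      obtain ⟨x, hx⟩ := hno z hz'.1 hz'.2
      have hxQ1 := (hFQ1 z hz x (Finset.mem_filter.2 ⟨Finset.mem_univ _, hx⟩)).1
      obtain ⟨Q3, hQ3, hxQ3, hd31⟩ := ex_plane h hQ1 hxQ1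
      have h1 : (Q3 \ par ln Pl x l).toFinset ⊆ F z := by
        intro y hy
        rw [Set.mem_toFinset] at hy
        exact Finset.mem_filter.2 ⟨Finset.mem_univ _,
          hfix z hz'.1 x hx hxQ1 Q3 hQ3 hxQ3 hd31 y hy.1 hy.2⟩
      have h2 := Finset.card_le_card h1
      rw [← Set.ncard_eq_toFinset_card'] at h2
      have h3 := Set.le_ncard_sdiff (par ln Pl x l) Q3
      rw [h.plane_card Q3 hQ3, ln_ncard h (par_ln h hl x)] at h3
      exact h3.trans h2
    have hdisj : ∀ z ∈ S, ∀ w ∈ S, z ≠ w → Disjoint (F z) (F w) := by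
      intro z hz w hw hzw
      rw [Finset.disjoint_left]
      intro y hyz hyw
      have hz' : z ∈ A l2 ⊓ B Q2 ∧ z ≠ 1 := (Finset.mem_filter.1 hz).2
      have hw' : w ∈ A l2 ⊓ B Q2 ∧ w ≠ 1 := (Finset.mem_filter.1 hw).2
      have h1 : z1 • z • y = y := (Finset.mem_filter.1 hyz).2
      have h2 : z1 • w • y = y := (Finset.mem_filter.1 hyw).2
      have h3 : z • y = w • y := smul_left_cancel z1 (h1.trans h2.symm)
      have h4 : (w⁻¹ * z) • y = y := by rw [← smul_smul, h3, inv_smul_smul]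
      have h5 : w⁻¹ * z ≠ 1 := fun e => hzw (inv_mul_eq_one.1 e).symm
      exact (hFQ1 z hz y hyz).2
        ((h.fixB Q2 hQ2 _ (mul_mem (inv_mem hw'.1.2) hz'.1.2) h5 y).1 h4)
    have hU : (S.biUnion F).card = ∑ z ∈ S, (F z).card := Finset.card_biUnion hdisj
    have hU2 : (q - 1) * (q ^ 2 - q) ≤ (S.biUnion F).card := by
      rw [hU, ← hS, ← smul_eq_mul]
      exact Finset.card_nsmul_le_sum _ _ _ hFc
    have hd1 : Disjoint (S.biUnion F) (Q1.toFinset ∪ Q2.toFinset) := by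
      rw [Finset.disjoint_left]
      intro y hy hyQ
      obtain ⟨z, hz, hyz⟩ := Finset.mem_biUnion.1 hy
      have h1 := hFQ1 z hz y hyz
      rw [Finset.mem_union, Set.mem_toFinset, Set.mem_toFinset] at hyQ
      rcases hyQ with h2 | h2
      · exact h1.1 h2
      · exact h1.2 h2
    have hd2 : Disjoint Q1.toFinset Q2.toFinset := by
      rw [Set.disjoint_toFinset]
      exact hd21.symm
    have hle := Finset.card_le_univ (S.biUnion F ∪ (Q1.toFinset ∪ Q2.toFinset))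
    rw [Finset.card_union_of_disjoint hd1, Finset.card_union_of_disjoint hd2,
      ← Set.ncard_eq_toFinset_card', ← Set.ncard_eq_toFinset_card', h.plane_card Q1 hQ1,
      h.plane_card Q2 hQ2, ← Nat.card_eq_fintype_card, h.card] at hle
    obtain ⟨k, rfl⟩ : ∃ k, q = k + 1 := ⟨q - 1, by omega⟩
    have h1 : (k + 1) ^ 2 - (k + 1) = (k + 1) * k := by
      have : (k + 1) ^ 2 = (k + 1) * k + (k + 1) := by ring
      omega
    rw [h1, Nat.add_sub_cancel] at hU2
    nlinarith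
  obtain ⟨z, hz, hzne, hfpf⟩ := hex
  have hg : ∀ x : Ω, (z1 * z) • x ∈ par ln Pl x l := by
    intro x
    rw [mul_smul]
    exact hdir z hz x
  have hgf : ∀ x : Ω, (z1 * z) • x ≠ x := by
    intro x
    rw [mul_smul]
    exact hfpf x
  set g := z1 * z with hgdef
  refine ⟨g, ⟨?_, fun x hx => absurd hx (hgf x)⟩, ?_⟩
  · intro m hm x
    obtain ⟨p, p', hpp, -, hp, hp'⟩ := ln_nonempty h hm
    by_cases hpl : par ln Pl p l = m
    · have h1 : ∀ y ∈ m, g • y ∈ m := by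
        intro y hy
        have h2 : par ln Pl y l = m := by
          rw [← hpl] at hy ⊢
          exact par_of_mem h hl hy
        rw [← h2]
        exact hg y
      have h3 : g • m = m := ln_unique h (is_smul h hm g) hm
        (fun e => hpp (smul_left_cancel g e)) (Set.smul_mem_smul_set hp)
        (Set.smul_mem_smul_set hp') (h1 p hp) (h1 p' hp')
      rw [h3]
    · obtain ⟨P, hP, hmP, hlP⟩ := two_lines h hm (par_ln h hl p) (Ne.symm hpl) hp
        (par_mem h hl p)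
      have h1 : ∀ y ∈ m, g • y ∈ P := by
        intro y hy
        have h2 : par ln Pl y l ⊆ P := by
          rw [← par_par h hl p y]
          exact par_plane h (par_ln h hl p) hP hlP (hmP hy)
        exact h2 (hg y)
      have h2 : g • m ⊆ P := by
        rintro _ ⟨y, hy, rfl⟩
        exact h1 y hy
      have h3 : Disjoint (g • m) m := by
        rw [Set.disjoint_left]
        rintro _ ⟨y, hy, rfl⟩ hym
        have hym' : g • y ∈ m := hym
        have h4 := ln_unique h hm (par_ln h hl y) (hgf y) hym' hy (hg y) (par_mem h hl y)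
        have h5 : p ∈ par ln Pl y l := h4 ▸ hp
        exact hpl (by rw [par_of_mem h hl h5, ← h4])
      rw [← par_eq h hm (is_smul h hm g) (Set.smul_mem_smul_set hp)
        (Or.inr ⟨h3, P, hP, hmP, h2⟩), par_par h hm]
  · intro hg1
    obtain ⟨a⟩ := (inferInstance : Nonempty Ω)
    exact hgf a (by rw [hg1, one_smul])

theorem N_trans (h : AffS q ln Pl A B) (a x y : Ω) (hx : x ≠ a) (hy : y ≠ a) :
    ∃ g ∈ ⨆ b ∈ {b : Ω | b ≠ a}, A (ln a b), g • x = y := by
  have step : ∀ x y : Ω, x ≠ y → a ∉ ln x y → ∃ g ∈ ⨆ b ∈ {b : Ω | b ≠ a}, A (ln a b),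
      g • x = y := by
    intro x y hxy ha
    have hm : IsLn ln (ln x y) := mk_ln hxy
    obtain ⟨P, hP, hmP, haP⟩ := plane_of h hm ha
    have hl := par_ln h hm a
    have hlP := par_plane h hm hP hmP haP
    have hpr := par_pr h hm a
    have hal := par_mem h hm a
    have hdl := par_disj h hm ha
    set l := par ln Pl a (ln x y) with hldef
    have hxl : x ∉ l := fun hxl => Set.disjoint_left.1 hdl hxl (h.mem_left _ _ hxy)
    have hmx : par ln Pl x l = ln x y := par_eq h hl hm (h.mem_left _ _ hxy) hpr.symm'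
    obtain ⟨w, hw⟩ := off_plane h hP
    obtain ⟨Q, hQ, hlQ, hwQ⟩ := plane_of h hl (fun hwl => hw (hlP hwl))
    have hxQ : x ∉ Q := by
      intro hxQ
      have := plane_unique h hl hxl hQ hP hlQ hlP hxQ (hmP (h.mem_left _ _ hxy))
      exact hw (this ▸ hwQ)
    obtain ⟨z, hz, hzy⟩ := act_surj h hl hQ hlQ hxQ (y := y)
      (by rw [hmx]; exact h.mem_right _ _ hxy)
    obtain ⟨b, hb, hba⟩ := ln_other h hl a
    refine ⟨z, ?_, hzy⟩
    have h1 : A (ln a b) ≤ ⨆ b ∈ {b : Ω | b ≠ a}, A (ln a b) :=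
      le_iSup₂_of_le (f := fun b (_ : b ∈ {b : Ω | b ≠ a}) => A (ln a b)) b hba le_rfl
    apply h1
    rw [ln_eq h hl hal hb (Ne.symm hba)]
    exact hz.1
  by_cases hxy : x = y
  · exact ⟨1, one_mem _, by rw [one_smul, hxy]⟩
  by_cases ha : a ∈ ln x y
  · obtain ⟨w, hw⟩ := off_ln h (mk_ln hxy)
    have hxw : x ≠ w := fun e => hw (e ▸ h.mem_left _ _ hxy)
    have hwy : w ≠ y := fun e => hw (by rw [e]; exact h.mem_right _ _ hxy)
    have h1 : a ∉ ln x w := by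
      intro ha'
      have := ln_unique h (mk_ln hxy) (mk_ln hxw) hx (h.mem_left _ _ hxy) ha
        (h.mem_left _ _ hxw) ha'
      exact hw (this ▸ h.mem_right _ _ hxw)
    have h2 : a ∉ ln w y := by
      intro ha'
      have := ln_unique h (mk_ln hxy) (mk_ln hwy) hy (h.mem_right _ _ hxy) ha
        (h.mem_right _ _ hwy) ha'
      exact hw (this ▸ h.mem_left _ _ hwy)
    obtain ⟨g1, hg1, e1⟩ := step x w hxw h1
    obtain ⟨g2, hg2, e2⟩ := step w y hwy h2
    exact ⟨g2 * g1, mul_mem hg2 hg1, by rw [mul_smul, e1, e2]⟩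
  · exact step x y hxy ha

end fin

theorem aff_main {G Ω : Type*} [Group G] [Finite G] [Fintype Ω] [MulAction G Ω]
    [FaithfulSMul G Ω] (h2 : MulAction.IsMultiplyPretransitive G Ω 2) {q : ℕ}
    {ln : Ω → Ω → Set Ω} {Pl : Set (Set Ω)} {A B : Set Ω → Subgroup G}
    (h : AffS q ln Pl A B) :
    (∃ E : Subgroup G, E.Normal ∧ Nat.card E = q ^ 3 ∧ (∀ x y : Ω, ∃ r ∈ E, r • x = y) ∧
      ∀ x : Ω, ∀ r ∈ E, r • x = x → r = 1) ∧
    (∀ a x y : Ω, x ≠ a → y ≠ a → ∃ g ∈ ⨆ b ∈ {b : Ω | b ≠ a}, A (ln a b), g • x = y) := by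
  classical
  refine ⟨?_, N_trans h⟩
  have hq := h.pos
  have hne : Nonempty Ω := by
    by_contra hno
    rw [not_nonempty_iff] at hno
    have h1 := h.card
    rw [Nat.card_of_isEmpty] at h1
    have := Nat.pow_le_pow_left hq 3
    omega
  obtain ⟨a⟩ := id hne
  have htr : IsPretransitive G Ω := isPretransitive_of_is_two_pretransitive
  have hprim : IsPreprimitive G Ω := isPreprimitive_of_is_two_pretransitive h2
  have hN : (Tr h).Normal := tr_normal h
  obtain ⟨g, hg, hg1⟩ := ex_tr h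
  have hfp : fixedPoints (Tr h) Ω ≠ Set.univ := by
    intro hfp
    have ha : a ∈ fixedPoints (Tr h) Ω := by rw [hfp]; trivial
    exact hg1 (hg.2 a (ha ⟨g, hg⟩))
  have hKtr : IsPretransitive (Tr h) Ω := IsQuasiPreprimitive.isPretransitive_of_normal hfp
  refine ⟨Tr h, hN, ?_, ?_, fun x r hr hx => hr.2 x hx⟩
  · have h1 : stabilizer (Tr h) a = ⊥ := by
      rw [Subgroup.eq_bot_iff_forall]
      rintro ⟨r, hr⟩ hra
      exact Subtype.ext (hr.2 a hra)
    have h3 := index_stabilizer_of_transitive (Tr h) a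
    rw [h1, Subgroup.index_bot, h.card] at h3
    exact h3
  · intro x y
    obtain ⟨⟨r, hr⟩, hrx⟩ := exists_smul_eq (Tr h) x y
    exact ⟨r, hr, hrx⟩

end Cfsg.Agent.H10.Aff3
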