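import Cfsg.Agent.H10.DihEx

/-!
# Blocks with dihedral defect groups: the main theorem (owner: helper10)
-/

set_option autoImplicit false
set_option linter.style.haveILetI false
set_option linter.unusedSectionVars false

namespace Cfsg.Agent.H10.MC

open scoped BigOperators
open Cfsg Cfsg.Agent.CharBase Cfsg.Agent.Blk Cfsg.Agent.BlkF Cfsg.Agent.BlkInd Cfsg.Agent.BlkC
  Cfsg.Agent.Star Cfsg.Agent.H4 Cfsg.Agent.H10.Col MonoidAlgebra

universe u

theorem ofEquiv {G K : Type*} [Group G] [Group K] {D : Subgroup G} (e : D ≃* K) {a b : K} {h t : ℕ}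
    (H : MC (⊤ : Subgroup K) a b h t) :
    MC D ((e.symm a : D) : G) ((e.symm b : D) : G) h t where
  ht := H.ht
  hp := H.hp
  ordx := by
    rw [← H.ordx, Subgroup.orderOf_coe]
    exact orderOf_injective e.symm.toMonoidHom e.symm.injective a
  hx := (e.symm a).2
  hy := (e.symm b).2
  conj := by
    have h1 := congrArg (fun k => ((e.symm k : D) : G)) H.conj
    simpa using h1
  hyx := by
    intro hc
    obtain ⟨i, hi⟩ := Subgroup.mem_zpowers_iff.mp hc
    apply H.hyx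
    rw [Subgroup.mem_zpowers_iff]
    refine ⟨i, ?_⟩
    apply e.symm.injective
    apply Subtype.ext
    rw [map_zpow]
    push_cast
    exact hi
  cov := by
    intro d hd
    obtain ⟨i, hi⟩ := H.cov (e ⟨d, hd⟩) (Subgroup.mem_top _)
    refine ⟨i, ?_⟩
    rcases hi with hi | hi
    · left
      have h1 := congrArg (fun k => ((e.symm k : D) : G)) hi
      simpa using h1
    · right
      have h1 := congrArg (fun k => ((e.symm k : D) : G)) hi
      simpa using h1

theorem dihedral {m : ℕ} (hm : 1 ≤ m) :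
    MC (⊤ : Subgroup (DihedralGroup (2 ^ (m + 1)))) (DihedralGroup.r 1) (DihedralGroup.sr 0)
      (2 ^ m) (2 * 2 ^ m - 1) where
  ht := ⟨dvd_pow_self 2 (by omega), by positivity, Or.inl rfl⟩
  hp := ⟨m, rfl⟩
  ordx := by rw [DihedralGroup.orderOf_r_one, pow_succ, mul_comm]
  hx := Subgroup.mem_top _
  hy := Subgroup.mem_top _
  conj := by
    have h1 : (DihedralGroup.sr 0 : DihedralGroup (2 ^ (m + 1)))⁻¹ = DihedralGroup.sr 0 := by simp
    rw [h1, DihedralGroup.sr_mul_r, DihedralGroup.sr_mul_sr, DihedralGroup.r_one_pow]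
    congr 1
    have h2 : ((2 * 2 ^ m : ℕ) : ZMod (2 ^ (m + 1))) = 0 := by
      rw [← pow_succ']
      exact_mod_cast ZMod.natCast_self (2 ^ (m + 1))
    rw [Nat.cast_sub (by have : 0 < 2 ^ m := by positivity
                         omega), h2]
    simp
  hyx := by
    intro hc
    obtain ⟨i, hi⟩ := Subgroup.mem_zpowers_iff.mp hc
    rw [DihedralGroup.r_one_zpow] at hi
    exact absurd hi (by simp)
  cov := by
    intro d _
    cases d with
    | r i => exact ⟨i.val, Or.inl (by rw [DihedralGroup.r_one_pow]; congr 1; exact (ZMod.natCast_zmod_val i).symm)⟩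
    | sr i =>
      refine ⟨(-i).val, Or.inr ?_⟩
      rw [DihedralGroup.r_one_pow, DihedralGroup.r_mul_sr]
      congr 1
      have h1 : (((-i).val : ℕ) : ZMod (2 ^ (m + 1))) = -i := ZMod.natCast_zmod_val _
      rw [h1]
      ring

variable {G : Type u} [Group G] [Fintype G] {M : Ideal AlgInt}
  {B : Set (IrrCharacter G)} {D : Subgroup G} {x y : G} {h t : ℕ}

/-- the structure of blocks with dihedral defect groups -/
theorem Dih.main [∀ v : G, Fintype (Subgroup.centralizer (Subgroup.zpowers v : Set G))]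
    (hM : IsPModular 2 M) (hB : IsPBlock M B) (hD : IsDefectGroup 2 M B D)
    (H : MC D x y h t) (hd : Dih y h t) :
    Nat.card B = h + 3 ∧ 1 ≤ blockRank 2 B ∧ blockRank 2 B ≤ 3 ∧
      ((Bfin B).filter (fun χ : IrrCharacter G => blockHeight 2 B (χ : G → ℂ) = 0)).card = 4 ∧
      (∀ χ ∈ B, blockHeight 2 B (χ : G → ℂ) ≤ 1) ∧
      (blockRank 2 B = 3 → haveI := isPrime_of_isPModular hM; haveI := charP_kM hM;
        ∃ E : MonoidAlgebra (kM M) G, MMax 2 D E ∧ MPairOf 2 (eB M B) D E ∧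
        ∀ (v : G), v ≠ 1 → (∃ k : ℕ, orderOf v = 2 ^ k) →
          ∀ f : MonoidAlgebra (kM M) G, MPairOf 2 (eB M B) (Subgroup.zpowers v) f →
            ∃ i f', 0 < i ∧ i ≤ h ∧ MLe 2 (Subgroup.zpowers (x ^ i)) f' D E ∧
              SConj v f (x ^ i) f') := by
  classical
  haveI := isPrime_of_isPModular hM
  haveI := charP_kM hM
  have hh := H.pos
  have hD' : IsDef 2 ⊤ (eB M B) D := (Blk.isDefectGroup_iff hM hB D).1 hD
  obtain ⟨E, he, hE⟩ := exists_mmax_on hM hB hD'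
  obtain ⟨f1, f2⟩ := hd.fam hM hB he hE H
  have hrpos := Col.blockRank_pos hM hB
  have hdB := H.blockDefect_B hM hB hD'
  obtain ⟨ez, hez4, hez, -⟩ := exists_below hM hB he hE (D.pow_mem H.hx h)
  obtain ⟨ex, hex4, hex, -⟩ := exists_below hM hB he hE H.hx
  have hlz := hd.rank_z hM he H rfl hez.1 hez4
  have hlx := H.rank_x1 hM he rfl hex.1 hex4
  obtain ⟨φz, dz, hRz⟩ := exists_R1 hM hez.1 hlz
  obtain ⟨φx, dx, hRx⟩ := exists_R1 hM hex.1 hlx
  obtain ⟨ζ, hζ⟩ : ∃ ζ : ℂ, IsPrimitiveRoot ζ (2 * h) :=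
    ⟨_, Complex.isPrimitiveRoot_exp (2 * h) (by omega)⟩
  obtain ⟨a, A, ha1, ha2, ha3, hA2, hA3, hA8, o1⟩ := hd.gcols hM hB he H hdB rfl rfl hez hez4 hRz
    hex hex4 hRx hζ
  obtain ⟨χ₁, hχ₁, hχ₁0⟩ := exists_height_zero hM hB
  have hcardB : (Bfin B).card = Nat.card B := (natCard_eq_Bfin).symm
  obtain ⟨n1, n2, n3⟩ := num_height_zero (I := Bfin B)
    (ht := fun χ => blockHeight 2 B (χ : G → ℂ)) (a := a) (A := A)
    (fun χ hχ => ha2 χ (mem_Bfin.mp hχ)) ⟨h, ha3⟩ hA3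
    (fun χ hχ h0 => hA8 χ (mem_Bfin.mp hχ) h0) ⟨χ₁, mem_Bfin.mpr hχ₁, hχ₁0⟩
  have n4 := dih_cases (I := Bfin B) (ht := fun χ => blockHeight 2 B (χ : G → ℂ)) (a := a)
    (h := h) (fun χ hχ => ha2 χ (mem_Bfin.mp hχ)) ha3 n1 (by omega)
  rcases n4 with ⟨m1, m2⟩ | ⟨m1, -⟩
  · refine ⟨by omega, hrpos, by omega, n1, fun χ hχ => m2 χ (mem_Bfin.mpr hχ), fun h3 => ?_⟩
    exact ⟨E, he, hE, f2 (by omega)⟩
  · exact (hd.excl hM hB hD' H (by omega) rfl hez he hez4 rfl).elim

theorem natCard_filter {I : Finset (IrrCharacter G)} {P : IrrCharacter G → Prop}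
    [DecidablePred P] (hI : ∀ χ, χ ∈ I ↔ χ ∈ B) :
    Nat.card {χ : IrrCharacter G // χ ∈ B ∧ P χ} = (I.filter P).card := by
  rw [Nat.card_congr (Equiv.subtypeEquivRight (q := fun χ => χ ∈ I.filter P) (fun χ => by
    rw [Finset.mem_filter, hI]))]
  exact Nat.card_eq_finsetCard _

end Cfsg.Agent.H10.MC
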