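import Cfsg.Agent.H10.YBlk
import Cfsg.Agent.H10.DihTop
import Cfsg.Agent.H4.Dom
import Cfsg.Agent.H4.MajorEx
import Cfsg.Agent.H79.HksQuot
import Cfsg.Agent.H79.ProdChar
import Cfsg.Agent.H75.Inflate
import Cfsg.Agent.S4637

/-!
# Counting the characters of a block with a central involution (owner: helper10)
-/

set_option autoImplicit false
set_option linter.style.haveILetI false
set_option linter.unusedSectionVars false

namespace Cfsg.Agent.H10.Col

open scoped ComplexConjugate BigOperators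
open Cfsg Cfsg.Agent.CharBase Cfsg.Agent.Blk Cfsg.Agent.BlkF Cfsg.Agent.BlkInd Cfsg.Agent.BlkC
  Cfsg.Agent.Star Cfsg.Agent.H4 MonoidAlgebra

universe u

variable {G : Type u} [Group G] [Fintype G] {M : Ideal AlgInt} [hMp : M.IsPrime]
  {B : Set (IrrCharacter G)}

/-- blocks with Klein four defect groups have four characters -/
theorem klein_card (hM : IsPModular 2 M) (hB : IsPBlock M B) {P : Subgroup G}
    (hPD : IsDefectGroup 2 M B P) (hV : IsKleinFour P) : Nat.card B = 4 := by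
  classical
  haveI := charP_kM hM
  haveI : ∀ x : G, Fintype (Subgroup.centralizer ({x} : Set G)) := fun x => Fintype.ofFinite _
  obtain ⟨c, hc⟩ := exists_root hM hB hPD
  refine (klein_defect hM hB hPD hV hc
    (T := stab (Subgroup.normalizer (P : Set G)) (EB M _ c)) ?_).2.1
  intro g
  rw [mem_stab, stabilizesBlock_iff hc.1]
  constructor
  · rintro ⟨h1, h2⟩
    exact ⟨h1, normalizer_le_normalizer_centralizer P h1, h2⟩
  · rintro ⟨h1, -, h2⟩
    exact ⟨h1, h2⟩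

section om

variable {z : G}

/-- the sign of `z` -/
theorem exists_om (hz : z * z = 1) (hzc : ∀ g : G, g * z = z * g) (hz1 : z ≠ 1) :
    ∃ om : IrrCharacter G → ℤ, (∀ χ, om χ = 1 ∨ om χ = -1) ∧
      ∀ (χ : IrrCharacter G) (g : G), (χ : G → ℂ) (z * g) = (om χ : ℂ) * (χ : G → ℂ) g := by
  have hord : orderOf z = 2 := orderOf_eq_prime (by rw [pow_two]; exact hz) hz1
  have key : ∀ χ : IrrCharacter G, ∃ o : ℤ, (o = 1 ∨ o = -1) ∧
      ∀ g : G, (χ : G → ℂ) (z * g) = (o : ℂ) * (χ : G → ℂ) g := by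
    intro χ
    obtain ⟨ω, h1, -, h2⟩ := H79.irr_central_mul χ (z := z)
      (Subgroup.mem_center_iff.mpr hzc)
    rw [hord] at h1
    have h3 : (ω - 1) * (ω + 1) = 0 := by linear_combination h1
    rcases mul_eq_zero.mp h3 with h | h
    · exact ⟨1, Or.inl rfl, fun g => by rw [h2 g, sub_eq_zero.mp h]; push_cast; ring⟩
    · exact ⟨-1, Or.inr rfl, fun g => by
        rw [h2 g, eq_neg_of_add_eq_zero_left h]; push_cast; ring⟩
  choose om h1 h2 using key
  exact ⟨om, h1, h2⟩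

variable {om : IrrCharacter G → ℤ} {C : Subgroup G} [Fintype C] {e : Set (IrrCharacter C)}

theorem dpart_zmul (hM : IsPModular 2 M) (he : IsPBlock M e)
    (hom : ∀ (χ : IrrCharacter G) (g : G), (χ : G → ℂ) (z * g) = (om χ : ℂ) * (χ : G → ℂ) g)
    (u : G) (χ : IrrCharacter G) (s : C) :
    dpart 2 (z * u) e (χ : G → ℂ) s = (om χ : ℂ) * dpart 2 u e (χ : G → ℂ) s := by
  by_cases hs : 2 ∣ orderOf s
  · rw [dpart_of_sing _ hs, dpart_of_sing _ hs, mul_zero]
  · rw [dpart_eq hM he _ hs, dpart_eq hM he _ hs, mul_left_comm (om χ : ℂ),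
      Finset.mul_sum (a := (om χ : ℂ))]
    refine congrArg _ (Finset.sum_congr rfl fun c _ => ?_)
    split_ifs
    · rw [mul_zero]
    · rw [mul_assoc z u, hom]; ring

theorem sc_zmul (hM : IsPModular 2 M) (he : IsPBlock M e)
    (hom : ∀ (χ : IrrCharacter G) (g : G), (χ : G → ℂ) (z * g) = (om χ : ℂ) * (χ : G → ℂ) g)
    (u : G) (χ ψ : IrrCharacter G) :
    sc 2 (z * u) e (χ : G → ℂ) (ψ : G → ℂ) =
      (om χ : ℂ) * (om ψ : ℂ) * sc 2 u e (χ : G → ℂ) (ψ : G → ℂ) := by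
  unfold sc
  rw [mul_left_comm ((om χ : ℂ) * (om ψ : ℂ)), Finset.mul_sum (a := (om χ : ℂ) * (om ψ : ℂ))]
  refine congrArg _ (Finset.sum_congr rfl fun c _ => ?_)
  rw [dpart_zmul hM he hom, dpart_zmul hM he hom, map_mul, map_intCast]
  ring

theorem om_sq (h1 : ∀ χ, om χ = 1 ∨ om χ = -1) (χ : IrrCharacter G) :
    (om χ : ℂ) * (om χ : ℂ) = 1 := by
  rcases h1 χ with h | h <;> rw [h] <;> norm_num

/-- the twisted trace vanishes if `u` and `z u` are not conjugate -/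
theorem trace_B (hM : IsPModular 2 M) (h1 : ∀ χ, om χ = 1 ∨ om χ = -1)
    (hom : ∀ (χ : IrrCharacter G) (g : G), (χ : G → ℂ) (z * g) = (om χ : ℂ) * (χ : G → ℂ) g)
    {u : G} (hC : C = Subgroup.centralizer (Subgroup.zpowers u : Set G))
    (hC' : C = Subgroup.centralizer (Subgroup.zpowers (z * u) : Set G))
    (hx : ∃ k : ℕ, orderOf u = 2 ^ k) (hx' : ∃ k : ℕ, orderOf (z * u) = 2 ^ k)
    (hind : IsInducedBlock M C e B)
    (hn : ¬ SConj u (EB M C e) (z * u) (EB M C e)) :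
    ∑ χ ∈ Bfin B, (om χ : ℂ) * sc 2 u e (χ : G → ℂ) (χ : G → ℂ) = 0 := by
  have h2 : ∀ χ ∈ Bfin B, (om χ : ℂ) * ∑ ψ ∈ Bfin B, sc 2 u e (χ : G → ℂ) (ψ : G → ℂ) *
      sc 2 (z * u) e (ψ : G → ℂ) (χ : G → ℂ) = 0 := by
    intro χ _
    rw [sum_sc_mul hM hC hC' hx hx' hind hind.1 hn χ χ, mul_zero]
  have h3 : ∑ χ ∈ Bfin B, (om χ : ℂ) * ∑ ψ ∈ Bfin B, sc 2 u e (χ : G → ℂ) (ψ : G → ℂ) *
      sc 2 (z * u) e (ψ : G → ℂ) (χ : G → ℂ) =
      ∑ ψ ∈ Bfin B, (om ψ : ℂ) * ∑ χ ∈ Bfin B, sc 2 u e (ψ : G → ℂ) (χ : G → ℂ) *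
        sc 2 u e (χ : G → ℂ) (ψ : G → ℂ) := by
    simp only [Finset.mul_sum]
    rw [Finset.sum_comm]
    refine Finset.sum_congr rfl fun ψ _ => Finset.sum_congr rfl fun χ _ => ?_
    rw [sc_zmul hM hind.1 hom]
    have := om_sq h1 χ
    linear_combination ((om ψ : ℂ) * sc 2 u e (χ : G → ℂ) (ψ : G → ℂ) *
      sc 2 u e (ψ : G → ℂ) (χ : G → ℂ)) * this
  rw [Finset.sum_congr rfl h2, Finset.sum_const_zero] at h3
  rw [h3]
  refine Finset.sum_congr rfl fun ψ _ => ?_
  rw [sum_sc hM hx (cent_eq hC) hind]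

/-- the twisted trace if `u` and `z u` are conjugate in the defect group -/
theorem trace_A (hM : IsPModular 2 M)
    (hom : ∀ (χ : IrrCharacter G) (g : G), (χ : G → ℂ) (z * g) = (om χ : ℂ) * (χ : G → ℂ) g)
    {u g : G} (hC : C = Subgroup.centralizer (Subgroup.zpowers u : Set G))
    (hC' : C = Subgroup.centralizer (Subgroup.zpowers (z * u) : Set G))
    (hx : ∃ k : ℕ, orderOf u = 2 ^ k) (hg : g * u * g⁻¹ = z * u)
    (hge : Blk.cj g (EB M C e) = EB M C e)
    (hind : IsInducedBlock M C e B) (hl : blockRank 2 e = 1) :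
    ∑ χ ∈ Bfin B, (om χ : ℂ) * sc 2 u e (χ : G → ℂ) (χ : G → ℂ) = 1 := by
  obtain ⟨φ, d, hR⟩ := exists_R1 hM hind.1 hl
  have h1 := sum_sc_self hM hx (cent_eq hC) hind
  rw [hl, Nat.cast_one] at h1
  rw [← h1]
  refine Finset.sum_congr rfl fun χ _ => ?_
  have h2 := D_inv hM hC (g := g) (by rw [hg]; exact hC') hx hind.1 hR hge χ
  rw [hg, D_eq hR, dpart_zmul hM hind.1 hom, mul_div_assoc, ← D_eq hR] at h2
  have h3 := sc_eq_D hM hind.1 hl hR u (χ : G → ℂ) (χ : G → ℂ)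
  have h4 := pne (p := 2) e
  apply mul_left_cancel₀ h4
  rw [mul_left_comm, h3, ← mul_assoc, h2]

end om

section top

variable {z : G} {C : Subgroup G} [Fintype C] {e : Set (IrrCharacter C)}
  {om : IrrCharacter G → ℤ}

/-- the block of the centralizer of a central element is unique -/
theorem pairOf_central (hB : IsPBlock M B) {p : ℕ} [Fact p.Prime]
    (hzc : ∀ g : G, g * z = z * g) {f : MonoidAlgebra (kM M) G}
    (hf : haveI := hMp; MPairOf p (eB M B) (Subgroup.zpowers z) f) : f = eB M B := by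
  have hcen : Subgroup.centralizer (Subgroup.zpowers z : Set G) = ⊤ := by
    rw [eq_top_iff]
    intro g _
    rw [Subgroup.mem_centralizer_iff]
    intro h hh
    obtain ⟨a, rfl⟩ := Subgroup.mem_zpowers_iff.mp hh
    exact (Commute.zpow_right (show Commute g z from hzc g) a).symm
  have h1 := hf.2.2
  rw [br_of_supp (by rw [hcen]; intro g hg; exact absurd (Subgroup.mem_top g) hg)] at h1
  have h2 := hf.1.blk
  rw [hcen] at h2
  exact ((isBlk_eB hB).eq_of_mul_ne_zero h2 (by rw [h1]; exact h2.ne_zero)).symm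

theorem sum_top (hC : C = ⊤) (F : G → ℂ) : ∑ s : C, F (s : G) = ∑ g : G, F g := by
  subst hC
  exact Fintype.sum_equiv Subgroup.topEquiv.toEquiv _ _ fun _ => rfl

/-- the contribution of a central involution -/
theorem sc_central (hM : IsPModular 2 M) (hB : IsPBlock M B)
    (hz : ∃ k : ℕ, orderOf z = 2 ^ k) (hzc : ∀ g : G, g * z = z * g)
    (hC : C = Subgroup.centralizer (Subgroup.zpowers z : Set G))
    (hind : IsInducedBlock M C e B)
    (hom : ∀ (χ : IrrCharacter G) (g : G), (χ : G → ℂ) (z * g) = (om χ : ℂ) * (χ : G → ℂ) g)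
    {χ ψ : IrrCharacter G} (hχ : χ ∈ B) (hψ : ψ ∈ B) :
    sc 2 z e (χ : G → ℂ) (ψ : G → ℂ) =
      (om χ : ℂ) * (om ψ : ℂ) * regInner 2 (χ : G → ℂ) (ψ : G → ℂ) := by
  classical
  haveI := charP_kM hM
  have htop : C = ⊤ := by
    rw [hC, eq_top_iff]
    intro g _
    rw [Subgroup.mem_centralizer_iff]
    intro h hh
    obtain ⟨a, rfl⟩ := Subgroup.mem_zpowers_iff.mp hh
    exact (Commute.zpow_right (show Commute g z from hzc g) a).symm
  have huniq : ∀ b, IsInducedBlock M C b B → b = e := by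
    intro b hb
    have h1 := pairOf_central hB hzc (mpairOf_of_ind hM hz (cent_eq hC) hb)
    have h2 := pairOf_central hB hzc (mpairOf_of_ind hM hz (cent_eq hC) hind)
    exact EB_injective hb.1 hind.1 (h1.trans h2.symm)
  have hdp : ∀ χ ∈ B, ∀ s : C, ¬ 2 ∣ orderOf s → dpart 2 z e ((χ : IrrCharacter G) : G → ℂ) s =
      (om χ : ℂ) * (χ : G → ℂ) (s : G) := by
    intro χ hχ s hs
    have h1 := sum_dpart hM hz (cent_eq hC) hB hχ hs
    rw [Finset.sum_eq_single_of_mem e (mem_indB.mpr hind)] at h1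
    · rw [h1, hom]
    · intro b hb hne
      exact absurd (huniq b (mem_indB.mp hb)) hne
  unfold sc regInner
  have hcard : Nat.card C = Nat.card G := by rw [htop]; exact Subgroup.card_top
  rw [hcard, mul_left_comm ((om χ : ℂ) * (om ψ : ℂ))]
  rw [← sum_top htop (fun g => (χ : G → ℂ) g * regConj 2 (ψ : G → ℂ) g),
    Finset.mul_sum (a := (om χ : ℂ) * (om ψ : ℂ))]
  refine congrArg _ (Finset.sum_congr rfl fun s _ => ?_)
  by_cases hs : 2 ∣ orderOf s
  · rw [dpart_of_sing _ hs]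
    unfold regConj
    rw [if_pos (by rw [Subgroup.orderOf_coe]; exact hs)]
    ring
  · rw [hdp χ hχ s hs, hdp ψ hψ s hs]
    unfold regConj
    rw [if_neg (by rw [Subgroup.orderOf_coe]; exact hs), map_mul, map_intCast]
    ring

/-- the characters trivial on `z` -/
theorem card_om (_hB : IsPBlock M B)
    (h1 : ∀ χ, om χ = 1 ∨ om χ = -1)
    (hom : ∀ (χ : IrrCharacter G) (g : G), (χ : G → ℂ) (z * g) = (om χ : ℂ) * (χ : G → ℂ) g)
    (hzz : z * z = 1) [hn : (Subgroup.zpowers z).Normal] :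
    ∑ χ ∈ Bfin B, ((1 : ℂ) + (om χ : ℂ)) = 2 * (Nat.card (dom (Subgroup.zpowers z) B) : ℂ) := by
  classical
  haveI := Fintype.ofFinite (IrrCharacter (G ⧸ Subgroup.zpowers z))
  haveI : Fintype (G ⧸ Subgroup.zpowers z) := Fintype.ofFinite _
  have h2 : ∀ χ : IrrCharacter G, ((1 : ℂ) + (om χ : ℂ)) = if om χ = 1 then 2 else 0 := by
    intro χ
    rcases h1 χ with h | h <;> rw [h] <;> norm_num
  rw [Finset.sum_congr rfl fun χ _ => h2 χ, ← Finset.sum_filter, Finset.sum_const, nsmul_eq_mul,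
    mul_comm]
  congr 2
  rw [natCard_eq_Bfin]
  symm
  refine Finset.card_bij (fun ψ _ => (inflI ψ : IrrCharacter G)) ?_ ?_ ?_
  · intro ψ hψ
    rw [Finset.mem_filter, mem_Bfin]
    refine ⟨mem_dom.mp (mem_Bfin.mp hψ), ?_⟩
    have h3 := hom (inflI ψ) 1
    have h4 : ((inflI ψ : IrrCharacter G) : G → ℂ) (z * 1) = ((inflI ψ : IrrCharacter G) : G → ℂ) 1 := by
      have h7 : (QuotientGroup.mk (z * 1) : G ⧸ Subgroup.zpowers z) = QuotientGroup.mk 1 := by
        rw [mul_one, QuotientGroup.eq, mul_one]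
        exact Subgroup.inv_mem _ (Subgroup.mem_zpowers z)
      exact congrArg (ψ : G ⧸ Subgroup.zpowers z → ℂ) h7
    rw [h4] at h3
    have h5 : ((inflI ψ : IrrCharacter G) : G → ℂ) 1 ≠ 0 := irr_one_ne_zero (inflI ψ).2
    have h6 : ((om (inflI ψ) : ℤ) : ℂ) = 1 := by
      have : (1 : ℂ) * ((inflI ψ : IrrCharacter G) : G → ℂ) 1 =
          ((om (inflI ψ) : ℤ) : ℂ) * ((inflI ψ : IrrCharacter G) : G → ℂ) 1 := by
        rw [one_mul]; exact h3
      exact (mul_right_cancel₀ h5 this).symm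
    exact_mod_cast h6
  · intro ψ _ ψ' _ h
    apply Subtype.ext
    funext w
    obtain ⟨g, rfl⟩ := QuotientGroup.mk_surjective w
    exact congrFun (congrArg Subtype.val h) g
  · intro χ hχ
    rw [Finset.mem_filter, mem_Bfin] at hχ
    obtain ⟨hχB, hχ1⟩ := hχ
    have hker : ∀ n ∈ Subgroup.zpowers z, (χ : G → ℂ) n = (χ : G → ℂ) 1 := by
      intro n hn
      have h3 : n = 1 ∨ n = z := by
        obtain ⟨a, rfl⟩ := Subgroup.mem_zpowers_iff.mp hn
        rcases Int.even_or_odd' a with ⟨k, hk | hk⟩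
        · left
          rw [hk, zpow_mul, zpow_ofNat, pow_two, hzz, one_zpow]
        · right
          rw [hk, zpow_add, zpow_mul, zpow_ofNat, pow_two, hzz, one_zpow, one_mul, zpow_one]
      rcases h3 with rfl | rfl
      · rfl
      · have h4 := hom χ 1
        rw [mul_one, hχ1] at h4
        rw [h4]; push_cast; ring
    obtain ⟨ψ', h3, h4⟩ := H75.exists_deflate_irr (Subgroup.zpowers z) χ.2 hker
    refine ⟨⟨ψ', h3⟩, ?_, ?_⟩
    · rw [mem_Bfin, mem_dom]
      have : inflI ⟨ψ', h3⟩ = χ := Subtype.ext (funext h4)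
      rw [this]; exact hχB
    · exact Subtype.ext (funext h4)

end top

end Cfsg.Agent.H10.Col
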