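import Cfsg.Agent.H10.CenQuo

/-!
# The central count (owner: helper10)
-/

set_option autoImplicit false
set_option linter.style.haveILetI false
set_option linter.unusedSectionVars false

namespace Cfsg.Agent.H10

open scoped BigOperators
open Cfsg Cfsg.Agent.CharBase Cfsg.Agent.Blk Cfsg.Agent.BlkF Cfsg.Agent.BlkInd Cfsg.Agent.BlkC
  Cfsg.Agent.Star Cfsg.Agent.H4 Cfsg.Agent.H10.Col MonoidAlgebra

universe u

/-- pairs with equal centralizers -/
theorem mle_eq_of_cent {k : Type*} [Field k] {G : Type*} [Group G] [Finite G] {p : ℕ}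
    [Fact p.Prime] [CharP k p]
    {Q R D : Subgroup G} {f f' E : MonoidAlgebra k G} (he : MPair p D E)
    (hf : MLe p Q f D E) (hf' : MLe p R f' D E) (hQR : Q ≤ R)
    (hN : R ≤ Subgroup.normalizer (Q : Set G))
    (hC : Subgroup.centralizer (R : Set G) = Subgroup.centralizer (Q : Set G)) : f = f' := by
  have hR := hf'.left_pair he
  obtain ⟨r, hr, hr2⟩ := exists_mle hR Q hQR
  have h1 : f = r := MLe.unique he Q f r hf (hr2.trans hf')
  rw [h1]
  have h2 := (hr.norm_self.trans_mle hr2 hN).brmul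
  rw [br_of_supp (by rw [hC]; exact hr.blk.supp)] at h2
  have h3 := hR.blk
  rw [hC] at h3
  exact hr.blk.eq_of_mul_ne_zero h3 (by rw [h2]; exact hR.blk.ne_zero)

section loc

variable {G : Type u} [Group G] [Fintype G] {M : Ideal AlgInt} [hMp : M.IsPrime]
  {B : Set (IrrCharacter G)} {D : Subgroup G} {E : MonoidAlgebra (kM M) G}
  {eG : ∀ v : G, Set (IrrCharacter (Subgroup.centralizer (Subgroup.zpowers v : Set G)))}

theorem cent_sup_central {z : G} (hzc : ∀ g : G, g * z = z * g) (Q : Subgroup G) :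
    Subgroup.centralizer ((Q ⊔ Subgroup.zpowers z : Subgroup G) : Set G) =
      Subgroup.centralizer (Q : Set G) := by
  apply le_antisymm
  · exact centralizer_le_of_le le_sup_left
  · rw [Subgroup.le_centralizer_iff]
    refine sup_le (Subgroup.le_centralizer_iff.mp le_rfl) ?_
    rw [Subgroup.zpowers_le, Subgroup.mem_centralizer_iff]
    intro g _
    exact hzc g

theorem cent_zmul {z u : G} (hzc : ∀ g : G, g * z = z * g) :
    Subgroup.centralizer (Subgroup.zpowers u : Set G) =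
      Subgroup.centralizer (Subgroup.zpowers (z * u) : Set G) := by
  rw [centralizer_zpowers_eq, centralizer_zpowers_eq]
  ext g
  rw [Subgroup.mem_centralizer_singleton_iff, Subgroup.mem_centralizer_singleton_iff]
  constructor
  · intro hg
    rw [← mul_assoc, hzc g, mul_assoc, hg, mul_assoc]
  · intro hg
    rw [← mul_assoc, hzc g, mul_assoc, mul_assoc] at hg
    exact mul_left_cancel hg

theorem Loc.zmul (hM : IsPModular 2 M) (L : Loc M B D E eG)
    (he : haveI := charP_kM hM; MMax 2 D E) {z u : G} (hzc : ∀ g : G, g * z = z * g)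
    (hz : z ∈ D) (hu : u ∈ D) : EB M _ (eG (z * u)) = EB M _ (eG u) := by
  haveI := charP_kM hM
  have key : ∀ v : G, v ∈ D → v ∈ Subgroup.zpowers u ⊔ Subgroup.zpowers z →
      Subgroup.centralizer (Subgroup.zpowers v : Set G) =
        Subgroup.centralizer (Subgroup.zpowers u : Set G) →
      ∀ f, MLe 2 (Subgroup.zpowers u ⊔ Subgroup.zpowers z) f D E → EB M _ (eG v) = f := by
    intro v hv hv2 hv3 f hf
    refine mle_eq_of_cent he.1 (L.mle v hv) hf (Subgroup.zpowers_le.mpr hv2) ?_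
      (by rw [cent_sup_central hzc, hv3])
    refine le_trans ?_ (centralizer_le_normalizer _)
    rw [hv3]
    refine sup_le ?_ ?_
    · rw [Subgroup.zpowers_le, centralizer_zpowers_eq, Subgroup.mem_centralizer_singleton_iff]
    · rw [Subgroup.zpowers_le, centralizer_zpowers_eq, Subgroup.mem_centralizer_singleton_iff]
      exact (hzc u).symm
  obtain ⟨f, -, hf⟩ := exists_mle he.1 (Subgroup.zpowers u ⊔ Subgroup.zpowers z)
    (sup_le (Subgroup.zpowers_le.mpr hu) (Subgroup.zpowers_le.mpr hz))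
  have hu1 : u ∈ Subgroup.zpowers u ⊔ Subgroup.zpowers z :=
    (le_sup_left : Subgroup.zpowers u ≤ _) (Subgroup.mem_zpowers u)
  have hz1 : z ∈ Subgroup.zpowers u ⊔ Subgroup.zpowers z :=
    (le_sup_right : Subgroup.zpowers z ≤ _) (Subgroup.mem_zpowers z)
  rw [key u hu hu1 rfl f hf, key (z * u) (D.mul_mem hz hu) (Subgroup.mul_mem _ hz1 hu1)
    (cent_zmul hzc).symm f hf]

end loc

namespace MC

variable {G : Type u} [Group G] [Fintype G] {M : Ideal AlgInt} [hMp : M.IsPrime]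
  {B : Set (IrrCharacter G)} {D : Subgroup G} {E : MonoidAlgebra (kM M) G} {x y : G} {h t : ℕ}
  {eG : ∀ v : G, Set (IrrCharacter (Subgroup.centralizer (Subgroup.zpowers v : Set G)))}

theorem rank_vf (hM : IsPModular 2 M) (he : haveI := charP_kM hM; MMax 2 D E)
    (L : Loc M B D E eG) (H : MC D x y h t)
    (i : Fin h ⊕ {j : Fin 2 // Unf M x y eG j}) :
    blockRank 2 (eG (vf M x y h t eG i)) =
      if i = Sum.inl ⟨h - 1, Nat.sub_lt H.pos one_pos⟩ then blockRank 2 (eG (x ^ h)) else 1 := by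
  split_ifs with hi
  · subst hi
    have h1 : vf M x y h t eG (Sum.inl ⟨h - 1, Nat.sub_lt H.pos one_pos⟩) = x ^ h := by
      change x ^ rr h t (h - 1 + 1) = x ^ h
      rw [Nat.sub_add_cancel H.pos, H.rr_h]
    rw [h1]
  · rcases i with i | j
    · have h1 : i.val + 1 ≠ h := by
        intro h2
        apply hi
        congr 1
        apply Fin.ext
        change i.val = h - 1
        omega
      obtain ⟨a1, a2, a3⟩ := H.rr_lt (i := i.val + 1) (by omega) i.2
      have h2 : ¬ h ∣ rr h t (i.val + 1) := not_dvd_of_lt a1 a2 (fun hc => h1 (a3.mp hc))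
      exact H.rank_x hM he h2 (L.ind _ (D.pow_mem H.hx _)).1 (L.mle _ (D.pow_mem H.hx _))
    · exact (H.nilp_out hM he L (H.yv_mem j.1) j.2.1).1

theorem sum_vf (H : MC D x y h t) [Fintype {j : Fin 2 // Unf M x y eG j}] (a : ℂ)
    (c : Fin h ⊕ {j : Fin 2 // Unf M x y eG j} → ℂ) (b : ℂ) (b' : ℂ)
    (h1 : c (Sum.inl ⟨h - 1, Nat.sub_lt H.pos one_pos⟩) = a)
    (h2 : ∀ k : ℕ, ∀ hk : k + 1 < h, c (Sum.inl ⟨k, by omega⟩) = b)
    (h3 : ∀ j, c (Sum.inr j) = b') :
    ∑ i, c i = ((h : ℂ) - 1) * b + a + (Fintype.card {j : Fin 2 // Unf M x y eG j} : ℂ) * b' := by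
  have hpos := H.pos
  rw [Fintype.sum_sum_type, Finset.sum_congr rfl (fun j _ => h3 j), Finset.sum_const,
    Finset.card_univ, nsmul_eq_mul]
  congr 1
  obtain ⟨h', rfl⟩ : ∃ h', h = h' + 1 := ⟨h - 1, by omega⟩
  rw [Fin.sum_univ_castSucc, Finset.sum_congr rfl (fun k _ => h2 k.val (by omega))]
  have h4 : c (Sum.inl (Fin.last h')) = a := h1
  rw [h4, Finset.sum_const, Finset.card_univ, Fintype.card_fin, nsmul_eq_mul]
  push_cast
  ring

theorem sum_rank (hM : IsPModular 2 M) (he : haveI := charP_kM hM; MMax 2 D E)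
    (L : Loc M B D E eG) (H : MC D x y h t) [Fintype {j : Fin 2 // Unf M x y eG j}] :
    ∑ i, (blockRank 2 (eG (vf M x y h t eG i)) : ℂ) =
      ((h : ℂ) - 1) * 1 + blockRank 2 (eG (x ^ h)) +
        (Fintype.card {j : Fin 2 // Unf M x y eG j} : ℂ) * 1 := by
  classical
  refine H.sum_vf _ (fun i => (blockRank 2 (eG (vf M x y h t eG i)) : ℂ)) _ _ ?_ ?_ ?_
  · exact congrArg Nat.cast ((H.rank_vf hM he L _).trans (if_pos rfl))
  · intro k hk
    have h1 := (H.rank_vf hM he L (Sum.inl ⟨k, by omega⟩)).trans (if_neg (by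
      intro hc
      have := Fin.ext_iff.mp (Sum.inl_injective hc)
      simp only at this
      omega))
    exact (congrArg Nat.cast h1).trans Nat.cast_one
  · intro j
    have h1 := (H.rank_vf hM he L (Sum.inr j)).trans (if_neg (by simp))
    exact (congrArg Nat.cast h1).trans Nat.cast_one

/-- the number of characters -/
theorem cardC (hM : IsPModular 2 M) (hB : IsPBlock M B)
    (he : haveI := charP_kM hM; MMax 2 D E)
    (hb : haveI := charP_kM hM; MPairOf 2 (eB M B) D E) (L : Loc M B D E eG)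
    (H : MC D x y h t) :
    Nat.card B + 1 = blockRank 2 B + h + blockRank 2 (eG (x ^ h)) +
      Nat.card {j : Fin 2 // Unf M x y eG j} := by
  classical
  haveI := Fintype.ofFinite {j : Fin 2 // Unf M x y eG j}
  obtain ⟨F, hc⟩ := H.famC hM hB he hb L
  have h1 := ((F.card hM hB).2).mpr hc
  have h2 : ((∑ i, blockRank 2 (eG (vf M x y h t eG i)) : ℕ) : ℂ) =
      ((h : ℂ) - 1) * 1 + blockRank 2 (eG (x ^ h)) +
        (Fintype.card {j : Fin 2 // Unf M x y eG j} : ℂ) * 1 := by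
    push_cast
    exact H.sum_rank hM he L
  have h3 : ((Nat.card B + 1 : ℕ) : ℂ) = ((blockRank 2 B + h + blockRank 2 (eG (x ^ h)) +
      Nat.card {j : Fin 2 // Unf M x y eG j} : ℕ) : ℂ) := by
    rw [← h1]
    push_cast at h2 ⊢
    rw [h2, Nat.card_eq_fintype_card]
    ring
  exact_mod_cast h3

theorem SC_zmul_iff (hM : IsPModular 2 M) (he : haveI := charP_kM hM; MMax 2 D E)
    (L : Loc M B D E eG) {z : G} (hzc : ∀ g : G, g * z = z * g)
    (hz : z ∈ D) {u : G} (hu : u ∈ D) :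
    SConj u (EB M _ (eG u)) (z * u) (EB M _ (eG u)) ↔ SC M eG u (z * u) := by
  unfold SC
  rw [L.zmul hM he hzc hz hu]

/-- the values of the twisted traces -/
def tv {α : Type} (h : ℕ) : Fin h ⊕ α → ℂ
  | Sum.inl k => if 2 * (k.val + 1) = h then 1 else 0
  | Sum.inr _ => 1

/-- the twisted traces of the members of the family -/
theorem trace_vf (hM : IsPModular 2 M) 
    (he : haveI := charP_kM hM; MMax 2 D E) (L : Loc M B D E eG)
    [∀ v : G, Fintype (Subgroup.centralizer (Subgroup.zpowers v : Set G))]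
    (H : MC D x y h t) (hzc : ∀ g : G, g * x ^ h = x ^ h * g)
    {om : IrrCharacter G → ℤ} (h1 : ∀ χ, om χ = 1 ∨ om χ = -1)
    (hom : ∀ (χ : IrrCharacter G) (g : G),
      (χ : G → ℂ) (x ^ h * g) = (om χ : ℂ) * (χ : G → ℂ) g)
    (i : Fin h ⊕ {j : Fin 2 // Unf M x y eG j}) :
    ∑ χ ∈ Bfin B, (om χ : ℂ) * sc 2 (vf M x y h t eG i) (eG (vf M x y h t eG i))
      (χ : G → ℂ) (χ : G → ℂ) = tv h i := by
  classical
  haveI := charP_kM hM
  have hz : x ^ h ∈ D := D.pow_mem H.hx h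
  have hA : ∀ u ∈ D, ∀ g ∈ D, g * u * g⁻¹ = x ^ h * u → blockRank 2 (eG u) = 1 →
      ∑ χ ∈ Bfin B, (om χ : ℂ) * sc 2 u (eG u) (χ : G → ℂ) (χ : G → ℂ) = 1 := by
    intro u hu g hg hgu hr
    refine trace_A hM hom rfl (cent_zmul hzc) (L.pel u hu) hgu ?_ (L.ind u hu) hr
    have h3 := BlkF.mle_cj_of_mem he.1 (L.mle u hu) hg
    rw [show cjS g (Subgroup.zpowers u) = Subgroup.zpowers (g * u * g⁻¹) from
      MonoidHom.map_zpowers (MulAut.conj g).toMonoidHom _, hgu] at h3
    rw [L.uniq hM he (D.mul_mem hz hu) h3, L.zmul hM he hzc hz hu]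
  have hB : ∀ u ∈ D, ¬ SC M eG u (x ^ h * u) →
      ∑ χ ∈ Bfin B, (om χ : ℂ) * sc 2 u (eG u) (χ : G → ℂ) (χ : G → ℂ) = 0 := by
    intro u hu hns
    refine trace_B hM h1 hom rfl (cent_zmul hzc) (L.pel u hu) (L.pel _ (D.mul_mem hz hu))
      (L.ind u hu) ?_
    rw [SC_zmul_iff hM he L hzc hz hu]
    exact hns
  rcases i with k | j
  · have hvk : vf M x y h t eG (Sum.inl k) = x ^ rr h t (k.val + 1) := rfl
    rw [hvk]
    have hpos := H.pos
    obtain ⟨a1, a2, a3⟩ := H.rr_lt (i := k.val + 1) (by omega) k.2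
    have htv : tv h (Sum.inl k : Fin h ⊕ {j : Fin 2 // Unf M x y eG j}) =
      if 2 * (k.val + 1) = h then 1 else 0 := rfl
    rw [htv]
    by_cases hk : k.val + 1 = h
    · rw [if_neg (by omega)]
      apply hB _ (D.pow_mem H.hx _)
      intro hs
      have h4 := hs.orderOf_eq
      rw [a3.mpr hk, H.z_sq, orderOf_one, H.ord_z] at h4
      omega
    · have hne : rr h t (k.val + 1) ≠ h := fun hc => hk (a3.mp hc)
      have hnd := not_dvd_of_lt a1 a2 hne
      by_cases hk2 : 2 * (k.val + 1) = h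
      · rw [if_pos hk2]
        refine hA _ (D.pow_mem H.hx _) y H.hy ?_ ?_
        · rw [H.conj_pow, ← pow_add, add_comm h]
          exact ((H.rr_z (by omega) (by omega)).mpr hk2).symm
        · exact H.rank_x hM he hnd (L.ind _ (D.pow_mem H.hx _)).1 (L.mle _ (D.pow_mem H.hx _))
      · rw [if_neg hk2]
        apply hB _ (D.pow_mem H.hx _)
        intro hs
        rw [← pow_add, add_comm h] at hs
        have h5 : ¬ h ∣ rr h t (k.val + 1) + h := fun hc =>
          hnd ((Nat.dvd_add_left dvd_rfl).mp hc)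
        rcases H.fus_pow hM he L hnd h5 hs with h6 | h6
        · rw [pow_add] at h6
          exact H.z_ne (mul_left_cancel (h6.trans (mul_one _).symm))
        · exact hk2 ((H.rr_z (by omega) (by omega)).mp h6)
  · have htv : tv h (Sum.inr j : Fin h ⊕ {j : Fin 2 // Unf M x y eG j}) = 1 := rfl
    rw [htv]
    refine hA _ (H.yv_mem j.1) (x ^ (h / 2)) (D.pow_mem H.hx _)
      (H.conj_half (H.yv_mem j.1) (H.yv_out j.1)) ?_
    exact (H.nilp_out hM he L (H.yv_mem j.1) j.2.1).1

/-- **the central count** -/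
theorem central_count (hM : IsPModular 2 M) (hB : IsPBlock M B) (hD : IsDefectGroup 2 M B D)
    (he : haveI := charP_kM hM; MMax 2 D E)
    (hb : haveI := charP_kM hM; MPairOf 2 (eB M B) D E) (L : Loc M B D E eG)
    (H : MC D x y h t) (h2 : Two x y h) (hzc : ∀ g : G, g * x ^ h = x ^ h * g) :
    blockRank 2 (eG (x ^ h)) = blockRank 2 B ∧
      blockRank 2 B + Nat.card {j : Fin 2 // Unf M x y eG j} = 3 := by
  classical
  haveI := charP_kM hM
  haveI := Fintype.ofFinite {j : Fin 2 // Unf M x y eG j}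
  haveI : ∀ v : G, Fintype (Subgroup.centralizer (Subgroup.zpowers v : Set G)) :=
    fun v => Fintype.ofFinite _
  haveI hn : (Subgroup.zpowers (x ^ h)).Normal := by
    refine ⟨fun n hn g => ?_⟩
    rw [H.mem_zz] at hn ⊢
    rcases hn with rfl | rfl
    · left; group
    · right; rw [hzc g]; group
  have hz : x ^ h ∈ D := D.pow_mem H.hx h
  obtain ⟨om, h1, hom⟩ := exists_om H.z_sq hzc H.z_ne
  obtain ⟨F, hc⟩ := H.famC hM hB he hb L
  have hpos := H.pos
  -- the rank of the central involution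
  have hscz : ∀ χ ∈ Bfin B, sc 2 (x ^ h) (eG (x ^ h)) (χ : G → ℂ) (χ : G → ℂ) =
      regInner 2 ((χ : IrrCharacter G) : G → ℂ) (χ : G → ℂ) := by
    intro χ hχ
    rw [sc_central hM hB (L.pel _ hz) hzc rfl (L.ind _ hz) hom (mem_Bfin.mp hχ) (mem_Bfin.mp hχ),
      om_sq h1, one_mul]
  have hr1 : (blockRank 2 (eG (x ^ h)) : ℂ) = blockRank 2 B := by
    rw [← sum_sc_self hM (L.pel _ hz) (cent_eq rfl) (L.ind _ hz), Finset.sum_congr rfl hscz,
      sum_regInner_self hM hB]
  have hr : blockRank 2 (eG (x ^ h)) = blockRank 2 B := by exact_mod_cast hr1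
  refine ⟨hr, ?_⟩
  -- the total count
  have htr := H.trace_vf hM he L hzc h1 hom
  have hregtr : ∑ χ ∈ Bfin B, (om χ : ℂ) * regInner 2 (χ : G → ℂ) (χ : G → ℂ) = 0 := by
    have h3 := htr (Sum.inl ⟨h - 1, Nat.sub_lt H.pos one_pos⟩)
    have htv : tv h (Sum.inl ⟨h - 1, Nat.sub_lt H.pos one_pos⟩ :
      Fin h ⊕ {j : Fin 2 // Unf M x y eG j}) = if 2 * (h - 1 + 1) = h then 1 else 0 := rfl
    rw [htv, if_neg (by omega)] at h3
    rw [← h3]
    refine Finset.sum_congr rfl fun χ hχ => ?_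
    have h4 : vf M x y h t eG (Sum.inl ⟨h - 1, Nat.sub_lt H.pos one_pos⟩) = x ^ h := by
      change x ^ rr h t (h - 1 + 1) = x ^ h
      rw [Nat.sub_add_cancel H.pos, H.rr_h]
    rw [h4, hscz χ hχ]
  have hone : ∀ χ ∈ Bfin B, (1 : ℂ) + om χ = (1 + om χ) * regInner 2 (χ : G → ℂ) (χ : G → ℂ) +
      ∑ i, (1 + om χ) * sc 2 (vf M x y h t eG i) (eG (vf M x y h t eG i)) (χ : G → ℂ)
        (χ : G → ℂ) := by
    intro χ hχ
    rw [← Finset.mul_sum, ← mul_add, F.sum_sc hM hB hc (mem_Bfin.mp hχ) (mem_Bfin.mp hχ),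
      classInner_irr_self, mul_one]
  have htot := card_om hB h1 hom H.z_sq
  rw [H.card_dom hM hB hD h2 hzc, Finset.sum_congr rfl hone, Finset.sum_add_distrib,
    Finset.sum_comm] at htot
  have e1 : ∑ χ ∈ Bfin B, (1 + (om χ : ℂ)) * regInner 2 (χ : G → ℂ) (χ : G → ℂ) =
      blockRank 2 B := by
    rw [← sum_regInner_self hM hB, ← add_zero (∑ χ ∈ Bfin B, regInner 2 (χ : G → ℂ) (χ : G → ℂ)),
      ← hregtr, ← Finset.sum_add_distrib]
    exact Finset.sum_congr rfl fun χ _ => by ring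
  have e2 : ∀ i, ∑ χ ∈ Bfin B, (1 + (om χ : ℂ)) * sc 2 (vf M x y h t eG i)
      (eG (vf M x y h t eG i)) (χ : G → ℂ) (χ : G → ℂ) =
      (blockRank 2 (eG (vf M x y h t eG i)) : ℂ) + tv h i := by
    intro i
    rw [← htr i, ← sum_sc_self hM (F.pel i) (cent_eq rfl) (F.ind i), ← Finset.sum_add_distrib]
    exact Finset.sum_congr rfl fun χ _ => by ring
  rw [e1, Finset.sum_congr rfl (fun i _ => e2 i), Finset.sum_add_distrib] at htot
  have e3 : ∑ i, (blockRank 2 (eG (vf M x y h t eG i)) : ℂ) =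
      ((h : ℂ) - 1) * 1 + blockRank 2 (eG (x ^ h)) +
        (Fintype.card {j : Fin 2 // Unf M x y eG j} : ℂ) * 1 := by
    exact H.sum_rank hM he L
  have e4 : ∑ i : Fin h ⊕ {j : Fin 2 // Unf M x y eG j}, tv h i =
      1 + (Fintype.card {j : Fin 2 // Unf M x y eG j} : ℂ) := by
    rw [Fintype.sum_sum_type]
    congr 1
    · obtain ⟨c, hc⟩ := H.ht.1
      have hlt : c - 1 < h := by omega
      have htv : ∀ k : Fin h, tv h (Sum.inl k : Fin h ⊕ {j : Fin 2 // Unf M x y eG j}) =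
        if 2 * (k.val + 1) = h then 1 else 0 := fun _ => rfl
      rw [Finset.sum_eq_single_of_mem (⟨c - 1, hlt⟩ : Fin h) (Finset.mem_univ _), htv, if_pos]
      · simp only; omega
      · intro k _ hk
        rw [htv, if_neg]
        intro hk3
        apply hk
        apply Fin.ext
        simp only
        omega
    · have htv : ∀ j, tv h (Sum.inr j : Fin h ⊕ {j : Fin 2 // Unf M x y eG j}) = 1 := fun _ => rfl
      rw [Finset.sum_congr rfl (fun j _ => htv j),
        Finset.sum_const, Finset.card_univ, nsmul_eq_mul, mul_one]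
  rw [e3, e4, hr] at htot
  obtain ⟨c, hc⟩ := H.ht.1
  have hdiv : h / 2 = c := by omega
  rw [hdiv, hc] at htot
  push_cast at htot
  rw [Nat.card_eq_fintype_card]
  have h7 : ((2 * (blockRank 2 B + Fintype.card {j : Fin 2 // Unf M x y eG j}) : ℕ) : ℂ) =
      ((2 * 3 : ℕ) : ℂ) := by
    push_cast
    linear_combination htot
  have h8 : 2 * (blockRank 2 B + Fintype.card {j : Fin 2 // Unf M x y eG j}) = 2 * 3 := by
    exact_mod_cast h7
  omega

end MC

end Cfsg.Agent.H10
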