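import Cfsg.Agent.H10.CenCnt2

/-!
# The centralizer of the central involution and the global fusion (owner: helper10)
-/

set_option autoImplicit false
set_option linter.style.haveILetI false
set_option linter.unusedSectionVars false

namespace Cfsg.Agent.H10

open scoped BigOperators
open Cfsg Cfsg.Agent.CharBase Cfsg.Agent.Blk Cfsg.Agent.BlkF Cfsg.Agent.BlkInd Cfsg.Agent.BlkC
  Cfsg.Agent.Star Cfsg.Agent.H4 Cfsg.Agent.H10.Col MonoidAlgebra

universe u

theorem card_fin2 (P : Fin 2 → Prop) [DecidablePred P] :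
    Nat.card {j : Fin 2 // P j} = (if P 0 then 1 else 0) + (if P 1 then 1 else 0) := by
  rw [Nat.card_eq_fintype_card, Fintype.card_subtype, Finset.card_filter, Fin.sum_univ_two]

namespace MC

section grp

variable {G : Type*} [Group G] {D : Subgroup G} {x y : G} {h t : ℕ}

/-- the quaternion case -/
def Quat (x y : G) (h t : ℕ) : Prop := t = 2 * h - 1 ∧ y * y = x ^ h

/-- the semidihedral case -/
def SDih (y : G) (h t : ℕ) : Prop := 4 ∣ h ∧ t = h - 1 ∧ y * y = 1

theorem Quat.two (hq : Quat x y h t) : Two x y h := Or.inr hq.2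

theorem SDih.two (hq : SDih y h t) : Two x y h := Or.inl hq.2.2

/-- squares in the outer part -/
theorem sq_out (H : MC D x y h t) (i : ℕ) :
    x ^ i * y * (x ^ i * y) = x ^ ((t + 1) * i) * (y * y) := by
  have h2 : x ^ i * y * (x ^ i * y) = x ^ i * (y * x ^ i * y⁻¹) * (y * y) := by group
  rw [h2, H.conj_pow, ← pow_add]
  congr 2
  ring

theorem Quat.sq (hq : Quat x y h t) (H : MC D x y h t) {u : G} (hu : u ∈ D)
    (hux : u ∉ Subgroup.zpowers x) : u * u = x ^ h := by
  obtain ⟨i, rfl | rfl⟩ := H.cov u hu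
  · exact absurd (mem_zp i) hux
  · rw [H.sq_out, hq.2]
    have h1 : x ^ ((t + 1) * i) = 1 := by
      rw [H.pow_eq_one]
      have := H.pos
      exact ⟨i, by rw [show t + 1 = 2 * h by have := hq.1; omega]⟩
    rw [h1, one_mul]

theorem SDih.sq_xy (hq : SDih y h t) (H : MC D x y h t) : x * y * (x * y) = x ^ h := by
  have h1 := H.sq_out 1
  rw [pow_one, mul_one, hq.2.2, mul_one] at h1
  rw [h1]
  have := H.pos
  rw [show t + 1 = h by have := hq.2.1; omega]

theorem pow_sq_z (H : MC D x y h t) {i : ℕ} (h1 : orderOf (x ^ i) = 4) : x ^ i * x ^ i = x ^ h := by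
  have h2 : (x ^ i * x ^ i) * (x ^ i * x ^ i) = 1 := by
    have := pow_orderOf_eq_one (x ^ i)
    rw [h1] at this
    rw [← this]; group
  rw [← pow_add] at h2 ⊢
  rcases H.sq_pow h2 with h3 | h3
  · exfalso
    have h4 : (x ^ i) ^ 2 = 1 := by rw [pow_two, ← pow_add]; exact h3
    have := orderOf_dvd_of_pow_eq_one h4
    rw [h1] at this
    omega
  · exact h3

theorem ord_four (H : MC D x y h t) {u : G} (hu : u * u = x ^ h) : orderOf u = 4 := by
  have h1 : u ^ 2 = x ^ h := by rw [pow_two]; exact hu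
  have h2 : orderOf u = 2 ^ (1 + 1) := by
    apply orderOf_eq_prime_pow
    · rw [pow_one, h1]; exact H.z_ne
    · rw [show 1 + 1 = 2 by rfl, show (2 : ℕ) ^ 2 = 2 * 2 by norm_num, pow_mul, h1, pow_two, H.z_sq]
  rw [h2]; norm_num

end grp

section dict

variable {G : Type u} [Group G] [Fintype G] {M : Ideal AlgInt} [hMp : M.IsPrime]
  {B : Set (IrrCharacter G)} {D : Subgroup G} {x y : G} {h t : ℕ}
  {eG : ∀ v : G, Set (IrrCharacter (Subgroup.centralizer (Subgroup.zpowers v : Set G)))}
  {C : Subgroup G} [Fintype C] {bz : Set (IrrCharacter C)} {E' : MonoidAlgebra (kM M) C}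
  {eC : ∀ v : C, Set (IrrCharacter (Subgroup.centralizer (Subgroup.zpowers v : Set C)))}

theorem dict_EB (hM : IsPModular 2 M) (hDC : D ≤ C)
    (he : haveI := charP_kM hM; MMax 2 D (incl C E')) (L : Loc M B D (incl C E') eG)
    (L' : Loc M bz (D.subgroupOf C) E' eC) {u : C} (hu : (u : G) ∈ D)
    (hK : Subgroup.centralizer (Subgroup.zpowers (u : G) : Set G) ≤ C) :
    incl C (EB M _ (eC u)) = EB M _ (eG (u : G)) := by
  haveI := charP_kM hM
  have hmap : (Subgroup.zpowers u).map C.subtype = Subgroup.zpowers (u : G) := by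
    rw [MonoidHom.map_zpowers]; rfl
  have h1 := mle_incl (by rw [hmap]; exact hK) (L'.mle u (Subgroup.mem_subgroupOf.mpr hu))
  rw [hmap, map_subgroupOf hDC] at h1
  exact L.uniq hM he hu h1

/-- conjugacy in `G` and in the centralizer of the involution -/
theorem dict_SC (hM : IsPModular 2 M) (hDC : D ≤ C) {z : G}
    (hC : C = Subgroup.centralizer (Subgroup.zpowers z : Set G))
    (he : haveI := charP_kM hM; MMax 2 D (incl C E')) (L : Loc M B D (incl C E') eG)
    (L' : Loc M bz (D.subgroupOf C) E' eC) {u v : C} (hu : (u : G) ∈ D) (hv : (v : G) ∈ D)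
    (huz : (u : G) * u = z) (hvz : (v : G) * v = z) :
    SC M eG (u : G) (v : G) ↔ SC M eC u v := by
  have hK : ∀ w : C, (w : G) * w = z →
      Subgroup.centralizer (Subgroup.zpowers (w : G) : Set G) ≤ C := by
    intro w hw
    refine le_trans ?_ hC.ge
    refine centralizer_le_of_le (Subgroup.zpowers_le.mpr ?_)
    rw [← hw]
    exact Subgroup.mul_mem _ (Subgroup.mem_zpowers _) (Subgroup.mem_zpowers _)
  have h1 := dict_EB hM hDC he L L' hu (hK u huz)
  have h2 := dict_EB hM hDC he L L' hv (hK v hvz)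
  constructor
  · rintro ⟨g, hg, hg2⟩
    have hgC : g ∈ C := by
      rw [hC, centralizer_zpowers_eq, Subgroup.mem_centralizer_singleton_iff]
      have h3 : g * z * g⁻¹ = z := by
        calc g * z * g⁻¹ = g * ((u : G) * u) * g⁻¹ := by rw [huz]
          _ = (g * u * g⁻¹) * (g * u * g⁻¹) := by group
          _ = z := by rw [← hg]; exact hvz
      calc g * z = g * z * g⁻¹ * g := by group
        _ = z * g := by rw [h3]
    refine ⟨⟨g, hgC⟩, Subtype.ext hg, ?_⟩
    apply incl_injective
    rw [incl_cj, h1, h2]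
    exact hg2
  · rintro ⟨g, hg, hg2⟩
    refine ⟨(g : G), congrArg Subtype.val hg, ?_⟩
    rw [← h1, ← h2, hg2, incl_cj]

/-- the comparison data -/
theorem pack (hM : IsPModular 2 M) (hB : IsPBlock M B)
    (hD : IsDefectGroup 2 M B D) (H : MC D x y h t) (h2 : Quat x y h t ∨ SDih y h t) :
    haveI := charP_kM hM
    ∃ (E : MonoidAlgebra (kM M) G)
      (eG : ∀ v : G, Set (IrrCharacter (Subgroup.centralizer (Subgroup.zpowers v : Set G)))),
      MMax 2 D E ∧ MPairOf 2 (eB M B) D E ∧ Loc M B D E eG ∧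
      (Quat x y h t →
        blockRank 2 (eG (x ^ h)) + Nat.card {j : Fin 2 // Unf M x y eG j} = 3) ∧
      (SDih y h t → SC M eG y (x ^ h) →
        blockRank 2 (eG (x ^ h)) + Nat.card {j : Fin 2 // Unf M x y eG j} = 2) ∧
      (SDih y h t → ¬ SC M eG y (x ^ h) → 
        blockRank 2 (eG (x ^ h)) + Nat.card {j : Fin 2 // Unf M x y eG j} = 3) ∧
      (SDih y h t → blockRank 2 (eG (x ^ h)) ≤ 2) := by
  classical
  haveI := charP_kM hM
  have hD' : IsDef 2 ⊤ (eB M B) D := (Blk.isDefectGroup_iff hM hB D).1 hD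
  obtain ⟨E₀, he₀, hE₀⟩ := exists_mmax_on hM hB hD'
  set C : Subgroup G := Subgroup.centralizer (Subgroup.zpowers (x ^ h) : Set G) with hC
  haveI : Fintype C := Fintype.ofFinite _
  obtain ⟨bz, hbz1, hbz, -⟩ := exists_below hM hB he₀ hE₀ (D.pow_mem H.hx h)
  obtain ⟨E', he', hb', he, hE⟩ := H.exists_pair hM hD' hC hbz he₀ hbz1
  have hDC : D ≤ C := hC ▸ H.le_cent_z
  obtain ⟨eG, L⟩ := exists_Loc hM hB he hE
  obtain ⟨eC, L'⟩ := exists_Loc hM hbz.1 he' hb'
  have H' := H.sub hDC
  set x' : C := ⟨x, hDC H.hx⟩ with hx'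
  set y' : C := ⟨y, hDC H.hy⟩ with hy'
  have hzc : ∀ g : C, g * x' ^ h = x' ^ h * g := by
    rintro ⟨g, hg⟩
    apply Subtype.ext
    push_cast
    exact ((Subgroup.mem_centralizer_iff.mp hg) (x ^ h) (Subgroup.mem_zpowers _)).symm
  have htwo : Two x' y' h := by
    rcases h2 with h2 | h2
    · exact Or.inr (Subtype.ext h2.2)
    · exact Or.inl (Subtype.ext h2.2.2)
  have hDd : IsDefectGroup 2 M bz (D.subgroupOf C) := by
    rw [Blk.isDefectGroup_iff hM hbz.1, ← isDef_incl_top_iff, map_subgroupOf hDC, ← EB_eq]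
    exact H.isDef_z hM he₀ hbz1
  obtain ⟨r1, r2⟩ := H'.central_count hM hbz.1 hDd he' hb' L' htwo hzc
  -- the block of the involution
  have hez : eG (x ^ h) = bz := by
    have h3 := dict_EB hM hDC he L L' (u := x' ^ h) (D.pow_mem H.hx h) (le_of_eq hC.symm)
    have h4 := pairOf_central hbz.1 hzc (mpairOf_of_ind hM (L'.pel _ ((D.subgroupOf C).pow_mem H'.hx h))
      (cent_eq rfl) (L'.ind _ ((D.subgroupOf C).pow_mem H'.hx h)))
    rw [h4, ← EB_eq] at h3
    have h5 : EB M C bz = EB M C (eG (x ^ h)) := h3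
    exact (EB_injective hbz.1 (L.ind _ (D.pow_mem H.hx h)).1 h5).symm
  have hrk : blockRank 2 (eG (x ^ h)) = blockRank 2 bz := by rw [hez]
  -- elements of order four
  have hord : ∀ u : C, (u : G) ∈ D → (u : G) * u = x ^ h →
      ((∀ i : ℕ, ¬ SC M eG (u : G) (x ^ i)) ↔ ∀ i : ℕ, ¬ SC M eC u (x' ^ i)) := by
    intro u hu huz
    have h4 : orderOf (u : G) = 4 := H.ord_four huz
    have hiff : ∀ i, orderOf (x ^ i) = 4 → (SC M eG (u : G) (x ^ i) ↔ SC M eC u (x' ^ i)) := by
      intro i hi
      have := dict_SC hM hDC hC he L L' (u := u) (v := x' ^ i) hu (D.pow_mem H.hx i) huz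
        (H.pow_sq_z hi)
      exact this
    constructor
    · intro hh i hs
      have h5 := hs.orderOf_eq
      rw [← Subgroup.orderOf_coe, h4, ← Subgroup.orderOf_coe] at h5
      exact hh i ((hiff i h5.symm).mpr hs)
    · intro hh i hs
      have h5 := hs.orderOf_eq
      rw [h4] at h5
      exact hh i ((hiff i h5.symm).mp hs)
  refine ⟨incl C E', eG, he, hE, L, ?_, ?_, ?_, ?_⟩
  · intro hq
    rw [hrk, ← r2]
    congr 1
    refine Nat.card_congr (Equiv.subtypeEquivRight fun j => ?_)
    have hyv : ∀ j, ((yv x' y' j : C) : G) = yv x y j := by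
      intro j; unfold yv; split_ifs <;> rfl
    have hsq : ∀ j, ((yv x' y' j : C) : G) * (yv x' y' j : C) = x ^ h := by
      intro j; rw [hyv]; exact hq.sq H (H.yv_mem j) (H.yv_out j)
    have hmem : ∀ j, ((yv x' y' j : C) : G) ∈ D := by
      intro j; rw [hyv]; exact H.yv_mem j
    unfold Unf
    have h6 := hord (yv x' y' j) (hmem j) (hsq j)
    have h7 := dict_SC hM hDC hC he L L' (hmem 1) (hmem 0) (hsq 1) (hsq 0)
    rw [hyv] at h6
    rw [hyv, hyv] at h7
    rw [h6, h7]
  all_goals
    intro hq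
    have hyv : ∀ j, ((yv x' y' j : C) : G) = yv x y j := by
      intro j; unfold yv; split_ifs <;> rfl
    have hyv0 : yv x y 0 = y := rfl
    have hyv1 : yv x y 1 = x * y := rfl
    have hyv0' : yv x' y' 0 = y' := rfl
    have hyv1' : yv x' y' 1 = x' * y' := rfl
    have hsq1 : ((yv x' y' 1 : C) : G) * (yv x' y' 1 : C) = x ^ h := by
      rw [hyv, hyv1]; exact hq.sq_xy H
    have hmem : ∀ j, ((yv x' y' j : C) : G) ∈ D := by
      intro j; rw [hyv]; exact H.yv_mem j
    have hy1 : y ≠ 1 := by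
      intro hc
      exact H.hyx (hc ▸ Subgroup.one_mem _)
    have hordy : orderOf y = 2 := orderOf_eq_prime (by rw [pow_two]; exact hq.2.2) hy1
    have hordxy : orderOf (x * y) = 4 := H.ord_four (hq.sq_xy H)
    have hU1 : Unf M x y eG 1 ↔ Unf M x' y' eC 1 := by
      unfold Unf
      have h6 := hord (yv x' y' 1) (hmem 1) hsq1
      rw [hyv] at h6
      rw [h6]
      constructor
      · rintro ⟨h7, -⟩
        refine ⟨h7, fun _ hs => ?_⟩
        have h8 := hs.orderOf_eq
        rw [← Subgroup.orderOf_coe, ← Subgroup.orderOf_coe, hyv, hyv, hyv0, hyv1, hordy,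
          hordxy] at h8
        omega
      · rintro ⟨h7, -⟩
        refine ⟨h7, fun _ hs => ?_⟩
        have h8 := hs.orderOf_eq
        rw [hyv0, hyv1, hordy, hordxy] at h8
        omega
    have hU0C : Unf M x' y' eC 0 := by
      refine ⟨fun i hs => ?_, fun hc => absurd hc (by decide)⟩
      rw [hyv0'] at hs
      obtain ⟨g, hg, -⟩ := hs
      have h9 : (x' ^ i) * (x' ^ i) = 1 := by
        rw [hg]
        have : g * y' * g⁻¹ * (g * y' * g⁻¹) = g * (y' * y') * g⁻¹ := by group
        rw [this, show y' * y' = 1 from Subtype.ext hq.2.2]; group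
      rcases H'.sq_pow h9 with h10 | h10
      · rw [h10] at hg
        apply hy1
        have h11 : y' = g⁻¹ * (g * y' * g⁻¹) * g := by group
        rw [← hg, mul_one, inv_mul_cancel] at h11
        exact congrArg Subtype.val h11
      · rw [h10] at hg
        apply H'.hyx
        have h11 : y' = g⁻¹ * (g * y' * g⁻¹) * g := by group
        rw [← hg, mul_assoc, ← hzc g, ← mul_assoc, inv_mul_cancel, one_mul] at h11
        rw [h11]
        exact mem_zp h
    have hU0G : Unf M x y eG 0 ↔ ¬ SC M eG y (x ^ h) := by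
      constructor
      · intro hu; exact hu.1 h
      · intro hn
        refine ⟨fun i hs => ?_, fun hc => absurd hc (by decide)⟩
        rw [hyv0] at hs
        have h8 := hs.orderOf_eq
        rw [hordy] at h8
        have h9 : (x ^ i) * (x ^ i) = 1 := by
          have := pow_orderOf_eq_one (x ^ i)
          rw [← h8, pow_two] at this
          exact this
        rcases H.sq_pow h9 with h10 | h10
        · rw [h10, orderOf_one] at h8
          omega
        · rw [h10] at hs
          exact hn hs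
    rw [card_fin2, if_pos hU0C] at r2
  · intro hs
    rw [card_fin2, if_neg (by rw [hU0G]; exact fun hc => hc hs), hrk]
    have hU1' : (if Unf M x y eG 1 then 1 else 0) = if Unf M x' y' eC 1 then 1 else 0 :=
      if_congr hU1 rfl rfl
    rw [hU1']
    omega
  · intro hs
    rw [card_fin2, if_pos (by rw [hU0G]; exact hs), hrk]
    have hU1' : (if Unf M x y eG 1 then 1 else 0) = if Unf M x' y' eC 1 then 1 else 0 :=
      if_congr hU1 rfl rfl
    rw [hU1']
    omega
  · rw [hrk]
    omega

end dict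

end MC

end Cfsg.Agent.H10
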