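import Cfsg.Agent.H10.CenCnt

/-!
# The quotient of the defect group by the central involution (owner: helper10)
-/

set_option autoImplicit false
set_option linter.style.haveILetI false
set_option linter.unusedSectionVars false

namespace Cfsg.Agent.H10.MC

open scoped BigOperators
open Cfsg Cfsg.Agent.CharBase Cfsg.Agent.Blk Cfsg.Agent.BlkF Cfsg.Agent.BlkInd Cfsg.Agent.BlkC
  Cfsg.Agent.Star Cfsg.Agent.H4 Cfsg.Agent.H10.Col MonoidAlgebra

universe u

section grp

variable {G : Type*} [Group G] {D : Subgroup G} {x y : G} {h t : ℕ}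

theorem mem_zz (H : MC D x y h t) {g : G} :
    g ∈ Subgroup.zpowers (x ^ h) ↔ g = 1 ∨ g = x ^ h := by
  constructor
  · intro hg
    obtain ⟨a, rfl⟩ := Subgroup.mem_zpowers_iff.mp hg
    rcases Int.even_or_odd' a with ⟨k, hk | hk⟩
    · left
      rw [hk, zpow_mul, zpow_ofNat, pow_two, H.z_sq, one_zpow]
    · right
      rw [hk, zpow_add, zpow_mul, zpow_ofNat, pow_two, H.z_sq, one_zpow, one_mul, zpow_one]
  · rintro (rfl | rfl)
    · exact Subgroup.one_mem _
    · exact Subgroup.mem_zpowers _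

theorem pow_mem_zz (H : MC D x y h t) {k : ℕ} :
    x ^ k ∈ Subgroup.zpowers (x ^ h) ↔ h ∣ k := by
  rw [H.mem_zz]
  constructor
  · rintro (h1 | h1)
    · rw [H.pow_eq_one] at h1
      exact (Dvd.intro_left 2 rfl).trans h1
    · rw [H.pow_eq_pow] at h1
      have h2 : k ≡ h [MOD h] := h1.of_mul_left 2
      exact (Nat.modEq_zero_iff_dvd).mp (h2.trans (by
        unfold Nat.ModEq; rw [Nat.mod_self, Nat.zero_mod]))
  · rintro ⟨c, rfl⟩
    have h2 : x ^ (h * c) = (x ^ h) ^ c := pow_mul _ _ _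
    rw [← H.mem_zz, h2]
    exact Subgroup.npow_mem_zpowers _ _

/-- squares of outer elements -/
def Two (x y : G) (h : ℕ) : Prop := y * y = 1 ∨ y * y = x ^ h

theorem Two.mem (H : MC D x y h t) (h2 : Two x y h) : y * y ∈ Subgroup.zpowers (x ^ h) := by
  rw [H.mem_zz]; exact h2

variable [hn : (Subgroup.zpowers (x ^ h)).Normal]

theorem mk_eq_one (g : G) : (QuotientGroup.mk g : G ⧸ Subgroup.zpowers (x ^ h)) = 1 ↔
    g ∈ Subgroup.zpowers (x ^ h) := QuotientGroup.eq_one_iff g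

theorem mk_pow (g : G) (k : ℕ) : (QuotientGroup.mk (g ^ k) : G ⧸ Subgroup.zpowers (x ^ h)) =
    (QuotientGroup.mk g) ^ k := rfl

theorem ord_mk (H : MC D x y h t) :
    orderOf (QuotientGroup.mk x : G ⧸ Subgroup.zpowers (x ^ h)) = h := by
  apply Nat.dvd_antisymm
  · rw [orderOf_dvd_iff_pow_eq_one, ← mk_pow, mk_eq_one, H.pow_mem_zz]
  · rw [← H.pow_mem_zz, ← mk_eq_one, mk_pow, pow_orderOf_eq_one]

theorem conj_mk (H : MC D x y h t) :
    (QuotientGroup.mk y : G ⧸ Subgroup.zpowers (x ^ h)) * QuotientGroup.mk x *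
      (QuotientGroup.mk y)⁻¹ = (QuotientGroup.mk x) ^ (h - 1) := by
  have h1 : (QuotientGroup.mk y : G ⧸ Subgroup.zpowers (x ^ h)) * QuotientGroup.mk x *
      (QuotientGroup.mk y)⁻¹ = (QuotientGroup.mk x) ^ t := by
    rw [← mk_pow, ← H.conj]; rfl
  rw [h1, pow_eq_pow_iff_modEq, H.ord_mk]
  have hpos := H.pos
  rcases H.ht.2.2 with h2 | ⟨-, h2⟩
  · rw [h2]
    have : 2 * h - 1 = h + (h - 1) := by omega
    rw [this]
    exact Nat.add_modEq_left
  · rw [h2]

theorem quo {m : ℕ} (hm : 1 ≤ m) (H : MC D x y h t) (hh : h = 2 ^ (m + 1)) :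
    MC (D.map (QuotientGroup.mk' (Subgroup.zpowers (x ^ h)))) (QuotientGroup.mk x)
      (QuotientGroup.mk y) (2 ^ m) (2 * 2 ^ m - 1) where
  ht := ⟨dvd_pow_self 2 (by omega), by positivity, Or.inl rfl⟩
  hp := ⟨m, rfl⟩
  ordx := by rw [H.ord_mk, hh, pow_succ']
  hx := ⟨x, H.hx, rfl⟩
  hy := ⟨y, H.hy, rfl⟩
  conj := by
    have h1 : h - 1 = 2 * 2 ^ m - 1 := by rw [hh, pow_succ']
    rw [H.conj_mk]
    exact congrArg (fun k => (QuotientGroup.mk x : G ⧸ Subgroup.zpowers (x ^ h)) ^ k) h1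
  hyx := by
    intro hc
    obtain ⟨a, ha⟩ := Subgroup.mem_zpowers_iff.mp hc
    have h1 : (QuotientGroup.mk (x ^ a) : G ⧸ Subgroup.zpowers (x ^ h)) = QuotientGroup.mk y := ha
    rw [QuotientGroup.eq] at h1
    apply H.hyx
    have h2 : y = x ^ a * ((x ^ a)⁻¹ * y) := by group
    rw [h2]
    refine Subgroup.mul_mem _ (Subgroup.zpow_mem_zpowers _ _) ?_
    exact (Subgroup.zpowers_le.mpr (mem_zp h)) h1
  cov := by
    rintro d ⟨d, hd, rfl⟩
    obtain ⟨i, rfl | rfl⟩ := H.cov d hd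
    · exact ⟨i, Or.inl rfl⟩
    · exact ⟨i, Or.inr rfl⟩

theorem quo_dih {m : ℕ} (H : MC D x y h t) (h2 : Two x y h) :
    Dih (QuotientGroup.mk y : G ⧸ Subgroup.zpowers (x ^ h)) (2 ^ m) (2 * 2 ^ m - 1) :=
  ⟨rfl, (mk_eq_one (y * y)).mpr (h2.mem H)⟩

theorem quo_card [Finite G] (H : MC D x y h t) :
    Nat.card (D.map (QuotientGroup.mk' (Subgroup.zpowers (x ^ h)))) = 2 * h := by
  have h1 : Nat.card D = 4 * h := H.card
  have hle : Subgroup.zpowers (x ^ h) ≤ D := Subgroup.zpowers_le.mpr (D.pow_mem H.hx h)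
  have h2 : Nat.card (D.map (QuotientGroup.mk' (Subgroup.zpowers (x ^ h)))) *
      Nat.card (Subgroup.zpowers (x ^ h)) = Nat.card D := by
    have h3 := Subgroup.card_mul_index ((QuotientGroup.mk' (Subgroup.zpowers (x ^ h))).ker.subgroupOf D)
    have h4 := Subgroup.relIndex_ker D (QuotientGroup.mk' (Subgroup.zpowers (x ^ h)))
    rw [Subgroup.relIndex] at h4
    rw [h4] at h3
    rw [QuotientGroup.ker_mk', Nat.card_congr (Subgroup.subgroupOfEquivOfLe hle).toEquiv] at h3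
    rw [mul_comm]
    exact h3
  rw [Nat.card_zpowers, H.ord_z] at h2
  omega

theorem quo_klein [Finite G] (H : MC D x y 2 t) (h2 : Two x y 2)
    [hn : (Subgroup.zpowers (x ^ 2)).Normal] :
    IsKleinFour (D.map (QuotientGroup.mk' (Subgroup.zpowers (x ^ 2)))) := by
  have h4 : Nat.card (D.map (QuotientGroup.mk' (Subgroup.zpowers (x ^ 2)))) = 4 := H.quo_card
  have hsq : ∀ d ∈ D, d * d ∈ Subgroup.zpowers (x ^ 2) := by
    intro d hd
    obtain ⟨i, rfl | rfl⟩ := H.cov d hd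
    · rw [← pow_add, H.pow_mem_zz]
      exact ⟨i, by ring⟩
    · have h3 : x ^ i * y * (x ^ i * y) = x ^ i * (y * x ^ i * y⁻¹) * (y * y) := by group
      rw [h3, H.conj_pow, ← pow_add]
      refine Subgroup.mul_mem _ ?_ (h2.mem H)
      rw [H.pow_mem_zz]
      obtain ⟨k, hk⟩ := H.ht.odd
      exact ⟨(k + 1) * i, by rw [hk]; ring⟩
  refine ⟨h4, ?_⟩
  have h5 : Monoid.exponent (D.map (QuotientGroup.mk' (Subgroup.zpowers (x ^ 2)))) ∣ 2 := by
    rw [Monoid.exponent_dvd_iff_forall_pow_eq_one]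
    rintro ⟨_, d, hd, rfl⟩
    apply Subtype.ext
    have h6 : (QuotientGroup.mk (d * d) : G ⧸ Subgroup.zpowers (x ^ 2)) = 1 :=
      (mk_eq_one (d * d)).mpr (hsq d hd)
    have h7 : ((QuotientGroup.mk d : G ⧸ Subgroup.zpowers (x ^ 2))) ^ 2 = 1 :=
      (pow_two (QuotientGroup.mk d : G ⧸ Subgroup.zpowers (x ^ 2))).trans h6
    exact h7
  rcases (Nat.dvd_prime Nat.prime_two).mp h5 with h6 | h6
  · exfalso
    have h7 := Monoid.exp_eq_one_iff.mp h6
    have h8 := Nat.card_of_subsingleton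
      (1 : D.map (QuotientGroup.mk' (Subgroup.zpowers (x ^ 2))))
    omega
  · exact h6

end grp

variable {G : Type u} [Group G] [Fintype G] {M : Ideal AlgInt} [hMp : M.IsPrime]
  {B : Set (IrrCharacter G)} {D : Subgroup G} {E : MonoidAlgebra (kM M) G} {x y : G} {h t : ℕ}

/-- the number of characters of the block containing the central involution in their kernel -/
theorem card_dom (hM : IsPModular 2 M) (hB : IsPBlock M B) (hD : IsDefectGroup 2 M B D)
    (H : MC D x y h t) (h2 : Two x y h) (hzc : ∀ g : G, g * x ^ h = x ^ h * g)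
    [hn : (Subgroup.zpowers (x ^ h)).Normal] :
    Nat.card (dom (Subgroup.zpowers (x ^ h)) B) = h / 2 + 3 := by
  classical
  haveI : Fintype (G ⧸ Subgroup.zpowers (x ^ h)) := Fintype.ofFinite _
  haveI : ∀ v : G ⧸ Subgroup.zpowers (x ^ h),
    Fintype (Subgroup.centralizer (Subgroup.zpowers v : Set (G ⧸ Subgroup.zpowers (x ^ h)))) :=
    fun v => Fintype.ofFinite _
  have hQ : IsPGroup 2 (Subgroup.zpowers (x ^ h)) := by
    apply IsPGroup.of_card (n := 1)
    rw [Nat.card_zpowers, H.ord_z, pow_one]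
  have hQc : Subgroup.zpowers (x ^ h) ≤ Subgroup.center G := by
    rw [Subgroup.zpowers_le, Subgroup.mem_center_iff]
    exact hzc
  have h3 := isPBlock_dom hM hQ hQc hB
  have h4 := defect_dom hM hQ hQc hB hD
  obtain ⟨m, hm⟩ := H.hp
  obtain ⟨m, rfl⟩ : ∃ m', m = m' + 1 := by
    obtain ⟨c, hc⟩ := H.ht.1
    rcases m with _ | m
    · omega
    · exact ⟨m, rfl⟩
  rcases Nat.eq_zero_or_pos m with rfl | hm0
  · rw [zero_add, pow_one] at hm
    subst hm
    rw [klein_card hM h3 h4 (H.quo_klein h2)]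
  · have h5 := (Dih.main hM h3 h4 (H.quo hm0 hm) (H.quo_dih h2)).1
    rw [h5, hm, pow_succ, Nat.mul_div_cancel _ (by norm_num)]

end Cfsg.Agent.H10.MC
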