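import Cfsg.Agent.H10.RankCol2

/-!
# Convolution squares and subsections (owner: helper10)
-/

set_option autoImplicit false
set_option linter.style.haveILetI false
set_option linter.unusedSectionVars false

namespace Cfsg.Agent.H10.Col

open scoped ComplexConjugate BigOperators
open Cfsg Cfsg.Agent.CharBase Cfsg.Agent.Blk Cfsg.Agent.BlkInd Cfsg.Agent.BlkC Cfsg.Agent.Star
  Cfsg.Agent.H4 MonoidAlgebra

universe u

section convsec

variable {P : Type u} [Group P] [Fintype P]

/-- the convolution square of a class function -/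
theorem conv_self [Fintype (IrrCharacter P)] {F : P → ℂ} (hF : IsClassFunction P F) (g : P) :
    conv F F g = ∑ ζ : IrrCharacter P, (classInner F (ζ : P → ℂ)) ^ 2 *
      ((Nat.card P : ℂ) / (ζ : P → ℂ) 1) * (ζ : P → ℂ) g := by
  classical
  have h1 : ∀ y : P, F y * F (y⁻¹ * g) = ∑ ζ : IrrCharacter P, ∑ ξ : IrrCharacter P,
      classInner F (ζ : P → ℂ) * classInner F (ξ : P → ℂ) *
        ((ζ : P → ℂ) y * (ξ : P → ℂ) (y⁻¹ * g)) := by
    intro y
    rw [classFun_apply_eq_sum hF y, classFun_apply_eq_sum hF (y⁻¹ * g), Finset.sum_mul_sum]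
    exact Finset.sum_congr rfl fun ζ _ => Finset.sum_congr rfl fun ξ _ => by ring
  unfold conv
  rw [Finset.sum_congr rfl fun y _ => h1 y, Finset.sum_comm]
  refine Finset.sum_congr rfl fun ζ _ => ?_
  rw [Finset.sum_comm]
  have h2 : ∀ ξ : IrrCharacter P, ∑ y : P, classInner F (ζ : P → ℂ) * classInner F (ξ : P → ℂ) *
        ((ζ : P → ℂ) y * (ξ : P → ℂ) (y⁻¹ * g)) =
      if ζ = ξ then (classInner F (ζ : P → ℂ)) ^ 2 *
        ((Nat.card P : ℂ) / (ζ : P → ℂ) 1) * (ζ : P → ℂ) g else 0 := by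
    intro ξ
    rw [← Finset.mul_sum]
    have h3 : ∑ y : P, (ζ : P → ℂ) y * (ξ : P → ℂ) (y⁻¹ * g) =
        conv (ζ : P → ℂ) (ξ : P → ℂ) g := rfl
    rw [h3, conv_irr]
    by_cases h : ζ = ξ
    · rw [if_pos h, if_pos h, ← h]
      simp only [Pi.smul_apply, smul_eq_mul]
      ring
    · rw [if_neg h, if_neg h]; simp
  rw [Finset.sum_congr rfl fun ξ _ => h2 ξ, Finset.sum_ite_eq Finset.univ ζ,
    if_pos (Finset.mem_univ _)]

theorem conv_isClass {F F' : P → ℂ} (hF : IsClassFunction P F) (hF' : IsClassFunction P F') :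
    IsClassFunction P (conv F F') := conv_isClassFunction hF hF'

end convsec

section Dconv

variable {G : Type u} [Group G] [Fintype G] {p : ℕ} [hp : Fact p.Prime] {M : Ideal AlgInt}
  {C : Subgroup G} [Fintype C] {e : Set (IrrCharacter C)} {φ : C → ℂ} {d : IrrCharacter C → ℕ}

theorem D_sum {ι : Type*} (s : Finset ι) (x : G) (e : Set (IrrCharacter C))
    (d : IrrCharacter C → ℕ) (c : ι → ℂ) (χ : ι → G → ℂ) :
    D x e d (fun g => ∑ i ∈ s, c i * χ i g) = ∑ i ∈ s, c i * D x e d (χ i) := by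
  unfold D
  have h1 : ∀ η : IrrCharacter C, dco x (fun g => ∑ i ∈ s, c i * χ i g) η =
      ∑ i ∈ s, c i * dco x (χ i) η := by
    intro η
    unfold dco classInner shiftC
    simp only [Finset.sum_mul, Finset.mul_sum]
    rw [Finset.sum_comm]
    exact Finset.sum_congr rfl fun i _ => Finset.sum_congr rfl fun y _ => by ring
  simp only [h1, Finset.sum_mul, Finset.mul_sum]
  rw [Finset.sum_comm]
  exact Finset.sum_congr rfl fun i _ => Finset.sum_congr rfl fun y _ => by ring

/-- the column of a convolution square -/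
theorem D_conv (hM : IsPModular p M) {B : Set (IrrCharacter G)} {x : G}
    (hx : ∃ k : ℕ, orderOf x = p ^ k) (hC : C = Subgroup.centralizer ({x} : Set G))
    (hind : IsInducedBlock M C e B) (hR : R1 p e φ d) {F : G → ℂ} (hF : IsClassFunction G F) :
    D x e d (conv F F) = ∑ χ ∈ Bfin B, (classInner F (χ : G → ℂ)) ^ 2 *
      ((Nat.card G : ℂ) / (χ : G → ℂ) 1) * D x e d (χ : G → ℂ) := by
  classical
  haveI := Fintype.ofFinite (IrrCharacter G)
  have h1 : conv F F = fun g => ∑ ζ : IrrCharacter G, ((classInner F (ζ : G → ℂ)) ^ 2 *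
      ((Nat.card G : ℂ) / (ζ : G → ℂ) 1)) * (ζ : G → ℂ) g := funext fun g => conv_self hF g
  rw [h1, D_sum]
  symm
  refine Finset.sum_subset (Finset.subset_univ _) fun χ _ hχ => ?_
  rw [D_eq_zero hM hx hC hind hR (fun h => hχ (mem_Bfin.mpr h)), mul_zero]

/-- the column only depends on the values on `x c`, `c` regular -/
theorem D_congr (hM : IsPModular p M) (he : IsPBlock M e) (hR : R1 p e φ d) {x : G}
    {θ θ' : G → ℂ} (h : ∀ c : C, ¬ p ∣ orderOf c → θ (x * (c : G)) = θ' (x * (c : G))) :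
    D x e d θ = D x e d θ' := by
  rw [D_eq hR, D_eq hR, dpart_eq hM he θ one_reg, dpart_eq hM he θ' one_reg]
  congr 2
  refine Finset.sum_congr rfl fun c _ => ?_
  by_cases hc : p ∣ orderOf c
  · simp [hc]
  · simp only [if_neg hc]
    rw [h c hc]

end Dconv

section trans

variable {H K : Type u} [Group H] [Fintype H] [Group K] [Fintype K] {p : ℕ} [hp : Fact p.Prime]

theorem Bfin_irrMap (φ : H ≃* K) (b : Set (IrrCharacter H)) :
    Bfin (irrMap φ '' b) = (Bfin b).map (irrMap φ).toEmbedding := by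
  ext χ
  rw [mem_Bfin, Finset.mem_map]
  constructor
  · rintro ⟨η, hη, rfl⟩
    exact ⟨η, mem_Bfin.mpr hη, rfl⟩
  · rintro ⟨η, hη, rfl⟩
    exact ⟨η, mem_Bfin.mp hη, rfl⟩

theorem irrMap_apply (φ : H ≃* K) (χ : IrrCharacter H) (y : K) :
    ((irrMap φ χ : IrrCharacter K) : K → ℂ) y = (χ : H → ℂ) (φ.symm y) := rfl

theorem charDegree_irrMap (φ : H ≃* K) (χ : IrrCharacter H) :
    charDegree ((irrMap φ χ : IrrCharacter K) : K → ℂ) = charDegree (χ : H → ℂ) := by
  have h1 := charDegree_spec (irrMap φ χ)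
  have h2 := charDegree_spec χ
  rw [irrMap_apply, map_one, h2] at h1
  exact_mod_cast h1.symm

theorem blockDefect_irrMap (φ : H ≃* K) (b : Set (IrrCharacter H)) :
    blockDefect p (irrMap φ '' b) = blockDefect p b := by
  unfold blockDefect
  rw [Nat.card_congr φ.symm.toEquiv, Set.image_image]
  congr 2
  apply Set.image_congr
  intro χ _
  rw [charDegree_irrMap]

theorem R1.map {b : Set (IrrCharacter H)} {ϕ : H → ℂ} {d : IrrCharacter H → ℕ} (hR : R1 p b ϕ d)
    (φ : H ≃* K) : R1 p (irrMap φ '' b) (fun y => ϕ (φ.symm y)) (fun χ => d ((irrMap φ).symm χ)) where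
  eq := by
    rintro _ ⟨χ, hχ, rfl⟩ y hy
    rw [irrMap_apply, hR.eq χ hχ (φ.symm y) (by rwa [MulEquiv.orderOf_eq]), Equiv.symm_apply_apply]
  sum := by
    rw [Bfin_irrMap, Finset.sum_map, blockDefect_irrMap, ← hR.sum]
    refine Finset.sum_congr rfl fun χ _ => ?_
    rw [Equiv.coe_toEmbedding, Equiv.symm_apply_apply]
  comb := by
    obtain ⟨n, hn⟩ := hR.comb
    refine ⟨fun χ => n ((irrMap φ).symm χ), ?_⟩
    rw [Bfin_irrMap, Finset.sum_map, ← hn]
    refine Finset.sum_congr rfl fun χ _ => ?_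
    simp only [Equiv.coe_toEmbedding, Equiv.symm_apply_apply]
  ne := by
    rw [map_one]; exact hR.ne

theorem blockKernel_irrMap (φ : H ≃* K) (b : Set (IrrCharacter H)) (x y : H) :
    blockKernel (irrMap φ '' b) (φ x) (φ y) = blockKernel b x y := by
  rw [blockKernel_eq_Bfin, blockKernel_eq_Bfin, Bfin_irrMap, Finset.sum_map]
  refine Finset.sum_congr rfl fun χ _ => ?_
  rw [Equiv.coe_toEmbedding, irrMap_apply, irrMap_apply, MulEquiv.symm_apply_apply,
    MulEquiv.symm_apply_apply]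

end trans

section trans2

variable {G : Type u} [Group G] [Fintype G] {p : ℕ} [hp : Fact p.Prime] {M : Ideal AlgInt}
  {H : Subgroup G} [Fintype H] {N : Subgroup H} {K : Subgroup G} [Fintype N] [Fintype K]

/-- **transport of columns** from a subgroup to the group -/
theorem D_transport (hM : IsPModular p M) (φ : N ≃* K) (hφ : ∀ n : N, ((φ n : K) : G) = ((n : H) : G))
    {e : Set (IrrCharacter N)} (he : IsPBlock M e) {ϕ : N → ℂ} {d : IrrCharacter N → ℕ}
    (hR : R1 p e ϕ d) {u : H} {θ : G → ℂ} {θ' : H → ℂ}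
    (h : ∀ n : N, ¬ p ∣ orderOf n → θ ((u : G) * ((n : H) : G)) = θ' (u * (n : H))) :
    D (u : G) (irrMap φ '' e) (fun χ => d ((irrMap φ).symm χ)) θ = D u e d θ' := by
  rw [D_eq (hR.map φ), D_eq hR, dpart_eq hM (isPBlock_image φ he) θ one_reg,
    dpart_eq hM he θ' one_reg, map_one]
  congr 2
  · rw [Nat.card_congr φ.toEquiv]
  · symm
    refine Fintype.sum_equiv φ.toEquiv _ _ fun n => ?_
    change _ = if p ∣ orderOf (φ n) then 0 else blockKernel (irrMap φ '' e) 1 (φ n) *
      θ ((u : G) * ((φ n : K) : G))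
    rw [MulEquiv.orderOf_eq]
    by_cases hn : p ∣ orderOf n
    · simp [hn]
    · simp only [if_neg hn]
      rw [hφ, h n hn, ← map_one φ, blockKernel_irrMap]

end trans2

end Cfsg.Agent.H10.Col
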