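import Mathlib

/-!
# Integral columns over a cyclotomic ring of `2`-power order (owner: helper10)

A family `f i χ` (`i` odd) with `f i χ = P_χ(ζ^i)`, `ζ` a primitive `2h`-th root of unity, invariant
under `i ↦ t i` (`t ≡ -1` mod `h`), orthogonal otherwise: its coefficients.
-/

set_option autoImplicit false
set_option linter.unusedSectionVars false

namespace Cfsg.Agent.H10.Cyc

open scoped ComplexConjugate BigOperators

variable {h : ℕ} {ζ : ℂ}

theorem zeta_ne (hh : 0 < h) (hζ : IsPrimitiveRoot ζ (2 * h)) : ζ ≠ 0 :=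
  hζ.ne_zero (by omega)

theorem zeta_half (hh : 0 < h) (hζ : IsPrimitiveRoot ζ (2 * h)) : ζ ^ h = -1 := by
  have h1 : (ζ ^ h) ^ 2 = 1 := by rw [← pow_mul, mul_comm h 2, hζ.pow_eq_one]
  have h2 : ζ ^ h ≠ 1 := hζ.pow_ne_one_of_pos_of_lt (by omega) (by omega)
  rcases (sq_eq_one_iff.mp h1 : _ ∨ _) with h3 | h3
  · exact absurd h3 h2
  · exact h3

theorem conj_zeta (hh : 0 < h) (hζ : IsPrimitiveRoot ζ (2 * h)) : conj ζ = ζ⁻¹ := by
  have h1 : ‖ζ‖ = 1 := hζ.norm'_eq_one (by omega)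
  rw [Complex.inv_def, Complex.normSq_eq_norm_sq, h1]
  simp

/-- the sum of the odd powers -/
theorem sum_odd (hh : 0 < h) (hζ : IsPrimitiveRoot ζ (2 * h)) (j : ℤ) :
    ∑ k ∈ Finset.range h, ζ ^ ((2 * (k : ℤ) + 1) * j) =
      if ((2 * h : ℕ) : ℤ) ∣ j then (h : ℂ) else if (h : ℤ) ∣ j then -(h : ℂ) else 0 := by
  have hz := zeta_ne hh hζ
  have h1 : ∀ k : ℕ, ζ ^ ((2 * (k : ℤ) + 1) * j) = ζ ^ j * ((ζ ^ (2 * j)) ^ k) := by
    intro k
    rw [← zpow_natCast, ← zpow_mul, ← zpow_add₀ hz]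
    congr 1
    ring
  rw [Finset.sum_congr rfl fun k _ => h1 k, ← Finset.mul_sum]
  by_cases hj : (h : ℤ) ∣ j
  · obtain ⟨c, rfl⟩ := hj
    have h2 : ζ ^ (2 * ((h : ℤ) * c)) = 1 := by
      rw [hζ.zpow_eq_one_iff_dvd]
      exact ⟨c, by push_cast; ring⟩
    rw [h2]
    simp only [one_pow, Finset.sum_const, Finset.card_range, nsmul_eq_mul, mul_one]
    have h3 : ζ ^ ((h : ℤ) * c) = (-1) ^ c := by
      rw [zpow_mul, zpow_natCast, zeta_half hh hζ]
    rw [h3]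
    by_cases hc : (2 : ℤ) ∣ c
    · obtain ⟨d, rfl⟩ := hc
      rw [if_pos ⟨d, by push_cast; ring⟩]
      rw [zpow_mul]
      norm_num
    · rw [if_neg, if_pos (dvd_mul_right _ _)]
      · have : Odd c := by
          rw [← Int.not_even_iff_odd]
          intro he
          exact hc he.two_dvd
        rw [this.neg_one_zpow]
        ring
      · rintro ⟨d, hd⟩
        apply hc
        refine ⟨d, ?_⟩
        have h4 : (h : ℤ) * c = (h : ℤ) * (2 * d) := by rw [hd]; push_cast; ring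
        exact mul_left_cancel₀ (by exact_mod_cast hh.ne') h4
  · have h2 : ζ ^ (2 * j) ≠ 1 := by
      rw [Ne, hζ.zpow_eq_one_iff_dvd]
      rintro ⟨c, hc⟩
      apply hj
      refine ⟨c, ?_⟩
      have : (2 : ℤ) * j = 2 * (h * c) := by rw [hc]; push_cast; ring
      exact mul_left_cancel₀ two_ne_zero this
    rw [if_neg, if_neg hj]
    · have h3 : ∑ k ∈ Finset.range h, (ζ ^ (2 * j)) ^ k = 0 := by
        have := geom_sum_eq h2 h
        rw [this]
        have h4 : (ζ ^ (2 * j)) ^ h = 1 := by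
          rw [← zpow_natCast, ← zpow_mul, hζ.zpow_eq_one_iff_dvd]
          exact ⟨j, by push_cast; ring⟩
        rw [h4, sub_self, zero_div]
      rw [h3, mul_zero]
    · rintro ⟨c, hc⟩
      exact hj ⟨2 * c, by rw [hc]; push_cast; ring⟩

/-- the coefficient functional -/
noncomputable def cf (ζ : ℂ) (h : ℕ) (g : ℕ → ℂ) (j : ℤ) : ℂ :=
  (h : ℂ)⁻¹ * ∑ k ∈ Finset.range h, g (2 * k + 1) * ζ ^ (-((2 * (k : ℤ) + 1) * j))

theorem cf_eq (hh : 0 < h) (hζ : IsPrimitiveRoot ζ (2 * h)) {g : ℕ → ℂ} {A : ℕ → ℂ}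
    (hg : ∀ i, Odd i → g i = ∑ l ∈ Finset.range h, A l * ζ ^ (i * l)) (j : ℤ) :
    cf ζ h g j = ∑ l ∈ Finset.range h, A l *
      (if ((2 * h : ℕ) : ℤ) ∣ ((l : ℤ) - j) then 1 else if (h : ℤ) ∣ ((l : ℤ) - j) then -1 else 0) := by
  have hz := zeta_ne hh hζ
  have hh0 : (h : ℂ) ≠ 0 := by exact_mod_cast hh.ne'
  unfold cf
  have h1 : ∀ k ∈ Finset.range h, g (2 * k + 1) * ζ ^ (-((2 * (k : ℤ) + 1) * j)) =
      ∑ l ∈ Finset.range h, A l * ζ ^ ((2 * (k : ℤ) + 1) * ((l : ℤ) - j)) := by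
    intro k _
    rw [hg (2 * k + 1) ⟨k, rfl⟩, Finset.sum_mul]
    refine Finset.sum_congr rfl fun l _ => ?_
    rw [mul_assoc, ← zpow_natCast, ← zpow_add₀ hz]
    congr 2
    push_cast
    ring
  rw [Finset.sum_congr rfl h1, Finset.sum_comm, Finset.mul_sum]
  refine Finset.sum_congr rfl fun l _ => ?_
  rw [← Finset.mul_sum, sum_odd hh hζ]
  split_ifs
  · field_simp
  · field_simp
  · simp

theorem cf_eq_coeff (hh : 0 < h) (hζ : IsPrimitiveRoot ζ (2 * h)) {g : ℕ → ℂ} {A : ℕ → ℂ}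
    (hg : ∀ i, Odd i → g i = ∑ l ∈ Finset.range h, A l * ζ ^ (i * l)) {j : ℕ} (hj : j < h) :
    cf ζ h g (j : ℤ) = A j := by
  rw [cf_eq hh hζ hg]
  rw [Finset.sum_eq_single j]
  · simp
  · intro l hl hlj
    rw [Finset.mem_range] at hl
    rw [if_neg, if_neg, mul_zero]
    · intro hd
      have := Int.eq_zero_of_abs_lt_dvd hd (by rw [abs_lt]; constructor <;> omega)
      omega
    · intro hd
      have := Int.eq_zero_of_abs_lt_dvd hd (by rw [abs_lt]; constructor <;> push_cast <;> omega)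
      omega
  · intro hn
    exact absurd (Finset.mem_range.mpr hj) hn

/-- folding of a polynomial in `ζ` of degree below `2h` -/
theorem fold (hh : 0 < h) (hζ : IsPrimitiveRoot ζ (2 * h)) (P : ℕ → ℤ) {i : ℕ} (hi : Odd i) :
    ∑ k ∈ Finset.range (2 * h), (P k : ℂ) * ζ ^ (i * k) =
      ∑ l ∈ Finset.range h, ((P l - P (l + h) : ℤ) : ℂ) * ζ ^ (i * l) := by
  rw [two_mul, Finset.sum_range_add, ← Finset.sum_add_distrib]
  refine Finset.sum_congr rfl fun l _ => ?_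
  have h1 : ζ ^ (i * (h + l)) = - ζ ^ (i * l) := by
    rw [mul_add, pow_add, mul_comm i h, pow_mul ζ h i, zeta_half hh hζ, hi.neg_one_pow]
    ring
  rw [h1, add_comm h l]
  push_cast
  ring

/-- The hypotheses on a family of columns. -/
structure Lev {ι : Type*} (I : Finset ι) (h t N : ℕ) (ζ : ℂ) (f : ℕ → ι → ℂ) : Prop where
  poly : ∀ χ ∈ I, ∃ A : ℕ → ℤ, ∀ i, Odd i → f i χ = ∑ l ∈ Finset.range h, (A l : ℂ) * ζ ^ (i * l)
  inv : ∀ χ ∈ I, ∀ i, Odd i → f (t * i) χ = f i χ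
  norm : ∀ i, Odd i → ∑ χ ∈ I, f i χ * conj (f i χ) = N
  orth : ∀ i i', Odd i → Odd i' → ¬ i' ≡ i [MOD 2 * h] → ¬ i' ≡ t * i [MOD 2 * h] →
    ∑ χ ∈ I, f i χ * conj (f i' χ) = 0

/-- `t = 2h - 1`, or `t = h - 1` with `4 ∣ h`. -/
def IsT (h t : ℕ) : Prop := 2 ∣ h ∧ 0 < h ∧ (t = 2 * h - 1 ∨ (4 ∣ h ∧ t = h - 1))

theorem IsT.odd {t : ℕ} (ht : IsT h t) : Odd t := by
  obtain ⟨h2, h0, h3 | ⟨h3, h4⟩⟩ := ht
  · subst h3
    exact ⟨h - 1, by omega⟩
  · subst h4
    obtain ⟨c, rfl⟩ := h3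
    exact ⟨2 * c - 1, by omega⟩

theorem IsT.dvd_add_one {t : ℕ} (ht : IsT h t) : (h : ℤ) ∣ (t : ℤ) + 1 := by
  obtain ⟨h2, h0, h3 | ⟨h3, h4⟩⟩ := ht
  · exact ⟨2, by omega⟩
  · exact ⟨1, by omega⟩

theorem IsT.sq {t : ℕ} (ht : IsT h t) : ((2 * h : ℕ) : ℤ) ∣ (t : ℤ) * t - 1 := by
  obtain ⟨h2, h0, h3 | ⟨h3, h4⟩⟩ := ht
  · refine ⟨2 * h - 2, ?_⟩
    have : (t : ℤ) = 2 * h - 1 := by omega
    rw [this]; push_cast; ring
  · obtain ⟨c, hc⟩ := h3
    refine ⟨2 * c - 1, ?_⟩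
    have h5 : (t : ℤ) = h - 1 := by omega
    have h6 : (h : ℤ) = 4 * c := by exact_mod_cast hc
    rw [h5]; push_cast; rw [h6]; ring

section

variable {ι : Type*} {I : Finset ι} {t N : ℕ} {f : ℕ → ι → ℂ}

theorem pow_congr (hζ : IsPrimitiveRoot ζ (2 * h)) {i i' : ℕ} (hii : i ≡ i' [MOD 2 * h]) :
    ζ ^ i = ζ ^ i' := by
  have h1 : (2 * h) = orderOf ζ := hζ.eq_orderOf
  rw [← pow_mod_orderOf, ← pow_mod_orderOf (n := i'), ← h1, hii]

theorem Lev.periodic (hζ : IsPrimitiveRoot ζ (2 * h)) (H : Lev I h t N ζ f)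
    {χ : ι} (hχ : χ ∈ I) {i i' : ℕ} (hi : Odd i) (hi' : Odd i') (hii : i ≡ i' [MOD 2 * h]) :
    f i χ = f i' χ := by
  obtain ⟨A, hA⟩ := H.poly χ hχ
  rw [hA i hi, hA i' hi']
  refine Finset.sum_congr rfl fun l _ => ?_
  congr 1
  rw [pow_mul, pow_mul, pow_congr hζ hii]

/-- the permutation of the odd residues induced by `t` -/
def tau (h t k : ℕ) : ℕ := ((t * (2 * k + 1)) % (2 * h)) / 2

theorem tau_lt (hh : 0 < h) (k : ℕ) : tau h t k < h := by
  unfold tau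
  have := Nat.mod_lt (t * (2 * k + 1)) (show 0 < 2 * h by omega)
  omega

theorem tau_spec (ht : Odd t) (k : ℕ) :
    2 * tau h t k + 1 = (t * (2 * k + 1)) % (2 * h) := by
  unfold tau
  have h1 : Odd (t * (2 * k + 1)) := ht.mul ⟨k, rfl⟩
  have h2 : (t * (2 * k + 1)) % (2 * h) % 2 = 1 := by
    rw [Nat.mod_mul_right_mod]
    exact Nat.odd_iff.mp h1
  omega

theorem tau_modEq (ht : Odd t) (k : ℕ) :
    2 * tau h t k + 1 ≡ t * (2 * k + 1) [MOD 2 * h] := by
  rw [tau_spec ht]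
  exact Nat.mod_modEq _ _

theorem tau_ne (ht : IsT h t) {k : ℕ} (hk : k < h) (hh : 2 ≤ h) : tau h t k ≠ k := by
  intro hc
  have h1 := tau_modEq (h := h) ht.odd k
  rw [hc] at h1
  have h2 := (Nat.modEq_iff_dvd.mp h1)
  push_cast at h2
  have h3 : (h : ℤ) ∣ ((t : ℤ) + 1) * (2 * k + 1) := ht.dvd_add_one.mul_right _
  have h4 : (h : ℤ) ∣ 2 * (2 * (k : ℤ) + 1) := by
    have h5 : (h : ℤ) ∣ (t : ℤ) * (2 * k + 1) - (2 * k + 1) := Dvd.dvd.trans ⟨2, by ring⟩ h2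
    have := dvd_sub h3 h5
    ring_nf at this ⊢
    exact this
  obtain ⟨h2', h0, h6 | ⟨h6, h7⟩⟩ := ht
  · -- t = 2h - 1
    have h8 : (t : ℤ) = 2 * h - 1 := by omega
    rw [h8] at h2
    have h9 : (2 * (h : ℤ)) ∣ 2 * (2 * (k : ℤ) + 1) := by
      have h10 : (2 * (h : ℤ)) ∣ (2 * h) * (2 * k + 1) := dvd_mul_right _ _
      have := dvd_sub h10 h2
      ring_nf at this ⊢
      exact this
    have h11 : (h : ℤ) ∣ 2 * k + 1 := by
      obtain ⟨c, hc'⟩ := h9
      exact ⟨c, by linarith⟩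
    obtain ⟨c, hc'⟩ := h11
    obtain ⟨d, hd⟩ := h2'
    have : (h : ℤ) = 2 * d := by exact_mod_cast hd
    rw [this] at hc'
    have : (2 * (k : ℤ) + 1) = 2 * (d * c) := by linarith
    omega
  · obtain ⟨c, hc'⟩ := h6
    obtain ⟨d, hd⟩ := h4
    have : (h : ℤ) = 4 * c := by exact_mod_cast hc'
    rw [this] at hd
    have : (2 * (2 * (k : ℤ) + 1)) = 4 * (c * d) := by linarith
    omega

theorem tau_tau (ht : IsT h t) {k : ℕ} (hk : k < h) : tau h t (tau h t k) = k := by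
  have h1 := tau_modEq (h := h) ht.odd k
  have h2 := tau_modEq (h := h) ht.odd (tau h t k)
  have h3 : t * (2 * tau h t k + 1) ≡ t * (t * (2 * k + 1)) [MOD 2 * h] := h1.mul_left _
  have h4 : t * (t * (2 * k + 1)) ≡ 2 * k + 1 [MOD 2 * h] := by
    apply Nat.ModEq.symm
    rw [Nat.modEq_iff_dvd]
    push_cast
    have := ht.sq.mul_right (2 * (k : ℤ) + 1)
    push_cast at this
    ring_nf at this ⊢
    exact this
  have h5 := (h2.trans h3).trans h4
  have h6 : 2 * tau h t (tau h t k) + 1 < 2 * h := by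
    have := tau_lt (t := t) ht.2.1 (tau h t k)
    omega
  have h7 := Nat.ModEq.eq_of_lt_of_lt h5 h6 (by omega)
  omega

/-- the Gram matrix of the coefficient columns -/
theorem Lev.gram_cf (ht : IsT h t) (hζ : IsPrimitiveRoot ζ (2 * h)) (H : Lev I h t N ζ f)
    (j j' : ℤ) :
    ∑ χ ∈ I, cf ζ h (fun i => f i χ) j * conj (cf ζ h (fun i => f i χ) j') =
      (N : ℂ) / h * ((if ((2 * h : ℕ) : ℤ) ∣ (j' - j) then 1 else if (h : ℤ) ∣ (j' - j) then -1 else 0)
        + (if ((2 * h : ℕ) : ℤ) ∣ (t * j' - j) then 1 else if (h : ℤ) ∣ (t * j' - j) then -1 else 0)) := by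
  classical
  have hh : 0 < h := ht.2.1
  have hh2 : 2 ≤ h := Nat.le_of_dvd hh ht.1
  have hz := zeta_ne hh hζ
  have hh0 : (h : ℂ) ≠ 0 := by exact_mod_cast hh.ne'
  have hconj : ∀ n : ℤ, conj (ζ ^ n) = ζ ^ (-n) := by
    intro n
    rw [map_zpow₀, conj_zeta hh hζ, inv_zpow']
  have hsum : ∀ k ∈ Finset.range h, ∀ k' ∈ Finset.range h,
      ∑ χ ∈ I, f (2 * k + 1) χ * conj (f (2 * k' + 1) χ) =
        (if k' = k then (N : ℂ) else 0) + (if k' = tau h t k then (N : ℂ) else 0) := by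
    intro k hk k' hk'
    rw [Finset.mem_range] at hk hk'
    by_cases h1 : k' = k
    · subst h1
      rw [if_pos rfl, if_neg (tau_ne ht hk hh2).symm, add_zero]
      exact H.norm _ ⟨_, rfl⟩
    by_cases h2 : k' = tau h t k
    · rw [if_neg h1, if_pos h2, zero_add, h2, ← H.norm (2 * k + 1) ⟨k, rfl⟩]
      refine Finset.sum_congr rfl fun χ hχ => ?_
      congr 2
      rw [H.periodic hζ hχ ⟨_, rfl⟩ (ht.odd.mul ⟨k, rfl⟩) (tau_modEq ht.odd k), H.inv χ hχ _ ⟨k, rfl⟩]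
    · rw [if_neg h1, if_neg h2, add_zero]
      refine H.orth _ _ ⟨k, rfl⟩ ⟨k', rfl⟩ ?_ ?_
      · intro hc
        have := Nat.ModEq.eq_of_lt_of_lt hc (by omega) (by omega)
        omega
      · intro hc
        have h3 := hc.trans (tau_modEq (h := h) ht.odd k).symm
        have := Nat.ModEq.eq_of_lt_of_lt h3 (by omega) (by have := tau_lt (t := t) hh k; omega)
        omega
  have h1 : ∑ χ ∈ I, cf ζ h (fun i => f i χ) j * conj (cf ζ h (fun i => f i χ) j') =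
      (h : ℂ)⁻¹ * (h : ℂ)⁻¹ * ∑ k ∈ Finset.range h, ∑ k' ∈ Finset.range h,
        ζ ^ (-((2 * (k : ℤ) + 1) * j)) * ζ ^ ((2 * (k' : ℤ) + 1) * j') *
          ∑ χ ∈ I, f (2 * k + 1) χ * conj (f (2 * k' + 1) χ) := by
    simp only [cf, map_mul, map_sum, map_inv₀, Complex.conj_natCast, hconj, neg_neg]
    simp only [Finset.mul_sum, Finset.sum_mul]
    conv_rhs => rw [Finset.sum_comm]
    rw [Finset.sum_comm]
    refine Finset.sum_congr rfl fun k _ => ?_
    rw [Finset.sum_comm]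
    refine Finset.sum_congr rfl fun k' _ => ?_
    refine Finset.sum_congr rfl fun χ _ => ?_
    ring
  rw [h1]
  have h2 : ∑ k ∈ Finset.range h, ∑ k' ∈ Finset.range h,
        ζ ^ (-((2 * (k : ℤ) + 1) * j)) * ζ ^ ((2 * (k' : ℤ) + 1) * j') *
          ∑ χ ∈ I, f (2 * k + 1) χ * conj (f (2 * k' + 1) χ) =
      (N : ℂ) * (∑ k ∈ Finset.range h, ζ ^ ((2 * (k : ℤ) + 1) * (j' - j)) +
        ∑ k ∈ Finset.range h, ζ ^ ((2 * (k : ℤ) + 1) * (t * j' - j))) := by
    rw [← Finset.sum_add_distrib, Finset.mul_sum]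
    refine Finset.sum_congr rfl fun k hk => ?_
    rw [Finset.sum_congr rfl fun k' hk' => by rw [hsum k hk k' hk']]
    simp only [mul_add, Finset.sum_add_distrib, mul_ite, mul_zero, Finset.sum_ite_eq', hk,
      if_true, Finset.mem_range.mpr (tau_lt (t := t) hh k)]
    congr 1
    · rw [← zpow_add₀ hz, mul_comm]
      congr 2
      ring
    · have h3 : ζ ^ ((2 * ((tau h t k : ℕ) : ℤ) + 1) * j') = ζ ^ (((t : ℤ) * (2 * k + 1)) * j') := by
        rw [zpow_mul, zpow_mul]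
        congr 1
        have := pow_congr hζ (tau_modEq (h := h) ht.odd k)
        rw [← zpow_natCast, ← zpow_natCast] at this
        push_cast at this
        exact this
      rw [h3, ← zpow_add₀ hz, mul_comm]
      congr 2
      ring
  rw [h2, sum_odd hh hζ, sum_odd hh hζ]
  split_ifs <;> field_simp <;> ring

/-- the invariance of the coefficient functional -/
theorem Lev.cf_inv (ht : IsT h t) (hζ : IsPrimitiveRoot ζ (2 * h)) (H : Lev I h t N ζ f)
    {χ : ι} (hχ : χ ∈ I) (j : ℤ) :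
    cf ζ h (fun i => f i χ) j = cf ζ h (fun i => f i χ) (t * j) := by
  have hh : 0 < h := ht.2.1
  have hz := zeta_ne hh hζ
  unfold cf
  congr 1
  refine Finset.sum_nbij' (fun k => tau h t k) (fun k => tau h t k) ?_ ?_ ?_ ?_ ?_
  · intro k _
    exact Finset.mem_range.mpr (tau_lt hh k)
  · intro k _
    exact Finset.mem_range.mpr (tau_lt hh k)
  · intro k hk
    exact tau_tau ht (Finset.mem_range.mp hk)
  · intro k hk
    exact tau_tau ht (Finset.mem_range.mp hk)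
  · intro k hk
    have h1 : f (2 * tau h t k + 1) χ = f (2 * k + 1) χ := by
      rw [H.periodic hζ hχ ⟨_, rfl⟩ (ht.odd.mul ⟨k, rfl⟩) (tau_modEq ht.odd k), H.inv χ hχ _ ⟨k, rfl⟩]
    simp only [h1]
    congr 1
    have h3 : ζ ^ (-((2 * ((tau h t k : ℕ) : ℤ) + 1) * (t * j))) =
        ζ ^ (-(((t : ℤ) * (2 * k + 1)) * (t * j))) := by
      rw [← neg_mul, ← neg_mul, neg_mul_comm, neg_mul_comm, zpow_mul, zpow_mul]
      congr 1
      have := pow_congr hζ (tau_modEq (h := h) ht.odd k)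
      rw [← zpow_natCast, ← zpow_natCast] at this
      push_cast at this
      exact this
    rw [h3]
    have h4 : ζ ^ (-(((t : ℤ) * (2 * k + 1)) * (t * j)) - -((2 * (k : ℤ) + 1) * j)) = 1 := by
      rw [hζ.zpow_eq_one_iff_dvd]
      have h5 := (ht.sq.mul_right ((2 * (k : ℤ) + 1) * j))
      have h6 := dvd_neg.mpr h5
      push_cast at h6 ⊢
      ring_nf at h6 ⊢
      exact h6
    rw [zpow_sub₀ hz] at h4
    exact ((div_eq_one_iff_eq (zpow_ne_zero _ hz)).mp h4).symm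

/-- The integral coefficients of the columns. -/
theorem Lev.exists_coeff (ht : IsT h t) (hζ : IsPrimitiveRoot ζ (2 * h)) (H : Lev I h t N ζ f) :
    ∃ A : ℕ → ι → ℤ,
      (∀ χ ∈ I, ∀ i, Odd i → f i χ = ∑ l ∈ Finset.range h, (A l χ : ℂ) * ζ ^ (i * l)) ∧
      (∀ χ ∈ I, ∀ j : ℕ, j < h → cf ζ h (fun i => f i χ) (j : ℤ) = (A j χ : ℂ)) ∧
      (h * ∑ χ ∈ I, A 0 χ ^ 2 = 2 * (N : ℤ)) ∧
      (∀ j, 0 < j → 2 * j < h → h * ∑ χ ∈ I, A j χ ^ 2 = (N : ℤ)) ∧
      (∀ j j', 2 * j < h → 2 * j' < h → j ≠ j' → ∑ χ ∈ I, A j χ * A j' χ = 0) ∧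
      (∀ χ ∈ I, ∀ j, 0 < j → j < h → (A (h - j) χ = A j χ ∨ A (h - j) χ = - A j χ)) ∧
      (∀ χ ∈ I, A (h / 2) χ = 0) := by
  classical
  have hh : 0 < h := ht.2.1
  have hh0 : (h : ℂ) ≠ 0 := by exact_mod_cast hh.ne'
  have hex : ∀ χ : ι, ∃ A : ℕ → ℤ, χ ∈ I → ∀ i, Odd i →
      f i χ = ∑ l ∈ Finset.range h, (A l : ℂ) * ζ ^ (i * l) := by
    intro χ
    by_cases hχ : χ ∈ I
    · obtain ⟨A, hA⟩ := H.poly χ hχ
      exact ⟨A, fun _ => hA⟩
    · exact ⟨0, fun hc => absurd hc hχ⟩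
  choose A' hA' using hex
  let A : ℕ → ι → ℤ := fun j χ => A' χ j
  have hA : ∀ χ ∈ I, ∀ i, Odd i → f i χ = ∑ l ∈ Finset.range h, (A l χ : ℂ) * ζ ^ (i * l) :=
    fun χ hχ => hA' χ hχ
  have hcf : ∀ χ ∈ I, ∀ j : ℕ, j < h → cf ζ h (fun i => f i χ) (j : ℤ) = (A j χ : ℂ) :=
    fun χ hχ j hj => cf_eq_coeff hh hζ (hA χ hχ) hj
  have hgram : ∀ j j' : ℕ, j < h → j' < h → ((∑ χ ∈ I, A j χ * A j' χ : ℤ) : ℂ) =
      (N : ℂ) / h * ((if ((2 * h : ℕ) : ℤ) ∣ ((j' : ℤ) - j) then 1 else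
        if (h : ℤ) ∣ ((j' : ℤ) - j) then -1 else 0)
        + (if ((2 * h : ℕ) : ℤ) ∣ (t * (j' : ℤ) - j) then 1 else
          if (h : ℤ) ∣ (t * (j' : ℤ) - j) then -1 else 0)) := by
    intro j j' hj hj'
    rw [← H.gram_cf ht hζ (j : ℤ) (j' : ℤ)]
    push_cast
    refine Finset.sum_congr rfl fun χ hχ => ?_
    rw [hcf χ hχ j hj, hcf χ hχ j' hj', map_intCast]
  have hdt := ht.dvd_add_one
  refine ⟨A, hA, hcf, ?_, ?_, ?_, ?_, ?_⟩
  · have h1 := hgram 0 0 hh hh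
    simp only [Nat.cast_zero, sub_self, dvd_zero, if_true, mul_zero] at h1
    have h2 : (h : ℂ) * ((∑ χ ∈ I, A 0 χ * A 0 χ : ℤ) : ℂ) = 2 * (N : ℂ) := by
      rw [h1]; field_simp; ring
    have h3 : (h : ℤ) * (∑ χ ∈ I, A 0 χ * A 0 χ) = 2 * (N : ℤ) := by exact_mod_cast h2
    rw [← h3]
    congr 1
    exact Finset.sum_congr rfl fun χ _ => sq _
  · intro j hj0 hj
    have h1 := hgram j j (by omega) (by omega)
    have hn : ¬ (h : ℤ) ∣ ((t : ℤ) * j - j) := by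
      intro hc
      have h4 : (h : ℤ) ∣ 2 * (j : ℤ) := by
        have := dvd_sub (hdt.mul_right (j : ℤ)) hc
        ring_nf at this ⊢
        exact this
      have := Int.le_of_dvd (by omega) h4
      omega
    have hn2 : ¬ ((2 * h : ℕ) : ℤ) ∣ ((t : ℤ) * j - j) := fun hc => hn
      (Dvd.dvd.trans ⟨2, by push_cast; ring⟩ hc)
    rw [if_neg hn2, if_neg hn] at h1
    simp only [sub_self, dvd_zero, if_true, add_zero, mul_one] at h1
    have h2 : (h : ℂ) * ((∑ χ ∈ I, A j χ * A j χ : ℤ) : ℂ) = (N : ℂ) := by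
      rw [h1]; field_simp
    have h3 : (h : ℤ) * (∑ χ ∈ I, A j χ * A j χ) = (N : ℤ) := by exact_mod_cast h2
    rw [← h3]
    congr 1
    exact Finset.sum_congr rfl fun χ _ => sq _
  · intro j j' hj hj' hjj
    have h1 := hgram j j' (by omega) (by omega)
    have hn : ¬ (h : ℤ) ∣ ((j' : ℤ) - j) := by
      intro hc
      have := Int.eq_zero_of_abs_lt_dvd hc (by rw [abs_lt]; constructor <;> omega)
      omega
    have hm : ¬ (h : ℤ) ∣ ((t : ℤ) * j' - j) := by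
      intro hc
      have h4 : (h : ℤ) ∣ (j : ℤ) + j' := by
        have := dvd_sub (hdt.mul_right (j' : ℤ)) hc
        ring_nf at this ⊢
        exact this
      have := Int.le_of_dvd (by omega) h4
      omega
    have hn2 : ¬ ((2 * h : ℕ) : ℤ) ∣ ((j' : ℤ) - j) := fun hc => hn
      (Dvd.dvd.trans ⟨2, by push_cast; ring⟩ hc)
    have hm2 : ¬ ((2 * h : ℕ) : ℤ) ∣ ((t : ℤ) * j' - j) := fun hc => hm
      (Dvd.dvd.trans ⟨2, by push_cast; ring⟩ hc)
    rw [if_neg hn2, if_neg hn, if_neg hm2, if_neg hm] at h1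
    simp only [add_zero, mul_zero] at h1
    exact_mod_cast h1
  · intro χ hχ j hj0 hj
    have h1 := H.cf_inv ht hζ hχ (j : ℤ)
    rw [hcf χ hχ j hj, cf_eq hh hζ (hA χ hχ)] at h1
    have h2 : ∀ l ∈ Finset.range h, l ≠ h - j → (A l χ : ℂ) *
        (if ((2 * h : ℕ) : ℤ) ∣ ((l : ℤ) - t * j) then 1 else
          if (h : ℤ) ∣ ((l : ℤ) - t * j) then -1 else 0) = 0 := by
      intro l hl hlj
      rw [Finset.mem_range] at hl
      have hn : ¬ (h : ℤ) ∣ ((l : ℤ) - t * j) := by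
        intro hc
        have h4 : (h : ℤ) ∣ (l : ℤ) + j - h := by
          have := dvd_sub (dvd_add hc (hdt.mul_right (j : ℤ))) (dvd_refl (h : ℤ))
          ring_nf at this ⊢
          exact this
        have := Int.eq_zero_of_abs_lt_dvd h4 (by rw [abs_lt]; constructor <;> omega)
        omega
      rw [if_neg (fun hc => hn (Dvd.dvd.trans ⟨2, by push_cast; ring⟩ hc)), if_neg hn, mul_zero]
    rw [Finset.sum_eq_single (h - j) h2 (fun hn => absurd (Finset.mem_range.mpr (by omega)) hn)] at h1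
    have h5 : (h : ℤ) ∣ (((h - j : ℕ) : ℤ) - t * j) := by
      have : ((h - j : ℕ) : ℤ) - t * j = h - (t + 1) * j := by
        push_cast [Nat.cast_sub hj.le]; ring
      rw [this]
      exact dvd_sub (dvd_refl _) (hdt.mul_right _)
    split_ifs at h1 with h6
    · left
      rw [mul_one] at h1
      exact_mod_cast h1.symm
    · right
      have : (A j χ : ℤ) = - A (h - j) χ := by
        have : (A j χ : ℂ) = ((- A (h - j) χ : ℤ) : ℂ) := by rw [h1]; push_cast; ring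
        exact_mod_cast this
      rw [this, neg_neg]
  · intro χ hχ
    obtain ⟨g, hg⟩ := ht.1
    have hg2 : h / 2 = g := by omega
    rw [hg2]
    have h1 := H.cf_inv ht hζ hχ (g : ℤ)
    rw [hcf χ hχ g (by omega), cf_eq hh hζ (hA χ hχ)] at h1
    have h2 : ∀ l ∈ Finset.range h, l ≠ g → (A l χ : ℂ) *
        (if ((2 * h : ℕ) : ℤ) ∣ ((l : ℤ) - t * g) then 1 else
          if (h : ℤ) ∣ ((l : ℤ) - t * g) then -1 else 0) = 0 := by
      intro l hl hlj
      rw [Finset.mem_range] at hl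
      have hn : ¬ (h : ℤ) ∣ ((l : ℤ) - t * g) := by
        intro hc
        have h4 : (h : ℤ) ∣ (l : ℤ) - g := by
          have h5 := dvd_sub (dvd_add hc (hdt.mul_right (g : ℤ))) (dvd_refl (h : ℤ))
          have : (h : ℤ) = 2 * g := by exact_mod_cast hg
          have h6 : (l : ℤ) - t * g + (t + 1) * g - h = l - g := by rw [this]; ring
          rwa [h6] at h5
        have := Int.eq_zero_of_abs_lt_dvd h4 (by rw [abs_lt]; constructor <;> omega)
        omega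
      rw [if_neg (fun hc => hn (Dvd.dvd.trans ⟨2, by push_cast; ring⟩ hc)), if_neg hn, mul_zero]
    rw [Finset.sum_eq_single g h2 (fun hn => absurd (Finset.mem_range.mpr (by omega)) hn)] at h1
    have hg' : (h : ℤ) = 2 * g := by exact_mod_cast hg
    have h5 : (h : ℤ) ∣ ((g : ℤ) - t * g) := by
      have : (g : ℤ) - t * g = h - (t + 1) * g := by rw [hg']; ring
      rw [this]
      exact dvd_sub (dvd_refl _) (hdt.mul_right _)
    have h6 : ¬ ((2 * h : ℕ) : ℤ) ∣ ((g : ℤ) - t * g) := by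
      obtain ⟨-, -, h7 | ⟨h7, h8⟩⟩ := ht
      · have : (g : ℤ) - t * g = (2 * h) * (- g) + h := by
          have : (t : ℤ) = 2 * h - 1 := by omega
          rw [this, hg']; ring
        rw [this]
        push_cast
        intro hc
        have := (Int.dvd_add_right (dvd_mul_right _ _)).mp hc
        have := Int.le_of_dvd (by omega) this
        omega
      · obtain ⟨c, hc⟩ := h7
        have h9 : (g : ℤ) = 2 * c := by omega
        have : (g : ℤ) - t * g = (2 * h) * (- c) + h := by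
          have : (t : ℤ) = h - 1 := by omega
          rw [this, hg', h9]; ring
        rw [this]
        push_cast
        intro hc'
        have := (Int.dvd_add_right (dvd_mul_right _ _)).mp hc'
        have := Int.le_of_dvd (by omega) this
        omega
    rw [if_neg h6, if_pos h5] at h1
    have : (A g χ : ℤ) = - A g χ := by
      have : (A g χ : ℂ) = ((- A g χ : ℤ) : ℂ) := by rw [h1]; push_cast; ring
      exact_mod_cast this
    omega

/-- the sum of all coefficients is congruent to the constant one -/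
theorem sum_coeff_parity {A : ℕ → ℤ} (ht : 2 ∣ h) (hh : 0 < h)
    (hs : ∀ j, 0 < j → j < h → (A (h - j) = A j ∨ A (h - j) = - A j)) (h0 : A (h / 2) = 0) :
    (2 : ℤ) ∣ (∑ l ∈ Finset.range h, A l) - A 0 := by
  obtain ⟨g, rfl⟩ := ht
  have hg : 2 * g / 2 = g := by omega
  rw [hg] at h0
  have hg0 : 0 < g := by omega
  have h1 : ∑ l ∈ Finset.range (2 * g), A l =
      A 0 + (∑ l ∈ Finset.Ico 1 g, A l + (A g + ∑ l ∈ Finset.Ico (g + 1) (2 * g), A l)) := by
    rw [Finset.range_eq_Ico, Finset.sum_eq_sum_Ico_succ_bot (by omega)]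
    congr 1
    rw [← Finset.sum_Ico_consecutive A (show 0 + 1 ≤ g by omega) (show g ≤ 2 * g by omega)]
    congr 1
    rw [Finset.sum_eq_sum_Ico_succ_bot (by omega)]
  have h2 : ∑ l ∈ Finset.Ico (g + 1) (2 * g), A l = ∑ l ∈ Finset.Ico 1 g, A (2 * g - l) := by
    refine Finset.sum_nbij' (fun l => 2 * g - l) (fun l => 2 * g - l) ?_ ?_ ?_ ?_ ?_
    · intro l hl; rw [Finset.mem_Ico] at hl ⊢; omega
    · intro l hl; rw [Finset.mem_Ico] at hl ⊢; omega
    · intro l hl; rw [Finset.mem_Ico] at hl; omega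
    · intro l hl; rw [Finset.mem_Ico] at hl; omega
    · intro l hl
      rw [Finset.mem_Ico] at hl
      congr 1
      omega
  rw [h1, h2, h0]
  have h3 : A 0 + (∑ l ∈ Finset.Ico 1 g, A l + (0 + ∑ l ∈ Finset.Ico 1 g, A (2 * g - l))) - A 0 =
      ∑ l ∈ Finset.Ico 1 g, (A l + A (2 * g - l)) := by
    rw [Finset.sum_add_distrib]; ring
  rw [h3]
  refine Finset.dvd_sum fun l hl => ?_
  rw [Finset.mem_Ico] at hl
  rcases hs l (by omega) (by omega) with h4 | h4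
  · rw [h4]; exact ⟨A l, by ring⟩
  · rw [h4]; simp

end

end Cfsg.Agent.H10.Cyc
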