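import Cfsg.Agent.H10.RankCol2
import Cfsg.Agent.H4.AbelCount

/-!
# Counting characters by a family of subsections (owner: helper10)
-/

set_option autoImplicit false
set_option linter.style.haveILetI false
set_option linter.unusedSectionVars false

namespace Cfsg.Agent.H10.Col

open scoped ComplexConjugate BigOperators
open Cfsg Cfsg.Agent.CharBase Cfsg.Agent.Blk Cfsg.Agent.BlkInd Cfsg.Agent.BlkC Cfsg.Agent.Star
  Cfsg.Agent.H4 MonoidAlgebra

universe u

variable {G : Type u} [Group G] [Fintype G] {p : ℕ} [hp : Fact p.Prime] {M : Ideal AlgInt}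
  [hMp : M.IsPrime] {B : Set (IrrCharacter G)}

theorem zpowers_conj' (g x : G) : (Subgroup.zpowers x).map (MulAut.conj g).toMonoidHom =
    Subgroup.zpowers (g * x * g⁻¹) := MonoidHom.map_zpowers (MulAut.conj g).toMonoidHom x

/-- blocks of the centralizer of a conjugate -/
theorem exists_conj_block (hM : IsPModular p M) (hB : IsPBlock M B) {x x' g : G}
    (hg : x' = g * x * g⁻¹)
    (hx : ∃ k : ℕ, orderOf x = p ^ k) {C C' : Subgroup G}
    (hC : C = Subgroup.centralizer ({x} : Set G)) (hC' : C' = Subgroup.centralizer ({x'} : Set G))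
    {b : Set (IrrCharacter C)} (hind : IsInducedBlock M C b B) :
    ∃ b' : Set (IrrCharacter C'), IsInducedBlock M C' b' B ∧ EB M C' b' = Blk.cj g (EB M C b) := by
  haveI := charP_kM hM
  have h1 := mpairOf_of_ind hM hx hC hind
  have h2 := h1.cj g
  rw [zpowers_conj', ← hg] at h2
  have h3 : Subgroup.centralizer (Subgroup.zpowers x' : Set G) = C' := by
    rw [centralizer_zpowers_eq, hC']
  have h4 : IsBlk C' (Blk.cj g (EB M C b)) := h3 ▸ h2.1.blk
  obtain ⟨b', hb', hb2⟩ := exists_EB h4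
  refine ⟨b', ?_, hb2⟩
  have hx' : ∃ k : ℕ, orderOf x' = p ^ k := by
    obtain ⟨k, hk⟩ := hx
    exact ⟨k, by rw [hg, orderOf_conj', hk]⟩
  exact ind_of_mpairOf hM hB hx' hC' hb' (hb2 ▸ h2)

theorem blockRank_congr (hM : IsPModular p M) {x x' : G} {C C' : Subgroup G} [Fintype C]
    [Fintype C']
    (hC : C = Subgroup.centralizer (Subgroup.zpowers x : Set G))
    (hC' : C' = Subgroup.centralizer (Subgroup.zpowers x' : Set G))
    {e : Set (IrrCharacter C)} {e' : Set (IrrCharacter C')}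
    (hx : ∃ k : ℕ, orderOf x = p ^ k) (hx' : ∃ k : ℕ, orderOf x' = p ^ k)
    (hind : IsInducedBlock M C e B) (hind' : IsInducedBlock M C' e' B)
    (h : SConj x (EB M C e) x' (EB M C' e')) :
    blockRank p e = blockRank p e' := by
  have h1 := sum_sc_self hM hx (cent_eq hC) hind
  have h2 := sum_sc_self hM hx' (cent_eq hC') hind'
  have h3 : ∀ ψ ∈ Bfin B, sc p x e (ψ : G → ℂ) (ψ : G → ℂ) = sc p x' e' (ψ : G → ℂ) (ψ : G → ℂ) :=
    fun ψ _ => sc_congr hM hC hC' hx hind.1 hind'.1 h ψ ψ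
  rw [Finset.sum_congr rfl h3, h2] at h1
  exact_mod_cast h1.symm

theorem blockRank_pos (hM : IsPModular p M) {H : Type u} [Group H] [Fintype H]
    {b : Set (IrrCharacter H)} (hb : IsPBlock M b) : 0 < blockRank p b := by
  haveI := isPrime_of_isPModular hM
  obtain ⟨ψ₀, hψ₀, -⟩ := exists_height_zero hM hb
  rw [Nat.pos_iff_ne_zero]
  intro h0
  have h1 : Module.finrank ℂ (Submodule.span ℂ
      ((fun χ : IrrCharacter H => pRegularPart p (χ : H → ℂ)) '' b)) = 0 := h0
  rw [Submodule.finrank_eq_zero, Submodule.span_eq_bot] at h1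
  have h2 := congrFun (h1 _ ⟨ψ₀, hψ₀, rfl⟩) 1
  change pRegularPart p (ψ₀ : H → ℂ) 1 = 0 at h2
  rw [pRegularPart_apply_of_reg one_reg] at h2
  exact irr_one_ne_zero ψ₀.2 h2

/-- a family of pairwise nonconjugate subsections -/
structure Fam (p : ℕ) (M : Ideal AlgInt) [M.IsPrime] (B : Set (IrrCharacter G)) {ι : Type} [Fintype ι] (v : ι → G)
    (es : ∀ i, Set (IrrCharacter (Subgroup.centralizer (Subgroup.zpowers (v i) : Set G)))) :
    Prop where
  ne : ∀ i, v i ≠ 1
  pel : ∀ i, ∃ k : ℕ, orderOf (v i) = p ^ k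
  ind : ∀ i, IsInducedBlock M _ (es i) B
  inj : ∀ i j, SConj (v i) (EB M _ (es i)) (v j) (EB M _ (es j)) → i = j

variable {ι : Type} [Fintype ι] {v : ι → G}
  {es : ∀ i, Set (IrrCharacter (Subgroup.centralizer (Subgroup.zpowers (v i) : Set G)))}

/-- the subsections of `B` and a family -/
theorem Fam.card (hM : IsPModular p M) (hB : IsPBlock M B) (F : Fam p M B v es) :
    blockRank p B + ∑ i, blockRank p (es i) ≤ Nat.card B ∧
    (blockRank p B + ∑ i, blockRank p (es i) = Nat.card B ↔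
      ∀ (x : G), x ≠ 1 → (∃ k : ℕ, orderOf x = p ^ k) →
        ∀ b : Set (IrrCharacter (Subgroup.centralizer ({x} : Set G))),
          IsInducedBlock M (Subgroup.centralizer ({x} : Set G)) b B →
          ∃ i, SConj x (EB M _ b) (v i) (EB M _ (es i))) := by
  classical
  obtain ⟨X, hX⟩ := exists_isNTRep G p
  have hfin : ∀ x : G, Fintype (Subgroup.centralizer ({x} : Set G)) := fun x => Fintype.ofFinite _
  rw [card_eq_add_sum hM hB hX]
  -- the map
  have hex : ∀ i, ∃ s : Σ x : G, Set (IrrCharacter (Subgroup.centralizer ({x} : Set G))),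
      s ∈ X.sigma (fun x => indB M (Subgroup.centralizer ({x} : Set G)) B) ∧
      SConj (v i) (EB M _ (es i)) s.1 (EB M _ s.2) := by
    intro i
    obtain ⟨x, ⟨hx, hc⟩, -⟩ := hX.rep (v i) (F.pel i) (F.ne i)
    obtain ⟨g, hg⟩ := isConj_iff.mp hc
    obtain ⟨b, hb, hb2⟩ := exists_conj_block hM hB (x := v i) (x' := x) (g := g) hg.symm (F.pel i)
      (by rw [centralizer_zpowers_eq]) rfl (F.ind i)
    exact ⟨⟨x, b⟩, Finset.mem_sigma.mpr ⟨hx, mem_indB.mpr hb⟩, g, hg.symm, hb2⟩
  choose s hs hsc using hex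
  have hsinj : Function.Injective s := by
    intro i j hij
    apply F.inj i j
    exact (hsc i).trans (hij ▸ (hsc j).symm)
  have hsum : ∑ x ∈ X, ∑ b ∈ indB M (Subgroup.centralizer ({x} : Set G)) B, blockRank p b =
      ∑ t ∈ X.sigma (fun x => indB M (Subgroup.centralizer ({x} : Set G)) B), blockRank p t.2 := by
    rw [Finset.sum_sigma]
  have himg : ∑ i, blockRank p (es i) = ∑ t ∈ Finset.univ.image s, blockRank p t.2 := by
    rw [Finset.sum_image (fun i _ j _ h => hsinj h)]
    refine Finset.sum_congr rfl fun i _ => ?_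
    have h1 := Finset.mem_sigma.mp (hs i)
    exact blockRank_congr hM rfl (by rw [centralizer_zpowers_eq]) (F.pel i) (hX.pel _ h1.1) (F.ind i)
      (mem_indB.mp h1.2) (hsc i)
  have hsub : Finset.univ.image s ⊆
      X.sigma (fun x => indB M (Subgroup.centralizer ({x} : Set G)) B) := by
    intro t ht
    obtain ⟨i, -, rfl⟩ := Finset.mem_image.mp ht
    exact hs i
  rw [hsum, himg]
  have hle := Finset.sum_le_sum_of_subset (f := fun t => blockRank p t.2) hsub
  refine ⟨by omega, ?_, ?_⟩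
  · intro heq x hx hxp b hb
    have heq2 : ∑ t ∈ Finset.univ.image s, blockRank p t.2 =
        ∑ t ∈ X.sigma (fun x => indB M (Subgroup.centralizer ({x} : Set G)) B),
          blockRank p t.2 := by omega
    obtain ⟨y, ⟨hy, hc⟩, -⟩ := hX.rep x hxp hx
    obtain ⟨g, hg⟩ := isConj_iff.mp hc
    obtain ⟨b', hb', hb2⟩ := exists_conj_block hM hB (x := x) (x' := y) (g := g) hg.symm hxp
      rfl rfl hb
    have hmem : (⟨y, b'⟩ : Σ x : G, Set (IrrCharacter (Subgroup.centralizer ({x} : Set G)))) ∈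
        X.sigma (fun x => indB M (Subgroup.centralizer ({x} : Set G)) B) :=
      Finset.mem_sigma.mpr ⟨hy, mem_indB.mpr hb'⟩
    have himem : (⟨y, b'⟩ : Σ x : G, Set (IrrCharacter (Subgroup.centralizer ({x} : Set G)))) ∈
        Finset.univ.image s := by
      by_contra hn
      have h1 := Finset.sum_lt_sum_of_subset (f := fun t : Σ x : G, Set (IrrCharacter
        (Subgroup.centralizer ({x} : Set G))) => blockRank p t.2) hsub hmem hn
        (blockRank_pos hM hb'.1) (fun _ _ _ => Nat.zero_le _)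
      omega
    obtain ⟨i, -, hi⟩ := Finset.mem_image.mp himem
    refine ⟨i, ?_⟩
    have h2 : SConj x (EB M _ b) y (EB M _ b') := ⟨g, hg.symm, hb2⟩
    have h3 := hsc i
    rw [hi] at h3
    exact h2.trans h3.symm
  · intro hall
    congr 1
    apply Finset.sum_congr _ (fun _ _ => rfl)
    apply Finset.Subset.antisymm hsub
    intro t ht
    have ht2 := Finset.mem_sigma.mp ht
    obtain ⟨i, hi⟩ := hall t.1 (hX.ne_one _ ht2.1) (hX.pel _ ht2.1) t.2 (mem_indB.mp ht2.2)
    rw [Finset.mem_image]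
    refine ⟨i, Finset.mem_univ _, ?_⟩
    have h1 := (hi.trans (hsc i)).symm
    have hs2 := Finset.mem_sigma.mp (hs i)
    have h2 : (s i).1 = t.1 := by
      obtain ⟨g, hg, -⟩ := h1
      obtain ⟨y, hy, hyu⟩ := hX.rep t.1 (hX.pel _ ht2.1) (hX.ne_one _ ht2.1)
      rw [hyu t.1 ⟨ht2.1, IsConj.refl _⟩]
      exact hyu _ ⟨hs2.1, isConj_iff.mpr ⟨g⁻¹, by rw [hg]; group⟩⟩
    obtain ⟨x, b⟩ := t
    generalize s i = t' at *
    obtain ⟨x', b'⟩ := t'
    simp only at h2
    subst h2
    obtain ⟨g, hg1, hg2⟩ := h1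
    simp only at hg1 hg2
    have hgc : g ∈ Subgroup.centralizer ({x'} : Set G) := by
      rw [Subgroup.mem_centralizer_singleton_iff]
      calc g * x' = g * x' * g⁻¹ * g := by group
        _ = x' * g := by rw [← hg1]
    have hbb := (mem_indB.mp hs2.2).1
    have hbb2 := (mem_indB.mp ht2.2).1
    rw [(isBlk_EB hbb).fixed g hgc] at hg2
    have h9 : b = b' := EB_injective hbb2 hbb hg2
    rw [h9]

end Cfsg.Agent.H10.Col
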