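import Cfsg.Agent.H10.HSide2
import Cfsg.Agent.H10.SubSum

/-!
# The subsections of a block with dihedral defect group (owner: helper10)
-/

set_option autoImplicit false
set_option linter.style.haveILetI false
set_option linter.unusedSectionVars false

namespace Cfsg.Agent.H10.MC

open scoped BigOperators
open Cfsg Cfsg.Agent.CharBase Cfsg.Agent.Blk Cfsg.Agent.BlkF Cfsg.Agent.BlkInd Cfsg.Agent.BlkC
  Cfsg.Agent.Star Cfsg.Agent.H4 Cfsg.Agent.H10.Col MonoidAlgebra

universe u

variable {G : Type u} [Group G] [Fintype G] {M : Ideal AlgInt} [hMp : M.IsPrime]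
  {B : Set (IrrCharacter G)} {D : Subgroup G} {E : MonoidAlgebra (kM M) G} {x y : G} {h t : ℕ}

theorem Dih.rank_z (hM : IsPModular 2 M) (he : haveI := charP_kM hM; MMax 2 D E)
    (H : MC D x y h t) (hd : Dih y h t) {C : Subgroup G} [Fintype C]
    (hC : C = Subgroup.centralizer (Subgroup.zpowers (x ^ h) : Set G))
    {b : Set (IrrCharacter C)}
    (hb : IsPBlock M b)
    (hf : MLe 2 (Subgroup.zpowers (x ^ h)) (EB M C b) D E) : blockRank 2 b = 1 :=
  (Cfsg.Agent.S4689.result 2 M hM b (hd.nilp_z hM he H hC hb hf)).1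

/-- powers of `x` -/
theorem Dih.rank_pow (hM : IsPModular 2 M) (he : haveI := charP_kM hM; MMax 2 D E)
    (H : MC D x y h t) (hd : Dih y h t) {j : ℕ} (hj : 0 < j) (hj2 : j ≤ h)
    {b : Set (IrrCharacter (Subgroup.centralizer (Subgroup.zpowers (x ^ j) : Set G)))}
    (hb : IsPBlock M b)
    (hf : MLe 2 (Subgroup.zpowers (x ^ j)) (EB M _ b) D E) : blockRank 2 b = 1 := by
  rcases Nat.lt_or_ge j h with h1 | h1
  · exact H.rank_x hM he (fun hc => by have := Nat.le_of_dvd hj hc; omega) hb hf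
  · have h2 : j = h := le_antisymm hj2 h1
    subst h2
    haveI := Fintype.ofFinite (Subgroup.centralizer (Subgroup.zpowers (x ^ j) : Set G))
    exact hd.rank_z hM he H rfl hb hf

/-- the powers `x ^ i`, `1 ≤ i ≤ h`, are pairwise not fused -/
theorem Dih.inj_pow (hM : IsPModular 2 M) (he : haveI := charP_kM hM; MMax 2 D E)
    (H : MC D x y h t) (hd : Dih y h t) {i j : ℕ} (hi : 0 < i) (hi2 : i ≤ h) (hj : 0 < j)
    (hj2 : j ≤ h) {f f' : MonoidAlgebra (kM M) G}
    (hf : MLe 2 (Subgroup.zpowers (x ^ i)) f D E) (hf' : MLe 2 (Subgroup.zpowers (x ^ j)) f' D E)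
    (hs : SConj (x ^ i) f (x ^ j) f') : i = j := by
  haveI := charP_kM hM
  obtain ⟨g, hg1, hg2⟩ := hs
  have hsq : ∀ k, 0 < k → k < h → x ^ k * x ^ k ≠ 1 := by
    intro k hk hk2 hc
    rw [← pow_add, H.pow_eq_one] at hc
    have := Nat.le_of_dvd (by omega) hc
    omega
  rcases Nat.lt_or_ge i h with h1 | h1
  · rcases Nat.lt_or_ge j h with h2 | h2
    · have h3 := H.fusX hM he (fun hc => by have := Nat.le_of_dvd hi hc; omega)
        (fun hc => by have := Nat.le_of_dvd hj hc; omega) hf (by rw [← hg1, ← hg2]; exact hf')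
        hg1.symm
      rcases h3 with h4 | h4
      · rw [H.pow_eq_pow] at h4
        unfold Nat.ModEq at h4
        rw [Nat.mod_eq_of_lt (by omega), Nat.mod_eq_of_lt (by omega)] at h4
        exact h4.symm
      · exfalso
        rw [hd.1, H.pow_eq_pow] at h4
        have h5 : j + i ≡ 0 [MOD 2 * h] := by
          have h6 : j + i ≡ (2 * h - 1) * i + i [MOD 2 * h] := h4.add_right i
          have h7 : (2 * h - 1) * i + i = 2 * h * i := by
            obtain ⟨c, hc⟩ : ∃ c, 2 * h = c + 1 := ⟨2 * h - 1, by omega⟩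
            rw [hc, Nat.add_sub_cancel]; ring
          rw [h7] at h6
          exact h6.trans ((Nat.modEq_zero_iff_dvd).mpr (Dvd.intro _ rfl))
        have h6 := Nat.le_of_dvd (by omega) ((Nat.modEq_zero_iff_dvd).mp h5)
        omega
    · exfalso
      have h3 : j = h := le_antisymm hj2 h2
      subst h3
      apply hsq i hi h1
      have h4 : x ^ i = g⁻¹ * x ^ j * g := by rw [hg1]; group
      rw [h4]
      calc g⁻¹ * x ^ j * g * (g⁻¹ * x ^ j * g) = g⁻¹ * (x ^ j * x ^ j) * g := by group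
        _ = 1 := by rw [H.z_sq]; group
  · have h3 : i = h := le_antisymm hi2 h1
    subst h3
    rcases Nat.lt_or_ge j i with h2 | h2
    · exfalso
      apply hsq j hj h2
      rw [hg1]
      calc g * x ^ i * g⁻¹ * (g * x ^ i * g⁻¹) = g * (x ^ i * x ^ i) * g⁻¹ := by group
        _ = 1 := by rw [H.z_sq]; group
    · omega

/-- **the family of subsections** -/
theorem Dih.fam (hM : IsPModular 2 M) (hB : IsPBlock M B)
    (he : haveI := charP_kM hM; MMax 2 D E)
    (hb : haveI := charP_kM hM; MPairOf 2 (eB M B) D E) (H : MC D x y h t) (hd : Dih y h t) :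
    haveI := charP_kM hM
    blockRank 2 B + h ≤ Nat.card B ∧ (blockRank 2 B + h = Nat.card B →
      ∀ (v : G), v ≠ 1 → (∃ k : ℕ, orderOf v = 2 ^ k) →
        ∀ f : MonoidAlgebra (kM M) G, MPairOf 2 (eB M B) (Subgroup.zpowers v) f →
          ∃ i f', 0 < i ∧ i ≤ h ∧ MLe 2 (Subgroup.zpowers (x ^ i)) f' D E ∧
            SConj v f (x ^ i) f') := by
  haveI := charP_kM hM
  have hex : ∀ i : Fin h, ∃ f : Set (IrrCharacter
      (Subgroup.centralizer (Subgroup.zpowers (x ^ (i.val + 1)) : Set G))),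
      MLe 2 (Subgroup.zpowers (x ^ (i.val + 1))) (EB M _ f) D E ∧
      IsInducedBlock M (Subgroup.centralizer (Subgroup.zpowers (x ^ (i.val + 1)) : Set G)) f B ∧
      ∃ k : ℕ, orderOf (x ^ (i.val + 1)) = 2 ^ k := fun i =>
    exists_below hM hB he hb (D.pow_mem H.hx _)
  choose es hes1 hes2 hes3 using hex
  have F : Fam 2 M B (fun i : Fin h => x ^ (i.val + 1)) es :=
    { ne := by
        intro i hc
        rw [H.pow_eq_one] at hc
        have := Nat.le_of_dvd (by omega) hc
        omega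
      pel := hes3
      ind := hes2
      inj := by
        intro i j hs
        have := hd.inj_pow hM he H (by omega) i.2 (by omega) j.2 (hes1 i) (hes1 j) hs
        exact Fin.ext (by omega) }
  obtain ⟨h1, h2⟩ := F.card hM hB
  have h3 : ∑ i : Fin h, blockRank 2 (es i) = h := by
    rw [Finset.sum_congr rfl (g := fun _ => 1) (fun i _ => hd.rank_pow hM he H (by omega) i.2
      (hes2 i).1 (hes1 i))]
    simp
  rw [h3] at h1 h2
  refine ⟨h1, ?_⟩
  intro heq v hv hvp f hf
  have h4 := h2.mp heq v hv hvp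
  have h5 : IsBlk (Subgroup.centralizer ({v} : Set G)) f := by
    have := hf.1.blk
    rwa [centralizer_zpowers_eq] at this
  obtain ⟨b', hb', rfl⟩ := exists_EB h5
  obtain ⟨i, hi⟩ := h4 b' (ind_of_mpairOf hM hB hvp rfl hb' hf)
  exact ⟨i.val + 1, _, by omega, i.2, hes1 i, hi⟩

end Cfsg.Agent.H10.MC
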