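import Cfsg.Agent.H10.ExLem
import Cfsg.Agent.H10.DihFam

/-!
# The centralizer side of the exclusion argument (owner: helper10)
-/

set_option autoImplicit false
set_option linter.style.haveILetI false
set_option linter.unusedSectionVars false

namespace Cfsg.Agent.H10.MC

open scoped ComplexConjugate BigOperators
open Cfsg Cfsg.Agent.CharBase Cfsg.Agent.Blk Cfsg.Agent.BlkF Cfsg.Agent.BlkInd Cfsg.Agent.BlkC
  Cfsg.Agent.Star Cfsg.Agent.H4 Cfsg.Agent.H10.Col MonoidAlgebra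

universe u

variable {G : Type u} [Group G] [Fintype G] {M : Ideal AlgInt} [hMp : M.IsPrime]
  {B : Set (IrrCharacter G)} {D : Subgroup G} {E : MonoidAlgebra (kM M) G} {x y : G} {h t : ℕ}

theorem rank_x1 (hM : IsPModular 2 M) (he : haveI := charP_kM hM; MMax 2 D E)
    (H : MC D x y h t) {C : Subgroup G} [Fintype C]
    (hC : C = Subgroup.centralizer (Subgroup.zpowers x : Set G))
    {b : Set (IrrCharacter C)} (hb : IsPBlock M b)
    (hf : MLe 2 (Subgroup.zpowers x) (EB M C b) D E) : blockRank 2 b = 1 :=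
  (Cfsg.Agent.S4689.result 2 M hM b (H.nilp_x hM he (j := 1) H.not_dvd_one
    (by rw [pow_one]; exact hC) hb (by rw [pow_one]; exact hf))).1

theorem defect_x1 (hM : IsPModular 2 M) (he : haveI := charP_kM hM; MMax 2 D E)
    (H : MC D x y h t) {C : Subgroup G} [Fintype C]
    (hC : C = Subgroup.centralizer (Subgroup.zpowers x : Set G))
    {b : Set (IrrCharacter C)} (hb : IsPBlock M b)
    (hf : MLe 2 (Subgroup.zpowers x) (EB M C b) D E) : 2 ^ blockDefect 2 b = 2 * h := by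
  haveI := charP_kM hM
  have h1 := H.isDef_x hM he (j := 1) H.not_dvd_one (f := EB M C b) (by rw [pow_one]; exact hf)
  rw [pow_one, ← hC] at h1
  rw [← card_of_isDef hM hb h1, Nat.card_zpowers, H.ordx]

theorem defect_z1 (hM : IsPModular 2 M) (he : haveI := charP_kM hM; MMax 2 D E)
    (H : MC D x y h t) {C : Subgroup G} [Fintype C]
    (hC : C = Subgroup.centralizer (Subgroup.zpowers (x ^ h) : Set G))
    {b : Set (IrrCharacter C)} (hb : IsPBlock M b)
    (hf : MLe 2 (Subgroup.zpowers (x ^ h)) (EB M C b) D E) : 2 ^ blockDefect 2 b = 4 * h := by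
  haveI := charP_kM hM
  have h3 := H.isDef_z hM he hf
  rw [← hC] at h3
  rw [← card_of_isDef hM hb h3, H.card]

/-- the transported block -/
theorem exists_trans (hM : IsPModular 2 M) {C : Subgroup G} [Fintype C]
    {bz : Set (IrrCharacter C)} (hbz : IsInducedBlock M C bz B) {D' : Subgroup C}
    {E' : MonoidAlgebra (kM M) C} {u : C}
    (hK : Subgroup.centralizer (Subgroup.zpowers (u : G) : Set G) ≤ C)
    {N : Subgroup C} [Fintype N] (hN : N = Subgroup.centralizer (Subgroup.zpowers u : Set C))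
    {e : Set (IrrCharacter N)} (he : IsInducedBlock M N e bz)
    (hle : haveI := charP_kM hM; MLe 2 (Subgroup.zpowers u) (EB M N e) D' E')
    {K : Subgroup G} [Fintype K] (hKeq : K = Subgroup.centralizer (Subgroup.zpowers (u : G) : Set G))
    {φ : N → ℂ} {d : IrrCharacter N → ℕ} (hR : R1 2 e φ d) :
    haveI := charP_kM hM
    ∃ (e₁ : Set (IrrCharacter K)) (φ₁ : K → ℂ) (d₁ : IrrCharacter K → ℕ),
      IsInducedBlock M K e₁ B ∧ MLe 2 (Subgroup.zpowers (u : G)) (EB M K e₁)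
        (D'.map C.subtype) (incl C E') ∧ R1 2 e₁ φ₁ d₁ ∧
      ∀ (v : C) (θ : G → ℂ) (θ' : C → ℂ), (∀ n : N,
        ¬ 2 ∣ orderOf n → θ ((v : G) * ((n : C) : G)) = θ' (v * (n : C))) →
        Col.D (v : G) e₁ d₁ θ = Col.D v e d θ' := by
  haveI := charP_kM hM
  subst hN
  have hmap : (Subgroup.zpowers u).map C.subtype = Subgroup.zpowers (u : G) := by
    rw [MonoidHom.map_zpowers]; rfl
  obtain ⟨Φ, hΦ⟩ := exists_equiv (C := C) (Q := Subgroup.zpowers u) (K := K)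
    (by rw [hKeq, hmap]) (hKeq ▸ hK)
  refine ⟨irrMap Φ '' e, _, _, (isInducedBlock_trans_iff Φ hΦ he).mpr hbz, ?_, hR.map Φ, ?_⟩
  · rw [EB_image Φ hΦ, ← hmap]
    exact mle_incl (by rw [hmap]; exact hK) hle
  · intro v θ θ' hθ
    exact D_transport hM Φ hΦ he.1 hR hθ

/-- a maximal pair of `B` coming from the centralizer of the involution -/
theorem exists_pair (hM : IsPModular 2 M)
    (hD : haveI := charP_kM hM; IsDef 2 ⊤ (eB M B) D) (H : MC D x y h t)
    {C : Subgroup G} [Fintype C]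
    (hC : C = Subgroup.centralizer (Subgroup.zpowers (x ^ h) : Set G)) {bz : Set (IrrCharacter C)}
    (hbz : IsInducedBlock M C bz B) {E₀ : MonoidAlgebra (kM M) G}
    (he₀ : haveI := charP_kM hM; MMax 2 D E₀)
    (hbz1 : MLe 2 (Subgroup.zpowers (x ^ h)) (EB M C bz) D E₀) :
    haveI := charP_kM hM
    ∃ E' : MonoidAlgebra (kM M) C, MMax 2 (D.subgroupOf C) E' ∧
      MPairOf 2 (eB M bz) (D.subgroupOf C) E' ∧ MMax 2 D (incl C E') ∧
      MPairOf 2 (eB M B) D (incl C E') := by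
  haveI := charP_kM hM
  have hDC : D ≤ C := hC ▸ H.le_cent_z
  have hmapD : (D.subgroupOf C).map C.subtype = D := map_subgroupOf hDC
  have hdef : IsDef 2 ⊤ (eB M bz) (D.subgroupOf C) := by
    rw [← isDef_incl_top_iff, hmapD, ← EB_eq]
    have := H.isDef_z hM he₀ hbz1
    rwa [← hC] at this
  obtain ⟨E', he', hb'⟩ := exists_mmax_on hM hbz.1 hdef
  have hcent : Subgroup.centralizer (((D.subgroupOf C).map C.subtype : Subgroup G) : Set G) ≤ C := by
    rw [hmapD, hC]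
    exact centralizer_le_of_le (Subgroup.zpowers_le.mpr (D.pow_mem H.hx h))
  have hE : MPairOf 2 (eB M B) D (incl C E') := by
    have := mpairOf_of_induced hM hbz hb' hcent
    rwa [hmapD] at this
  exact ⟨E', he', hb', BlkF.MPairOf.mmax hE hD, hE⟩

/-- the function `K` on the centralizer -/
theorem cK_props {z : G} (hz2 : z * z = 1) (hz1 : z ≠ 1) {C : Subgroup G} :
    IsClassFunction C (fun c : C => cI z (c : G)) ∧
    ∀ g : C, (fun c : C => cI z (c : G)) g ≠ 0 → orderOf g = 2 := by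
  refine ⟨fun g k => cI_class z (g : G) (k : G), ?_⟩
  intro g hg
  have h1 := cI_sq hz2 hg
  apply orderOf_eq_prime
  · rw [pow_two]; exact Subtype.ext h1
  · intro hc
    rw [hc] at hg
    apply hg
    simp only [cI]
    rw [if_neg]
    intro h2
    obtain ⟨k, hk⟩ := isConj_iff.mp h2
    apply hz1
    have : z = k⁻¹ * (k * z * k⁻¹) * k := by group
    rw [this, hk]; simp

/-- **the identities from the centralizer of the involution** -/
theorem Dih.cside (hM : IsPModular 2 M)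
    (hD : haveI := charP_kM hM; IsDef 2 ⊤ (eB M B) D) (H : MC D x y h t) (hd : Dih y h t)
    {C : Subgroup G} [Fintype C]
    (hC : C = Subgroup.centralizer (Subgroup.zpowers (x ^ h) : Set G)) {bz : Set (IrrCharacter C)}
    (hbz : IsInducedBlock M C bz B) {E₀ : MonoidAlgebra (kM M) G}
    (he₀ : haveI := charP_kM hM; MMax 2 D E₀)
    (hbz1 : MLe 2 (Subgroup.zpowers (x ^ h)) (EB M C bz) D E₀)
    {Cx : Subgroup G} [Fintype Cx] (hCx : Cx = Subgroup.centralizer (Subgroup.zpowers x : Set G)) :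
    haveI := charP_kM hM
    ∃ E : MonoidAlgebra (kM M) G, MMax 2 D E ∧ MPairOf 2 (eB M B) D E ∧
      ((∀ v ∈ D, orderOf v = 2 → IsConj (x ^ h) v) →
      ∃ (ez : Set (IrrCharacter C)) (φz : C → ℂ) (dz : IrrCharacter C → ℕ)
        (ex : Set (IrrCharacter Cx)) (φx : Cx → ℂ) (dx : IrrCharacter Cx → ℕ)
        (s : ℂ) (c1 c2 : ℚ) (s0 s1 : ℤ),
        IsInducedBlock M C ez B ∧ MLe 2 (Subgroup.zpowers (x ^ h)) (EB M C ez) D E ∧
        R1 2 ez φz dz ∧ IsInducedBlock M Cx ex B ∧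
        MLe 2 (Subgroup.zpowers x) (EB M Cx ex) D E ∧ R1 2 ex φx dx ∧
        s ≠ 0 ∧ c1 ≠ 0 ∧ c2 ≠ 0 ∧ s0 ^ 2 = 1 ∧ s1 ^ 2 = 1 ∧
        Col.D (x ^ h) ez dz (conv (cI (x ^ h)) (cI (x ^ h))) =
          s0 * 4 * ((c1 : ℂ) ^ 2 + (c2 : ℂ) ^ 2) * s ∧
        ∀ i, Odd i → Col.D (x ^ i) ex dx (conv (cI (x ^ h)) (cI (x ^ h))) =
          s1 * 8 * ((c1 : ℂ) * (c2 : ℂ)) * s) := by
  classical
  haveI := charP_kM hM
  obtain ⟨E', he', hb', he, hE⟩ := H.exists_pair hM hD hC hbz he₀ hbz1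
  refine ⟨incl C E', he, hE, ?_⟩
  intro hconj
  have hDC : D ≤ C := hC ▸ H.le_cent_z
  have hC1 : C = Subgroup.centralizer ({x ^ h} : Set G) := cent_eq hC
  have hmapD : (D.subgroupOf C).map C.subtype = D := map_subgroupOf hDC
  have H' := H.sub hDC
  have hd' : Dih (⟨y, hDC H.hy⟩ : C) h t := ⟨hd.1, Subtype.ext hd.2⟩
  have hn : MNilp 2 (eB M bz) := ((isNilpotentBlock_iff hM).1 (hd.nilp_z hM he₀ H hC hbz.1 hbz1)).2
  have hz2 : x ^ h * x ^ h = 1 := H.z_sq
  obtain ⟨hKc, hK2⟩ := cK_props hz2 H.z_ne (C := C)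
  have hKval : ∀ v : C, (v : G) ∈ D → orderOf (v : G) = 2 → cI (x ^ h) (v : G) = 1 := by
    intro v hv hv2
    unfold cI
    rw [if_pos (hconj _ hv hv2)]
  have hKy : cI (x ^ h) (((⟨y, hDC H.hy⟩ : C) : C) : G) = 1 := hKval _ H.hy (by
    have := hd.ord_y H 0
    rwa [pow_zero, one_mul] at this)
  have hKxy : cI (x ^ h) (((⟨x, hDC H.hx⟩ : C) * (⟨y, hDC H.hy⟩ : C) : C) : G) = 1 :=
    hKval _ (D.mul_mem H.hx H.hy) (by
    have := hd.ord_y H 1
    rwa [pow_one] at this)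
  obtain ⟨s, c1, c2, hs, hc1, hc2, hsz, hsx⟩ := hd'.hside hM hbz.1 he' hb' hn H' hKc hK2 hKy hKxy
  obtain ⟨ez', hez1, hez2, hez3⟩ := exists_below hM hbz.1 he' hb' ((D.subgroupOf C).pow_mem H'.hx h)
  obtain ⟨ex', hex1, hex2, hex3⟩ := exists_below hM hbz.1 he' hb' H'.hx
  haveI : Fintype (Subgroup.centralizer (Subgroup.zpowers ((⟨x, hDC H.hx⟩ : C) ^ h) : Set C)) :=
    Fintype.ofFinite _
  haveI : Fintype (Subgroup.centralizer (Subgroup.zpowers (⟨x, hDC H.hx⟩ : C) : Set C)) :=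
    Fintype.ofFinite _
  obtain ⟨φz', dz', hRz'⟩ := exists_R1 hM hez2.1
    (rank_nilp hM hn rfl hez2.1 ((hez1.pairOf_iff he'.1).1 hb'))
  obtain ⟨φx', dx', hRx'⟩ := exists_R1 hM hex2.1
    (rank_nilp hM hn rfl hex2.1 ((hex1.pairOf_iff he'.1).1 hb'))
  have hcx : Subgroup.centralizer (Subgroup.zpowers x : Set G) ≤ C := by
    rw [hC]
    exact centralizer_le_of_le (Subgroup.zpowers_le.mpr (mem_zp h))
  obtain ⟨ez, φz, dz, hez, hez4, hRz, htz⟩ := exists_trans hM hbz (u := (⟨x, hDC H.hx⟩ : C) ^ h)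
    hC.ge rfl hez2 hez1 (K := C) hC hRz'
  obtain ⟨ex, φx, dx, hex, hex4, hRx, htx⟩ := exists_trans hM hbz (u := (⟨x, hDC H.hx⟩ : C)) hcx
    rfl hex2 hex1 (K := Cx) hCx hRx'
  rw [hmapD] at hez4 hex4
  obtain ⟨s0, hs0, hs0'⟩ := hsz _ ez' φz' dz' rfl hez2 hez1 hRz'
  obtain ⟨s1, hs1, hs1'⟩ := hsx _ ex' φx' dx' rfl hex2 hex1 hRx'
  have hconvC : ∀ (v : C) (n : C), x ^ h ∈ Subgroup.zpowers (v : G) →
      (∃ k, orderOf (v : G) = 2 ^ k) →
      ¬ 2 ∣ orderOf (n : G) → (v : G) * n = n * v →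
      conv (cI (x ^ h)) (cI (x ^ h)) ((v : G) * (n : G)) =
        conv (fun c : C => cI (x ^ h) (c : G)) (fun c : C => cI (x ^ h) (c : G)) (v * n) := by
    intro v n hv1 hv2 hn1 hvn
    obtain ⟨k, hk⟩ := hv2
    have h1 := mem_zpowers_mul hv1 hk hn1 hvn
    exact conv_cI hz2 hC1 (g := v * n) h1
  refine ⟨ez, φz, dz, ex, φx, dx, s, c1, c2, s0, s1, hez, hez4, hRz, hex, hex4, hRx, hs, hc1, hc2,
    hs0, hs1, ?_, ?_⟩
  · rw [← hs0']
    refine htz ((⟨x, hDC H.hx⟩ : C) ^ h) _ _ fun n hn1 => ?_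
    refine hconvC _ (n : C) (Subgroup.mem_zpowers _) (H.orderOf_two_pow (mem_zp h)) ?_ ?_
    · rw [Subgroup.orderOf_coe, Subgroup.orderOf_coe]; exact hn1
    · exact congrArg Subtype.val (cent_comm _ (n : C) n.2)
  · intro i hi
    rw [← hs1' i hi]
    refine htx ((⟨x, hDC H.hx⟩ : C) ^ i) _ _ fun n hn1 => ?_
    refine hconvC _ (n : C) ?_ (H.orderOf_two_pow (mem_zp i)) ?_ ?_
    · change x ^ h ∈ Subgroup.zpowers (x ^ i)
      rw [H.zp_odd hi]; exact mem_zp h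
    · rw [Subgroup.orderOf_coe, Subgroup.orderOf_coe]; exact hn1
    · have h5 := cent_comm _ (n : C) n.2
      exact congrArg Subtype.val (Commute.pow_left
        (show Commute (⟨x, hDC H.hx⟩ : C) (n : C) from h5) i)

end Cfsg.Agent.H10.MC
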