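import Cfsg.Agent.H10.DihC

/-!
# Exclusion of the second numerical possibility (owner: helper10)
-/

set_option autoImplicit false
set_option linter.style.haveILetI false
set_option linter.unusedSectionVars false

namespace Cfsg.Agent.H10.MC

open scoped ComplexConjugate BigOperators
open Cfsg Cfsg.Agent.CharBase Cfsg.Agent.Blk Cfsg.Agent.BlkF Cfsg.Agent.BlkInd Cfsg.Agent.BlkC
  Cfsg.Agent.Star Cfsg.Agent.H4 Cfsg.Agent.H10.Col MonoidAlgebra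

universe u

variable {G : Type u} [Group G] [Fintype G] {M : Ideal AlgInt} [hMp : M.IsPrime]
  {B : Set (IrrCharacter G)} {D : Subgroup G} {E : MonoidAlgebra (kM M) G} {x y : G} {h t : ℕ}

/-- if all subsections are conjugate to powers of `x`, then involutions are conjugate to `x ^ h` -/
theorem sconj_z (H : MC D x y h t) {P : G → MonoidAlgebra (kM M) G → Prop}
    (hall : ∀ (v : G), v ≠ 1 → (∃ k : ℕ, orderOf v = 2 ^ k) → ∀ f : MonoidAlgebra (kM M) G, P v f →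
      ∃ i f', 0 < i ∧ i ≤ h ∧ MLe 2 (Subgroup.zpowers (x ^ i)) f' D E ∧ SConj v f (x ^ i) f')
    {v : G} (hv : orderOf v = 2) {f : MonoidAlgebra (kM M) G} (hf : P v f) :
    ∃ f', MLe 2 (Subgroup.zpowers (x ^ h)) f' D E ∧ SConj v f (x ^ h) f' := by
  have hv1 : v ≠ 1 := by
    intro hc
    rw [hc, orderOf_one] at hv
    omega
  obtain ⟨i, f', hi, hi2, hf', hs⟩ := hall v hv1 ⟨1, by rw [hv]; norm_num⟩ f hf
  rcases Nat.lt_or_ge i h with h1 | h1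
  · exfalso
    obtain ⟨g, hg1, -⟩ := hs
    have h2 : orderOf (x ^ i) = 2 := by rw [hg1, Col.orderOf_conj', hv]
    have h3 : x ^ i * x ^ i = 1 := by rw [← pow_two, ← h2, pow_orderOf_eq_one]
    rw [← pow_add, H.pow_eq_one] at h3
    have := Nat.le_of_dvd (by omega) h3
    omega
  · have h2 : i = h := le_antisymm hi2 h1
    subst h2
    exact ⟨f', hf', hs⟩

/-- the block of the centralizer of the central involution is unique -/
theorem zuniq (hM : IsPModular 2 M) (he : haveI := charP_kM hM; MMax 2 D E)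
    (H : MC D x y h t)
    (hall : haveI := charP_kM hM; ∀ (v : G), v ≠ 1 → (∃ k : ℕ, orderOf v = 2 ^ k) →
      ∀ f : MonoidAlgebra (kM M) G,
      MPairOf 2 (eB M B) (Subgroup.zpowers v) f → ∃ i f', 0 < i ∧ i ≤ h ∧
        MLe 2 (Subgroup.zpowers (x ^ i)) f' D E ∧ SConj v f (x ^ i) f')
    {f₀ : MonoidAlgebra (kM M) G} (hf₀ : MLe 2 (Subgroup.zpowers (x ^ h)) f₀ D E)
    {f : MonoidAlgebra (kM M) G}
    (hf : haveI := charP_kM hM; MPairOf 2 (eB M B) (Subgroup.zpowers (x ^ h)) f) : f = f₀ := by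
  haveI := charP_kM hM
  obtain ⟨f', hf', g, hg1, hg2⟩ := sconj_z H hall H.ord_z hf
  have hgc : g ∈ Subgroup.centralizer (Subgroup.zpowers (x ^ h) : Set G) := by
    rw [centralizer_zpowers_eq, Subgroup.mem_centralizer_singleton_iff]
    calc g * x ^ h = g * x ^ h * g⁻¹ * g := by group
      _ = x ^ h * g := by rw [← hg1]
  have h1 : f' = f := by rw [hg2]; exact hf.1.blk.fixed g hgc
  rw [← h1]
  exact MLe.unique he.1 _ _ _ hf' hf₀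

theorem blockDefect_B (hM : IsPModular 2 M) (hB : IsPBlock M B) (H : MC D x y h t)
    (hD : haveI := charP_kM hM; IsDef 2 ⊤ (eB M B) D) : 2 ^ blockDefect 2 B = 4 * h := by
  haveI := charP_kM hM
  have h1 : IsDefectGroup 2 M B D := (Blk.isDefectGroup_iff hM hB D).2 hD
  rw [← card_defectGroup hM hB h1, H.card]

/-- the coefficients of the convolution square -/
theorem exists_coef {z : G} (hz2 : z * z = 1) {φz φB : ℂ} (hφB : φB ≠ 0)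
    {a dB : IrrCharacter G → ℂ} {I : Finset (IrrCharacter G)}
    (hchiz : ∀ χ ∈ I, (χ : G → ℂ) z = a χ * φz) (hdeg : ∀ χ ∈ I, (χ : G → ℂ) 1 = dB χ * φB) :
    ∃ κ : ℂ, ∀ χ ∈ I, (classInner (cI z) (χ : G → ℂ)) ^ 2 *
      ((Nat.card G : ℂ) / (χ : G → ℂ) 1) = κ * (a χ ^ 2 / dB χ) := by
  obtain ⟨k, hk⟩ := classInner_cI (G := G) hz2
  refine ⟨k ^ 2 * φz ^ 2 * Nat.card G / φB, ?_⟩
  intro χ hχ
  have h1 : dB χ ≠ 0 := by
    intro h0
    exact irr_one_ne_zero χ.2 (by rw [hdeg χ hχ, h0, zero_mul])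
  rw [hk, hchiz χ hχ, hdeg χ hχ]
  field_simp

/-- the averaged column -/
theorem avg_id {h : ℕ} (hh : 0 < h) {ζ : ℂ} {I : Finset (IrrCharacter G)}
    {f : ℕ → IrrCharacter G → ℂ} {A : IrrCharacter G → ℤ} {w : IrrCharacter G → ℂ} {c : ℂ}
    (hA : ∀ χ ∈ I, Cyc.cf ζ h (fun i => f i χ) ((0 : ℕ) : ℤ) = (A χ : ℂ))
    (h0 : ∀ i, Odd i → ∑ χ ∈ I, w χ * f i χ = c) : ∑ χ ∈ I, w χ * (A χ : ℂ) = c := by
  have hh0 : (h : ℂ) ≠ 0 := by exact_mod_cast hh.ne'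
  have h1 : ∑ χ ∈ I, w χ * (A χ : ℂ) = (h : ℂ)⁻¹ * ∑ j ∈ Finset.range h,
      ∑ χ ∈ I, w χ * f (2 * j + 1) χ := by
    rw [Finset.sum_comm, Finset.mul_sum]
    refine Finset.sum_congr rfl fun χ hχ => ?_
    rw [← hA χ hχ, cf_zero_eq, ← Finset.mul_sum]
    ring
  rw [h1, Finset.sum_congr rfl fun j _ => h0 (2 * j + 1) ⟨j, rfl⟩, Finset.sum_const,
    Finset.card_range, nsmul_eq_mul]
  field_simp

theorem sconj_zx (H : MC D x y h t) {f f' : MonoidAlgebra (kM M) G} {i : ℕ} (hi : Odd i) :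
    ¬ SConj (x ^ h) f (x ^ i) f' := by
  rintro ⟨g, hg, -⟩
  have h1 : orderOf (x ^ i) = 2 := by rw [hg, Col.orderOf_conj', H.ord_z]
  have h2 : x ^ i * x ^ i = 1 := by rw [← pow_two, ← h1, pow_orderOf_eq_one]
  rcases H.sq_pow h2 with h3 | h3
  · rw [h3, orderOf_one] at h1; omega
  · rw [H.pow_eq_pow] at h3
    have h4 : i ≡ h [MOD h] := h3.of_mul_left 2
    have h5 : h ∣ i := (Nat.modEq_zero_iff_dvd).mp (h4.trans
      ((Nat.modEq_zero_iff_dvd).mpr (dvd_refl h)))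
    exact H.not_dvd_odd hi h5

theorem pow_odd_ne (H : MC D x y h t) {i : ℕ} (hi : Odd i) : x ^ i ≠ 1 := by
  intro hc
  rw [H.pow_eq_one] at hc
  exact H.not_dvd_odd hi ((Dvd.intro_left 2 rfl).trans hc)

theorem orth_xw (H : MC D x y h t) {Cx : Subgroup G} [Fintype Cx] {ex : Set (IrrCharacter Cx)}
    {dx : IrrCharacter Cx → ℕ} {ζ : ℂ} {A : IrrCharacter G → ℤ} {w : IrrCharacter G → ℤ}
    (hA : ∀ χ ∈ Bfin B, Cyc.cf ζ h
      (fun i => Col.D (x ^ i) ex dx (χ : G → ℂ)) ((0 : ℕ) : ℤ) = (A χ : ℂ))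
    (hw : ∀ i, Odd i → ∑ χ ∈ Bfin B, (w χ : ℂ) * conj (Col.D (x ^ i) ex dx (χ : G → ℂ)) = 0) :
    ∑ χ ∈ Bfin B, A χ * w χ = 0 := by
  have h1 := avg_orth (I := Bfin B) (A := A) (ζ := ζ) (h := h)
    (f := fun i χ => Col.D (x ^ i) ex dx (χ : G → ℂ)) (w := fun χ => (w χ : ℂ)) hA hw
  have h2 : ((∑ χ ∈ Bfin B, A χ * w χ : ℤ) : ℂ) = 0 := by
    push_cast
    rw [← h1]
    exact Finset.sum_congr rfl fun χ _ => by ring
  exact_mod_cast h2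

theorem orth_deg {φB : ℂ} (hφB : φB ≠ 0) {dB : IrrCharacter G → ℕ} {w : IrrCharacter G → ℂ}
    (hdeg : ∀ χ ∈ Bfin B, (χ : G → ℂ) 1 = (dB χ : ℂ) * φB)
    (h2 : ∑ χ ∈ Bfin B, (χ : G → ℂ) 1 * conj (w χ) = 0) :
    ∑ χ ∈ Bfin B, ((dB χ : ℤ) : ℂ) * conj (w χ) = 0 := by
  rw [Finset.sum_congr rfl fun χ hχ => by rw [hdeg χ hχ]] at h2
  have h3 : φB * ∑ χ ∈ Bfin B, ((dB χ : ℤ) : ℂ) * conj (w χ) = 0 := by
    rw [Finset.mul_sum, ← h2]
    refine Finset.sum_congr rfl fun χ _ => ?_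
    push_cast; ring
  exact (mul_eq_zero.mp h3).resolve_left hφB

theorem deg_orth (hM : IsPModular 2 M) (hB : IsPBlock M B) {v : G} {Cv : Subgroup G} [Fintype Cv]
    (hCv : Cv = Subgroup.centralizer (Subgroup.zpowers v : Set G))
    (hv : ∃ k : ℕ, orderOf v = 2 ^ k) (hv1 : v ≠ 1) {e : Set (IrrCharacter Cv)} {φ : Cv → ℂ}
    {d : IrrCharacter Cv → ℕ}
    (hind : IsInducedBlock M Cv e B) (hl : blockRank 2 e = 1) (hR : R1 2 e φ d)
    {φB : G → ℂ} {dB : IrrCharacter G → ℕ} (hRB : R1 2 B φB dB) :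
    ∑ χ ∈ Bfin B, ((dB χ : ℤ) : ℂ) * conj (Col.D v e d (χ : G → ℂ)) = 0 := by
  have h1 := D_orth_reg hM hB hCv hv hv1 hind hl hR (c := 1) one_reg
  have hdeg : ∀ χ ∈ Bfin B, (χ : G → ℂ) 1 = (dB χ : ℂ) * φB 1 := fun χ hχ =>
    hRB.eq χ (mem_Bfin.mp hχ) 1 one_reg
  have h4 := orth_deg (dB := dB) (w := fun χ => Col.D v e d (χ : G → ℂ)) hRB.ne hdeg
  exact h4 h1

/-- the integral columns and their orthogonality relations -/
theorem Dih.gcols (hM : IsPModular 2 M) (hB : IsPBlock M B)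
    (he : haveI := charP_kM hM; MMax 2 D E)
    (H : MC D x y h t) (hd : Dih y h t) (hdB : 2 ^ blockDefect 2 B = 4 * h) {C : Subgroup G}
    [Fintype C] (hC : C = Subgroup.centralizer (Subgroup.zpowers (x ^ h) : Set G))
    {Cx : Subgroup G} [Fintype Cx]
    (hCx : Cx = Subgroup.centralizer (Subgroup.zpowers x : Set G))
    {ez : Set (IrrCharacter C)} {φz : C → ℂ} {dz : IrrCharacter C → ℕ}
    {ex : Set (IrrCharacter Cx)} {φx : Cx → ℂ} {dx : IrrCharacter Cx → ℕ}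
    (hez : IsInducedBlock M C ez B) (hez4 : MLe 2 (Subgroup.zpowers (x ^ h)) (EB M C ez) D E)
    (hRz : R1 2 ez φz dz) (hex : IsInducedBlock M Cx ex B)
    (hex4 : MLe 2 (Subgroup.zpowers x) (EB M Cx ex) D E) (hRx : R1 2 ex φx dx) {ζ : ℂ}
    (hζ : IsPrimitiveRoot ζ (2 * h)) :
    ∃ (a A : IrrCharacter G → ℤ),
      (∀ χ : IrrCharacter G, Col.D (x ^ h) ez dz (χ : G → ℂ) = (a χ : ℂ)) ∧
      (∀ χ ∈ B, ∃ s : ℤ, Odd s ∧ a χ = 2 ^ blockHeight 2 B (χ : G → ℂ) * s) ∧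
      ∑ χ ∈ Bfin B, a χ ^ 2 = 4 * h ∧
      (∀ χ ∈ Bfin B, Cyc.cf ζ h
        (fun i => Col.D (x ^ i) ex dx (χ : G → ℂ)) ((0 : ℕ) : ℤ) = (A χ : ℂ)) ∧
      ∑ χ ∈ Bfin B, A χ ^ 2 = 4 ∧
      (∀ χ ∈ B, blockHeight 2 B (χ : G → ℂ) = 0 → Odd (A χ)) ∧
      ∑ χ ∈ Bfin B, A χ * a χ = 0 := by
  haveI := charP_kM hM
  have hh := H.pos
  have hC1 : C = Subgroup.centralizer ({x ^ h} : Set G) := cent_eq hC
  have hlz : blockRank 2 ez = 1 := hd.rank_z hM he H hC hez.1 hez4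
  have hlx : blockRank 2 ex = 1 := H.rank_x1 hM he hCx hex.1 hex4
  have hdz : blockDefect 2 ez = blockDefect 2 B := by
    refine Nat.pow_right_injective (le_refl 2) ?_
    change 2 ^ blockDefect 2 ez = 2 ^ blockDefect 2 B
    rw [H.defect_z1 hM he hC hez.1 hez4, hdB]
  have hdx : 2 ^ blockDefect 2 ex = 2 * h := H.defect_x1 hM he hCx hex.1 hex4
  obtain ⟨a, ha1, ha2, ha3⟩ := zcol hM hB H.ord_z hC1 hez hlz hdz hRz
  have hL := H.lev hM hB he hζ hCx hex hex4 hlx hRx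
  obtain ⟨A, -, hA2, hA3, -, -, -, -, hA8⟩ := xcol hM H.ht hζ H.hp H.ord_two_pow
    (cent_eq hCx) hex hlx hRx hdx hL
  have hA2' : ∀ χ ∈ Bfin B, Cyc.cf ζ h
      (fun i => Col.D (x ^ i) ex dx (χ : G → ℂ)) ((0 : ℕ) : ℤ) = (A 0 χ : ℂ) :=
    fun χ hχ => hA2 χ (mem_Bfin.mp hχ) 0 hh
  have hdB' : (2 : ℤ) ^ blockDefect 2 B = 4 * h := by exact_mod_cast hdB
  refine ⟨a, A 0, ha1, ha2, by rw [ha3, hdB'], hA2', hA3, hA8, ?_⟩
  refine H.orth_xw (ex := ex) (dx := dx) (ζ := ζ) (A := A 0) (w := a) hA2' ?_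
  intro i hi
  have h2 := D_orth hM hB hC (show Cx = Subgroup.centralizer (Subgroup.zpowers (x ^ i) : Set G) by
      rw [H.zp_odd hi]; exact hCx) (H.orderOf_two_pow (mem_zp h)) (H.orderOf_two_pow (mem_zp i)) hez
    hex hlz hlx hRz hRx (H.sconj_zx hi)
  rw [← h2]
  exact Finset.sum_congr rfl fun χ _ => by rw [ha1]

/-- the degrees -/
theorem Dih.gdeg (hM : IsPModular 2 M) (hB : IsPBlock M B)
    (he : haveI := charP_kM hM; MMax 2 D E)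
    (H : MC D x y h t) (hd : Dih y h t) (hdB : 2 ^ blockDefect 2 B = 4 * h) {C : Subgroup G}
    [Fintype C] (hC : C = Subgroup.centralizer (Subgroup.zpowers (x ^ h) : Set G))
    {Cx : Subgroup G} [Fintype Cx]
    (hCx : Cx = Subgroup.centralizer (Subgroup.zpowers x : Set G))
    {ez : Set (IrrCharacter C)} {φz : C → ℂ} {dz : IrrCharacter C → ℕ}
    {ex : Set (IrrCharacter Cx)} {φx : Cx → ℂ} {dx : IrrCharacter Cx → ℕ}
    (hez : IsInducedBlock M C ez B) (hez4 : MLe 2 (Subgroup.zpowers (x ^ h)) (EB M C ez) D E)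
    (hRz : R1 2 ez φz dz) (hex : IsInducedBlock M Cx ex B)
    (hex4 : MLe 2 (Subgroup.zpowers x) (EB M Cx ex) D E) (hRx : R1 2 ex φx dx) {ζ : ℂ}
    {a A : IrrCharacter G → ℤ}
    (ha1 : ∀ χ : IrrCharacter G, Col.D (x ^ h) ez dz (χ : G → ℂ) = (a χ : ℂ))
    (hA2 : ∀ χ ∈ Bfin B, Cyc.cf ζ h
        (fun i => Col.D (x ^ i) ex dx (χ : G → ℂ)) ((0 : ℕ) : ℤ) = (A χ : ℂ))
    (hrB : blockRank 2 B = 1)
    (huniq : haveI := charP_kM hM; ∀ f : MonoidAlgebra (kM M) G,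
      MPairOf 2 (eB M B) (Subgroup.zpowers (x ^ h)) f → f = EB M C ez) :
    ∃ (dB : IrrCharacter G → ℤ) (κ : ℂ),
      (∀ χ ∈ B, ∃ s : ℤ, Odd s ∧ dB χ = 2 ^ blockHeight 2 B (χ : G → ℂ) * s) ∧
      (∀ χ ∈ B, 0 < dB χ) ∧ ∑ χ ∈ Bfin B, dB χ ^ 2 = 4 * h ∧
      ∑ χ ∈ Bfin B, A χ * dB χ = 0 ∧ ∑ χ ∈ Bfin B, a χ * dB χ = 0 ∧
      κ * ∑ χ ∈ Bfin B, (a χ : ℂ) ^ 3 / (dB χ : ℂ) =
        Col.D (x ^ h) ez dz (conv (cI (x ^ h)) (cI (x ^ h))) ∧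
      ∀ c, (∀ i, Odd i → Col.D (x ^ i) ex dx (conv (cI (x ^ h)) (cI (x ^ h))) = c) →
        κ * ∑ χ ∈ Bfin B, (a χ : ℂ) ^ 2 * (A χ : ℂ) / (dB χ : ℂ) = c := by
  haveI := charP_kM hM
  have hh := H.pos
  have hC1 : C = Subgroup.centralizer ({x ^ h} : Set G) := cent_eq hC
  have hlz : blockRank 2 ez = 1 := hd.rank_z hM he H hC hez.1 hez4
  have hlx : blockRank 2 ex = 1 := H.rank_x1 hM he hCx hex.1 hex4
  have hcxi : ∀ i, Odd i → Cx = Subgroup.centralizer (Subgroup.zpowers (x ^ i) : Set G) :=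
    fun i hi => by rw [H.zp_odd hi]; exact hCx
  have hxi : ∀ i : ℕ, ∃ k : ℕ, orderOf (x ^ i) = 2 ^ k := fun i => H.orderOf_two_pow (mem_zp i)
  obtain ⟨φB, dB, hRB⟩ := exists_R1 hM hB hrB
  have hφB := hRB.ne
  have hdeg : ∀ χ ∈ Bfin B, (χ : G → ℂ) 1 = (dB χ : ℂ) * φB 1 := fun χ hχ =>
    hRB.eq χ (mem_Bfin.mp hχ) 1 one_reg
  have hchiz : ∀ χ ∈ Bfin B, (χ : G → ℂ) (x ^ h) = (a χ : ℂ) * φz 1 := by
    intro χ hχ
    rw [← ha1]
    exact chi_z hM hB (hxi h) hC hez.1 huniq hRz (mem_Bfin.mp hχ)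
  obtain ⟨κ, hκ⟩ := exists_coef H.z_sq hφB (a := fun χ => (a χ : ℂ)) (dB := fun χ => (dB χ : ℂ))
    hchiz hdeg
  refine ⟨fun χ => (dB χ : ℤ), κ, fun χ hχ => hRB.exists_odd hM hB hχ,
    fun χ hχ => ?_, ?_, ?_, ?_, ?_, ?_⟩
  · show (0 : ℤ) < (dB χ : ℤ)
    exact_mod_cast hRB.pos hχ
  · have h1 := hRB.sum
    rw [hdB] at h1
    show ∑ χ ∈ Bfin B, (dB χ : ℤ) ^ 2 = 4 * (h : ℤ)
    exact_mod_cast h1
  · refine H.orth_xw (ex := ex) (dx := dx) (ζ := ζ) (A := A) (w := fun χ => (dB χ : ℤ)) hA2 ?_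
    intro i hi
    exact deg_orth hM hB (hcxi i hi) (hxi i) (H.pow_odd_ne hi) hex hlx hRx hRB
  · have h2 := deg_orth hM hB hC (hxi h) H.z_ne hez hlz hRz hRB
    have h3 : ((∑ χ ∈ Bfin B, a χ * (dB χ : ℤ) : ℤ) : ℂ) = 0 := by
      push_cast at h2 ⊢
      rw [← h2]
      refine Finset.sum_congr rfl fun χ _ => ?_
      rw [ha1, map_intCast]; ring
    exact_mod_cast h3
  · rw [D_conv hM (hxi h) hC1 hez hRz (cI_class (x ^ h)), Finset.mul_sum]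
    refine Finset.sum_congr rfl fun χ hχ => ?_
    rw [hκ χ hχ, ha1]
    push_cast
    ring
  · intro c hc
    have h1 := avg_id hh (f := fun i χ => Col.D (x ^ i) ex dx (χ : G → ℂ)) hA2
      (w := fun χ => κ * ((a χ : ℂ) ^ 2 / (dB χ : ℂ)))
      (c := c) (by
        intro i hi
        rw [← hc i hi, D_conv hM (hxi i) (cent_eq (hcxi i hi)) hex hRx (cI_class (x ^ h))]
        refine Finset.sum_congr rfl fun χ hχ => ?_
        rw [hκ χ hχ])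
    rw [← h1, Finset.mul_sum]
    refine Finset.sum_congr rfl fun χ _ => ?_
    push_cast
    ring

theorem Dih.excl (hM : IsPModular 2 M) (hB : IsPBlock M B)
    (hD : haveI := charP_kM hM; IsDef 2 ⊤ (eB M B) D) (H : MC D x y h t) (hd : Dih y h t)
    (hcard : Nat.card B = h + 1) {C : Subgroup G} [Fintype C]
    (hC : C = Subgroup.centralizer (Subgroup.zpowers (x ^ h) : Set G)) {bz : Set (IrrCharacter C)}
    (hbz : IsInducedBlock M C bz B) {E₀ : MonoidAlgebra (kM M) G}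
    (he₀ : haveI := charP_kM hM; MMax 2 D E₀)
    (hbz1 : MLe 2 (Subgroup.zpowers (x ^ h)) (EB M C bz) D E₀)
    {Cx : Subgroup G} [Fintype Cx]
    (hCx : Cx = Subgroup.centralizer (Subgroup.zpowers x : Set G)) : False := by
  haveI := charP_kM hM
  have hh := H.pos
  obtain ⟨E, he, hE, hcs⟩ := hd.cside hM hD H hC hbz he₀ hbz1 hCx
  obtain ⟨f1, f2⟩ := hd.fam hM hB he hE H
  have hrpos := Col.blockRank_pos hM hB
  have hrB : blockRank 2 B = 1 := by omega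
  have hall := f2 (by omega)
  have hconj : ∀ v ∈ D, orderOf v = 2 → IsConj (x ^ h) v := by
    intro v hv hv2
    obtain ⟨fv, hfv1, hfv2, hfv3⟩ := exists_below hM hB he hE hv
    obtain ⟨f', -, g, hg, -⟩ := sconj_z H hall hv2 ((hfv1.pairOf_iff he.1).1 hE)
    exact (isConj_iff.mpr ⟨g, hg.symm⟩ : IsConj v (x ^ h)).symm
  obtain ⟨ez, φz, dz, ex, φx, dx, s, c1, c2, s0, s1, hez, hez4, hRz, hex, hex4, hRx, hs, hc1, hc2,
    hs0, hs1, idz0, idx0⟩ := hcs hconj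
  obtain ⟨ζ, hζ⟩ : ∃ ζ : ℂ, IsPrimitiveRoot ζ (2 * h) :=
    ⟨_, Complex.isPrimitiveRoot_exp (2 * h) (by omega)⟩
  have hdB := H.blockDefect_B hM hB hD
  obtain ⟨a, A, ha1, ha2, ha3, hA2, hA3, hA8, o1⟩ := hd.gcols hM hB he H hdB hC hCx hez hez4 hRz hex
    hex4 hRx hζ
  obtain ⟨dB, κ, hd1, hd2, hd3, o2, o3, idz, idx⟩ := hd.gdeg hM hB he H hdB hC hCx hez hez4 hRz hex
    hex4 hRx ha1 hA2 hrB (fun f hf => H.zuniq hM he hall hez4 hf)
  replace idx := idx _ idx0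
  rw [idz0] at idz
  obtain ⟨χ₁, hχ₁, hχ₁0⟩ := exists_height_zero hM hB
  have hcardB : (Bfin B).card = h + 1 := by rw [← natCard_eq_Bfin, hcard]
  obtain ⟨n1, n2, n3⟩ := num_height_zero (I := Bfin B)
    (ht := fun χ => blockHeight 2 B (χ : G → ℂ)) (a := a) (A := A)
    (fun χ hχ => ha2 χ (mem_Bfin.mp hχ)) ⟨h, ha3⟩ hA3
    (fun χ hχ h0 => hA8 χ (mem_Bfin.mp hχ) h0) ⟨χ₁, mem_Bfin.mpr hχ₁, hχ₁0⟩
  have n4 := dih_cases (I := Bfin B) (ht := fun χ => blockHeight 2 B (χ : G → ℂ)) (a := a)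
    (h := h) (fun χ hχ => ha2 χ (mem_Bfin.mp hχ)) ha3 n1 hcardB.ge
  obtain ⟨-, -, n5, b, hb, hb0, hb9, hb1⟩ := n4.resolve_left (fun hc => by omega)
  refine excl_arith (I := Bfin B) (ht := fun χ => blockHeight 2 B (χ : G → ℂ)) (a := a)
    (A := A) (d := dB) (h := h) n1 hcardB n5 hb hb0 hb9 hb1 n2
    n3 (fun χ hχ => hd1 χ (mem_Bfin.mp hχ)) (fun χ hχ => hd2 χ (mem_Bfin.mp hχ)) hd3 o1 o2 o3
    (κ := κ / s) hc1 hc2 hs0 hs1 ?_ ?_
  · rw [div_mul_eq_mul_div, idz]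
    field_simp
  · rw [div_mul_eq_mul_div, idx]
    field_simp

end Cfsg.Agent.H10.MC
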