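import Cfsg.Agent.H10.DihNum

/-!
# Arithmetic exclusion of the second numerical possibility (owner: helper10)
-/

set_option autoImplicit false

namespace Cfsg.Agent.H10

open scoped BigOperators

variable {ι : Type*} {I : Finset ι} {ht : ι → ℕ} {a A d : ι → ℤ} {h : ℕ}

theorem sq_one {γ : ℤ} (hγ : γ ^ 2 = 1) : γ = 1 ∨ γ = -1 := by
  have h : (γ - 1) * (γ + 1) = 0 := by linear_combination hγ
  rcases mul_eq_zero.mp h with h | h
  · left; linarith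
  · right; linarith

theorem all_eq_of_sum {S : Finset ι} {g : ι → ℤ} (hg : ∀ χ ∈ S, g χ ^ 2 = 1) {γ : ℤ}
    (hγ : γ ^ 2 = 1) (hs : ∑ χ ∈ S, g χ = -(S.card * γ)) : ∀ χ ∈ S, g χ = -γ := by
  have hγ1 : γ = 1 ∨ γ = -1 := sq_one hγ
  have h1 : ∑ χ ∈ S, (1 + g χ * γ) = 0 := by
    rw [Finset.sum_add_distrib, ← Finset.sum_mul, hs, Finset.sum_const, nsmul_eq_mul, mul_one]
    have : -(↑S.card * γ) * γ = -(S.card * γ ^ 2) := by ring
    rw [this, hγ]; ring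
  have h2 : ∀ χ ∈ S, 0 ≤ 1 + g χ * γ := by
    intro χ hχ
    have h3 := hg χ hχ
    nlinarith [sq_nonneg (g χ + γ)]
  intro χ hχ
  have h3 := (Finset.sum_eq_zero_iff_of_nonneg h2).mp h1 χ hχ
  rcases hγ1 with h4 | h4 <;> rw [h4] at h3 ⊢ <;> linarith

theorem no_sqrt_three (r : ℚ) : r ^ 2 ≠ 3 := by
  intro h
  have h1 : Irrational (Real.sqrt 3) := by
    have := Nat.Prime.irrational_sqrt (p := 3) (by norm_num)
    exact_mod_cast this
  apply h1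
  refine ⟨|r|, ?_⟩
  rw [← Real.sqrt_sq (show (0 : ℝ) ≤ ((|r| : ℚ) : ℝ) by exact_mod_cast abs_nonneg r)]
  congr 1
  have : (|r| : ℚ) ^ 2 = 3 := by rw [sq_abs]; exact h
  exact_mod_cast this

theorem excl_ratio {c1 c2 : ℚ} (hc1 : c1 ≠ 0) (hc2 : c2 ≠ 0) {s : ℚ} (hs : s ^ 2 = 1)
    (h : c1 ^ 2 + c2 ^ 2 = s * 4 * (c1 * c2)) : False := by
  apply no_sqrt_three (c1 / c2 - 2 * s)
  have h1 : (c1 / c2 - 2 * s) ^ 2 = (c1 ^ 2 + c2 ^ 2 - s * 4 * (c1 * c2)) / c2 ^ 2 + 4 * s ^ 2 - 1 := by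
    field_simp
    ring
  rw [h1, h, hs]
  simp
  norm_num

theorem excl_arith (hI0 : (I.filter (fun χ => ht χ = 0)).card = 4) (hcard : I.card = h + 1)
    (ha4 : ∀ χ ∈ I, ht χ ≠ 0 → a χ ^ 2 = 4) {b : ι} (hb : b ∈ I) (hb0 : ht b = 0)
    (hb9 : a b ^ 2 = 9) (hb1 : ∀ χ ∈ I, ht χ = 0 → χ ≠ b → a χ ^ 2 = 1)
    (hA1 : ∀ χ ∈ I, ht χ = 0 → A χ ^ 2 = 1) (hA0 : ∀ χ ∈ I, ht χ ≠ 0 → A χ = 0)
    (hd : ∀ χ ∈ I, ∃ s : ℤ, Odd s ∧ d χ = 2 ^ ht χ * s) (hdpos : ∀ χ ∈ I, 0 < d χ)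
    (hd2 : ∑ χ ∈ I, d χ ^ 2 = 4 * h)
    (o1 : ∑ χ ∈ I, A χ * a χ = 0) (o2 : ∑ χ ∈ I, A χ * d χ = 0) (o3 : ∑ χ ∈ I, a χ * d χ = 0)
    {κ : ℂ} {c1 c2 : ℚ} (hc1 : c1 ≠ 0) (hc2 : c2 ≠ 0) {s0 s1 : ℤ} (hs0 : s0 ^ 2 = 1)
    (hs1 : s1 ^ 2 = 1)
    (hz : κ * ∑ χ ∈ I, (a χ : ℂ) ^ 3 / (d χ : ℂ) = s0 * 4 * ((c1 : ℂ) ^ 2 + (c2 : ℂ) ^ 2))
    (hx : κ * ∑ χ ∈ I, (a χ : ℂ) ^ 2 * (A χ : ℂ) / (d χ : ℂ) = s1 * 8 * ((c1 : ℂ) * (c2 : ℂ))) :
    False := by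
  classical
  set I0 := I.filter (fun χ => ht χ = 0) with hI0def
  set I1 := I.filter (fun χ => ¬ ht χ = 0) with hI1def
  -- the shape of `d`
  obtain ⟨-, -, hd4, b', hb', hb'0, hb'9, hb'1⟩ : I.card = h + 1 ∧ (∀ χ ∈ I, ht χ ≤ 1) ∧
      (∀ χ ∈ I, ht χ ≠ 0 → d χ ^ 2 = 4) ∧
      ∃ b ∈ I, ht b = 0 ∧ d b ^ 2 = 9 ∧ ∀ χ ∈ I, ht χ = 0 → χ ≠ b → d χ ^ 2 = 1 := by
    rcases dih_cases hd hd2 hI0 hcard.ge with h1 | h1
    · omega
    · exact h1
  have hdp : ∀ χ ∈ I, ∀ n : ℤ, 0 < n → d χ ^ 2 = n ^ 2 → d χ = n := by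
    intro χ hχ n hn hh
    have h1 := hdpos χ hχ
    nlinarith [sq_nonneg (d χ - n), mul_pos h1 hn]
  have hd2' : ∀ χ ∈ I1, d χ = 2 := fun χ hχ =>
    hdp χ (Finset.mem_filter.mp hχ).1 2 (by norm_num)
      (by rw [hd4 χ (Finset.mem_filter.mp hχ).1 (Finset.mem_filter.mp hχ).2]; norm_num)
  have hd3 : d b' = 3 := hdp b' hb' 3 (by norm_num) (by rw [hb'9]; norm_num)
  have hd1 : ∀ χ ∈ I, ht χ = 0 → χ ≠ b' → d χ = 1 := fun χ hχ h0 hne =>
    hdp χ hχ 1 (by norm_num) (by rw [hb'1 χ hχ h0 hne]; norm_num)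
  -- splitting sums
  have hsplit : ∀ {β : Type} [AddCommMonoid β] (F : ι → β),
      ∑ χ ∈ I, F χ = ∑ χ ∈ I0, F χ + ∑ χ ∈ I1, F χ := fun F =>
    (Finset.sum_filter_add_sum_filter_not I _ F).symm
  have hA1' : ∀ χ ∈ I1, A χ = 0 := fun χ hχ =>
    hA0 χ (Finset.mem_filter.mp hχ).1 (Finset.mem_filter.mp hχ).2
  have hbI : b ∈ I0 := Finset.mem_filter.mpr ⟨hb, hb0⟩
  have hb'I : b' ∈ I0 := Finset.mem_filter.mpr ⟨hb', hb'0⟩
  set s11 : ℤ := ∑ χ ∈ I1, a χ with hS11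
  -- orthogonality relations
  have o1' : ∑ χ ∈ I0, A χ * a χ = 0 := by
    have h1 := o1
    rw [hsplit, Finset.sum_eq_zero (s := I1) (fun χ hχ => by rw [hA1' χ hχ, zero_mul]), add_zero]
      at h1
    exact h1
  have o2' : ∑ χ ∈ I0, A χ * d χ = 0 := by
    have h1 := o2
    rw [hsplit, Finset.sum_eq_zero (s := I1) (fun χ hχ => by rw [hA1' χ hχ, zero_mul]), add_zero]
      at h1
    exact h1
  have o3' : ∑ χ ∈ I0, a χ * d χ + 2 * s11 = 0 := by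
    have h1 := o3
    rw [hsplit, Finset.sum_congr rfl (g := fun χ => 2 * a χ) (s₁ := I1)
      (fun χ hχ => by rw [hd2' χ hχ]; ring), ← Finset.mul_sum] at h1
    exact h1
  have hz1 : ∑ χ ∈ I, (a χ : ℂ) ^ 3 / (d χ : ℂ) = ∑ χ ∈ I0, (a χ : ℂ) ^ 3 / (d χ : ℂ) +
      2 * (s11 : ℂ) := by
    rw [hsplit]
    congr 1
    rw [hS11]; push_cast
    rw [Finset.mul_sum]
    refine Finset.sum_congr rfl fun χ hχ => ?_
    rw [hd2' χ hχ]
    have h1 : (a χ : ℂ) ^ 2 = 4 := by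
      exact_mod_cast ha4 χ (Finset.mem_filter.mp hχ).1 (Finset.mem_filter.mp hχ).2
    have h2 : (a χ : ℂ) ^ 3 = (a χ : ℂ) ^ 2 * a χ := by ring
    rw [h2, h1]; push_cast; ring
  have hx1 : ∑ χ ∈ I, (a χ : ℂ) ^ 2 * (A χ : ℂ) / (d χ : ℂ) =
      ∑ χ ∈ I0, (a χ : ℂ) ^ 2 * (A χ : ℂ) / (d χ : ℂ) := by
    rw [hsplit, Finset.sum_eq_zero (s := I1) (fun χ hχ => by rw [hA1' χ hχ]; simp), add_zero]
  -- `a b = 3 β`
  obtain ⟨β, hβ, hβb⟩ : ∃ β : ℤ, β ^ 2 = 1 ∧ a b = 3 * β := by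
    have h1 : (a b - 3) * (a b + 3) = 0 := by linear_combination hb9
    rcases mul_eq_zero.mp h1 with h1 | h1
    · exact ⟨1, by norm_num, by linarith⟩
    · exact ⟨-1, by norm_num, by linarith⟩
  by_cases hbb : b = b'
  · -- same position
    subst hbb
    set S := I0.erase b with hS
    have hScard : S.card = 3 := by rw [hS, Finset.card_erase_of_mem hbI, hI0]
    have hSmem : ∀ χ ∈ S, χ ∈ I ∧ ht χ = 0 ∧ χ ≠ b := by
      intro χ hχ
      rw [hS, Finset.mem_erase, hI0def, Finset.mem_filter] at hχ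
      exact ⟨hχ.2.1, hχ.2.2, hχ.1⟩
    have hspl : ∀ {β : Type} [AddCommMonoid β] (F : ι → β),
        ∑ χ ∈ I0, F χ = F b + ∑ χ ∈ S, F χ := fun F => (Finset.add_sum_erase _ _ hbI).symm
    have hαsq := hA1 b hb hb0
    -- `A χ = - A b`
    have e1 : ∀ χ ∈ S, A χ = - A b := by
      apply all_eq_of_sum (fun χ hχ => hA1 χ (hSmem χ hχ).1 (hSmem χ hχ).2.1) hαsq
      rw [hspl, hd3, Finset.sum_congr rfl (g := fun χ => A χ)
        (fun χ hχ => by rw [hd1 χ (hSmem χ hχ).1 (hSmem χ hχ).2.1 (hSmem χ hχ).2.2, mul_one])] at o2'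
      rw [hScard]; push_cast; linarith
    have e2 : ∀ χ ∈ S, a χ = β := by
      intro χ hχ
      have h1 : ∀ χ ∈ S, A χ * a χ = -(A b * β) := by
        apply all_eq_of_sum
        · intro χ hχ
          rw [mul_pow, hA1 χ (hSmem χ hχ).1 (hSmem χ hχ).2.1,
            hb1 χ (hSmem χ hχ).1 (hSmem χ hχ).2.1 (hSmem χ hχ).2.2, mul_one]
        · rw [mul_pow, hαsq, hβ, mul_one]
        · rw [hspl, hβb] at o1'
          rw [hScard]; push_cast; linarith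
      have h2 := h1 χ hχ
      rw [e1 χ hχ] at h2
      have h3 : A b * a χ = A b * β := by linarith
      have h4 : A b ≠ 0 := by
        intro h; rw [h] at hαsq; norm_num at hαsq
      exact mul_left_cancel₀ h4 h3
    have e3 : s11 = -6 * β := by
      rw [hspl, hβb, hd3, Finset.sum_congr rfl (g := fun _ => β)
        (fun χ hχ => by rw [e2 χ hχ, hd1 χ (hSmem χ hχ).1 (hSmem χ hχ).2.1 (hSmem χ hχ).2.2,
          mul_one]), Finset.sum_const, hScard] at o3'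
      simp only [nsmul_eq_mul] at o3'
      push_cast at o3'
      linarith
    have e4 : ∑ χ ∈ I, (a χ : ℂ) ^ 3 / (d χ : ℂ) = 0 := by
      rw [hz1, hspl, hβb, hd3, Finset.sum_congr rfl (g := fun _ => (β : ℂ))
        (fun χ hχ => by
          rw [e2 χ hχ, hd1 χ (hSmem χ hχ).1 (hSmem χ hχ).2.1 (hSmem χ hχ).2.2]
          have : (β : ℂ) ^ 3 = (β : ℂ) ^ 2 * β := by ring
          rw [this, show (β : ℂ) ^ 2 = 1 by exact_mod_cast hβ]; simp),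
        Finset.sum_const, hScard, e3]
      have : ((3 * β : ℤ) : ℂ) ^ 3 = 27 * ((β : ℂ) ^ 2 * β) := by push_cast; ring
      rw [this, show (β : ℂ) ^ 2 = 1 by exact_mod_cast hβ]
      simp only [nsmul_eq_mul]
      push_cast
      ring
    rw [e4, mul_zero] at hz
    have h5 : (0 : ℚ) = s0 * 4 * (c1 ^ 2 + c2 ^ 2) := by exact_mod_cast hz
    have h6 : (s0 : ℚ) ≠ 0 := by
      intro h
      have : s0 = 0 := by exact_mod_cast h
      rw [this] at hs0; norm_num at hs0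
    have h7 : c1 ^ 2 + c2 ^ 2 = 0 := by
      rcases mul_eq_zero.mp h5.symm with h | h
      · rcases mul_eq_zero.mp h with h | h
        · exact absurd h h6
        · norm_num at h
      · exact h
    have h8 : 0 < c1 ^ 2 := by positivity
    have h9 : 0 < c2 ^ 2 := by positivity
    linarith
  · -- different positions
    set S := (I0.erase b).erase b' with hS
    have hb'e : b' ∈ I0.erase b := Finset.mem_erase.mpr ⟨fun h => hbb h.symm, hb'I⟩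
    have hScard : S.card = 2 := by
      rw [hS, Finset.card_erase_of_mem hb'e, Finset.card_erase_of_mem hbI, hI0]
    have hSmem : ∀ χ ∈ S, χ ∈ I ∧ ht χ = 0 ∧ χ ≠ b ∧ χ ≠ b' := by
      intro χ hχ
      rw [hS, Finset.mem_erase, Finset.mem_erase, hI0def, Finset.mem_filter] at hχ
      exact ⟨hχ.2.2.1, hχ.2.2.2, hχ.2.1, hχ.1⟩
    have hspl : ∀ {β : Type} [AddCommMonoid β] (F : ι → β),
        ∑ χ ∈ I0, F χ = F b + (F b' + ∑ χ ∈ S, F χ) := fun F => by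
      rw [← Finset.add_sum_erase _ _ hbI, ← Finset.add_sum_erase _ _ hb'e]
    set α := A b' with hα
    have hαsq : α ^ 2 = 1 := hA1 b' hb' hb'0
    have hdb : d b = 1 := hd1 b hb hb0 hbb
    have e1' : ∀ χ ∈ insert b S, A χ = - α := by
      have hnb : b ∉ S := fun h => (hSmem b h).2.2.1 rfl
      have hm : ∀ χ ∈ insert b S, χ ∈ I ∧ ht χ = 0 := by
        intro χ hχ
        rcases Finset.mem_insert.mp hχ with h | h
        · rw [h]; exact ⟨hb, hb0⟩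
        · exact ⟨(hSmem χ h).1, (hSmem χ h).2.1⟩
      apply all_eq_of_sum (fun χ hχ => hA1 χ (hm χ hχ).1 (hm χ hχ).2) hαsq
      rw [Finset.sum_insert hnb, Finset.card_insert_of_notMem hnb, hScard]
      rw [hspl, hdb, hd3, Finset.sum_congr rfl (g := fun χ => A χ) (s₁ := S)
        (fun χ hχ => by rw [hd1 χ (hSmem χ hχ).1 (hSmem χ hχ).2.1 (hSmem χ hχ).2.2.2, mul_one])] at o2'
      push_cast; linarith
    have eb : A b = -α := e1' b (Finset.mem_insert_self _ _)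
    have e1 : ∀ χ ∈ S, A χ = -α := fun χ hχ => e1' χ (Finset.mem_insert_of_mem hχ)
    have hα0 : α ≠ 0 := by intro h; rw [h] at hαsq; norm_num at hαsq
    have e2' : ∀ χ ∈ insert b' S, A χ * a χ = -(-(α * β)) := by
      have hnb : b' ∉ S := fun h => (hSmem b' h).2.2.2 rfl
      have hm : ∀ χ ∈ insert b' S, χ ∈ I ∧ ht χ = 0 ∧ χ ≠ b := by
        intro χ hχ
        rcases Finset.mem_insert.mp hχ with h | h
        · rw [h]; exact ⟨hb', hb'0, fun h' => hbb h'.symm⟩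
        · exact ⟨(hSmem χ h).1, (hSmem χ h).2.1, (hSmem χ h).2.2.1⟩
      apply all_eq_of_sum
      · intro χ hχ
        rw [mul_pow, hA1 χ (hm χ hχ).1 (hm χ hχ).2.1, hb1 χ (hm χ hχ).1 (hm χ hχ).2.1 (hm χ hχ).2.2,
          mul_one]
      · rw [neg_sq, mul_pow, hαsq, hβ, mul_one]
      · rw [Finset.sum_insert hnb, Finset.card_insert_of_notMem hnb, hScard]
        rw [hspl, hβb, eb] at o1'
        push_cast; linarith
    have eb' : a b' = β := by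
      have h1 := e2' b' (Finset.mem_insert_self _ _)
      rw [← hα, neg_neg] at h1
      exact mul_left_cancel₀ hα0 h1
    have e2 : ∀ χ ∈ S, a χ = -β := by
      intro χ hχ
      have h1 := e2' χ (Finset.mem_insert_of_mem hχ)
      rw [e1 χ hχ, neg_neg] at h1
      have h2 : α * a χ = α * (-β) := by linarith
      exact mul_left_cancel₀ hα0 h2
    have e3 : s11 = -2 * β := by
      rw [hspl, hβb, hd3, hdb, eb', Finset.sum_congr rfl (g := fun _ => -β)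
        (fun χ hχ => by rw [e2 χ hχ, hd1 χ (hSmem χ hχ).1 (hSmem χ hχ).2.1 (hSmem χ hχ).2.2.2,
          mul_one]), Finset.sum_const, hScard] at o3'
      simp only [nsmul_eq_mul] at o3'
      push_cast at o3'
      linarith
    have hβ2 : (β : ℂ) ^ 2 = 1 := by exact_mod_cast hβ
    have hβ3 : (β : ℂ) ^ 3 = β := by
      have : (β : ℂ) ^ 3 = (β : ℂ) ^ 2 * β := by ring
      rw [this, hβ2, one_mul]
    have e4 : ∑ χ ∈ I, (a χ : ℂ) ^ 3 / (d χ : ℂ) = 64 / 3 * β := by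
      rw [hz1, hspl, hβb, hd3, hdb, eb', Finset.sum_congr rfl (g := fun _ => -(β : ℂ))
        (fun χ hχ => by
          rw [e2 χ hχ, hd1 χ (hSmem χ hχ).1 (hSmem χ hχ).2.1 (hSmem χ hχ).2.2.2]
          push_cast
          rw [show (-(β : ℂ)) ^ 3 = -((β : ℂ) ^ 3) by ring, hβ3]; simp),
        Finset.sum_const, hScard, e3]
      have : ((3 * β : ℤ) : ℂ) ^ 3 = 27 * ((β : ℂ) ^ 3) := by push_cast; ring
      rw [this, hβ3]
      simp only [nsmul_eq_mul]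
      push_cast
      ring
    have e5 : ∑ χ ∈ I, (a χ : ℂ) ^ 2 * (A χ : ℂ) / (d χ : ℂ) = -(32 / 3) * α := by
      rw [hx1, hspl, hβb, hd3, hdb, eb', eb, ← hα, Finset.sum_congr rfl (g := fun _ => -(α : ℂ))
        (fun χ hχ => by
          rw [e2 χ hχ, e1 χ hχ, hd1 χ (hSmem χ hχ).1 (hSmem χ hχ).2.1 (hSmem χ hχ).2.2.2]
          push_cast
          rw [neg_sq, hβ2]; simp),
        Finset.sum_const, hScard]
      have : ((3 * β : ℤ) : ℂ) ^ 2 = 9 * ((β : ℂ) ^ 2) := by push_cast; ring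
      rw [this, hβ2]
      simp only [nsmul_eq_mul]
      push_cast
      ring
    rw [e4] at hz
    rw [e5] at hx
    have hα2 : (α : ℂ) ^ 2 = 1 := by exact_mod_cast hαsq
    have hs02 : (s0 : ℂ) ^ 2 = 1 := by exact_mod_cast hs0
    -- eliminate `κ`
    have key : (c1 : ℂ) ^ 2 + (c2 : ℂ) ^ 2 = -(s0 * s1 * α * β : ℂ) * 4 * ((c1 : ℂ) * (c2 : ℂ)) := by
      have h1 : κ = -(3 / 32) * α * (s1 * 8 * ((c1 : ℂ) * (c2 : ℂ))) := by
        rw [← hx]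
        linear_combination (-κ) * hα2
      have h2 : (s0 : ℂ) * 4 * ((c1 : ℂ) ^ 2 + (c2 : ℂ) ^ 2) =
          -(3 / 32) * α * (s1 * 8 * ((c1 : ℂ) * (c2 : ℂ))) * (64 / 3 * β) := by
        rw [← hz, ← h1]
      have h3 : (s0 : ℂ) ^ 2 * ((c1 : ℂ) ^ 2 + (c2 : ℂ) ^ 2) =
          -(s0 * s1 * α * β : ℂ) * 4 * ((c1 : ℂ) * (c2 : ℂ)) := by
        linear_combination (s0 : ℂ) / 4 * h2
      rwa [hs02, one_mul] at h3
    have key' : c1 ^ 2 + c2 ^ 2 = (-(s0 * s1 * α * β : ℤ) : ℚ) * 4 * (c1 * c2) := by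
      push_cast
      exact_mod_cast key
    refine excl_ratio hc1 hc2 ?_ key'
    have h9 : (-(s0 * s1 * α * β : ℤ)) ^ 2 = 1 := by
      rw [neg_sq, mul_pow, mul_pow, mul_pow, hs0, hs1, hαsq, hβ]; norm_num
    exact_mod_cast h9

end Cfsg.Agent.H10
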