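import Cfsg.Agent.H10.MCDih
import Cfsg.Agent.H10.CoefConv

/-!
# A convolution square in the dihedral group (owner: helper10)
-/

set_option autoImplicit false
set_option linter.style.haveILetI false
set_option linter.unusedSectionVars false

namespace Cfsg.Agent.H10.MC

open scoped ComplexConjugate BigOperators
open Cfsg Cfsg.Agent.CharBase Cfsg.Agent.H10.Col

universe u

variable {P : Type u} [Group P] {x y : P} {h t : ℕ}

theorem pow_y_ne (H : MC (⊤ : Subgroup P) x y h t) (i j : ℕ) : x ^ i ≠ x ^ j * y := by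
  intro hc
  apply H.hyx
  have : y = (x ^ j)⁻¹ * x ^ i := by rw [hc]; group
  rw [this]
  exact Subgroup.mul_mem _ (Subgroup.inv_mem _ (mem_zp j)) (mem_zp i)

theorem y_mul_pow (H : MC (⊤ : Subgroup P) x y h t) (i : ℕ) : y * x ^ i = x ^ (t * i) * y := by
  rw [← H.conj_pow]; group

theorem pow_inv (H : MC (⊤ : Subgroup P) x y h t) (i : ℕ) : (x ^ i)⁻¹ = x ^ ((2 * h - 1) * i) := by
  apply inv_eq_of_mul_eq_one_left
  rw [← pow_add, H.pow_eq_one]
  have := H.pos
  refine ⟨i, ?_⟩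
  obtain ⟨c, hc⟩ : ∃ c, 2 * h = c + 1 := ⟨2 * h - 1, by omega⟩
  rw [hc, Nat.add_sub_cancel]; ring

theorem even_iff_of_modEq (H : MC (⊤ : Subgroup P) x y h t) {i j : ℕ} (hij : i ≡ j [MOD 2 * h]) :
    Even i ↔ Even j := by
  have h1 : i ≡ j [MOD 2] := hij.of_mul_right h
  unfold Nat.ModEq at h1
  rw [Nat.even_iff, Nat.even_iff, h1]

/-- sums over the group -/
theorem sum_grp [Fintype P] (H : MC (⊤ : Subgroup P) x y h t) {β : Type*} [AddCommMonoid β]
    (f : P → β) : ∑ g : P, f g = ∑ i ∈ Finset.range (2 * h), f (x ^ i) +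
      ∑ i ∈ Finset.range (2 * h), f (x ^ i * y) := by
  classical
  set A := (Finset.range (2 * h)).image (fun i => x ^ i) with hA
  set A' := (Finset.range (2 * h)).image (fun i => x ^ i * y) with hA'
  have hlt : ∀ i j, i < 2 * h → j < 2 * h → x ^ i = x ^ j → i = j := by
    intro i j hi hj hij
    have h1 := H.pow_eq_pow.mp hij
    unfold Nat.ModEq at h1
    rwa [Nat.mod_eq_of_lt hi, Nat.mod_eq_of_lt hj] at h1
  have h1 : ∑ g ∈ A, f g = ∑ i ∈ Finset.range (2 * h), f (x ^ i) := by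
    rw [hA, Finset.sum_image]
    intro i hi j hj hij
    exact hlt i j (Finset.mem_range.mp (Finset.mem_coe.mp hi))
      (Finset.mem_range.mp (Finset.mem_coe.mp hj)) hij
  have h2 : ∑ g ∈ A', f g = ∑ i ∈ Finset.range (2 * h), f (x ^ i * y) := by
    rw [hA', Finset.sum_image]
    intro i hi j hj hij
    exact hlt i j (Finset.mem_range.mp (Finset.mem_coe.mp hi))
      (Finset.mem_range.mp (Finset.mem_coe.mp hj)) (mul_right_cancel hij)
  have hdisj : Disjoint A A' := by
    rw [Finset.disjoint_left]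
    intro g hg hg'
    rw [hA, Finset.mem_image] at hg
    rw [hA', Finset.mem_image] at hg'
    obtain ⟨i, -, rfl⟩ := hg
    obtain ⟨j, -, hj⟩ := hg'
    exact H.pow_y_ne i j hj.symm
  rw [← h1, ← h2, ← Finset.sum_union hdisj]
  refine (Finset.sum_subset (Finset.subset_univ _) ?_).symm
  intro g _ hg
  exfalso
  apply hg
  have hh := H.pos
  have hmod : ∀ i : ℕ, x ^ i = x ^ (i % (2 * h)) := fun i => by
    rw [H.pow_eq_pow]; exact (Nat.mod_modEq i (2 * h)).symm
  obtain ⟨i, hi | hi⟩ := H.cov g (Subgroup.mem_top g)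
  · refine Finset.mem_union_left _ (Finset.mem_image.mpr ⟨i % (2 * h), ?_, ?_⟩)
    · exact Finset.mem_range.mpr (Nat.mod_lt _ (by omega))
    · rw [hi, ← hmod]
  · refine Finset.mem_union_right _ (Finset.mem_image.mpr ⟨i % (2 * h), ?_, ?_⟩)
    · exact Finset.mem_range.mpr (Nat.mod_lt _ (by omega))
    · rw [hi, ← hmod]

open Classical in
/-- the class function with value `c0` at `x ^ h`, `c1` at the conjugates of `y` and `c2` at the
conjugates of `x y`. -/
noncomputable def fD (x y : P) (h : ℕ) (c0 c1 c2 : ℂ) (g : P) : ℂ :=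
  if ∃ i : ℕ, g = x ^ i then (if g = x ^ h then c0 else 0)
  else if ∃ i : ℕ, g = x ^ (2 * i) * y then c1 else c2

variable {c0 c1 c2 : ℂ}

theorem fD_pow (x y : P) (h : ℕ) (c0 c1 c2 : ℂ) (i : ℕ) [Decidable (x ^ i = x ^ h)] :
    fD x y h c0 c1 c2 (x ^ i) = if x ^ i = x ^ h then c0 else 0 := by
  unfold fD
  rw [if_pos ⟨i, rfl⟩]
  congr

theorem fD_y (H : MC (⊤ : Subgroup P) x y h t) (i : ℕ) :
    fD x y h c0 c1 c2 (x ^ i * y) = if Even i then c1 else c2 := by
  unfold fD
  rw [if_neg (fun ⟨j, hj⟩ => H.pow_y_ne j i hj.symm)]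
  by_cases hi : Even i
  · obtain ⟨j, hj⟩ := hi
    rw [if_pos ⟨j, by rw [hj, ← two_mul]⟩, if_pos ⟨j, hj⟩]
  · rw [if_neg hi, if_neg]
    rintro ⟨j, hj⟩
    have h1 := H.pow_eq_pow.mp (mul_right_cancel hj)
    exact hi ((H.even_iff_of_modEq h1).mpr ⟨j, by ring⟩)

theorem fD_class (H : MC (⊤ : Subgroup P) x y h t) : IsClassFunction P (fD x y h c0 c1 c2) := by
  classical
  have hpt := H.ht.odd
  have hh := H.pos
  have hodd : Odd (2 * h - 1) := ⟨h - 1, by omega⟩
  have hth : ∀ i : ℕ, x ^ (t * i) = x ^ h ↔ x ^ i = x ^ h := by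
    intro i
    have h1 : x ^ (t * i) = y * x ^ i * y⁻¹ := (H.conj_pow i).symm
    have h2 : x ^ h = y * x ^ h * y⁻¹ := ((H.fixed_iff).mpr (dvd_refl h)).symm
    rw [h1]
    constructor
    · intro h3
      rw [h2] at h3
      have h4 : y⁻¹ * (y * x ^ i * y⁻¹) * y = y⁻¹ * (y * x ^ h * y⁻¹) * y := by rw [h3]
      have h5 : y⁻¹ * (y * x ^ i * y⁻¹) * y = x ^ i := by group
      have h6 : y⁻¹ * (y * x ^ h * y⁻¹) * y = x ^ h := by group
      rwa [h5, h6] at h4
    · intro h3
      rw [h3]; exact h2.symm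
  intro g k
  obtain ⟨i, hi | hi⟩ := H.cov g (Subgroup.mem_top g) <;>
  obtain ⟨j, hj | hj⟩ := H.cov k (Subgroup.mem_top k)
  · subst hi hj
    have : x ^ j * x ^ i * (x ^ j)⁻¹ = x ^ i := by
      rw [← pow_add, add_comm, pow_add, mul_inv_cancel_right]
    rw [this]
  · subst hi hj
    have : x ^ j * y * x ^ i * (x ^ j * y)⁻¹ = x ^ (t * i) := by
      have h1 : x ^ j * y * x ^ i * (x ^ j * y)⁻¹ = x ^ j * (y * x ^ i * y⁻¹) * (x ^ j)⁻¹ := by group
      rw [h1, H.conj_pow, ← pow_add, add_comm, pow_add, mul_inv_cancel_right]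
    rw [this, fD_pow, fD_pow]
    by_cases h3 : x ^ i = x ^ h
    · rw [if_pos h3, if_pos ((hth i).mpr h3)]
    · rw [if_neg h3, if_neg (fun h4 => h3 ((hth i).mp h4))]
  · subst hi hj
    have : x ^ j * (x ^ i * y) * (x ^ j)⁻¹ = x ^ (j + i + t * ((2 * h - 1) * j)) * y := by
      rw [H.pow_inv, pow_add, pow_add]
      have := H.y_mul_pow ((2 * h - 1) * j)
      calc x ^ j * (x ^ i * y) * x ^ ((2 * h - 1) * j)
          = x ^ j * x ^ i * (y * x ^ ((2 * h - 1) * j)) := by simp only [mul_assoc]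
        _ = _ := by rw [this]; simp only [mul_assoc]
    rw [this, H.fD_y, H.fD_y]
    have hpar : Even (j + i + t * ((2 * h - 1) * j)) ↔ Even i := by
      have h1 : Even (t * ((2 * h - 1) * j)) ↔ Even j := by
        rw [Nat.even_mul, Nat.even_mul]
        simp [Nat.not_even_iff_odd.mpr hpt, Nat.not_even_iff_odd.mpr hodd]
      rw [Nat.even_add, Nat.even_add, h1]
      tauto
    by_cases he : Even i
    · rw [if_pos he, if_pos (hpar.mpr he)]
    · rw [if_neg he, if_neg (fun h4 => he (hpar.mp h4))]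
  · subst hi hj
    have : x ^ j * y * (x ^ i * y) * (x ^ j * y)⁻¹ =
        x ^ (j + t * i + t * ((2 * h - 1) * j)) * y := by
      have h1 : x ^ j * y * (x ^ i * y) * (x ^ j * y)⁻¹ = x ^ j * (y * x ^ i) * (x ^ j)⁻¹ := by group
      rw [h1, H.y_mul_pow, H.pow_inv, pow_add, pow_add]
      have := H.y_mul_pow ((2 * h - 1) * j)
      calc x ^ j * (x ^ (t * i) * y) * x ^ ((2 * h - 1) * j)
          = x ^ j * x ^ (t * i) * (y * x ^ ((2 * h - 1) * j)) := by simp only [mul_assoc]
        _ = _ := by rw [this]; simp only [mul_assoc]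
    rw [this, H.fD_y, H.fD_y]
    have hpar : Even (j + t * i + t * ((2 * h - 1) * j)) ↔ Even i := by
      have h1 : Even (t * ((2 * h - 1) * j)) ↔ Even j := by
        rw [Nat.even_mul, Nat.even_mul]
        simp [Nat.not_even_iff_odd.mpr hpt, Nat.not_even_iff_odd.mpr hodd]
      have h2 : Even (t * i) ↔ Even i := by
        rw [Nat.even_mul]
        simp [Nat.not_even_iff_odd.mpr hpt]
      rw [Nat.even_add, Nat.even_add, h1, h2]
      tauto
    by_cases he : Even i
    · rw [if_pos he, if_pos (hpar.mpr he)]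
    · rw [if_neg he, if_neg (fun h4 => he (hpar.mp h4))]

theorem sum_parity (h : ℕ) {β : Type*} [AddCommMonoid β] (a b : β) :
    ∑ i ∈ Finset.range (2 * h), (if Even i then a else b) = h • a + h • b := by
  induction h with
  | zero => simp
  | succ h ih =>
    rw [show 2 * (h + 1) = 2 * h + 1 + 1 by ring, Finset.sum_range_succ, Finset.sum_range_succ, ih,
      if_pos ⟨h, by ring⟩, if_neg (by rw [Nat.not_even_iff_odd]; exact ⟨h, rfl⟩), succ_nsmul,
      succ_nsmul]
    abel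

/-- the transform of `fD` -/
theorem sum_fD [Fintype P] (H : MC (⊤ : Subgroup P) x y h t) (hd : Dih y h t) {f : P → ℂ}
    (hf : IsClassFunction P f) :
    ∑ g : P, fD x y h c0 c1 c2 g * f g = c0 * f (x ^ h) + h * (c1 * f y) + h * (c2 * f (x * y)) := by
  classical
  have hh := H.pos
  rw [H.sum_grp]
  have h1 : ∑ i ∈ Finset.range (2 * h), fD x y h c0 c1 c2 (x ^ i) * f (x ^ i) =
      c0 * f (x ^ h) := by
    rw [Finset.sum_eq_single_of_mem h (Finset.mem_range.mpr (by omega))]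
    · rw [fD_pow, if_pos rfl]
    · intro i hi hne
      rw [fD_pow, if_neg, zero_mul]
      intro h2
      have h3 := H.pow_eq_pow.mp h2
      unfold Nat.ModEq at h3
      rw [Nat.mod_eq_of_lt (Finset.mem_range.mp hi), Nat.mod_eq_of_lt (by omega)] at h3
      exact hne h3
  -- conjugacy
  have hy : ∀ i : ℕ, f (x ^ (2 * i) * y) = f y := by
    intro i
    have h2 : x ^ i * y * (x ^ i)⁻¹ = x ^ (2 * i) * y := by
      rw [H.pow_inv]
      have h3 := H.y_mul_pow ((2 * h - 1) * i)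
      rw [mul_assoc, h3, ← mul_assoc, ← pow_add]
      congr 1
      rw [H.pow_eq_pow, hd.1]
      obtain ⟨c, hc⟩ : ∃ c, 2 * h = c + 1 := ⟨2 * h - 1, by omega⟩
      rw [hc, Nat.add_sub_cancel]
      apply (Nat.modEq_iff_dvd).mpr
      push_cast
      exact ⟨(1 - c) * i, by ring⟩
    rw [← h2, hf]
  have hxy : ∀ i : ℕ, f (x ^ (2 * i + 1) * y) = f (x * y) := by
    intro i
    have h2 : x ^ i * (x * y) * (x ^ i)⁻¹ = x ^ (2 * i + 1) * y := by
      rw [H.pow_inv]
      have h3 := H.y_mul_pow ((2 * h - 1) * i)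
      have h4 : x ^ i * (x * y) * x ^ ((2 * h - 1) * i) =
          x ^ (i + 1) * (y * x ^ ((2 * h - 1) * i)) := by
        rw [pow_succ]; simp only [mul_assoc]
      rw [h4, h3, ← mul_assoc, ← pow_add]
      congr 1
      rw [H.pow_eq_pow, hd.1]
      obtain ⟨c, hc⟩ : ∃ c, 2 * h = c + 1 := ⟨2 * h - 1, by omega⟩
      rw [hc, Nat.add_sub_cancel]
      apply (Nat.modEq_iff_dvd).mpr
      push_cast
      exact ⟨(1 - c) * i, by ring⟩
    rw [← h2, hf]
  have h2 : ∀ i ∈ Finset.range (2 * h), fD x y h c0 c1 c2 (x ^ i * y) * f (x ^ i * y) =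
      if Even i then c1 * f y else c2 * f (x * y) := by
    intro i _
    rw [H.fD_y]
    by_cases hi : Even i
    · rw [if_pos hi, if_pos hi]
      obtain ⟨j, hj⟩ := hi
      rw [hj, ← two_mul, hy]
    · rw [if_neg hi, if_neg hi]
      rw [Nat.not_even_iff_odd] at hi
      obtain ⟨j, hj⟩ := hi
      rw [hj, hxy]
  rw [h1, Finset.sum_congr rfl h2, sum_parity]
  simp only [nsmul_eq_mul]
  ring

theorem inv_y (H : MC (⊤ : Subgroup P) x y h t) (hd : Dih y h t) (i : ℕ) :
    (x ^ i * y)⁻¹ = x ^ i * y := by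
  apply inv_eq_of_mul_eq_one_left
  exact hd.sq H (Subgroup.mem_top _) (fun hc => by
    obtain ⟨j, -, hj⟩ := H.exists_pow hc
    exact H.pow_y_ne j i hj.symm)

/-- the convolution square of `fD` -/
theorem conv_fD [Fintype P] (H : MC (⊤ : Subgroup P) x y h t) (hd : Dih y h t) {j : ℕ}
    (hj : Odd j ∨ j = h) :
    conv (fD x y h c0 c1 c2) (fD x y h c0 c1 c2) (x ^ j) =
      if Odd j then 2 * h * (c1 * c2) else h * (c1 ^ 2 + c2 ^ 2) := by
  classical
  have hh := H.pos
  unfold conv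
  rw [H.sum_grp]
  have h1 : ∑ i ∈ Finset.range (2 * h), fD x y h c0 c1 c2 (x ^ i) *
      fD x y h c0 c1 c2 ((x ^ i)⁻¹ * x ^ j) = 0 := by
    refine Finset.sum_eq_zero fun i hi => ?_
    rw [fD_pow]
    by_cases h2 : x ^ i = x ^ h
    · rw [if_pos h2, h2]
      have h3 : (x ^ h)⁻¹ * x ^ j = x ^ ((2 * h - 1) * h + j) := by
        rw [H.pow_inv, ← pow_add]
      rw [h3, fD_pow, if_neg, mul_zero]
      intro h4
      have h5 : x ^ j = x ^ h * x ^ h := by
        rw [h4] at h3
        exact inv_mul_eq_iff_eq_mul.mp h3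
      rw [H.z_sq, H.pow_eq_one] at h5
      rcases hj with hj | hj
      · obtain ⟨c, hc⟩ := h5
        obtain ⟨k, hk⟩ := hj
        have : 2 * (h * c) = 2 * k + 1 := by rw [← hk, hc]; ring
        omega
      · rw [hj] at h5
        have := Nat.le_of_dvd hh h5
        omega
    · rw [if_neg h2, zero_mul]
  have h2 : ∀ i ∈ Finset.range (2 * h), fD x y h c0 c1 c2 (x ^ i * y) *
      fD x y h c0 c1 c2 ((x ^ i * y)⁻¹ * x ^ j) =
      if Even i then c1 * (if Odd j then c2 else c1) else c2 * (if Odd j then c1 else c2) := by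
    intro i _
    have h3 : (x ^ i * y)⁻¹ * x ^ j = x ^ (i + t * j) * y := by
      rw [H.inv_y hd, mul_assoc, H.y_mul_pow, ← mul_assoc, ← pow_add]
    rw [h3, H.fD_y, H.fD_y]
    have hpar : Even (i + t * j) ↔ (Even i ↔ Even j) := by
      rw [Nat.even_add, Nat.even_mul]
      simp [Nat.not_even_iff_odd.mpr H.ht.odd]
    by_cases hi : Even i
    · rw [if_pos hi, if_pos hi]
      by_cases ho : Odd j
      · rw [if_pos ho, if_neg]
        rw [hpar]
        intro h5
        exact Nat.not_even_iff_odd.mpr ho (h5.mp hi)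
      · rw [if_neg ho, if_pos]
        rw [hpar]
        exact ⟨fun _ => Nat.not_odd_iff_even.mp ho, fun _ => hi⟩
    · rw [if_neg hi, if_neg hi]
      by_cases ho : Odd j
      · rw [if_pos ho, if_pos]
        rw [hpar]
        exact ⟨fun h5 => absurd h5 hi, fun h5 => absurd h5 (Nat.not_even_iff_odd.mpr ho)⟩
      · rw [if_neg ho, if_neg]
        rw [hpar]
        intro h5
        exact hi (h5.mpr (Nat.not_odd_iff_even.mp ho))
  rw [h1, Finset.sum_congr rfl h2, sum_parity]
  by_cases ho : Odd j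
  · simp only [if_pos ho, nsmul_eq_mul]
    ring
  · simp only [if_neg ho, nsmul_eq_mul]
    ring

end Cfsg.Agent.H10.MC
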