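import Mathlib

/-!
# Arithmetic of the columns for dihedral defect groups (owner: helper10)
-/

set_option autoImplicit false

namespace Cfsg.Agent.H10

open scoped BigOperators

variable {ι : Type*} {I : Finset ι} {ht : ι → ℕ} {a A : ι → ℤ} {h : ℕ}

theorem odd_sq_cases {s : ℤ} (hs : Odd s) : s ^ 2 = 1 ∨ s ^ 2 = 9 ∨ 25 ≤ s ^ 2 := by
  obtain ⟨k, rfl⟩ := hs
  rcases lt_or_ge k 0 with hk | hk
  · rcases lt_or_ge k (-3) with h1 | h1
    · right; right; nlinarith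
    · interval_cases k
      · norm_num
      · norm_num
      · norm_num
  · rcases lt_or_ge k 2 with h1 | h1
    · interval_cases k
      · norm_num
      · norm_num
    · right; right; nlinarith

theorem odd_sq_mod {s : ℤ} (hs : Odd s) : ∃ c : ℤ, s ^ 2 = 1 + 8 * c := by
  obtain ⟨k, rfl⟩ := hs
  rcases Int.even_or_odd k with ⟨r, hr⟩ | ⟨r, hr⟩
  · exact ⟨2 * r ^ 2 + r, by rw [hr]; ring⟩
  · exact ⟨2 * r ^ 2 + 3 * r + 1, by rw [hr]; ring⟩

theorem one_le_sq_of_odd {s : ℤ} (hs : Odd s) : 1 ≤ s ^ 2 := by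
  rcases odd_sq_cases hs with h | h | h <;> omega

/-- the number of characters of height zero -/
theorem num_height_zero (ha : ∀ χ ∈ I, ∃ s : ℤ, Odd s ∧ a χ = 2 ^ ht χ * s)
    (hs : ∃ c : ℤ, ∑ χ ∈ I, a χ ^ 2 = 4 * c) (hA : ∑ χ ∈ I, A χ ^ 2 = 4)
    (hAo : ∀ χ ∈ I, ht χ = 0 → Odd (A χ)) (hex : ∃ χ ∈ I, ht χ = 0) :
    (I.filter (fun χ => ht χ = 0)).card = 4 ∧ (∀ χ ∈ I, ht χ = 0 → A χ ^ 2 = 1) ∧
      (∀ χ ∈ I, ht χ ≠ 0 → A χ = 0) := by
  classical
  set I0 := I.filter (fun χ => ht χ = 0) with hI0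
  have hmod : ∃ c : ℤ, ∑ χ ∈ I, a χ ^ 2 = I0.card + 4 * c := by
    have h1 : ∀ χ ∈ I, ∃ c : ℤ, a χ ^ 2 = (if ht χ = 0 then 1 else 0) + 4 * c := by
      intro χ hχ
      obtain ⟨s, hs1, hs2⟩ := ha χ hχ
      by_cases h0 : ht χ = 0
      · rw [if_pos h0, hs2, h0, pow_zero, one_mul]
        obtain ⟨c, hc⟩ := odd_sq_mod hs1
        exact ⟨2 * c, by rw [hc]; ring⟩
      · rw [if_neg h0, hs2]
        obtain ⟨k, hk⟩ := Nat.exists_eq_succ_of_ne_zero h0
        refine ⟨(2 ^ k * s) ^ 2, ?_⟩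
        rw [hk, Nat.succ_eq_add_one, pow_succ]; ring
    choose! c hc using h1
    refine ⟨∑ χ ∈ I, c χ, ?_⟩
    rw [Finset.sum_congr rfl hc, Finset.sum_add_distrib, ← Finset.mul_sum, hI0,
      Finset.card_filter]
    push_cast
    rfl
  have hle : I0.card ≤ 4 := by
    have h1 : (I0.card : ℤ) ≤ ∑ χ ∈ I0, A χ ^ 2 := by
      rw [Finset.card_eq_sum_ones]
      push_cast
      apply Finset.sum_le_sum
      intro χ hχ
      rw [hI0, Finset.mem_filter] at hχ
      exact one_le_sq_of_odd (hAo χ hχ.1 hχ.2)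
    have h2 : ∑ χ ∈ I0, A χ ^ 2 ≤ ∑ χ ∈ I, A χ ^ 2 :=
      Finset.sum_le_sum_of_subset_of_nonneg (Finset.filter_subset _ _) (fun _ _ _ => sq_nonneg _)
    omega
  have hpos : 0 < I0.card := by
    obtain ⟨χ, hχ, h0⟩ := hex
    exact Finset.card_pos.mpr ⟨χ, Finset.mem_filter.mpr ⟨hχ, h0⟩⟩
  have h4 : I0.card = 4 := by
    obtain ⟨c, hc⟩ := hmod
    obtain ⟨c', hc'⟩ := hs
    omega
  refine ⟨h4, ?_⟩
  -- the excess
  have hsum : ∑ χ ∈ I, (A χ ^ 2 - if ht χ = 0 then 1 else 0) = 0 := by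
    rw [Finset.sum_sub_distrib, hA]
    have : ∑ χ ∈ I, (if ht χ = 0 then (1 : ℤ) else 0) = I0.card := by
      rw [hI0, Finset.card_filter]; push_cast; rfl
    rw [this, h4]; norm_num
  have hnn : ∀ χ ∈ I, 0 ≤ A χ ^ 2 - if ht χ = 0 then (1 : ℤ) else 0 := by
    intro χ hχ
    by_cases h0 : ht χ = 0
    · rw [if_pos h0]
      have := one_le_sq_of_odd (hAo χ hχ h0)
      omega
    · rw [if_neg h0, sub_zero]; exact sq_nonneg _
  have hz := (Finset.sum_eq_zero_iff_of_nonneg hnn).mp hsum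
  constructor
  · intro χ hχ h0
    have h1 := hz χ hχ
    rw [if_pos h0] at h1
    omega
  · intro χ hχ h0
    have h1 := hz χ hχ
    rw [if_neg h0, sub_zero] at h1
    exact pow_eq_zero_iff (two_ne_zero) |>.mp h1

/-- the two numerical possibilities -/
theorem dih_cases (ha : ∀ χ ∈ I, ∃ s : ℤ, Odd s ∧ a χ = 2 ^ ht χ * s)
    (hs : ∑ χ ∈ I, a χ ^ 2 = 4 * h) (h0 : (I.filter (fun χ => ht χ = 0)).card = 4)
    (hk : h + 1 ≤ I.card) :
    (I.card = h + 3 ∧ ∀ χ ∈ I, ht χ ≤ 1) ∨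
    (I.card = h + 1 ∧ (∀ χ ∈ I, ht χ ≤ 1) ∧ (∀ χ ∈ I, ht χ ≠ 0 → a χ ^ 2 = 4) ∧
      ∃ b ∈ I, ht b = 0 ∧ a b ^ 2 = 9 ∧ ∀ χ ∈ I, ht χ = 0 → χ ≠ b → a χ ^ 2 = 1) := by
  classical
  set g : ι → ℤ := fun χ => a χ ^ 2 - if ht χ = 0 then 1 else 4 with hg
  have hcase : ∀ χ ∈ I, (g χ = 0 ∧ ht χ ≤ 1) ∨ (ht χ = 0 ∧ g χ = 8) ∨ 12 ≤ g χ := by
    intro χ hχ
    obtain ⟨s, hs1, hs2⟩ := ha χ hχ
    by_cases h1 : ht χ = 0
    · simp only [hg, if_pos h1]
      rw [hs2, h1, pow_zero, one_mul]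
      rcases odd_sq_cases hs1 with h2 | h2 | h2
      · left; exact ⟨by rw [h2]; norm_num, by omega⟩
      · right; left; exact ⟨rfl, by rw [h2]; norm_num⟩
      · right; right; omega
    · simp only [hg, if_neg h1]
      obtain ⟨k, hk⟩ := Nat.exists_eq_succ_of_ne_zero h1
      rcases Nat.eq_zero_or_pos k with hk0 | hk0
      · rw [hk0] at hk
        have hk' : ht χ = 1 := hk
        rw [hs2, hk', pow_one]
        rcases odd_sq_cases hs1 with h2 | h2 | h2
        · left; exact ⟨by rw [mul_pow, h2]; norm_num, by omega⟩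
        · right; right; rw [mul_pow, h2]; norm_num
        · right; right; rw [mul_pow]; omega
      · right; right
        obtain ⟨k', rfl⟩ : ∃ k', k = k' + 1 := ⟨k - 1, by omega⟩
        rw [hs2, hk]
        have h2 : (2 ^ (k' + 1).succ * s) ^ 2 = 16 * (2 ^ k' * s) ^ 2 := by
          rw [Nat.succ_eq_add_one, pow_succ, pow_succ]; ring
        rw [h2]
        have h3 : 1 ≤ (2 ^ k' * s) ^ 2 := by
          rw [mul_pow]
          have h4 := one_le_sq_of_odd hs1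
          have h5 : (1 : ℤ) ≤ (2 ^ k') ^ 2 := by
            have : (1 : ℤ) ≤ 2 ^ k' := one_le_pow₀ (by norm_num)
            nlinarith
          nlinarith
        linarith
  have hnn : ∀ χ ∈ I, 0 ≤ g χ := by
    intro χ hχ
    rcases hcase χ hχ with h1 | h1 | h1
    · exact h1.1.ge
    · rw [h1.2]; norm_num
    · linarith
  have hsum : ∑ χ ∈ I, g χ = 4 * (h + 3 - I.card) := by
    simp only [hg]
    rw [Finset.sum_sub_distrib, hs]
    have h1 : ∑ χ ∈ I, (if ht χ = 0 then (1 : ℤ) else 4) = 4 * I.card -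
        3 * (I.filter (fun χ => ht χ = 0)).card := by
      rw [Finset.card_filter]
      push_cast
      rw [Finset.card_eq_sum_ones, Finset.mul_sum]
      push_cast
      rw [Finset.mul_sum, ← Finset.sum_sub_distrib]
      refine Finset.sum_congr rfl fun χ _ => ?_
      split_ifs <;> norm_num
    rw [h1, h0]; push_cast; ring
  have hno : ∀ χ ∈ I, g χ < 12 := by
    intro χ hχ
    have h1 := Finset.single_le_sum hnn hχ
    have h2 : (h : ℤ) + 1 ≤ I.card := by exact_mod_cast hk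
    linarith
  have hcase' : ∀ χ ∈ I, (g χ = 0 ∧ ht χ ≤ 1) ∨ (ht χ = 0 ∧ g χ = 8) := by
    intro χ hχ
    rcases hcase χ hχ with h1 | h1 | h1
    · exact Or.inl h1
    · exact Or.inr h1
    · exact absurd h1 (by have := hno χ hχ; omega)
  have hht : ∀ χ ∈ I, ht χ ≤ 1 := by
    intro χ hχ
    rcases hcase' χ hχ with h1 | h1
    · exact h1.2
    · omega
  by_cases hall : ∀ χ ∈ I, g χ = 0
  · left
    rw [Finset.sum_eq_zero hall] at hsum
    exact ⟨by omega, hht⟩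
  · right
    push Not at hall
    obtain ⟨b, hb, hb0⟩ := hall
    have hb8 : ht b = 0 ∧ g b = 8 := (hcase' b hb).resolve_left (fun h => hb0 h.1)
    have hrest : ∀ χ ∈ I, χ ≠ b → g χ = 0 := by
      intro χ hχ hne
      by_contra h1
      have h2 : ht χ = 0 ∧ g χ = 8 := (hcase' χ hχ).resolve_left (fun h => h1 h.1)
      have h3 : g b + g χ ≤ ∑ χ ∈ I, g χ := by
        rw [← Finset.sum_pair (Ne.symm hne)]
        refine Finset.sum_le_sum_of_subset_of_nonneg ?_ (fun i hi _ => hnn i hi)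
        intro i hi
        rcases Finset.mem_insert.mp hi with h | h
        · rw [h]; exact hb
        · rw [Finset.mem_singleton.mp h]; exact hχ
      have h4 : (h : ℤ) + 1 ≤ I.card := by exact_mod_cast hk
      rw [hb8.2, h2.2] at h3
      linarith
    have hsum2 : ∑ χ ∈ I, g χ = 8 := by
      rw [Finset.sum_eq_single_of_mem b hb (fun χ hχ hne => hrest χ hχ hne), hb8.2]
    refine ⟨by omega, hht, ?_, b, hb, hb8.1, ?_, ?_⟩
    · intro χ hχ h1
      have h2 : χ ≠ b := fun h => h1 (h ▸ hb8.1)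
      have h3 := hrest χ hχ h2
      simp only [hg, if_neg h1] at h3
      linarith
    · have h3 := hb8.2
      simp only [hg, if_pos hb8.1] at h3
      linarith
    · intro χ hχ h1 h2
      have h3 := hrest χ hχ h2
      simp only [hg, if_pos h1] at h3
      linarith

end Cfsg.Agent.H10
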