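import Cfsg.Agent.H10.CoefConv
import Cfsg.Agent.BlkInd.Link
import Cfsg.Agent.BlkF.Transport

/-!
# Products of two conjugates of an involution (owner: helper10)
-/

set_option autoImplicit false
set_option linter.style.haveILetI false
set_option linter.unusedSectionVars false

namespace Cfsg.Agent.H10.Col

open scoped ComplexConjugate BigOperators
open Cfsg Cfsg.Agent.CharBase Cfsg.Agent.Blk Cfsg.Agent.BlkF Cfsg.Agent.BlkInd Cfsg.Agent.BlkC
  Cfsg.Agent.Star Cfsg.Agent.H4 MonoidAlgebra

universe u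

section grp

variable {G : Type u} [Group G]

open Classical in
/-- indicator of the conjugacy class -/
noncomputable def cI (z : G) (g : G) : ℂ := if IsConj z g then 1 else 0

theorem cI_class (z : G) : IsClassFunction G (cI z) := by
  intro g k
  unfold cI
  have h1 : IsConj z (k * g * k⁻¹) ↔ IsConj z g := by
    have h2 : IsConj g (k * g * k⁻¹) := isConj_iff.mpr ⟨k, rfl⟩
    exact ⟨fun h => h.trans h2.symm, fun h => h.trans h2⟩
  by_cases hc : IsConj z g
  · rw [if_pos hc, if_pos (h1.mpr hc)]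
  · rw [if_neg hc, if_neg (fun h => hc (h1.mp h))]

theorem cI_sq {z g : G} (hz : z * z = 1) (h : cI z g ≠ 0) : g * g = 1 := by
  unfold cI at h
  by_cases hc : IsConj z g
  · obtain ⟨k, rfl⟩ := isConj_iff.mp hc
    calc k * z * k⁻¹ * (k * z * k⁻¹) = k * (z * z) * k⁻¹ := by group
      _ = 1 := by rw [hz]; group
  · rw [if_neg hc] at h
    exact absurd rfl h

theorem conv_cI [Fintype G] {z : G} (hz : z * z = 1) {C : Subgroup G} [Fintype C]
    (hC : C = Subgroup.centralizer ({z} : Set G)) {g : C} (hg : z ∈ Subgroup.zpowers (g : G)) :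
    conv (cI z) (cI z) (g : G) =
      conv (fun c : C => cI z (c : G)) (fun c : C => cI z (c : G)) g := by
  unfold conv
  symm
  apply Fintype.sum_of_injective (fun c : C => (c : G)) Subtype.val_injective
  · intro k hk
    by_contra hne
    have h1 := cI_sq hz (left_ne_zero_of_mul hne)
    have h2 := cI_sq hz (right_ne_zero_of_mul hne)
    apply hk
    refine ⟨⟨k, ?_⟩, rfl⟩
    rw [hC, Subgroup.mem_centralizer_singleton_iff]
    -- `k` inverts `g`
    have h3 : k * (g : G) * k⁻¹ = (g : G)⁻¹ := by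
      have h4 : k⁻¹ = k := inv_eq_of_mul_eq_one_left h1
      rw [h4] at h2 ⊢
      have h5 : (g : G)⁻¹ * (k * (k * (g : G) * (k * (g : G)))) = (g : G)⁻¹ * (k * 1) := by rw [h2]
      have h6 : k * (k * (g : G) * (k * (g : G))) = g * (k * g) := by
        calc k * (k * (g : G) * (k * (g : G))) = (k * k) * (g * (k * g)) := by group
          _ = _ := by rw [h1, one_mul]
      rw [h6, mul_one] at h5
      have h7 : k * (g : G) = (g : G)⁻¹ * k := by
        rw [← h5]; group
      rw [h7, mul_assoc, h1, mul_one]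
    obtain ⟨a, ha⟩ := Subgroup.mem_zpowers_iff.mp hg
    have h4 : k * z * k⁻¹ = z⁻¹ := by
      rw [← ha, ← conj_zpow, h3, inv_zpow]
    have h5 : z⁻¹ = z := inv_eq_of_mul_eq_one_left hz
    rw [h5] at h4
    calc k * z = k * z * k⁻¹ * k := by group
      _ = z * k := by rw [h4]
  · intro c
    simp only
    congr 1

theorem mem_zpowers_mul [Finite G] {z u n : G} {k : ℕ} (hz : z ∈ Subgroup.zpowers u)
    (hu : orderOf u = 2 ^ k) (hn : ¬ 2 ∣ orderOf n) (hc : u * n = n * u) :
    z ∈ Subgroup.zpowers (u * n) := by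
  have h1 : (u * n) ^ orderOf n = u ^ orderOf n := by
    rw [(show Commute u n from hc).mul_pow, pow_orderOf_eq_one, mul_one]
  have h2 : u ∈ Subgroup.zpowers (u ^ orderOf n) := by
    rw [mem_zpowers_pow_iff, hu]
    exact Nat.Coprime.pow_right _ ((Nat.Prime.coprime_iff_not_dvd Nat.prime_two).2 hn).symm
  have h3 : u ∈ Subgroup.zpowers (u * n) := by
    rw [← h1] at h2
    exact (Subgroup.zpowers_le.mpr ((Subgroup.zpowers (u * n)).pow_mem
      (Subgroup.mem_zpowers _) _)) h2
  exact (Subgroup.zpowers_le.mpr h3) hz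

theorem classInner_cI [Fintype G] {z : G} (hz : z * z = 1) :
    ∃ k : ℂ, ∀ χ : IrrCharacter G, classInner (cI z) (χ : G → ℂ) = k * (χ : G → ℂ) z := by
  classical
  refine ⟨(Nat.card G : ℂ)⁻¹ * (Finset.univ.filter (fun g : G => IsConj z g)).card, ?_⟩
  intro χ
  unfold classInner
  rw [mul_assoc]
  congr 1
  have h1 : ∀ g : G, cI z g * conj ((χ : G → ℂ) g) = if IsConj z g then (χ : G → ℂ) z else 0 := by
    intro g
    unfold cI
    by_cases hc : IsConj z g
    · rw [if_pos hc, if_pos hc, one_mul]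
      obtain ⟨k, rfl⟩ := isConj_iff.mp hc
      rw [irr_isClassFunction χ z k, ← irr_inv, inv_eq_of_mul_eq_one_left hz]
    · rw [if_neg hc, if_neg hc, zero_mul]
  rw [Finset.sum_congr rfl fun g _ => h1 g, ← Finset.sum_filter, Finset.sum_const, nsmul_eq_mul]

end grp

section trans

variable {G : Type u} [Group G] [Fintype G] {M : Ideal AlgInt} [hMp : M.IsPrime] {C : Subgroup G}
  [Fintype C]

/-- the identification of a centralizer in a subgroup -/
theorem exists_equiv {Q : Subgroup C} {K : Subgroup G}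
    (hK : K = Subgroup.centralizer ((Q.map C.subtype : Subgroup G) : Set G)) (hKC : K ≤ C) :
    ∃ φ : Subgroup.centralizer (Q : Set C) ≃* K,
      ∀ n, ((φ n : K) : G) = ((n : C) : G) := by
  have h1 : (Subgroup.centralizer (Q : Set C)).map C.subtype = K := by
    rw [map_subtype_centralizer, ← hK]
    exact inf_eq_left.mpr hKC
  refine ⟨((Subgroup.centralizer (Q : Set C)).equivMapOfInjective C.subtype
    (Subgroup.subtype_injective C)).trans (MulEquiv.subgroupCongr h1), fun n => rfl⟩

/-- transport of idempotents -/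
theorem EB_image {N : Subgroup C} {K : Subgroup G} (φ : N ≃* K)
    (hφ : ∀ n : N, ((φ n : K) : G) = ((n : C) : G)) (e : Set (IrrCharacter N)) :
    EB M K (irrMap φ '' e) = incl C (EB M N e) := by
  ext g
  rw [EB_coeff]
  by_cases hg : g ∈ K
  · set n : N := φ.symm ⟨g, hg⟩ with hn
    have h1 : ((n : C) : G) = g := by rw [← hφ, hn, MulEquiv.apply_symm_apply]
    have hgC : g ∈ C := by rw [← h1]; exact (n : C).2
    have h2 : (n : C) = ⟨g, hgC⟩ := Subtype.ext h1
    rw [incl_coeff_of_mem _ hgC, EB_coeff, ← h2]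
    unfold subgroupBlockCoeff
    rw [dif_pos hg, dif_pos n.2, blockCoeff_image]
  · have h3 : subgroupBlockCoeff K (irrMap φ '' e) g = 0 := by
      unfold subgroupBlockCoeff; rw [dif_neg hg]
    rw [h3, rd_zero]
    by_cases hgC : g ∈ C
    · rw [incl_coeff_of_mem _ hgC, EB_coeff]
      have h4 : subgroupBlockCoeff N e (⟨g, hgC⟩ : C) = 0 := by
        unfold subgroupBlockCoeff
        rw [dif_neg]
        intro h5
        apply hg
        have h6 := hφ ⟨⟨g, hgC⟩, h5⟩
        change ((φ ⟨⟨g, hgC⟩, h5⟩ : K) : G) = g at h6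
        rw [← h6]
        exact (φ ⟨⟨g, hgC⟩, h5⟩ : K).2
      rw [h4, rd_zero]
    · rw [incl_coeff_of_notMem _ hgC]

end trans

end Cfsg.Agent.H10.Col
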