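import Cfsg.Agent.H10.MCNum

/-!
# The column of `x` (owner: helper10)
-/

set_option autoImplicit false
set_option linter.style.haveILetI false
set_option linter.unusedSectionVars false

namespace Cfsg.Agent.H10.MC

open scoped ComplexConjugate BigOperators
open Cfsg Cfsg.Agent.CharBase Cfsg.Agent.Blk Cfsg.Agent.BlkInd Cfsg.Agent.BlkC Cfsg.Agent.Star
  Cfsg.Agent.BlkF Cfsg.Agent.H4 Cfsg.Agent.H10.Col MonoidAlgebra

universe u

variable {G : Type u} [Group G] [Fintype G] {M : Ideal AlgInt} [hMp : M.IsPrime]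
  {B : Set (IrrCharacter G)} {C : Subgroup G} [Fintype C] {e : Set (IrrCharacter C)}
  {φ : C → ℂ} {d : IrrCharacter C → ℕ}
  {D : Subgroup G} {E : MonoidAlgebra (kM M) G} {x y : G} {h t : ℕ}

theorem two_le (H : MC D x y h t) : 2 ≤ h := by
  obtain ⟨⟨c, hc⟩, h1, -⟩ := H.ht
  omega

theorem not_dvd_one (H : MC D x y h t) : ¬ h ∣ 1 := by
  intro hc
  have h1 := Nat.le_of_dvd one_pos hc
  have := H.two_le
  omega

theorem not_dvd_odd (H : MC D x y h t) {i : ℕ} (hi : Odd i) : ¬ h ∣ i := by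
  intro hc
  obtain ⟨a, ha⟩ := H.ht.1
  obtain ⟨b, hb⟩ := hc
  obtain ⟨k, hk⟩ := hi
  rw [ha] at hb
  have : 2 * (a * b) = 2 * k + 1 := by rw [← hk, hb]; ring
  omega

theorem ord_two_pow (H : MC D x y h t) : ∃ k : ℕ, orderOf x = 2 ^ k := by
  obtain ⟨m, hm⟩ := H.hp
  exact ⟨m + 1, by rw [H.ordx, hm]; ring⟩

theorem zp_odd (H : MC D x y h t) {i : ℕ} (hi : Odd i) :
    Subgroup.zpowers (x ^ i) = Subgroup.zpowers x := by
  apply zpowers_pow_of_coprime
  obtain ⟨k, hk⟩ := H.ord_two_pow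
  rw [hk]
  exact Nat.Coprime.pow_left _ (Nat.coprime_two_left.mpr hi)

/-- the block below is fixed by the elements of `D` normalizing the subgroup -/
theorem cj_fix (hM : IsPModular 2 M) (he : haveI := charP_kM hM; MMax 2 D E) {Q : Subgroup G}
    {f : MonoidAlgebra (kM M) G}
    (hf : MLe 2 Q f D E) {g : G} (hg : g ∈ D) (hgQ : cjS g Q = Q) : Blk.cj g f = f := by
  haveI := charP_kM hM
  exact ((mem_stab_iff_car he.1 hf).2 ⟨hgQ, car_of_mem he.1 hf.le hg⟩).2

theorem lev (hM : IsPModular 2 M) (hB : IsPBlock M B) (he : haveI := charP_kM hM; MMax 2 D E)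
    (H : MC D x y h t) {ζ : ℂ} (hζ : IsPrimitiveRoot ζ (2 * h))
    (hC : C = Subgroup.centralizer (Subgroup.zpowers x : Set G))
    (hind : IsInducedBlock M C e B) (hf : MLe 2 (Subgroup.zpowers x) (EB M C e) D E)
    (hl : blockRank 2 e = 1) (hR : R1 2 e φ d) :
    Cyc.Lev (Bfin B) h t (2 ^ blockDefect 2 e) ζ
      (fun i χ => Col.D (x ^ i) e d (χ : G → ℂ)) := by
  haveI := charP_kM hM
  refine lev_of hM hB H.ht hζ H.ordx H.ord_two_pow hC hind hl hR (g := y) H.conj ?_ ?_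
  · apply cj_fix hM he hf H.hy
    rw [show cjS y (Subgroup.zpowers x) = Subgroup.zpowers (y * x * y⁻¹) from
      MonoidHom.map_zpowers (MulAut.conj y).toMonoidHom _, H.conj, H.zp_odd H.ht.odd]
  · intro i i' hi hi' hs
    obtain ⟨g, hg1, hg2⟩ := hs
    have hz : Subgroup.zpowers (x ^ i) = Subgroup.zpowers x := H.zp_odd hi
    have hz' : Subgroup.zpowers (x ^ i') = Subgroup.zpowers x := H.zp_odd hi'
    have h1 : MLe 2 (Subgroup.zpowers (x ^ i)) (EB M C e) D E := by rw [hz]; exact hf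
    have h2 : MLe 2 (Subgroup.zpowers (g * x ^ i * g⁻¹)) (Blk.cj g (EB M C e)) D E := by
      rw [← hg1, ← hg2, hz']; exact hf
    rcases H.fusX hM he (H.not_dvd_odd hi) (H.not_dvd_odd hi') h1 h2 hg1.symm with h3 | h3
    · left; exact H.pow_eq_pow.mp h3
    · right; exact H.pow_eq_pow.mp h3

end Cfsg.Agent.H10.MC
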