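import Cfsg.Agent.H10.RankOneHt
import Cfsg.Agent.H10.InvConv
import Cfsg.Agent.H10.MCLev
import Cfsg.Agent.H10.DihExcl

/-!
# Lemmas for the exclusion argument (owner: helper10)
-/

set_option autoImplicit false
set_option linter.style.haveILetI false
set_option linter.unusedSectionVars false

namespace Cfsg.Agent.H10.Col

open scoped ComplexConjugate BigOperators
open Cfsg Cfsg.Agent.CharBase Cfsg.Agent.Blk Cfsg.Agent.BlkF Cfsg.Agent.BlkInd Cfsg.Agent.BlkC
  Cfsg.Agent.Star Cfsg.Agent.H4 MonoidAlgebra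

universe u

variable {G : Type u} [Group G] [Fintype G] {M : Ideal AlgInt} [hMp : M.IsPrime]
  {B : Set (IrrCharacter G)} {C : Subgroup G} [Fintype C] {e : Set (IrrCharacter C)}
  {φ : C → ℂ} {d : IrrCharacter C → ℕ}

/-- the value at `z` if only one block of the centralizer of `z` induces `B` -/
theorem chi_z {p : ℕ} [hp : Fact p.Prime] (hM : IsPModular p M) (hB : IsPBlock M B) {z : G}
    (hz : ∃ k : ℕ, orderOf z = p ^ k)
    (hC : C = Subgroup.centralizer (Subgroup.zpowers z : Set G)) (he : IsPBlock M e)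
    (huniq : ∀ f : MonoidAlgebra (kM M) G, MPairOf p (eB M B) (Subgroup.zpowers z) f →
      f = EB M C e) (hR : R1 p e φ d) {χ : IrrCharacter G} (hχ : χ ∈ B) :
    (χ : G → ℂ) z = D z e d (χ : G → ℂ) * φ 1 := by
  subst hC
  have h1 := sum_blockPart (M := M) (shiftC_isClassFunction (cent_comm z)
    (irr_isClassFunction χ)) (1 : Subgroup.centralizer (Subgroup.zpowers z : Set G))
  have h2 : shiftC (Subgroup.centralizer (Subgroup.zpowers z : Set G)) z (χ : G → ℂ) 1 =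
      (χ : G → ℂ) z := by
    unfold shiftC; simp
  rw [h2, Finset.sum_eq_single_of_mem e (mem_pbl.2 he)] at h1
  · rw [← h1, ← dpart_eq_D hR z (χ : G → ℂ) one_reg]
    unfold dpart
    rw [pRegularPart_apply_of_reg one_reg]
  · intro e' he' hne
    have h3 : dpart p z e' (χ : G → ℂ) 1 = 0 := by
      rw [dpart_eq_zero hM hB hχ hz (mem_pbl.1 he')]
      · rfl
      · intro h4
        exact hne (EB_injective (mem_pbl.1 he') he (huniq _ h4))
    unfold dpart at h3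
    rwa [pRegularPart_apply_of_reg one_reg] at h3

theorem R1.exists_odd {H : Type u} [Group H] [Fintype H] {b : Set (IrrCharacter H)} {ϕ : H → ℂ}
    {d : IrrCharacter H → ℕ} (hM : IsPModular 2 M) (hb : IsPBlock M b) (hR : R1 2 b ϕ d)
    {χ : IrrCharacter H} (hχ : χ ∈ b) :
    ∃ s : ℤ, Odd s ∧ (d χ : ℤ) = 2 ^ blockHeight 2 b (χ : H → ℂ) * s := by
  have h1 := hR.height hM hb hχ
  have h2 := Nat.ordProj_mul_ordCompl_eq_self (d χ) 2
  rw [h1] at h2
  refine ⟨((d χ / 2 ^ blockHeight 2 b (χ : H → ℂ) : ℕ) : ℤ), ?_, ?_⟩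
  · have h3 := Nat.coprime_ordCompl Nat.prime_two (hR.pos hχ).ne'
    rw [h1] at h3
    have h4 : Odd (d χ / 2 ^ blockHeight 2 b (χ : H → ℂ)) := Nat.coprime_two_left.mp h3
    exact_mod_cast h4
  · exact_mod_cast h2.symm

/-- averaging orthogonality over the odd powers -/
theorem avg_orth {h : ℕ} {ζ : ℂ} {I : Finset (IrrCharacter G)} {f : ℕ → IrrCharacter G → ℂ}
    {A : IrrCharacter G → ℤ}
    (hA : ∀ χ ∈ I, Cyc.cf ζ h (fun i => f i χ) ((0 : ℕ) : ℤ) = (A χ : ℂ))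
    {w : IrrCharacter G → ℂ} (hw : ∀ i, Odd i → ∑ χ ∈ I, w χ * conj (f i χ) = 0) :
    ∑ χ ∈ I, w χ * (A χ : ℂ) = 0 := by
  have h1 : ∀ χ ∈ I, w χ * (A χ : ℂ) = (h : ℂ)⁻¹ * ∑ k ∈ Finset.range h,
      w χ * conj (f (2 * k + 1) χ) := by
    intro χ hχ
    have h2 : conj (A χ : ℂ) = (A χ : ℂ) := map_intCast _ _
    rw [← h2, ← hA χ hχ]
    unfold Cyc.cf
    simp only [Nat.cast_zero, mul_zero, neg_zero, zpow_zero, mul_one, map_mul, map_inv₀,
      map_natCast, map_sum]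
    rw [Finset.mul_sum, Finset.mul_sum, Finset.mul_sum]
    exact Finset.sum_congr rfl fun k _ => by ring
  rw [Finset.sum_congr rfl h1, ← Finset.mul_sum, Finset.sum_comm]
  rw [Finset.sum_eq_zero fun k _ => hw (2 * k + 1) ⟨k, rfl⟩, mul_zero]

theorem cf_zero_eq {h : ℕ} {ζ : ℂ} {g : ℕ → ℂ} : Cyc.cf ζ h g ((0 : ℕ) : ℤ) =
    (h : ℂ)⁻¹ * ∑ k ∈ Finset.range h, g (2 * k + 1) := by
  unfold Cyc.cf
  simp only [Nat.cast_zero, mul_zero, neg_zero, zpow_zero, mul_one]

end Cfsg.Agent.H10.Col
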