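import Cfsg.Agent.H10.NilpInv
import Cfsg.Agent.H10.DihGrp
import Cfsg.Agent.H10.MCLev
import Cfsg.Agent.H10.DihNum

/-!
# Convolution squares in the centralizer of the involution (owner: helper10)
-/

set_option autoImplicit false
set_option linter.style.haveILetI false
set_option linter.unusedSectionVars false

namespace Cfsg.Agent.H10.Col

open scoped ComplexConjugate BigOperators
open Cfsg Cfsg.Agent.CharBase Cfsg.Agent.Blk Cfsg.Agent.BlkF Cfsg.Agent.BlkInd Cfsg.Agent.BlkC
  Cfsg.Agent.Star Cfsg.Agent.H4 MonoidAlgebra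

universe u

section rank

variable {G : Type u} [Group G] [Fintype G] {p : ℕ} [hp : Fact p.Prime] {M : Ideal AlgInt}
  [hMp : M.IsPrime] {B : Set (IrrCharacter G)} {P : Subgroup G} {E : MonoidAlgebra (kM M) G}

theorem rank_nilp (hM : IsPModular p M) (hn : MNilp p (eB M B)) {u : G} {C : Subgroup G}
    [Fintype C] (hC : C = Subgroup.centralizer (Subgroup.zpowers u : Set G))
    {e : Set (IrrCharacter C)} (he : IsPBlock M e)
    (h : MPairOf p (eB M B) (Subgroup.zpowers u) (EB M C e)) : blockRank p e = 1 := by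
  haveI := charP_kM hM
  rw [EB_eq] at h
  exact blockRank_of_good (good_of_mnilp hM _ rfl he (mnilp_centralizer hn hC h))

end rank

/-- unimodular values with odd integral mean are constant -/
theorem const_of_mean {h : ℕ} (hh : 0 < h) {f : ℕ → ℂ} {a : ℤ} (ha : Odd a)
    (hf : ∀ k ∈ Finset.range h, f k * conj (f k) = 1)
    (hs : ∑ k ∈ Finset.range h, f k = h * a) :
    a ^ 2 = 1 ∧ ∀ k ∈ Finset.range h, f k = a := by
  have h1 : ∑ k ∈ Finset.range h, (f k - a) * conj (f k - a) = ((h * (1 - a ^ 2) : ℤ) : ℂ) := by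
    have h2 : ∀ k ∈ Finset.range h, (f k - a) * conj (f k - a) =
        1 - a * f k - a * conj (f k) + a ^ 2 := by
      intro k hk
      rw [map_sub, map_intCast, ← hf k hk]; ring
    rw [Finset.sum_congr rfl h2, Finset.sum_add_distrib, Finset.sum_sub_distrib,
      Finset.sum_sub_distrib, ← Finset.mul_sum, ← Finset.mul_sum, ← map_sum, hs]
    simp only [Finset.sum_const, Finset.card_range, nsmul_eq_mul, map_mul, map_natCast,
      map_intCast]
    push_cast; ring
  have h3 : ∀ k, (f k - a) * conj (f k - a) = ((Complex.normSq (f k - a) : ℝ) : ℂ) := fun k =>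
    Complex.mul_conj _
  rw [Finset.sum_congr rfl fun k _ => h3 k] at h1
  have h4 : ∑ k ∈ Finset.range h, Complex.normSq (f k - a) = ((h * (1 - a ^ 2) : ℤ) : ℝ) := by
    have : ((∑ k ∈ Finset.range h, Complex.normSq (f k - a) : ℝ) : ℂ) =
        (((h * (1 - a ^ 2) : ℤ) : ℝ) : ℂ) := by
      push_cast
      push_cast at h1
      exact h1
    exact_mod_cast this
  have h5 : ∀ k ∈ Finset.range h, 0 ≤ Complex.normSq (f k - a) := fun k _ => Complex.normSq_nonneg _
  have h6 : (0 : ℝ) ≤ ((h * (1 - a ^ 2) : ℤ) : ℝ) := by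
    rw [← h4]; exact Finset.sum_nonneg h5
  have h7 : (0 : ℤ) ≤ h * (1 - a ^ 2) := by exact_mod_cast h6
  have h8 : a ^ 2 = 1 := by
    have h9 := one_le_sq_of_odd ha
    have h10 : (0 : ℤ) ≤ 1 - a ^ 2 := by
      by_contra hneg
      push Not at hneg
      have : (h : ℤ) * (1 - a ^ 2) < 0 := mul_neg_of_pos_of_neg (by exact_mod_cast hh) hneg
      omega
    omega
  refine ⟨h8, ?_⟩
  rw [h8] at h4
  simp only [sub_self, mul_zero, Int.cast_zero] at h4
  have h9 := (Finset.sum_eq_zero_iff_of_nonneg h5).mp h4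
  intro k hk
  have h10 := h9 k hk
  rw [Complex.normSq_eq_zero, sub_eq_zero] at h10
  exact h10

end Cfsg.Agent.H10.Col
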