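import Cfsg.Agent.H10.MCDih

/-!
# Involutions of the dihedral defect group (owner: helper10)
-/

set_option autoImplicit false
set_option linter.unusedSectionVars false

namespace Cfsg.Agent.H10.MC

section grp

variable {G : Type*} [Group G] {D : Subgroup G} {x y : G} {h t : ℕ}

theorem top (H : MC D x y h t) : MC (⊤ : Subgroup D) (⟨x, H.hx⟩ : D) ⟨y, H.hy⟩ h t where
  ht := H.ht
  hp := H.hp
  ordx := by rw [← Subgroup.orderOf_coe]; exact H.ordx
  hx := Subgroup.mem_top _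
  hy := Subgroup.mem_top _
  conj := Subtype.ext H.conj
  hyx := by
    intro hc
    obtain ⟨a, ha⟩ := Subgroup.mem_zpowers_iff.mp hc
    exact H.hyx (Subgroup.mem_zpowers_iff.mpr ⟨a, congrArg Subtype.val ha⟩)
  cov := by
    rintro ⟨d, hdD⟩ -
    obtain ⟨i, hi | hi⟩ := H.cov d hdD
    · exact ⟨i, Or.inl (Subtype.ext hi)⟩
    · exact ⟨i, Or.inr (Subtype.ext hi)⟩

theorem Dih.top (hd : Dih y h t) (H : MC D x y h t) : Dih (⟨y, H.hy⟩ : D) h t :=
  ⟨hd.1, Subtype.ext hd.2⟩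

theorem pow_y_notMem (H : MC D x y h t) (i : ℕ) : x ^ i * y ∉ Subgroup.zpowers x := by
  intro hc
  apply H.hyx
  have : y = (x ^ i)⁻¹ * (x ^ i * y) := by group
  rw [this]
  exact Subgroup.mul_mem _ (Subgroup.inv_mem _ (mem_zp i)) hc

theorem Dih.ord_y (H : MC D x y h t) (hd : Dih y h t) (i : ℕ) : orderOf (x ^ i * y) = 2 := by
  apply orderOf_eq_prime
  · rw [pow_two]
    exact hd.sq H (D.mul_mem (D.pow_mem H.hx i) H.hy) (H.pow_y_notMem i)
  · intro hc
    apply H.pow_y_notMem i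
    rw [hc]; exact Subgroup.one_mem _

theorem ord_z (H : MC D x y h t) : orderOf (x ^ h) = 2 := by
  apply orderOf_eq_prime
  · rw [pow_two]; exact H.z_sq
  · exact H.z_ne

/-- conjugation of `x ^ i y` by powers of `x` -/
theorem Dih.conj_y (H : MC D x y h t) (hd : Dih y h t) (k i : ℕ) :
    x ^ k * (x ^ i * y) * (x ^ k)⁻¹ = x ^ (i + 2 * k) * y := by
  have h1 : y * x ^ k = x ^ (t * k) * y := by rw [← H.conj_pow]; group
  have h2 : x ^ (t * k) * x ^ k = 1 := by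
    rw [← pow_add, H.pow_eq_one]
    refine ⟨k, ?_⟩
    have := hd.1
    have := H.pos
    obtain ⟨c, hc⟩ : ∃ c, 2 * h = c + 1 := ⟨2 * h - 1, by omega⟩
    rw [hd.1, hc, Nat.add_sub_cancel]; ring
  have h3 : y * (x ^ k)⁻¹ = x ^ k * y := by
    have h4 : y = x ^ k * y * x ^ k := by
      rw [mul_assoc, h1, ← mul_assoc, ← pow_add, add_comm, pow_add, h2, one_mul]
    rw [mul_inv_eq_iff_eq_mul]
    exact h4
  calc x ^ k * (x ^ i * y) * (x ^ k)⁻¹ = x ^ k * x ^ i * (y * (x ^ k)⁻¹) := by group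
    _ = x ^ k * x ^ i * (x ^ k * y) := by rw [h3]
    _ = x ^ (i + 2 * k) * y := by rw [← mul_assoc, ← pow_add, ← pow_add]; congr 2; ring

/-- the `D`-classes of involutions -/
theorem Dih.rep (H : MC D x y h t) (hd : Dih y h t) {g : G} (hg : g ∈ D) (h2 : orderOf g = 2) :
    ∃ w ∈ D, w * g * w⁻¹ = x ^ h ∨ w * g * w⁻¹ = y ∨ w * g * w⁻¹ = x * y := by
  obtain ⟨i, rfl | rfl⟩ := H.cov g hg
  · refine ⟨1, D.one_mem, Or.inl ?_⟩
    have h3 : x ^ i * x ^ i = 1 := by rw [← pow_two, ← h2, pow_orderOf_eq_one]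
    rcases H.sq_pow h3 with h4 | h4
    · rw [h4, orderOf_one] at h2; omega
    · rw [h4]; simp
  · have key : ∀ i k : ℕ, (x ^ k)⁻¹ * (x ^ (i + 2 * k) * y) * ((x ^ k)⁻¹)⁻¹ = x ^ i * y := by
      intro i k
      rw [← hd.conj_y H k i]; group
    rcases Nat.even_or_odd i with ⟨k, hk⟩ | ⟨k, hk⟩
    · refine ⟨(x ^ k)⁻¹, D.inv_mem (D.pow_mem H.hx k), Or.inr (Or.inl ?_)⟩
      have := key 0 k
      rw [zero_add, pow_zero, one_mul] at this
      rw [hk, ← two_mul]; exact this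
    · refine ⟨(x ^ k)⁻¹, D.inv_mem (D.pow_mem H.hx k), Or.inr (Or.inr ?_)⟩
      have := key 1 k
      rw [pow_one] at this
      rw [hk, add_comm]; exact this

theorem Dih.y_ne_z (H : MC D x y h t) (w : G) (hw : w ∈ D) : y ≠ w * x ^ h * w⁻¹ := by
  rw [H.z_central hw]
  intro hc
  apply H.hyx
  rw [hc]
  have : x ^ h * w * w⁻¹ = x ^ h := by group
  rw [this]; exact mem_zp h

theorem Dih.xy_ne_z (H : MC D x y h t) (w : G) (hw : w ∈ D) : x * y ≠ w * x ^ h * w⁻¹ := by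
  rw [H.z_central hw]
  intro hc
  apply H.hyx
  have h1 : x ^ h * w * w⁻¹ = x ^ h := by group
  rw [h1] at hc
  have h2 : y = x⁻¹ * x ^ h := by rw [← hc]; group
  rw [h2]
  exact Subgroup.mul_mem _ (Subgroup.inv_mem _ (Subgroup.mem_zpowers x)) (mem_zp h)

theorem Dih.xy_ne_y (H : MC D x y h t) (hd : Dih y h t) (w : G) (hw : w ∈ D) :
    x * y ≠ w * y * w⁻¹ := by
  have key : ∀ k : ℕ, x * y ≠ x ^ (2 * k) * y := by
    intro k hc
    have h1 := mul_right_cancel hc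
    have h2 : x ^ 1 = x ^ (2 * k) := by rw [pow_one]; exact h1
    rw [H.pow_eq_pow] at h2
    have h3 : 1 ≡ 2 * k [MOD 2] := h2.of_mul_right h
    unfold Nat.ModEq at h3
    omega
  obtain ⟨k, rfl | rfl⟩ := H.cov w hw
  · have := hd.conj_y H k 0
    rw [pow_zero, one_mul, zero_add] at this
    rw [this]; exact key k
  · have : x ^ k * y * y * (x ^ k * y)⁻¹ = x ^ k * y * (x ^ k)⁻¹ := by group
    rw [this]
    have := hd.conj_y H k 0
    rw [pow_zero, one_mul, zero_add] at this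
    rw [this]; exact key k

end grp

end Cfsg.Agent.H10.MC
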