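import Cfsg.Agent.H10.HSide
import Cfsg.Agent.H10.MCInv

/-!
# Convolution squares in the centralizer of the involution, II (owner: helper10)
-/

set_option autoImplicit false
set_option linter.style.haveILetI false
set_option linter.unusedSectionVars false

namespace Cfsg.Agent.H10.MC

open scoped ComplexConjugate BigOperators
open Cfsg Cfsg.Agent.CharBase Cfsg.Agent.Blk Cfsg.Agent.BlkF Cfsg.Agent.BlkInd Cfsg.Agent.BlkC
  Cfsg.Agent.Star Cfsg.Agent.H4 Cfsg.Agent.H10.Col MonoidAlgebra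

universe u

variable {G : Type u} [Group G] [Fintype G] {M : Ideal AlgInt} [hMp : M.IsPrime]
  {B : Set (IrrCharacter G)} {D : Subgroup G} {E : MonoidAlgebra (kM M) G} {x y : G} {h t : ℕ}

/-- real values at involutions -/
theorem conj_of_invol {P : Type u} [Group P] [Fintype P] (χ : IrrCharacter P) {g : P}
    (hg : g * g = 1) : conj ((χ : P → ℂ) g) = (χ : P → ℂ) g := by
  rw [← irr_inv, inv_eq_of_mul_eq_one_left hg]

theorem classInner_of_invol {P : Type u} [Group P] [Fintype P] {K : P → ℂ}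
    (hK2 : ∀ g, K g ≠ 0 → orderOf g = 2) (χ : IrrCharacter P) :
    classInner K (χ : P → ℂ) = (Nat.card P : ℂ)⁻¹ * ∑ g : P, K g * (χ : P → ℂ) g := by
  unfold classInner
  congr 1
  refine Finset.sum_congr rfl fun g _ => ?_
  by_cases hg : K g = 0
  · rw [hg, zero_mul, zero_mul]
  · rw [conj_of_invol χ]
    rw [← pow_two, ← hK2 g hg, pow_orderOf_eq_one]

/-- the values of `Σ T_ζ² ζ(g) / ζ(1)` on the dihedral group -/
theorem Dih.sum_sq (H : MC D x y h t) (hd : Dih y h t) [Fintype (IrrCharacter D)]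
    (c0 c1 c2 : ℂ) {T : IrrCharacter D → ℂ}
    (hT : ∀ ζ : IrrCharacter D, T ζ = (ζ : D → ℂ) (⟨x, H.hx⟩ ^ h) * c0 +
      (ζ : D → ℂ) ⟨y, H.hy⟩ * c1 + (ζ : D → ℂ) (⟨x, H.hx⟩ * ⟨y, H.hy⟩) * c2) {j : ℕ}
    (hj : Odd j ∨ j = h) :
    ∑ ζ : IrrCharacter D, (T ζ) ^ 2 / (ζ : D → ℂ) 1 * (ζ : D → ℂ) (⟨x, H.hx⟩ ^ j) =
      if Odd j then 8 * (c1 * c2) else 4 * (c1 ^ 2 + c2 ^ 2) := by
  classical
  haveI : Fintype D := Fintype.ofFinite D
  have H' := H.top
  have hd' := hd.top H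
  set X : D := ⟨x, H.hx⟩ with hX
  set Y : D := ⟨y, H.hy⟩ with hY
  have hh := H.pos
  have hh0 : (h : ℂ) ≠ 0 := by exact_mod_cast hh.ne'
  set F : D → ℂ := fD X Y h c0 (c1 / h) (c2 / h) with hF
  have hFc : IsClassFunction D F := fD_class H'
  have hcard : (Nat.card D : ℂ) = 4 * h := by rw [H.card]; push_cast; ring
  have h1 : ∀ ζ : IrrCharacter D, classInner F (ζ : D → ℂ) = (Nat.card D : ℂ)⁻¹ * T ζ := by
    intro ζ
    rw [classInner, hT]
    congr 1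
    have h2 : IsClassFunction D (fun g => conj ((ζ : D → ℂ) g)) := by
      intro g k
      simp only
      rw [irr_isClassFunction ζ g k]
    rw [hF, sum_fD H' hd' h2, conj_of_invol ζ H'.z_sq, conj_of_invol ζ hd'.2,
      conj_of_invol ζ (by
        have := H'.inv_y hd' 1
        rw [pow_one] at this
        nth_rw 1 [← this]
        rw [inv_mul_cancel])]
    field_simp
  have h3 := conv_self hFc (X ^ j)
  rw [hF, conv_fD H' hd' hj, ← hF] at h3
  have h4 : ∀ ζ : IrrCharacter D, (classInner F (ζ : D → ℂ)) ^ 2 *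
      ((Nat.card D : ℂ) / (ζ : D → ℂ) 1) * (ζ : D → ℂ) (X ^ j) =
      (Nat.card D : ℂ)⁻¹ * ((T ζ) ^ 2 / (ζ : D → ℂ) 1 * (ζ : D → ℂ) (X ^ j)) := by
    intro ζ
    rw [h1]
    have h5 : (ζ : D → ℂ) 1 ≠ 0 := irr_one_ne_zero ζ.2
    have h6 : (Nat.card D : ℂ) ≠ 0 := by exact_mod_cast Nat.card_pos.ne'
    field_simp
  rw [Finset.sum_congr rfl fun ζ _ => h4 ζ, ← Finset.mul_sum, hcard] at h3
  have h5 : ∑ ζ : IrrCharacter D, (T ζ) ^ 2 / (ζ : D → ℂ) 1 * (ζ : D → ℂ) (X ^ j) =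
      4 * h * (if Odd j then 2 * h * (c1 / h * (c2 / h)) else h * ((c1 / h) ^ 2 + (c2 / h) ^ 2)) := by
    rw [h3]; field_simp
  rw [h5]
  by_cases ho : Odd j
  · rw [if_pos ho, if_pos ho]; field_simp; ring
  · rw [if_neg ho, if_neg ho]; field_simp

/-- **the column of the convolution square of `K`** -/
theorem Dih.hside (hM : IsPModular 2 M) (hB : IsPBlock M B)
    (he : haveI := charP_kM hM; MMax 2 D E)
    (hb : haveI := charP_kM hM; MPairOf 2 (eB M B) D E)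
    (hn : haveI := charP_kM hM; MNilp 2 (eB M B)) (H : MC D x y h t) (hd : Dih y h t)
    {K : G → ℂ} (hKc : IsClassFunction G K) (hK2 : ∀ g, K g ≠ 0 → orderOf g = 2)
    (hKy : K y = 1) (hKxy : K (x * y) = 1) :
    ∃ (s : ℂ) (c1 c2 : ℚ), s ≠ 0 ∧ c1 ≠ 0 ∧ c2 ≠ 0 ∧
      (∀ (C : Subgroup G) [Fintype C] (e : Set (IrrCharacter C)) (φ : C → ℂ)
        (d : IrrCharacter C → ℕ), C = Subgroup.centralizer (Subgroup.zpowers (x ^ h) : Set G) →
        IsInducedBlock M C e B → MLe 2 (Subgroup.zpowers (x ^ h)) (EB M C e) D E → R1 2 e φ d →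
        ∃ s0 : ℤ, s0 ^ 2 = 1 ∧ Col.D (x ^ h) e d (conv K K) =
          s0 * 4 * ((c1 : ℂ) ^ 2 + (c2 : ℂ) ^ 2) * s) ∧
      (∀ (C : Subgroup G) [Fintype C] (e : Set (IrrCharacter C)) (φ : C → ℂ)
        (d : IrrCharacter C → ℕ), C = Subgroup.centralizer (Subgroup.zpowers x : Set G) →
        IsInducedBlock M C e B → MLe 2 (Subgroup.zpowers x) (EB M C e) D E → R1 2 e φ d →
        ∃ s1 : ℤ, s1 ^ 2 = 1 ∧ ∀ i, Odd i → Col.D (x ^ i) e d (conv K K) =
          s1 * 8 * ((c1 : ℂ) * (c2 : ℂ)) * s) := by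
  classical
  haveI := charP_kM hM
  haveI := Fintype.ofFinite (IrrCharacter D)
  haveI := Fintype.ofFinite D
  have hf : InnerF 2 D E := innerF_of_mnilp hM he hb hn
  obtain ⟨χ₀, hχ₀, h0⟩ := exists_height_zero hM hB
  obtain ⟨-, Ψ, hΨ1, hΨ, hΨ2, hΨ3⟩ := nilp_structure hM hB he hb (he.isDef hb) hn hχ₀ h0
  -- the blocks of the centralizers of `y` and `x y`
  have hyD : y ∈ D := H.hy
  have hxyD : x * y ∈ D := D.mul_mem H.hx H.hy
  have hyo : orderOf y = 2 := by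
    have := hd.ord_y H 0
    rwa [pow_zero, one_mul] at this
  have hxyo : orderOf (x * y) = 2 := by
    have := hd.ord_y H 1
    rwa [pow_one] at this
  obtain ⟨fz, hfz1, hfz2, hfz3⟩ := exists_below hM hB he hb (D.pow_mem H.hx h)
  obtain ⟨fy, hfy1, hfy2, hfy3⟩ := exists_below hM hB he hb hyD
  obtain ⟨fxy, hfxy1, hfxy2, hfxy3⟩ := exists_below hM hB he hb hxyD
  haveI : Fintype (Subgroup.centralizer (Subgroup.zpowers y : Set G)) := Fintype.ofFinite _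
  haveI : Fintype (Subgroup.centralizer (Subgroup.zpowers (x * y) : Set G)) := Fintype.ofFinite _
  have hry : blockRank 2 fy = 1 := rank_nilp hM hn rfl hfy2.1 ((hfy1.pairOf_iff he.1).1 hb)
  have hrxy : blockRank 2 fxy = 1 := rank_nilp hM hn rfl hfxy2.1 ((hfxy1.pairOf_iff he.1).1 hb)
  obtain ⟨φy, dy, hRy⟩ := exists_R1 hM hfy2.1 hry
  obtain ⟨φxy, dxy, hRxy⟩ := exists_R1 hM hfxy2.1 hrxy
  obtain ⟨c1, hc1, hc1'⟩ := sum_wOrb_rat hM rfl hyo hfy2 hry hRy hKy hKc hK2 hχ₀ h0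
  obtain ⟨c2, hc2, hc2'⟩ := sum_wOrb_rat hM rfl hxyo hfxy2 hrxy hRxy hKxy hKc hK2 hχ₀ h0
  -- the function of idempotents
  have hzy : x ^ h ≠ y := fun hc => Dih.y_ne_z H 1 D.one_mem (by rw [hc]; simp)
  have hzxy : x ^ h ≠ x * y := fun hc => Dih.xy_ne_z H 1 D.one_mem (by rw [hc]; simp)
  have hyxy : y ≠ x * y := fun hc => hd.xy_ne_y H 1 D.one_mem (by rw [← hc]; simp)
  set F : G → MonoidAlgebra (kM M) G := fun u => if u = x ^ h then EB M _ fz else
    if u = y then EB M _ fy else EB M _ fxy with hF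
  have hF1 : F (x ^ h) = EB M _ fz := by simp only [hF, if_pos]
  have hF2 : F y = EB M _ fy := by simp only [hF, if_neg (Ne.symm hzy), if_pos]
  have hF3 : F (x * y) = EB M _ fxy := by
    simp only [hF, if_neg (Ne.symm hzxy), if_neg (Ne.symm hyxy)]
  set S : Finset G := {x ^ h, y, x * y} with hS
  have hSmem : ∀ u, u ∈ S ↔ u = x ^ h ∨ u = y ∨ u = x * y := by
    intro u; rw [hS]; simp
  have hle : ∀ u ∈ S, MLe 2 (Subgroup.zpowers u) (F u) D E := by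
    intro u hu
    rcases (hSmem u).mp hu with rfl | rfl | rfl
    · rw [hF1]; exact hfz1
    · rw [hF2]; exact hfy1
    · rw [hF3]; exact hfxy1
  have hswap : ∀ {a b w : G}, b = w * a * w⁻¹ → a = w⁻¹ * b * w⁻¹⁻¹ := by
    intro a b w h1; rw [h1]; group
  have hne : ∀ u ∈ S, ∀ v ∈ S, ∀ w ∈ D, v = w * u * w⁻¹ → u = v := by
    intro u hu v hv w hw hvw
    rcases (hSmem u).mp hu with rfl | rfl | rfl <;> rcases (hSmem v).mp hv with rfl | rfl | rfl
    · rfl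
    · exact absurd hvw (Dih.y_ne_z H w hw)
    · exact absurd hvw (Dih.xy_ne_z H w hw)
    · exact absurd (hswap hvw) (Dih.y_ne_z H _ (D.inv_mem hw))
    · rfl
    · exact absurd hvw (hd.xy_ne_y H w hw)
    · exact absurd (hswap hvw) (Dih.xy_ne_z H _ (D.inv_mem hw))
    · exact absurd (hswap hvw) (hd.xy_ne_y H _ (D.inv_mem hw))
    · rfl
  have hrep : ∀ u ∈ D, orderOf u = 2 → ∃ w ∈ D, w * u * w⁻¹ ∈ S := by
    intro u hu hu2
    obtain ⟨w, hw, hw2⟩ := hd.rep H hu hu2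
    exact ⟨w, hw, (hSmem _).mpr hw2⟩
  set c0 : ℂ := ∑ g : G, K g * wstar 2 (wOrb (x ^ h) (F (x ^ h))) (χ₀ : G → ℂ) g with hc0
  -- `T`
  set X : D := ⟨x, H.hx⟩ with hX
  set Y : D := ⟨y, H.hy⟩ with hY
  set T : IrrCharacter D → ℂ := fun ζ => ∑ g : G, K g * (Ψ ζ : G → ℂ) g with hT
  have hTeq : ∀ ζ : IrrCharacter D, T ζ = (ζ : D → ℂ) (X ^ h) * c0 + (ζ : D → ℂ) Y * (c1 : ℂ) +
      (ζ : D → ℂ) (X * Y) * (c2 : ℂ) := by
    intro ζ
    have h1 := sum_inv_eq hM he hf (S := S) (F := F) (Q := fun g => orderOf g = 2)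
      (fun g k hg => by rw [Col.orderOf_conj', hg]) (fun g hg => ⟨1, by rw [hg]; norm_num⟩)
      hle hne hrep (stableF_xt hM hf (irr_isClassFunction ζ)) hK2 (hΨ ζ)
    rw [hT]
    simp only
    rw [h1, hS, Finset.sum_insert (by simp [hzy, hzxy]), Finset.sum_insert (by simp [hyxy]),
      Finset.sum_singleton, hF2, hF3, hc1', hc2', ← hc0]
    have e1 : xt D (ζ : D → ℂ) (x ^ h) = (ζ : D → ℂ) (X ^ h) := xt_coe (ζ : D → ℂ) (X ^ h)
    have e2 : xt D (ζ : D → ℂ) y = (ζ : D → ℂ) Y := xt_coe (ζ : D → ℂ) Y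
    have e3 : xt D (ζ : D → ℂ) (x * y) = (ζ : D → ℂ) (X * Y) := xt_coe (ζ : D → ℂ) (X * Y)
    rw [e1, e2, e3]; ring
  have hG : (Nat.card G : ℂ) ≠ 0 := by exact_mod_cast Nat.card_pos.ne'
  have hχ1 : (χ₀ : G → ℂ) 1 ≠ 0 := irr_one_ne_zero χ₀.2
  have hdeg : ∀ ζ : IrrCharacter D, (Ψ ζ : G → ℂ) 1 = (ζ : D → ℂ) 1 * (χ₀ : G → ℂ) 1 := by
    intro ζ
    have h1 := degree_wt hM hB he hb hf hχ₀ (hΨ ζ)
    rw [charDegree_spec, charDegree_spec, charDegree_spec]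
    exact_mod_cast h1
  -- the general formula
  have key : ∀ {C : Subgroup G} [Fintype C] {e : Set (IrrCharacter C)} {φ : C → ℂ}
      {d : IrrCharacter C → ℕ} {j : ℕ},
      C = Subgroup.centralizer (Subgroup.zpowers (x ^ j) : Set G) →
      IsInducedBlock M C e B → MLe 2 (Subgroup.zpowers (x ^ j)) (EB M C e) D E → R1 2 e φ d →
      (Odd j ∨ j = h) →
      Col.D (x ^ j) e d (conv K K) = Col.D (x ^ j) e d (χ₀ : G → ℂ) *
        (if Odd j then 8 * ((c1 : ℂ) * (c2 : ℂ)) else 4 * ((c1 : ℂ) ^ 2 + (c2 : ℂ) ^ 2)) *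
        ((Nat.card G : ℂ) * (χ₀ : G → ℂ) 1)⁻¹ := by
    intro C _ e φ d j hC hind hle' hR hj
    have hxj : ∃ k : ℕ, orderOf (x ^ j) = 2 ^ k := H.orderOf_two_pow (mem_zp j)
    rw [D_conv hM hxj (cent_eq hC) hind hR hKc, sum_Psi hΨ1 hΨ2 hΨ3,
      ← hd.sum_sq H c0 (c1 : ℂ) (c2 : ℂ) hTeq hj, Finset.mul_sum, Finset.sum_mul]
    refine Finset.sum_congr rfl fun ζ _ => ?_
    rw [D_nilp hM hf (D.pow_mem H.hx j) hxj hC hind.1 hle' hR (hΨ ζ),
      classInner_of_invol hK2, hdeg]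
    have h5 : (ζ : D → ℂ) 1 ≠ 0 := irr_one_ne_zero ζ.2
    have h6 : ∑ g : G, K g * (Ψ ζ : G → ℂ) g = T ζ := rfl
    have h7 : (⟨x ^ j, D.pow_mem H.hx j⟩ : D) = X ^ j := rfl
    have h8 : (ζ : D → ℂ) ((⟨x, H.hx⟩ : D) ^ j) = (ζ : D → ℂ) (X ^ j) := rfl
    rw [h6, h7, h8]
    field_simp
  refine ⟨((Nat.card G : ℂ) * (χ₀ : G → ℂ) 1)⁻¹, c1, c2, inv_ne_zero (mul_ne_zero hG hχ1), hc1, hc2,
    ?_, ?_⟩
  · intro C _ e φ d hC hind hle' hR
    have hne' : ¬ Odd h := by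
      rw [Nat.not_odd_iff_even]; exact even_iff_two_dvd.mpr H.ht.1
    have h1 := key hC hind hle' hR (Or.inr rfl)
    rw [if_neg hne'] at h1
    obtain ⟨a, ha⟩ := D_int H.ord_z (cent_eq hC) e d χ₀
    have hl : blockRank 2 e = 1 := rank_nilp hM hn hC hind.1 ((hle'.pairOf_iff he.1).1 hb)
    have h2 := norm_base hM hB he hb hn hf (D.pow_mem H.hx h) (H.orderOf_two_pow (mem_zp h)) hC
      hind hl hle' hR hΨ1 hΨ hΨ2 hΨ3
    rw [ha, map_intCast] at h2
    refine ⟨a, ?_, ?_⟩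
    · have : a * a = 1 := by exact_mod_cast h2
      rw [pow_two]; exact this
    · rw [h1, ha]; ring
  · intro C _ e φ d hC hind hle' hR
    have hl : blockRank 2 e = 1 := rank_nilp hM hn hC hind.1 ((hle'.pairOf_iff he.1).1 hb)
    have hzp : ∀ i, Odd i → Subgroup.zpowers (x ^ i) = Subgroup.zpowers x := fun i hi => H.zp_odd hi
    have hCi : ∀ i, Odd i → C = Subgroup.centralizer (Subgroup.zpowers (x ^ i) : Set G) :=
      fun i hi => by rw [hzp i hi]; exact hC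
    have hlei : ∀ i, Odd i → MLe 2 (Subgroup.zpowers (x ^ i)) (EB M C e) D E :=
      fun i hi => by rw [hzp i hi]; exact hle'
    have h2 : ∀ i, Odd i → Col.D (x ^ i) e d (χ₀ : G → ℂ) * conj (Col.D (x ^ i) e d (χ₀ : G → ℂ)) =
        1 := fun i hi => norm_base hM hB he hb hn hf (D.pow_mem H.hx i)
        (H.orderOf_two_pow (mem_zp i)) (hCi i hi) hind hl (hlei i hi) hR hΨ1 hΨ hΨ2 hΨ3
    -- the mean
    have hh := H.pos
    have hζ : IsPrimitiveRoot (Complex.exp (2 * Real.pi * Complex.I / ((2 * h : ℕ) : ℂ))) (2 * h) :=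
      Complex.isPrimitiveRoot_exp (2 * h) (by omega)
    have hdx : 2 ^ blockDefect 2 e = 2 * h := by
      have h3 := isDef_of_mnilp he hb (fun K f hf => splitBlk hf) hn hle'
      have h3' : IsDef 2 C (EB M C e) (D ⊓ Subgroup.centralizer (Subgroup.zpowers x : Set G)) := by
        convert h3
      rw [← card_of_isDef hM hind.1 h3']
      have h4 : D ⊓ Subgroup.centralizer (Subgroup.zpowers x : Set G) = Subgroup.zpowers x := by
        have := H.centIn H.not_dvd_one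
        rw [pow_one] at this
        exact this
      rw [h4, Nat.card_zpowers, H.ordx]
    have hL := H.lev hM hB he hζ hC hind hle' hl hR
    obtain ⟨A, -, hA2, -, -, -, -, -, hA8⟩ := xcol hM H.ht hζ H.hp H.ord_two_pow (cent_eq hC) hind hl
      hR hdx hL
    have h5 := hA2 χ₀ hχ₀ 0 hh
    unfold Cyc.cf at h5
    simp only [Nat.cast_zero, mul_zero, neg_zero, zpow_zero, mul_one] at h5
    have hh0 : (h : ℂ) ≠ 0 := by exact_mod_cast hh.ne'
    have h6 : ∑ k ∈ Finset.range h, Col.D (x ^ (2 * k + 1)) e d (χ₀ : G → ℂ) = h * (A 0 χ₀ : ℂ) := by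
      rw [← h5]; field_simp
    obtain ⟨h7, h8⟩ := const_of_mean hh (hA8 χ₀ hχ₀ h0) (fun k _ => h2 _ ⟨k, rfl⟩) h6
    refine ⟨A 0 χ₀, h7, ?_⟩
    intro i hi
    have h9 := key (hCi i hi) hind (hlei i hi) hR (Or.inl hi)
    rw [if_pos hi] at h9
    have h10 : x ^ i = x ^ (2 * (i % (2 * h) / 2) + 1) := by
      rw [H.pow_eq_pow]
      have h11 : (i % (2 * h)) % 2 = 1 := by
        rw [Nat.mod_mod_of_dvd _ (Dvd.intro _ rfl)]
        exact Nat.odd_iff.mp hi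
      have h12 : 2 * (i % (2 * h) / 2) + 1 = i % (2 * h) := by omega
      rw [h12]
      exact (Nat.mod_modEq i (2 * h)).symm
    have h11 : i % (2 * h) / 2 ∈ Finset.range h := by
      rw [Finset.mem_range]
      have := Nat.mod_lt i (show 0 < 2 * h by omega)
      omega
    have h12 : Col.D (x ^ i) e d (χ₀ : G → ℂ) = (A 0 χ₀ : ℂ) := by
      rw [h10]; exact h8 _ h11
    rw [h9, h12]; ring

end Cfsg.Agent.H10.MC
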