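import Cfsg.Agent.H20.HarDef

set_option autoImplicit false
set_option linter.unusedSectionVars false

/-! Case (E) of Harada's theorem on 2-groups with a self-centralizing `E₈`. -/

namespace Cfsg.Agent.H10.HarE
open Subgroup Cfsg.Agent.H20.Har

variable {S : Type*} [Group S] [Finite S]

theorem comm_surj (T F : Subgroup S) (a : S) (haa : a * a = 1) (hTa : ∀ s ∈ T, a * s * a ∈ T)
    (Tcomm : ∀ x ∈ T, ∀ y ∈ T, x * y = y * x) (Tsq : ∀ x ∈ T, x * x = 1)
    (hF : ∀ s, s ∈ F ↔ s ∈ T ∧ s * a = a * s) (hcard : Nat.card T = Nat.card F * Nat.card F) :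
    ∀ f ∈ F, ∃ v ∈ T, f = v⁻¹ * (a * v * a) := by
  have hinv : ∀ x ∈ T, x⁻¹ = x := fun x hx => inv_eq_of_mul_eq_one_left (Tsq x hx)
  have hmem : ∀ v ∈ T, v * (a * v * a) ∈ F := by
    intro v hv
    refine (hF _).2 ⟨T.mul_mem hv (hTa v hv), ?_⟩
    have h1 := Tcomm v hv _ (hTa v hv)
    calc v * (a * v * a) * a = v * a * v * (a * a) := by group
      _ = (a * a) * (v * a * v) := by rw [haa, one_mul, mul_one]
      _ = a * ((a * v * a) * v) := by group
      _ = a * (v * (a * v * a)) := by rw [h1]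
  let ψ : T →* F :=
    { toFun := fun v => ⟨(v : S) * (a * v * a), hmem v v.2⟩
      map_one' := by
        apply Subtype.ext
        change (1 : S) * (a * 1 * a) = 1
        rw [mul_one, haa, one_mul]
      map_mul' := by
        intro x y
        apply Subtype.ext
        change ((x * y : T) : S) * (a * ((x * y : T) : S) * a) = (x : S) * (a * x * a) * (y * (a * y * a))
        have h1 := Tcomm (a * (x : S) * a) (hTa x x.2) y y.2
        calc ((x * y : T) : S) * (a * ((x * y : T) : S) * a) = (x : S) * y * (a * x * 1 * y * a) := by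
              rw [mul_one]; push_cast; group
          _ = (x : S) * y * (a * x * (a * a) * y * a) := by rw [haa]
          _ = (x : S) * (y * (a * x * a)) * (a * y * a) := by group
          _ = (x : S) * ((a * x * a) * y) * (a * y * a) := by rw [h1]
          _ = _ := by group }
  have hker : Nat.card ψ.ker = Nat.card F := by
    have h1 : ψ.ker.map T.subtype = F := by
      ext s
      rw [hF]
      constructor
      · rintro ⟨⟨s, hsT⟩, hk, rfl⟩
        have h2 : s * (a * s * a) = 1 := congrArg Subtype.val (MonoidHom.mem_ker.1 hk)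
        refine ⟨hsT, ?_⟩
        change s * a = a * s
        have h3 : a * s * a = s := by
          have := eq_inv_of_mul_eq_one_right h2
          rw [this, hinv s hsT]
        calc s * a = (a * s * a) * a := by rw [h3]
          _ = a * s * (a * a) := by group
          _ = a * s := by rw [haa, mul_one]
      · rintro ⟨hsT, h2⟩
        refine ⟨⟨s, hsT⟩, ?_, rfl⟩
        rw [SetLike.mem_coe, MonoidHom.mem_ker]
        apply Subtype.ext
        change s * (a * s * a) = 1
        rw [mul_assoc a s a, h2, ← mul_assoc a a s, haa, one_mul, Tsq s hsT]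
    have h2 := Subgroup.card_map_of_injective (K := ψ.ker) T.subtype_injective
    rw [h1] at h2
    exact h2.symm
  have h5 := Subgroup.card_mul_index ψ.ker
  rw [Subgroup.index_ker, hker, hcard] at h5
  have hFpos : 0 < Nat.card F := Nat.card_pos
  have h6 : Nat.card ψ.range = Nat.card F := Nat.eq_of_mul_eq_mul_left hFpos h5
  have h7 : ψ.range = ⊤ := Subgroup.eq_top_of_card_eq _ h6
  intro f hf
  have h8 : (⟨f, hf⟩ : F) ∈ ψ.range := by rw [h7]; exact Subgroup.mem_top _
  obtain ⟨v, hv⟩ := h8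
  refine ⟨v, v.2, ?_⟩
  rw [hinv v v.2]
  exact (congrArg Subtype.val hv).symm

theorem gen3 (A X B : Subgroup S) (A8 : Nat.card A = 8) (X2 : Nat.card X = 2) (hXA : X ≤ A)
    {a b : S} (ha : a ∈ A) (haX : a ∉ X) (hb : b ∈ A) (hbX : b ∉ X) (hab : a⁻¹ * b ∉ X)
    (hXB : X ≤ B) (haB : a ∈ B) (hbB : b ∈ B) : A ≤ B := by
  by_contra hcon
  have hlt : A ⊓ B < A := lt_of_le_of_ne inf_le_left (fun he => hcon (by rw [← he]; exact inf_le_right))
  have hc1 : Nat.card ↥(A ⊓ B) ∣ 8 := by
    rw [← A8]; exact Subgroup.card_dvd_of_le inf_le_left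
  have hc2 : Nat.card ↥(A ⊓ B) < 8 := by
    rw [← A8]
    refine lt_of_le_of_ne (Subgroup.card_le_of_le inf_le_left) (fun he => ?_)
    exact hlt.ne (Subgroup.eq_of_le_of_card_ge inf_le_left he.ge)
  have hc3 : Nat.card ↥(A ⊓ B) ≤ 4 := by
    have h1 : Nat.card ↥(A ⊓ B) ∈ Nat.divisors 8 := Nat.mem_divisors.2 ⟨hc1, by norm_num⟩
    have h2 : Nat.divisors 8 = {1, 2, 4, 8} := by decide
    rw [h2] at h1
    simp only [Finset.mem_insert, Finset.mem_singleton] at h1
    omega
  have hXB' : X ≤ A ⊓ B := le_inf hXA hXB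
  obtain ⟨K, hK⟩ : ∃ K : Subgroup ↥(A ⊓ B), K = X.subgroupOf (A ⊓ B) := ⟨_, rfl⟩
  have hKc : Nat.card K = 2 := by
    rw [hK, ← X2]; exact Nat.card_congr (Subgroup.subgroupOfEquivOfLe hXB').toEquiv
  have hKi : K.index ≤ 2 := by
    have := Subgroup.card_mul_index K
    rw [hKc] at this
    omega
  have hKm : ∀ x : ↥(A ⊓ B), x ∈ K ↔ (x : S) ∈ X := by
    intro x; rw [hK, Subgroup.mem_subgroupOf]
  have hK1 : K.index ≠ 1 := by
    intro h1
    rw [Subgroup.index_eq_one] at h1
    apply haX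
    have : (⟨a, ⟨ha, haB⟩⟩ : ↥(A ⊓ B)) ∈ K := by rw [h1]; exact Subgroup.mem_top _
    exact (hKm _).1 this
  have hK0 : K.index ≠ 0 := Subgroup.index_ne_zero_of_finite
  have hK2 : K.index = 2 := by omega
  apply hab
  have h1 := (Subgroup.mul_mem_iff_of_index_two hK2 (a := (⟨a, ⟨ha, haB⟩⟩ : ↥(A ⊓ B))⁻¹)
    (b := ⟨b, ⟨hb, hbB⟩⟩)).2 (by
      rw [inv_mem_iff, hKm, hKm]
      exact ⟨fun h => absurd h haX, fun h => absurd h hbX⟩)
  exact (hKm _).1 h1

theorem exists_third (A X : Subgroup S) (A8 : Nat.card A = 8) (X2 : Nat.card X = 2) (hXA : X ≤ A)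
    (a : S) : ∃ b ∈ A, b ∉ X ∧ a⁻¹ * b ∉ X := by
  by_contra hcon
  push Not at hcon
  have h1 := card_le_two A X (by
    intro s hs s' hs' hsX hsX'
    have h2 := hcon s hs hsX
    have h3 := hcon s' hs' hsX'
    have : s⁻¹ * s' = (a⁻¹ * s)⁻¹ * (a⁻¹ * s') := by group
    rw [this]
    exact X.mul_mem (X.inv_mem h2) h3)
  rw [inf_eq_right.2 hXA, A8, X2] at h1
  omega

theorem caseE_of {A V : Subgroup S} (h : HS A V) (V16 : Nat.card V = 16)
    (X2 : Nat.card ↥(A ⊓ V) = 2)
    (hg : ∀ (G : Subgroup S) (a t : S), a * a = 1 → (∀ s, s ∈ G ↔ s * a * s⁻¹ * a⁻¹ ∈ V) →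
      Nat.card G = 64 → (∀ f ∈ G, f ∉ V → Nat.card ↥(V ⊓ Subgroup.centralizer {f}) ≤ 4) →
      t ∈ G → t ∉ V → t * t ∈ V → (∀ s : S, s * t * s⁻¹ * t⁻¹ ∈ V) →
      (∀ x : S, (∀ v ∈ V, x * v = v * x) → x ∈ V) → R4 S) : R4 S := by
  classical
  have Vn : V.Normal := ⟨fun v hv g => h.Vn v hv g⟩
  have Ainv : ∀ a ∈ A, a⁻¹ = a := fun a ha => inv_eq_of_mul_eq_one_left (h.Asq a ha)
  have Vinv : ∀ v ∈ V, v⁻¹ = v := fun v hv => inv_eq_of_mul_eq_one_left (h.Vsq v hv)
  obtain ⟨X, hX⟩ : ∃ X : Subgroup S, X = A ⊓ V := ⟨_, rfl⟩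
  have hXm : ∀ x, x ∈ X ↔ x ∈ A ∧ x ∈ V := by intro x; rw [hX, Subgroup.mem_inf]
  rw [← hX] at X2
  have hXA : X ≤ A := fun x hx => ((hXm x).1 hx).1
  have hXV : X ≤ V := fun x hx => ((hXm x).1 hx).2
  -- (1) the elements of X are central
  have hXc : ∀ x ∈ X, ∀ s : S, s * x = x * s := by
    have hne : V ≠ ⊥ := by
      rintro rfl
      rw [Subgroup.card_bot] at V16
      omega
    obtain ⟨z, hzV, hz2, hzc⟩ := Cfsg.Agent.H23.exists_central_orderOf (p := 2) h.two Vn hne
    have hzA : z ∈ A := h.cent z (fun a _ => (Subgroup.mem_center_iff.1 hzc a).symm)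
    have hzX : z ∈ X := (hXm z).2 ⟨hzA, hzV⟩
    have hz1 : z ≠ 1 := by
      rintro rfl
      rw [orderOf_one] at hz2
      omega
    intro x hx s
    have hxz : x = 1 ∨ x = z := by
      by_contra hcon
      push Not at hcon
      have h1 : (({1, z, x} : Finset S) : Set S) ⊆ (X : Set S) := by
        intro g hg
        simp only [Finset.coe_insert, Finset.coe_singleton, Set.mem_insert_iff,
          Set.mem_singleton_iff] at hg
        rcases hg with h | h | h <;> rw [h]
        · exact one_mem _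
        · exact hzX
        · exact hx
      have h2 : ({1, z, x} : Finset S).card = 3 := by
        rw [Finset.card_insert_of_notMem, Finset.card_insert_of_notMem, Finset.card_singleton]
        · simpa using hcon.2.symm
        · simp only [Finset.mem_insert, Finset.mem_singleton, not_or]
          exact ⟨hz1.symm, hcon.1.symm⟩
      have h3 : 3 ≤ Nat.card X := by
        calc 3 = ({1, z, x} : Finset S).card := h2.symm
          _ = (({1, z, x} : Finset S) : Set S).ncard := (Set.ncard_coe_finset _).symm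
          _ ≤ (X : Set S).ncard := Set.ncard_le_ncard h1 (Set.toFinite _)
          _ = Nat.card X := rfl
      omega
    rcases hxz with rfl | rfl
    · rw [mul_one, one_mul]
    · exact Subgroup.mem_center_iff.1 hzc s
  -- centralizers in V
  have hCm : ∀ a s : S, s ∈ V ⊓ Subgroup.centralizer ({a} : Set S) ↔ s ∈ V ∧ s * a = a * s := by
    intro a s
    rw [Subgroup.mem_inf, Subgroup.mem_centralizer_singleton_iff]
  have hconjA : ∀ a ∈ A, ∀ v ∈ V, a * v * a ∈ V := by
    intro a ha v hv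
    have := h.Vn v hv a
    rwa [Ainv a ha] at this
  -- generation
  have hgen : ∀ a ∈ A, a ∉ X → ∀ b ∈ A, b ∉ X → a⁻¹ * b ∉ X → ∀ B : Subgroup S, X ≤ B → a ∈ B →
      b ∈ B → A ≤ B := fun a ha haX b hb hbX hab B hXB haB hbB =>
    gen3 A X B h.A8 X2 hXA ha haX hb hbX hab hXB haB hbB
  -- (2)
  have hC2 : ∀ a ∈ A, a ∉ X → ∀ b ∈ A, b ∉ X → a⁻¹ * b ∉ X → ∀ v ∈ V, v * a = a * v →
      v * b = b * v → v ∈ X := by
    intro a ha haX b hb hbX hab v hv hva hvb
    have h1 : A ≤ Subgroup.centralizer ({v} : Set S) := by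
      refine hgen a ha haX b hb hbX hab _ ?_ ?_ ?_
      · intro x hx
        rw [Subgroup.mem_centralizer_singleton_iff]
        exact (hXc x hx v).symm
      · rw [Subgroup.mem_centralizer_singleton_iff]; exact hva.symm
      · rw [Subgroup.mem_centralizer_singleton_iff]; exact hvb.symm
    refine (hXm v).2 ⟨h.cent v (fun c hc => ?_), hv⟩
    exact (Subgroup.mem_centralizer_singleton_iff.1 (h1 hc)).symm
  -- (3)
  have hC4 : ∀ a ∈ A, a ∉ X → Nat.card ↥(V ⊓ Subgroup.centralizer ({a} : Set S)) = 4 := by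
    intro a ha haX
    have haa := h.Asq a ha
    have h1 := fixed_points V ⊥ (V ⊓ Subgroup.centralizer ({a} : Set S)) a haa bot_le
      (hconjA a ha) (by
        intro s hs
        rw [Subgroup.mem_bot] at hs ⊢
        rw [hs, mul_one, haa])
      (by
        intro x hx y hy
        rw [Subgroup.mem_bot, h.Vcomm x hx y hy]; group)
      (fun x hx => by rw [Subgroup.mem_bot]; exact h.Vsq x hx)
      (by
        intro s
        rw [hCm, Subgroup.mem_bot]
        constructor
        · rintro ⟨h1, h2⟩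
          refine ⟨h1, ?_⟩
          rw [← h2, mul_assoc, haa, mul_one, inv_mul_cancel]
        · rintro ⟨h1, h2⟩
          refine ⟨h1, ?_⟩
          have h3 : a * s * a = s := (inv_mul_eq_one.1 h2).symm
          calc s * a = (a * s * a) * a := by rw [h3]
            _ = a * s * (a * a) := by group
            _ = a * s := by rw [haa, mul_one])
    rw [V16, Subgroup.card_bot, mul_one] at h1
    obtain ⟨b, hb, hbX, hab⟩ := exists_third A X h.A8 X2 hXA a
    have hbb := h.Asq b hb
    have hT : ∀ s ∈ V ⊓ Subgroup.centralizer ({a} : Set S),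
        b * s * b ∈ V ⊓ Subgroup.centralizer ({a} : Set S) := by
      intro s hs
      rw [hCm] at hs ⊢
      refine ⟨hconjA b hb s hs.1, ?_⟩
      have h5 := h.Acomm a ha b hb
      calc b * s * b * a = b * s * (b * a) := by group
        _ = b * s * (a * b) := by rw [h5]
        _ = b * (s * a) * b := by group
        _ = b * (a * s) * b := by rw [hs.2]
        _ = (b * a) * s * b := by group
        _ = (a * b) * s * b := by rw [h5]
        _ = a * (b * s * b) := by group
    have h2 := fixed_points (V ⊓ Subgroup.centralizer ({a} : Set S)) ⊥ X b hbb bot_le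
      hT (by
        intro s hs
        rw [Subgroup.mem_bot] at hs ⊢
        rw [hs, mul_one, hbb])
      (by
        intro x hx y hy
        rw [Subgroup.mem_bot, h.Vcomm x hx.1 y hy.1]; group)
      (fun x hx => by rw [Subgroup.mem_bot]; exact h.Vsq x hx.1)
      (by
        intro s
        rw [hCm, Subgroup.mem_bot]
        constructor
        · intro hs
          refine ⟨⟨hXV hs, (hXc s hs a).symm⟩, ?_⟩
          rw [← (hXc s hs b).symm, mul_assoc, hbb, mul_one, inv_mul_cancel]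
        · rintro ⟨⟨h1, h1'⟩, h2⟩
          have h3 : b * s * b = s := (inv_mul_eq_one.1 h2).symm
          refine hC2 a ha haX b hb hbX hab s h1 h1' ?_
          calc s * b = (b * s * b) * b := by rw [h3]
            _ = b * s * (b * b) := by group
            _ = b * s := by rw [hbb, mul_one])
    rw [Subgroup.card_bot, mul_one, X2] at h2
    have h3 : 4 ≤ Nat.card ↥(V ⊓ Subgroup.centralizer ({a} : Set S)) := by nlinarith
    omega
  -- (4)
  have hAC : ∀ a ∈ A, (∀ v ∈ V, a * v = v * a) → a ∈ V := by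
    intro a ha hav
    by_contra haV
    have haX : a ∉ X := fun h1 => haV (hXV h1)
    have h1 := hC4 a ha haX
    have h2 : V ⊓ Subgroup.centralizer ({a} : Set S) = V := by
      apply inf_eq_left.2
      intro v hv
      rw [Subgroup.mem_centralizer_singleton_iff]
      exact (hav v hv).symm
    rw [h2, V16] at h1
    omega
  -- (5)
  have hY : ∀ a ∈ A, a ∉ X → ∀ b ∈ A, b ∉ X → a⁻¹ * b ∉ X → ∀ y : S, y⁻¹ * (a * y * a) ∈ V →
      y⁻¹ * (b * y * b) ∈ V → ∃ c ∈ A, ∃ v ∈ V, y = c * v := by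
    intro a ha haX b hb hbX hab y hya hyb
    have haa := h.Asq a ha
    have hbb := h.Asq b hb
    have hcab := h.Acomm a ha b hb
    have hbaX : b⁻¹ * a ∉ X := fun h1 => hab (by
      have := X.inv_mem h1
      rwa [mul_inv_rev, inv_inv] at this)
    -- f = [y,a]
    obtain ⟨f, hf⟩ : ∃ f, f = y⁻¹ * (a * y * a) := ⟨_, rfl⟩
    rw [← hf] at hya
    have hfa : f * a = a * f := by
      have h1 : a * f * a = f⁻¹ := by
        rw [hf]
        calc a * (y⁻¹ * (a * y * a)) * a = (a * y⁻¹ * a) * y * (a * a) := by group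
          _ = (a⁻¹ * y⁻¹ * a⁻¹) * y := by rw [haa, mul_one, Ainv a ha]
          _ = (y⁻¹ * (a * y * a))⁻¹ := by group
      rw [Vinv f hya] at h1
      calc f * a = (a * f * a) * a := by rw [h1]
        _ = a * f * (a * a) := by group
        _ = a * f := by rw [haa, mul_one]
    obtain ⟨v, hv, hfv⟩ := comm_surj V (V ⊓ Subgroup.centralizer ({a} : Set S)) a haa (hconjA a ha)
      h.Vcomm h.Vsq (hCm a) (by rw [V16, hC4 a ha haX]) f ((hCm a f).2 ⟨hya, hfa⟩)
    obtain ⟨y1, hy1⟩ : ∃ y1, y1 = y * v⁻¹ := ⟨_, rfl⟩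
    have hy1a : a * y1 * a = y1 := by
      have h1 : a * y * a = y * f := by rw [hf]; group
      have h2 : a * v * a = v * f := by rw [hfv]; group
      rw [hy1]
      have e : a⁻¹ * v⁻¹ * a = (a * v * a)⁻¹ := by
        rw [mul_inv_rev, mul_inv_rev, Ainv a ha, mul_assoc]
      calc a * (y * v⁻¹) * a = (a * y * a) * (a⁻¹ * v⁻¹ * a) := by group
        _ = (a * y * a) * (a * v * a)⁻¹ := by rw [e]
        _ = y * f * (v * f)⁻¹ := by rw [h1, h2]
        _ = y * v⁻¹ := by group
    have hy1V : y1⁻¹ * (b * y1 * b) ∈ V := by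
      have h1 : y1⁻¹ * (b * y1 * b) = v * (y⁻¹ * (b * y * b)) * (b⁻¹ * v⁻¹ * b) := by
        rw [hy1]; group
      rw [h1]
      refine V.mul_mem (V.mul_mem hv hyb) ?_
      have := h.Vn v⁻¹ (V.inv_mem hv) b⁻¹
      rwa [inv_inv] at this
    obtain ⟨f', hf'⟩ : ∃ f', f' = y1⁻¹ * (b * y1 * b) := ⟨_, rfl⟩
    rw [← hf'] at hy1V
    have hf'b : f' * b = b * f' := by
      have h1 : b * f' * b = f'⁻¹ := by
        rw [hf']
        calc b * (y1⁻¹ * (b * y1 * b)) * b = (b * y1⁻¹ * b) * y1 * (b * b) := by group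
          _ = (b⁻¹ * y1⁻¹ * b⁻¹) * y1 := by rw [hbb, mul_one, Ainv b hb]
          _ = (y1⁻¹ * (b * y1 * b))⁻¹ := by group
      rw [Vinv f' hy1V] at h1
      calc f' * b = (b * f' * b) * b := by rw [h1]
        _ = b * f' * (b * b) := by group
        _ = b * f' := by rw [hbb, mul_one]
    have hy1a' : Commute y1 a := by
      show y1 * a = a * y1
      calc y1 * a = (a * y1 * a) * a := by rw [hy1a]
        _ = a * y1 * (a * a) := by group
        _ = a * y1 := by rw [haa, mul_one]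
    have hbaC : Commute b a := hcab.symm
    have hf'a : f' * a = a * f' := by
      rw [hf']
      exact ((hy1a'.inv_left).mul_left ((hbaC.mul_left hy1a').mul_left hbaC)).eq
    have hf'X : f' ∈ X := hC2 a ha haX b hb hbX hab f' hy1V hf'a hf'b
    have hTb : ∀ s ∈ V ⊓ Subgroup.centralizer ({a} : Set S),
        b * s * b ∈ V ⊓ Subgroup.centralizer ({a} : Set S) := by
      intro s hs
      rw [hCm] at hs ⊢
      exact ⟨hconjA b hb s hs.1, ((hbaC.mul_left hs.2).mul_left hbaC).eq⟩
    obtain ⟨u, hu, hf'u⟩ := comm_surj (V ⊓ Subgroup.centralizer ({a} : Set S)) X b hbb hTb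
      (fun x hx y hy => h.Vcomm x hx.1 y hy.1) (fun x hx => h.Vsq x hx.1)
      (by
        intro s
        rw [hCm]
        constructor
        · intro hs
          exact ⟨⟨hXV hs, (hXc s hs a).symm⟩, (hXc s hs b).symm⟩
        · rintro ⟨⟨h1, h1'⟩, h2⟩
          exact hC2 a ha haX b hb hbX hab s h1 h1' h2)
      (by rw [hC4 a ha haX, X2]) f' hf'X
    rw [hCm] at hu
    obtain ⟨y2, hy2⟩ : ∃ y2, y2 = y1 * u⁻¹ := ⟨_, rfl⟩
    have hy2b : b * y2 * b = y2 := by
      have h1 : b * y1 * b = y1 * f' := by rw [hf']; group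
      have h2 : b * u * b = u * f' := by rw [hf'u]; group
      rw [hy2]
      have e : b⁻¹ * u⁻¹ * b = (b * u * b)⁻¹ := by
        rw [mul_inv_rev, mul_inv_rev, Ainv b hb, mul_assoc]
      calc b * (y1 * u⁻¹) * b = (b * y1 * b) * (b⁻¹ * u⁻¹ * b) := by group
        _ = (b * y1 * b) * (b * u * b)⁻¹ := by rw [e]
        _ = y1 * f' * (u * f')⁻¹ := by rw [h1, h2]
        _ = y1 * u⁻¹ := by group
    have hy2b' : y2 * b = b * y2 := by
      calc y2 * b = (b * y2 * b) * b := by rw [hy2b]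
        _ = b * y2 * (b * b) := by group
        _ = b * y2 := by rw [hbb, mul_one]
    have hy2a' : y2 * a = a * y2 := by
      rw [hy2]
      exact (hy1a'.mul_left (show Commute u a from hu.2).inv_left).eq
    have hy2A : y2 ∈ A := by
      have h1 : A ≤ Subgroup.centralizer ({y2} : Set S) := by
        refine hgen a ha haX b hb hbX hab _ ?_ ?_ ?_
        · intro x hx
          rw [Subgroup.mem_centralizer_singleton_iff]
          exact (hXc x hx y2).symm
        · rw [Subgroup.mem_centralizer_singleton_iff]; exact hy2a'.symm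
        · rw [Subgroup.mem_centralizer_singleton_iff]; exact hy2b'.symm
      exact h.cent y2 (fun c hc => (Subgroup.mem_centralizer_singleton_iff.1 (h1 hc)).symm)
    refine ⟨y2, hy2A, u * v, V.mul_mem hu.1 hv, ?_⟩
    rw [hy2, hy1]; group
  -- commutators in the other form
  have hcm : ∀ y : S, (∀ g : S, y * g * y⁻¹ * g⁻¹ ∈ V) → ∀ a ∈ A, y⁻¹ * (a * y * a) ∈ V := by
    intro y hy a ha
    have h1 := V.inv_mem (hy (y⁻¹ * a * y))
    have h2 : (y * (y⁻¹ * a * y) * y⁻¹ * (y⁻¹ * a * y)⁻¹)⁻¹ = y⁻¹ * (a * y * a⁻¹) := by group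
    rw [h2, Ainv a ha] at h1
    exact h1
  -- (6)
  obtain ⟨a1, ha1, ha1X, -⟩ := exists_third A X h.A8 X2 hXA 1
  obtain ⟨b1, hb1, hb1X, hab1⟩ := exists_third A X h.A8 X2 hXA a1
  have hCV : ∀ x : S, (∀ v ∈ V, x * v = v * x) → x ∈ V := by
    by_contra hcon
    push Not at hcon
    obtain ⟨x, hxV, hx⟩ := hcon
    have hVC : V < Subgroup.centralizer (V : Set S) := by
      refine lt_of_le_of_ne ?_ ?_
      · intro v hv
        rw [Subgroup.mem_centralizer_iff]
        exact fun w hw => h.Vcomm w hw v hv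
      · intro he
        apply hx
        rw [he, Subgroup.mem_centralizer_iff]
        exact fun w hw => (hxV w hw).symm
    obtain ⟨y, hyC, hyV, -, hyc, -, -⟩ := Cfsg.Agent.H23.exists_step (p := 2) h.two Vn
      (inferInstance : (Subgroup.centralizer (V : Set S)).Normal) hVC
    obtain ⟨c, hcA, v, hv, rfl⟩ := hY a1 ha1 ha1X b1 hb1 hb1X hab1 y (hcm y hyc a1 ha1)
      (hcm y hyc b1 hb1)
    apply hyV
    refine V.mul_mem (hAC c hcA ?_) hv
    intro w hw
    have h1 := Subgroup.mem_centralizer_iff.1 hyC w hw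
    have h2 := h.Vcomm w hw v hv
    have h3 : (c * w) * v = (w * c) * v := by
      calc (c * w) * v = c * (w * v) := by group
        _ = c * (v * w) := by rw [h2]
        _ = c * v * w := by group
        _ = w * (c * v) := h1.symm
        _ = (w * c) * v := by group
    exact mul_right_cancel h3
  -- (7)
  have ha1V : a1 ∉ V := fun h1 => ha1X ((hXm a1).2 ⟨ha1, h1⟩)
  have hVt : V < ⊤ := by
    refine lt_of_le_of_ne le_top ?_
    intro he
    apply ha1V
    rw [he]; exact Subgroup.mem_top _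
  obtain ⟨t0, -, ht0V, -, ht0c, -, -⟩ := Cfsg.Agent.H23.exists_step (p := 2) h.two Vn
    (inferInstance : (⊤ : Subgroup S).Normal) hVt
  obtain ⟨t, htA, v0, hv0, ht0⟩ := hY a1 ha1 ha1X b1 hb1 hb1X hab1 t0 (hcm t0 ht0c a1 ha1)
    (hcm t0 ht0c b1 hb1)
  have htV : t ∉ V := by
    intro h1
    apply ht0V
    rw [ht0]
    exact V.mul_mem h1 hv0
  have htX : t ∉ X := fun h1 => htV (hXV h1)
  have htS : ∀ s : S, s * t * s⁻¹ * t⁻¹ ∈ V := by
    intro s
    have h1 : t = t0 * v0⁻¹ := by rw [ht0]; group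
    have h2 : s * t * s⁻¹ * t⁻¹ = (t0 * s * t0⁻¹ * s⁻¹)⁻¹ * (t0 * ((s * v0⁻¹ * s⁻¹) * v0) * t0⁻¹) := by
      rw [h1]; group
    rw [h2]
    exact V.mul_mem (V.inv_mem (ht0c s)) (h.Vn _ (V.mul_mem (h.Vn _ (V.inv_mem hv0) s) hv0) t0)
  -- (8)
  obtain ⟨a, ha, haX, hta⟩ := exists_third A X h.A8 X2 hXA t
  obtain ⟨G, hG⟩ : ∃ G : Subgroup S, ∀ s, s ∈ G ↔ s * a * s⁻¹ * a⁻¹ ∈ V := by
    refine ⟨(Subgroup.centralizer ({QuotientGroup.mk' V a} : Set (S ⧸ V))).comap
      (QuotientGroup.mk' V), ?_⟩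
    intro s
    rw [Subgroup.mem_comap, Subgroup.mem_centralizer_singleton_iff, ← map_mul, ← map_mul]
    have e1 : s * a * s⁻¹ * a⁻¹ = (s * a) * (a * s)⁻¹ := by group
    have e2 : s * a * s⁻¹ * a⁻¹ ∈ V ↔ QuotientGroup.mk' V (s * a * s⁻¹ * a⁻¹) = 1 :=
      (QuotientGroup.eq_one_iff _).symm
    rw [e2, e1, (QuotientGroup.mk' V).map_mul (s * a) ((a * s)⁻¹), map_inv, mul_inv_eq_one]
  have hform : ∀ s ∈ G, ∃ c ∈ A, ∃ v ∈ V, s = c * v := by
    intro s hs
    refine hY t htA htX a ha haX hta s ?_ ?_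
    · have h1 := htS s⁻¹
      have h2 : s⁻¹ * (t * s * t) = s⁻¹ * t * (s⁻¹)⁻¹ * t⁻¹ := by
        rw [inv_inv, Ainv t htA]; group
      rw [h2]; exact h1
    · have h1 := (hG s⁻¹).1 (G.inv_mem hs)
      have h2 : s⁻¹ * (a * s * a) = s⁻¹ * a * (s⁻¹)⁻¹ * a⁻¹ := by
        rw [inv_inv, Ainv a ha]; group
      rw [h2]; exact h1
  have hAG : A ≤ G := by
    intro c hc
    rw [hG, h.Acomm c hc a ha]
    have : a * c * c⁻¹ * a⁻¹ = 1 := by group
    rw [this]; exact one_mem _
  have hVG : V ≤ G := by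
    intro v hv
    rw [hG]
    have : v * a * v⁻¹ * a⁻¹ = v * (a * v⁻¹ * a⁻¹) := by group
    rw [this]
    exact V.mul_mem hv (h.Vn _ (V.inv_mem hv) a)
  have hGe : G = A ⊔ V := by
    apply le_antisymm
    · intro s hs
      obtain ⟨c, hc, v, hv, rfl⟩ := hform s hs
      exact Subgroup.mul_mem_sup hc hv
    · exact sup_le hAG hVG
  have hG64 : Nat.card G = 64 := by
    have h1 := Subgroup.relIndex_mul_relIndex ⊥ V G bot_le hVG
    rw [Subgroup.relIndex_bot_left, Subgroup.relIndex_bot_left, V16, hGe,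
      Subgroup.relIndex_sup_right] at h1
    have h2 := Subgroup.relIndex_mul_relIndex ⊥ (V ⊓ A) A bot_le inf_le_right
    rw [Subgroup.relIndex_bot_left, Subgroup.relIndex_bot_left, Subgroup.inf_relIndex_right,
      inf_comm, ← hX, X2, h.A8] at h2
    rw [hGe]
    omega
  -- (9)
  have hfree : ∀ f ∈ G, f ∉ V → Nat.card ↥(V ⊓ Subgroup.centralizer {f}) ≤ 4 := by
    intro f hf hfV
    obtain ⟨c, hc, v, hv, rfl⟩ := hform f hf
    have hcX : c ∉ X := fun h1 => hfV (V.mul_mem (hXV h1) hv)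
    rw [← hC4 c hc hcX]
    apply Subgroup.card_le_of_le
    intro w hw
    rw [hCm] at hw ⊢
    refine ⟨hw.1, ?_⟩
    have h2 := h.Vcomm w hw.1 v hv
    have h3 : (w * c) * v = (c * w) * v := by
      calc (w * c) * v = w * (c * v) := by group
        _ = (c * v) * w := hw.2
        _ = c * (v * w) := by group
        _ = c * (w * v) := by rw [h2]
        _ = (c * w) * v := by group
    exact mul_right_cancel h3
  exact hg G a t (h.Asq a ha) hG hG64 hfree (hAG htA) htV
    (by rw [h.Asq t htA]; exact one_mem _) htS hCV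

end Cfsg.Agent.H10.HarE
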