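import Cfsg.Agent.H10.CenDict
import Cfsg.Agent.H80.IndUtil
import Cfsg.Agent.Char.BrauerInduction

/-!
# Stable characters of the defect group (owner: helper10)
-/

set_option autoImplicit false
set_option linter.style.haveILetI false
set_option linter.unusedSectionVars false

namespace Cfsg.Agent.H10.MC

open scoped BigOperators
open Cfsg Cfsg.Agent.CharBase

universe u

section grp

variable {P : Type*} [Group P] {D : Subgroup P} {x y : P} {h t : ℕ}

/-- elements with square the central involution are inverted by `y` -/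
theorem conj_sq_z (H : MC D x y h t) {i : ℕ} (hi : x ^ i * x ^ i = x ^ h) :
    y * x ^ i * y⁻¹ = x ^ h * x ^ i := by
  have hpos := H.pos
  rw [← pow_add, H.pow_eq_pow] at hi
  rw [H.conj_pow, ← pow_add, H.pow_eq_pow]
  apply Nat.ModEq.symm
  rw [Nat.modEq_iff_dvd]
  have h1 := Nat.modEq_iff_dvd.mp hi
  obtain ⟨c, hc⟩ := h1
  push_cast at hc ⊢
  obtain ⟨a, ha⟩ := H.ht.1
  have hc' : (i : ℤ) = a - 2 * a * c := by
    have : (h : ℤ) = 2 * a := by exact_mod_cast ha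
    rw [this] at hc
    linarith
  have hh : (h : ℤ) = 2 * a := by exact_mod_cast ha
  rcases H.ht.2.2 with h2 | ⟨h3, h2⟩
  · have h4 : (t : ℤ) = 2 * h - 1 := by omega
    rw [h4, hh, hc']
    exact ⟨a - 2 * a * c - 1 + c, by ring⟩
  · have h4 : (t : ℤ) = h - 1 := by omega
    obtain ⟨b, hb⟩ := h3
    have h5 : (a : ℤ) = 2 * b := by
      have : (h : ℤ) = 4 * b := by exact_mod_cast hb
      omega
    rw [h4, hh, hc', h5]
    exact ⟨b - 2 * b * c - 1 + c, by ring⟩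

theorem half_sq (H : MC D x y h t) : x ^ (h / 2) * x ^ (h / 2) = x ^ h := by
  rw [← pow_add]
  congr 1
  obtain ⟨a, ha⟩ := H.ht.1
  omega

theorem commutator_z (H : MC D x y h t) :
    y * x ^ (h / 2) * y⁻¹ * (x ^ (h / 2))⁻¹ = x ^ h := by
  rw [H.conj_sq_z H.half_sq]; group

end grp

section rho

variable {P : Type u} [Group P] [Finite P] {x y : P} {h t : ℕ}

theorem exists_rho (H : MC (⊤ : Subgroup P) x y h t) :
    ∃ ρ : IrrCharacter P, (ρ : P → ℂ) 1 = 2 ∧ ∀ g, (ρ : P → ℂ) (x ^ h * g) = -(ρ : P → ℂ) g := by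
  classical
  haveI := Fintype.ofFinite P
  obtain ⟨ρ, hρ⟩ := H80.exists_irr_ne_one (H.z_ne)
  obtain ⟨ω, h1, -, h2⟩ := H79.irr_central_mul ρ (z := x ^ h)
    (Subgroup.mem_center_iff.mpr fun g => H.z_central (Subgroup.mem_top g))
  rw [H.ord_z] at h1
  have hω : ω = -1 := by
    have h3 : (ω - 1) * (ω + 1) = 0 := by linear_combination h1
    rcases mul_eq_zero.mp h3 with h | h
    · exfalso
      apply hρ
      have := h2 1
      rw [mul_one, sub_eq_zero.mp h, one_mul] at this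
      exact this
    · exact eq_neg_of_add_eq_zero_left h
  have h3 : ∀ g, (ρ : P → ℂ) (x ^ h * g) = -(ρ : P → ℂ) g := fun g => by
    rw [h2 g, hω]; ring
  refine ⟨ρ, ?_, h3⟩
  have hidx : (Subgroup.zpowers x).index ≤ 2 := by
    have h4 := Subgroup.card_mul_index (Subgroup.zpowers x)
    have h5 : Nat.card P = 4 * h := by rw [← H.card, Subgroup.card_top]
    rw [Nat.card_zpowers, H.ordx, h5] at h4
    have hpos := H.pos
    nlinarith
  have h4 := H80.deg_le_index_of_comm ρ (Subgroup.zpowers x) (by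
    rintro ⟨a, ha⟩ ⟨b, hb⟩
    obtain ⟨i, rfl⟩ := Subgroup.mem_zpowers_iff.mp ha
    obtain ⟨j, rfl⟩ := Subgroup.mem_zpowers_iff.mp hb
    apply Subtype.ext
    push_cast
    rw [← zpow_add, ← zpow_add, add_comm])
  have h5 : (ρ : P → ℂ) 1 = (H75.deg ρ : ℂ) := H75.deg_spec ρ
  have h6 : H75.deg ρ ≠ 0 := by
    intro hc
    rw [hc, Nat.cast_zero] at h5
    exact irr_one_ne_zero ρ.2 h5
  have h7 : H75.deg ρ ≠ 1 := by
    intro hc
    rw [hc, Nat.cast_one] at h5
    have h8 := Cfsg.Agent.Char.linChar_mul (irr_isCharacter ρ) h5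
    have h9 : (ρ : P → ℂ) (x ^ h) = 1 := by
      rw [← H.commutator_z, h8, h8, h8]
      have e1 : (ρ : P → ℂ) y * (ρ : P → ℂ) y⁻¹ = 1 := by rw [← h8, mul_inv_cancel, h5]
      have e2 : (ρ : P → ℂ) (x ^ (h / 2)) * (ρ : P → ℂ) (x ^ (h / 2))⁻¹ = 1 := by
        rw [← h8, mul_inv_cancel, h5]
      linear_combination ((ρ : P → ℂ) (x ^ (h / 2)) * (ρ : P → ℂ) (x ^ (h / 2))⁻¹) * e1 + e2
    apply hρ
    rw [h9, h5]
  have h8 : H75.deg ρ = 2 := by omega
  rw [h5, h8]; norm_num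

theorem rho_zero {D : Subgroup P} (_H : MC D x y h t) {ρ : P → ℂ} (hρ : IsClassFunction P ρ)
    (hz : ∀ g, ρ (x ^ h * g) = - ρ g) {u w : P} (hw : w * u * w⁻¹ = x ^ h * u) : ρ u = 0 := by
  have h1 : ρ (w * u * w⁻¹) = ρ u := by
    have := hρ u w
    exact this
  rw [hw, hz] at h1
  have : (2 : ℂ) * ρ u = 0 := by linear_combination -h1
  rcases mul_eq_zero.mp this with h | h
  · norm_num at h
  · exact h

end rho

section mu

variable {P : Type u} [Group P] {x y : P} {h t : ℕ}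

/-- the elements on which `μ` is one -/
def Ev (x y g : P) : Prop := ∃ i : ℕ, (Even i ∧ g = x ^ i) ∨ (Odd i ∧ g = x ^ i * y)

theorem ev_pow {D : Subgroup P} (H : MC D x y h t) {i : ℕ} : Ev x y (x ^ i) ↔ Even i := by
  constructor
  · rintro ⟨j, ⟨hj, h1⟩ | ⟨hj, h1⟩⟩
    · rw [H.pow_eq_pow] at h1
      have h2 : i ≡ j [MOD 2] := h1.of_mul_right h
      rw [Nat.even_iff] at hj ⊢
      rw [← hj]; exact h2
    · exfalso
      apply H.pow_y_notMem j
      rw [← h1]; exact mem_zp i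
  · intro hi; exact ⟨i, Or.inl ⟨hi, rfl⟩⟩

theorem ev_out {D : Subgroup P} (H : MC D x y h t) {i : ℕ} : Ev x y (x ^ i * y) ↔ Odd i := by
  constructor
  · rintro ⟨j, ⟨hj, h1⟩ | ⟨hj, h1⟩⟩
    · exfalso
      apply H.pow_y_notMem i
      rw [h1]; exact mem_zp j
    · rw [mul_left_inj, H.pow_eq_pow] at h1
      have h2 : i ≡ j [MOD 2] := h1.of_mul_right h
      rw [Nat.odd_iff] at hj ⊢
      rw [← hj]; exact h2
  · intro hi; exact ⟨i, Or.inr ⟨hi, rfl⟩⟩

theorem ev_mul {D : Subgroup P} (H : MC D x y h t) (h2 : Two x y h) {a b : P} (ha : a ∈ D)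
    (hb : b ∈ D) : Ev x y (a * b) ↔ (Ev x y a ↔ Ev x y b) := by
  have htodd := H.ht.odd
  obtain ⟨i, rfl | rfl⟩ := H.cov a ha <;> obtain ⟨j, rfl | rfl⟩ := H.cov b hb
  · rw [← pow_add, ev_pow H, ev_pow H, ev_pow H, Nat.even_add]
  · rw [← mul_assoc, ← pow_add, ev_out H, ev_pow H, ev_out H, Nat.odd_add', ← Nat.not_even_iff_odd]
    tauto
  · have e1 : x ^ i * y * x ^ j = x ^ (i + t * j) * y := by
      have : x ^ i * y * x ^ j = x ^ i * (y * x ^ j * y⁻¹) * y := by group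
      rw [this, H.conj_pow, pow_add]
    rw [e1, ev_out H, ev_out H, ev_pow H, Nat.odd_add, Nat.even_mul]
    rw [← Nat.not_odd_iff_even (n := t)]
    tauto
  · have e1 : x ^ i * y * (x ^ j * y) = x ^ (i + t * j) * (y * y) := by
      have : x ^ i * y * (x ^ j * y) = x ^ i * (y * x ^ j * y⁻¹) * (y * y) := by group
      rw [this, H.conj_pow, pow_add]
    have e2 : ∃ k, Even k ∧ y * y = x ^ k := by
      rcases h2 with h3 | h3
      · exact ⟨0, Even.zero, by rw [h3, pow_zero]⟩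
      · exact ⟨h, (even_iff_two_dvd.mpr H.ht.1), h3⟩
    obtain ⟨k, hk, hk2⟩ := e2
    rw [e1, hk2, ← pow_add, ev_pow H, ev_out H, ev_out H, Nat.even_add, Nat.even_add, Nat.even_mul,
      ← Nat.not_odd_iff_even (n := t), ← Nat.not_even_iff_odd (n := i),
      ← Nat.not_even_iff_odd (n := j)]
    tauto

theorem exists_mu (H : MC (⊤ : Subgroup P) x y h t) (h2 : Two x y h) :
    ∃ μ : P →* ℂ, (∀ i, μ (x ^ i) = if Even i then 1 else -1) ∧
      (∀ i, μ (x ^ i * y) = if Odd i then 1 else -1) := by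
  classical
  refine ⟨⟨⟨fun g => if Ev x y g then 1 else -1, ?_⟩, ?_⟩, ?_, ?_⟩
  · rw [if_pos]
    exact ⟨0, Or.inl ⟨Even.zero, (pow_zero x).symm⟩⟩
  · intro a b
    have h3 := ev_mul H h2 (Subgroup.mem_top a) (Subgroup.mem_top b)
    by_cases h4 : Ev x y a <;> by_cases h5 : Ev x y b
    · simp [h3, h4, h5]
    · simp [h3, h4, h5]
    · simp [h3, h4, h5]
    · simp [h3, h4, h5]
  · intro i
    change (if Ev x y (x ^ i) then (1 : ℂ) else -1) = _
    simp only [ev_pow H]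
  · intro i
    change (if Ev x y (x ^ i * y) then (1 : ℂ) else -1) = _
    simp only [ev_out H]

end mu

section lam

variable {G : Type u} [Group G] [Finite G] {D : Subgroup G} {x y : G} {h t : ℕ}

/-- the properties of the stable character -/
structure Lam (D : Subgroup G) (x : G) (h t : ℕ) (η : G → ℂ) : Prop where
  gen : IsGeneralizedCharacter D (fun v : D => η v)
  inv : ∀ i, η (x ^ (t * i)) = η (x ^ i)
  two : ∃ c, ∀ u ∈ D, orderOf u = 2 → η u = c
  four : ∃ c, ∀ u ∈ D, orderOf u = 4 → η u = c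
  diff : η 1 - η (x ^ h) = 4
  one : ∃ n : ℤ, η 1 = n

theorem inv_unique (H : MC D x y h t) (hq : Quat x y h t) {u : G} (hu : u ∈ D)
    (h2 : orderOf u = 2) : u = x ^ h := by
  have h3 : u * u = 1 := by
    rw [← pow_two, ← h2, pow_orderOf_eq_one]
  by_cases hux : u ∈ Subgroup.zpowers x
  · obtain ⟨i, -, rfl⟩ := H.exists_pow hux
    rcases H.sq_pow h3 with h4 | h4
    · rw [h4, orderOf_one] at h2; omega
    · exact h4
  · rw [hq.sq H hu hux] at h3
    exact absurd h3 H.z_ne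

/-- elements of order four -/
theorem four_cases (H : MC D x y h t) {u : G} (hu : u ∈ D) (h2 : orderOf u = 4) :
    (∃ i, u = x ^ i ∧ x ^ i * x ^ i = x ^ h) ∨ u ∉ Subgroup.zpowers x := by
  by_cases hux : u ∈ Subgroup.zpowers x
  · obtain ⟨i, -, rfl⟩ := H.exists_pow hux
    exact Or.inl ⟨i, rfl, H.pow_sq_z h2⟩
  · exact Or.inr hux

theorem Quat.lam (H : MC D x y h t) (hq : Quat x y h t) : ∃ η, Lam D x h t η := by
  classical
  haveI := Fintype.ofFinite D
  have H' := H.top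
  obtain ⟨ρ, h1, h2⟩ := exists_rho H'
  have hρc := irr_isClassFunction ρ
  set η : G → ℂ := fun g => if hg : g ∈ D then (ρ : D → ℂ) ⟨g, hg⟩ else 0 with hη
  have hval : ∀ g : D, η g = (ρ : D → ℂ) g := fun g => by rw [hη]; simp
  have hx : ∀ i, η (x ^ i) = (ρ : D → ℂ) (⟨x, H.hx⟩ ^ i) := fun i =>
    hval (⟨x, H.hx⟩ ^ i)
  have hz : η (x ^ h) = -2 := by
    rw [hx, ← mul_one ((⟨x, H.hx⟩ : D) ^ h), h2, h1]
  refine ⟨η, ?_, ?_, ⟨-2, ?_⟩, ⟨0, ?_⟩, ?_, ⟨2, ?_⟩⟩
  · have : (fun v : D => η v) = (ρ : D → ℂ) := funext hval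
    rw [this]
    exact Cfsg.Agent.Char.BI.isGeneralizedCharacter_of_isCharacter (irr_isCharacter ρ)
  · intro i
    rw [hx, hx, ← H'.conj_pow]
    have := hρc (⟨x, H.hx⟩ ^ i) ⟨y, H.hy⟩
    first | exact this | exact this.symm
  · intro u hu h3
    rw [inv_unique H hq hu h3]; exact hz
  · intro u hu h3
    rw [hval ⟨u, hu⟩]
    rcases H.four_cases hu h3 with ⟨i, hi, hi2⟩ | hux
    · refine rho_zero H' hρc h2 (w := ⟨y, H.hy⟩) (Subtype.ext ?_)
      push_cast
      rw [hi]; exact H.conj_sq_z hi2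
    · refine rho_zero H' hρc h2 (w := ⟨x, H.hx⟩ ^ (h / 2)) (Subtype.ext ?_)
      push_cast
      exact H.conj_half hu hux
  · rw [hz, show η 1 = 2 from (hval 1).trans h1]; norm_num
  · rw [show η 1 = 2 from (hval 1).trans h1]; norm_num

theorem SDih.lam (H : MC D x y h t) (hq : SDih y h t) : ∃ η, Lam D x h t η := by
  classical
  haveI := Fintype.ofFinite D
  have H' := H.top
  have htwo : Two (⟨x, H.hx⟩ : D) ⟨y, H.hy⟩ h := Or.inl (Subtype.ext hq.2.2)
  obtain ⟨ρ, h1, h2⟩ := exists_rho H'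
  obtain ⟨μ, m1, m2⟩ := exists_mu H' htwo
  have hρc := irr_isClassFunction ρ
  set η : G → ℂ := fun g => if hg : g ∈ D then (ρ : D → ℂ) ⟨g, hg⟩ + μ ⟨g, hg⟩ else 0 with hη
  have hval : ∀ g : D, η g = (ρ : D → ℂ) g + μ g := fun g => by rw [hη]; simp
  have hx : ∀ i, η (x ^ i) = (ρ : D → ℂ) (⟨x, H.hx⟩ ^ i) + if Even i then 1 else -1 := fun i => by
    rw [← m1]; exact hval (⟨x, H.hx⟩ ^ i)
  have hheven : Even h := even_iff_two_dvd.mpr H.ht.1
  have hz : η (x ^ h) = -1 := by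
    rw [hx, ← mul_one ((⟨x, H.hx⟩ : D) ^ h), h2, h1, if_pos hheven]; norm_num
  have hρout : ∀ u (hu : u ∈ D), u ∉ Subgroup.zpowers x → (ρ : D → ℂ) ⟨u, hu⟩ = 0 := by
    intro u hu hux
    refine rho_zero H' hρc h2 (w := ⟨x, H.hx⟩ ^ (h / 2)) (Subtype.ext ?_)
    push_cast
    exact H.conj_half hu hux
  have hsq : ∀ i : ℕ, x ^ i * y * (x ^ i * y) = if Even i then 1 else x ^ h := by
    intro i
    rw [H.sq_out, hq.2.2, mul_one]
    have hpos := H.pos
    have : t + 1 = h := by have := hq.2.1; omega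
    rw [this]
    split_ifs with hi
    · rw [H.pow_eq_one]
      obtain ⟨c, hc⟩ := hi
      exact ⟨c, by rw [hc]; ring⟩
    · rw [Nat.not_even_iff_odd] at hi
      obtain ⟨c, hc⟩ := hi
      have e1 : x ^ (h * i) = x ^ (2 * h * c) * x ^ h := by
        rw [← pow_add]; congr 1; rw [hc]; ring
      rw [e1, (H.pow_eq_one).mpr ⟨c, rfl⟩, one_mul]
  have hηout : ∀ i : ℕ, η (x ^ i * y) = if Odd i then 1 else -1 := by
    intro i
    have hmem : x ^ i * y ∈ D := D.mul_mem (D.pow_mem H.hx i) H.hy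
    have e1 : η (x ^ i * y) = (ρ : D → ℂ) ⟨x ^ i * y, hmem⟩ + μ ⟨x ^ i * y, hmem⟩ :=
      hval ⟨x ^ i * y, hmem⟩
    rw [e1, hρout _ hmem (H.pow_y_notMem i), zero_add, ← m2]
    rfl
  have h3 : η 1 = 3 := by
    rw [show η 1 = (ρ : D → ℂ) 1 + μ 1 from hval 1, h1, map_one]; norm_num
  refine ⟨η, ?_, ?_, ⟨-1, ?_⟩, ⟨1, ?_⟩, ?_, ⟨3, by rw [h3]; norm_num⟩⟩
  · have : (fun v : D => η v) = (ρ : D → ℂ) + (μ : D → ℂ) := funext hval
    rw [this]
    exact Cfsg.Agent.Char.BI.isGeneralizedCharacter_add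
      (Cfsg.Agent.Char.BI.isGeneralizedCharacter_of_isCharacter (irr_isCharacter ρ))
      (Cfsg.Agent.Char.BI.isGeneralizedCharacter_of_isCharacter
        (Cfsg.Agent.Char.isCharacter_of_hom μ))
  · intro i
    have htodd := H.ht.odd
    rw [hx, hx, ← H'.conj_pow]
    congr 1
    · have := hρc (⟨x, H.hx⟩ ^ i) ⟨y, H.hy⟩
      first | exact this | exact this.symm
    · have : Even (t * i) ↔ Even i := by
        rw [Nat.even_mul, ← Nat.not_odd_iff_even (n := t)]; tauto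
      simp only [this]
  · intro u hu h3
    have h4 : u * u = 1 := by rw [← pow_two, ← h3, pow_orderOf_eq_one]
    obtain ⟨i, rfl | rfl⟩ := H.cov u hu
    · rcases H.sq_pow h4 with h5 | h5
      · rw [h5, orderOf_one] at h3; omega
      · rw [h5]; exact hz
    · rw [hηout, if_neg]
      intro hi
      rw [hsq, if_neg (Nat.not_even_iff_odd.mpr hi)] at h4
      exact H.z_ne h4
  · intro u hu h3
    rcases H.four_cases hu h3 with ⟨i, hi, hi2⟩ | hux
    · subst hi
      rw [hx, rho_zero H' hρc h2 (w := ⟨y, H.hy⟩) (u := ⟨x, H.hx⟩ ^ i) (Subtype.ext (by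
        push_cast; exact H.conj_sq_z hi2)), zero_add, if_pos]
      rw [← pow_add, H.pow_eq_pow] at hi2
      obtain ⟨c, hc⟩ := Nat.modEq_iff_dvd.mp hi2
      obtain ⟨b, hb⟩ := hq.1
      push_cast at hc
      have h6 : (h : ℤ) = 4 * b := by exact_mod_cast hb
      have h7 : (i : ℤ) = 2 * (b - 2 * b * c) := by rw [h6] at hc; linarith
      have h8 : Even (i : ℤ) := ⟨b - 2 * b * c, by rw [h7]; ring⟩
      exact_mod_cast h8
    · obtain ⟨i, rfl | rfl⟩ := H.cov u hu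
      · exact absurd (mem_zp i) hux
      · rw [hηout, if_pos]
        by_contra hi
        rw [Nat.not_odd_iff_even] at hi
        have h4 := hsq i
        rw [if_pos hi] at h4
        have h5 : orderOf (x ^ i * y) ∣ 2 := orderOf_dvd_of_pow_eq_one (by rw [pow_two]; exact h4)
        rw [h3] at h5
        omega
  · rw [hz, h3]; norm_num

end lam

end Cfsg.Agent.H10.MC
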