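import Cfsg.Agent.H10.LevNum

/-!
# Arithmetic of the columns of all levels, II (owner: helper10)
-/

set_option autoImplicit false

namespace Cfsg.Agent.H10.LD

open scoped BigOperators

variable {ι : Type*} {I : Finset ι} {ht : ι → ℕ} {m : ℕ} {A : ℕ → ℕ → ι → ℤ}

/-- the supports of the columns at level one -/
theorem sup1 (L : LD I ht m A) (h1m : 1 < m) {p q : ℕ → ι}
    (hpq : ∀ j, 0 < j → 2 * j < 2 ^ m → PQ I (A 0 j) (p j) (q j)) {l : ℕ} (hl0 : 0 < l)
    (hl : 2 * l < 2 ^ (m - 1)) {χ : ι} (hχ : χ ∈ I) (hne : A 1 l χ ≠ 0) :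
    ∃ j, 0 < j ∧ 2 * j < 2 ^ m ∧ (χ = p j ∨ χ = q j) := by
  classical
  obtain ⟨k, rfl⟩ : ∃ k, m = k + 1 := ⟨m - 1, by omega⟩
  rw [Nat.add_sub_cancel] at hl
  have h2k : 2 ^ (k + 1) = 2 * 2 ^ k := by rw [pow_succ]; ring
  set l' := 2 ^ k - l with hl'
  have h1 : 0 < l' := by omega
  have h2 : 2 * l' < 2 ^ (k + 1) := by omega
  have h3 : 2 * l < 2 ^ (k + 1) := by omega
  have hll : l ≠ l' := by omega
  have P1 := hpq l hl0 h3
  have P2 := hpq l' h1 h2
  have s1 := P1.sep P2 (L.orth l l' h3 h2 hll)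
  have s2 := P2.sep P1 (L.orth l' l h2 h3 hll.symm)
  by_contra hcon
  push Not at hcon
  obtain ⟨c1, c2⟩ := hcon l hl0 h3
  obtain ⟨c3, c4⟩ := hcon l' h1 h2
  have hsym : ∀ ψ ∈ I, A 0 (l + 2 ^ k) ψ = A 0 l' ψ ∨ A 0 (l + 2 ^ k) ψ = - A 0 l' ψ := by
    intro ψ hψ
    have h4 := L.sym 0 (by omega) ψ hψ l' h1 (by rw [Nat.sub_zero]; omega)
    rw [Nat.sub_zero] at h4
    have h5 : 2 ^ (k + 1) - l' = l + 2 ^ k := by omega
    rwa [h5] at h4
  have hpar : ∀ ψ ∈ I, (2 : ℤ) ∣ A 1 l ψ - (A 0 l ψ + A 0 (l + 2 ^ k) ψ) := by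
    intro ψ hψ
    have h4 := L.par h1m ψ hψ l (by rw [Nat.add_sub_cancel]; omega)
    rwa [Nat.add_sub_cancel] at h4
  have hodd1 : ∀ ψ ∈ I, A 0 l' ψ = 0 → (A 0 l ψ = 1 ∨ A 0 l ψ = -1) → 1 ≤ A 1 l ψ ^ 2 := by
    intro ψ hψ h4 h5
    apply one_le_sq_of_odd
    have h6 := hpar ψ hψ
    have h7 : A 0 (l + 2 ^ k) ψ = 0 := by
      rcases hsym ψ hψ with h | h <;> rw [h, h4]
      norm_num
    rw [h7] at h6
    rw [Int.odd_iff]
    omega
  have hodd2 : ∀ ψ ∈ I, A 0 l ψ = 0 → (A 0 l' ψ = 1 ∨ A 0 l' ψ = -1) → 1 ≤ A 1 l ψ ^ 2 := by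
    intro ψ hψ h4 h5
    apply one_le_sq_of_odd
    have h6 := hpar ψ hψ
    rw [h4] at h6
    rw [Int.odd_iff]
    rcases hsym ψ hψ with h | h <;> rw [h] at h6 <;> omega
  have o1 := hodd1 _ P1.hp s1.1 (Or.inl P1.fp)
  have o2 := hodd1 _ P1.hq s1.2 (Or.inr P1.fq)
  have o3 := hodd2 _ P2.hp s2.1 (Or.inl P2.fp)
  have o4 := hodd2 _ P2.hq s2.2 (Or.inr P2.fq)
  have d1 : p l ≠ p l' := by
    intro h; have := P2.fp; rw [← h, s1.1] at this; omega
  have d2 : p l ≠ q l' := by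
    intro h; have := P2.fq; rw [← h, s1.1] at this; omega
  have d3 : q l ≠ p l' := by
    intro h; have := P2.fp; rw [← h, s1.2] at this; omega
  have d4 : q l ≠ q l' := by
    intro h; have := P2.fq; rw [← h, s1.2] at this; omega
  have hsum : ∑ ψ ∈ ({χ, p l, q l, p l', q l'} : Finset ι), A 1 l ψ ^ 2 ≤ 4 := by
    have hn := L.n1 1 h1m l hl0 (by rw [Nat.add_sub_cancel]; exact hl)
    rw [pow_one] at hn
    have : (2 : ℤ) * 2 = 4 := by norm_num
    rw [this] at hn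
    rw [← hn]
    apply Finset.sum_le_sum_of_subset_of_nonneg
    · intro ψ hψ
      simp only [Finset.mem_insert, Finset.mem_singleton] at hψ
      rcases hψ with rfl | rfl | rfl | rfl | rfl
      · exact hχ
      · exact P1.hp
      · exact P1.hq
      · exact P2.hp
      · exact P2.hq
    · intro _ _ _; exact sq_nonneg _
  rw [Finset.sum_insert (by simp [c1, c2, c3, c4]), Finset.sum_insert (by simp [P1.ne, d1, d2]),
    Finset.sum_insert (by simp [d3, d4]), Finset.sum_pair P2.ne] at hsum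
  have : 0 < A 1 l χ ^ 2 := by positivity
  omega

theorem sum_h0_le (L : LD I ht m A) {s : ℕ} (hs : s < m) {χ : ι} (hχ : χ ∈ I) (h0 : ht χ ≠ 0) :
    A s 0 χ ^ 2 + 4 ≤ 4 * 2 ^ s := by
  classical
  rw [← L.n0 s hs, ← Finset.sum_filter_add_sum_filter_not I (fun χ => ht χ = 0)]
  have h1 : ((I.filter (fun χ => ht χ = 0)).card : ℤ) ≤
      ∑ χ ∈ I.filter (fun χ => ht χ = 0), A s 0 χ ^ 2 := by
    rw [Finset.card_eq_sum_ones]
    push_cast
    apply Finset.sum_le_sum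
    intro ψ hψ
    have h2 := Finset.mem_filter.mp hψ
    exact one_le_sq_of_odd (L.odd s hs ψ h2.1 h2.2)
  rw [L.h0.1] at h1
  have h2 : A s 0 χ ^ 2 ≤ ∑ χ ∈ I.filter (fun χ => ¬ ht χ = 0), A s 0 χ ^ 2 :=
    Finset.single_le_sum (f := fun χ => A s 0 χ ^ 2) (fun i _ => sq_nonneg _)
      (Finset.mem_filter.mpr ⟨hχ, h0⟩)
  push_cast at h1
  linarith

/-- the remaining characters vanish everywhere -/
theorem vanish (L : LD I ht m A) {p q : ℕ → ι}
    (hpq : ∀ j, 0 < j → 2 * j < 2 ^ m → PQ I (A 0 j) (p j) (q j)) {χ : ι} (hχ : χ ∈ I)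
    (h0 : ht χ ≠ 0) (h1 : 1 < m → A 1 0 χ = 0)
    (hne : ∀ j, 0 < j → 2 * j < 2 ^ m → χ ≠ p j ∧ χ ≠ q j) :
    ∀ s < m, ∀ l < 2 ^ (m - s), A s l χ = 0 := by
  intro s
  induction s using Nat.strong_induction_on with
  | _ s ih =>
    intro hs
    apply L.zero_of hs hχ
    intro j hj
    have hcase : s = 0 ∨ s = 1 ∨ 2 ≤ s := by omega
    rcases hcase with rfl | rfl | hs2
    · rw [Nat.sub_zero] at hj
      rcases Nat.eq_zero_or_pos j with rfl | hj0
      · exact L.h0.2.2 χ hχ h0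
      · obtain ⟨c1, c2⟩ := hne j hj0 hj
        exact (hpq j hj0 hj).other χ hχ c1 c2
    · rcases Nat.eq_zero_or_pos j with rfl | hj0
      · exact h1 hs
      · by_contra hcon
        obtain ⟨i, hi0, hi, hi2⟩ := L.sup1 hs hpq hj0 hj hχ hcon
        rcases hi2 with h | h
        · exact (hne i hi0 hi).1 h
        · exact (hne i hi0 hi).2 h
    · obtain ⟨c, hc⟩ := L.div s hs χ hχ (fun s' hs' => ih s' hs' (hs'.trans hs)) j (by omega)
      by_contra hcon
      have hc0 : c ≠ 0 := by rintro rfl; rw [mul_zero] at hc; exact hcon hc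
      have hc1 : 1 ≤ c ^ 2 := by
        have : 0 < c ^ 2 := by positivity
        omega
      have h4 : (4 : ℤ) ≤ 2 ^ s := by
        calc (4 : ℤ) = 2 ^ 2 := by norm_num
          _ ≤ 2 ^ s := pow_le_pow_right₀ (by norm_num) hs2
      have h5 : (4 : ℤ) * 2 ^ s ≤ A s j χ ^ 2 := by
        rw [hc, mul_pow]
        nlinarith [sq_nonneg (c : ℤ), pow_pos (show (0 : ℤ) < 2 by norm_num) s]
      rcases Nat.eq_zero_or_pos j with rfl | hj0
      · have := L.sum_h0_le hs hχ h0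
        linarith
      · have h6 := L.n1 s hs j hj0 hj
        have h7 : A s j χ ^ 2 ≤ ∑ χ ∈ I, A s j χ ^ 2 :=
          Finset.single_le_sum (f := fun χ => A s j χ ^ 2) (fun i _ => sq_nonneg _) hχ
        rw [h6] at h7
        have : (0 : ℤ) < 2 ^ s := by positivity
        linarith

/-- **the distribution of the characters** -/
theorem main (L : LD I ht m A) (h1m : 1 < m) :
    ∃ (b : ℕ) (T S : Finset ι) (τ : ι), T ⊆ I ∧ S ⊆ I ∧ τ ∈ I ∧
      I.card + 2 * b = 2 ^ m + 3 + S.card ∧ T.card + 2 * b + 2 = 2 ^ m ∧ ht τ ≠ 0 ∧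
      τ ∉ T ∧ τ ∉ S ∧ Disjoint T S ∧
      (∀ χ ∈ I, ht χ = 0 ∨ χ ∈ T ∨ χ = τ ∨ χ ∈ S) ∧
      (∀ χ ∈ S, ht χ ≠ 0 ∧ ∀ s < m, ∀ l < 2 ^ (m - s), A s l χ = 0) ∧
      (∀ χ ∈ T, ht χ ≠ 0 ∧ ∃ j, 0 < j ∧ 2 * j < 2 ^ m ∧ A 0 j χ ^ 2 = 1 ∧
        ∀ l, 2 * l < 2 ^ m → l ≠ j → A 0 l χ = 0) ∧
      A 1 0 τ ^ 2 = 4 ∧ (∀ l, 0 < l → l < 2 ^ (m - 1) → A 1 l τ = 0) := by
  classical
  obtain ⟨p, q, hpq⟩ := L.exists_pairs
  obtain ⟨τ, hτ, hτ0, hτ4, hτz, hτu⟩ := L.tau h1m hpq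
  obtain ⟨h0c, h0a, h0b⟩ := L.h0
  have h2m : 2 ^ m = 2 * 2 ^ (m - 1) := by
    rw [← pow_succ']; congr 1; omega
  -- heights are constant on pairs
  have hht : ∀ j, 0 < j → 2 * j < 2 ^ m → (ht (p j) = 0 ↔ ht (q j) = 0) := by
    intro j hj0 hj
    have hP := hpq j hj0 hj
    have h1 := hP.eq (L.orth j 0 hj (by positivity) hj0.ne')
    constructor
    · intro h
      by_contra hn
      have h2 := h0b _ hP.hq hn
      have h3 := h0a _ hP.hp h
      rw [h1, h2] at h3; norm_num at h3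
    · intro h
      by_contra hn
      have h2 := h0b _ hP.hp hn
      have h3 := h0a _ hP.hq h
      rw [← h1, h2] at h3; norm_num at h3
  have hdis : ∀ j j', 0 < j → 2 * j < 2 ^ m → 0 < j' → 2 * j' < 2 ^ m → j ≠ j' →
      A 0 j' (p j) = 0 ∧ A 0 j' (q j) = 0 := fun j j' h1 h2 h3 h4 h5 =>
    (hpq j h1 h2).sep (hpq j' h3 h4) (L.orth j j' h2 h4 h5)
  set J := Finset.Ioo 0 (2 ^ (m - 1)) with hJ
  have hJm : ∀ j, j ∈ J ↔ 0 < j ∧ 2 * j < 2 ^ m := by
    intro j; rw [hJ, Finset.mem_Ioo]; omega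
  set Jg := J.filter (fun j => ht (p j) ≠ 0) with hJg
  set Jb := J.filter (fun j => ht (p j) = 0) with hJb
  have hJcard : Jb.card + Jg.card = 2 ^ (m - 1) - 1 := by
    rw [hJb, hJg, Finset.card_filter_add_card_filter_not, hJ, Nat.card_Ioo, Nat.sub_zero]
  set T := Jg.biUnion (fun j => ({p j, q j} : Finset ι)) with hT
  have hmemT : ∀ χ, χ ∈ T ↔ ∃ j, 0 < j ∧ 2 * j < 2 ^ m ∧ ht (p j) ≠ 0 ∧ (χ = p j ∨ χ = q j) := by
    intro χ
    rw [hT, Finset.mem_biUnion]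
    constructor
    · rintro ⟨j, hj, hχ⟩
      rw [hJg, Finset.mem_filter, hJm] at hj
      simp only [Finset.mem_insert, Finset.mem_singleton] at hχ
      exact ⟨j, hj.1.1, hj.1.2, hj.2, hχ⟩
    · rintro ⟨j, h1, h2, h3, h4⟩
      refine ⟨j, by rw [hJg, Finset.mem_filter, hJm]; exact ⟨⟨h1, h2⟩, h3⟩, ?_⟩
      simp only [Finset.mem_insert, Finset.mem_singleton]
      exact h4
  have hTcard : T.card = 2 * Jg.card := by
    rw [hT, Finset.card_biUnion]
    · rw [Finset.sum_congr rfl (g := fun _ => 2) (fun j hj => ?_)]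
      · rw [Finset.sum_const, smul_eq_mul, mul_comm]
      · rw [hJg, Finset.mem_filter, hJm] at hj
        exact Finset.card_pair (hpq j hj.1.1 hj.1.2).ne
    · intro j hj j' hj' hne
      simp only [Finset.mem_coe, hJg, Finset.mem_filter, hJm] at hj hj'
      have hd := hdis j j' hj.1.1 hj.1.2 hj'.1.1 hj'.1.2 hne
      have hP' := hpq j' hj'.1.1 hj'.1.2
      rw [Function.onFun, Finset.disjoint_left]
      intro χ hχ hχ'
      simp only [Finset.mem_insert, Finset.mem_singleton] at hχ hχ'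
      have h1 : A 0 j' χ = 0 := by
        rcases hχ with rfl | rfl
        · exact hd.1
        · exact hd.2
      rcases hχ' with rfl | rfl
      · have := hP'.fp; omega
      · have := hP'.fq; omega
  have hTI : T ⊆ I := by
    intro χ hχ
    obtain ⟨j, h1, h2, -, h4⟩ := (hmemT χ).mp hχ
    rcases h4 with rfl | rfl
    · exact (hpq j h1 h2).hp
    · exact (hpq j h1 h2).hq
  have hTht : ∀ χ ∈ T, ht χ ≠ 0 := by
    intro χ hχ
    obtain ⟨j, h1, h2, h3, h4⟩ := (hmemT χ).mp hχ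
    rcases h4 with rfl | rfl
    · exact h3
    · exact fun h => h3 ((hht j h1 h2).mpr h)
  have hτT : ∀ j, 0 < j → 2 * j < 2 ^ m → τ ≠ p j ∧ τ ≠ q j := by
    intro j h1 h2
    have h3 := hτz j (by omega)
    constructor
    · intro h
      have := (hpq j h1 h2).fp
      rw [← h, h3] at this; omega
    · intro h
      have := (hpq j h1 h2).fq
      rw [← h, h3] at this; omega
  have hτT' : τ ∉ T := by
    intro h
    obtain ⟨j, h1, h2, -, h4⟩ := (hmemT τ).mp h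
    rcases h4 with h | h
    · exact (hτT j h1 h2).1 h
    · exact (hτT j h1 h2).2 h
  set S := I.filter (fun χ => ht χ ≠ 0 ∧ χ ≠ τ ∧ χ ∉ T) with hS
  have hcardI : I.card = 4 + (T.card + (1 + S.card)) := by
    have e1 : (I.filter (fun χ => ht χ ≠ 0)) = T ∪ ({τ} ∪ S) := by
      ext χ
      simp only [Finset.mem_filter, Finset.mem_union, Finset.mem_singleton, hS]
      constructor
      · rintro ⟨h1, h2⟩
        by_cases h3 : χ ∈ T
        · exact Or.inl h3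
        · by_cases h4 : χ = τ
          · exact Or.inr (Or.inl h4)
          · exact Or.inr (Or.inr ⟨h1, h2, h4, h3⟩)
      · rintro (h | rfl | h)
        · exact ⟨hTI h, hTht χ h⟩
        · exact ⟨hτ, hτ0⟩
        · exact ⟨h.1, h.2.1⟩
    have e2 : Disjoint T ({τ} ∪ S) := by
      rw [Finset.disjoint_left]
      intro χ h1 h2
      simp only [Finset.mem_union, Finset.mem_singleton, hS, Finset.mem_filter] at h2
      rcases h2 with rfl | h2
      · exact hτT' h1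
      · exact h2.2.2.2 h1
    have e3 : Disjoint ({τ} : Finset ι) S := by
      rw [Finset.disjoint_singleton_left, hS, Finset.mem_filter]
      rintro ⟨-, -, h, -⟩
      exact h rfl
    rw [← Finset.card_filter_add_card_filter_not (s := I) (fun χ => ht χ = 0), h0c]
    have e4 : (I.filter (fun χ => ¬ ht χ = 0)).card = T.card + (1 + S.card) := by
      rw [show (I.filter (fun χ => ¬ ht χ = 0)) = T ∪ ({τ} ∪ S) from e1,
        Finset.card_union_of_disjoint e2, Finset.card_union_of_disjoint e3, Finset.card_singleton]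
    rw [e4]
  have hpos : 0 < 2 ^ (m - 1) := by positivity
  refine ⟨Jb.card, T, S, τ, hTI, Finset.filter_subset _ _, hτ, by omega, by omega, hτ0, hτT', ?_,
    ?_, ?_, ?_, ?_, hτ4, ?_⟩
  · rw [hS, Finset.mem_filter]
    rintro ⟨-, -, h, -⟩
    exact h rfl
  · rw [Finset.disjoint_left]
    intro χ h1 h2
    exact (Finset.mem_filter.mp h2).2.2.2 h1
  · intro χ hχ
    by_cases h1 : ht χ = 0
    · exact Or.inl h1
    · by_cases h2 : χ ∈ T
      · exact Or.inr (Or.inl h2)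
      · by_cases h3 : χ = τ
        · exact Or.inr (Or.inr (Or.inl h3))
        · exact Or.inr (Or.inr (Or.inr (Finset.mem_filter.mpr ⟨hχ, h1, h3, h2⟩)))
  · intro χ hχ
    obtain ⟨h1, h2, h3, h4⟩ := Finset.mem_filter.mp hχ
    refine ⟨h2, L.vanish hpq h1 h2 (fun _ => hτu χ h1 h2 h3) ?_⟩
    intro j hj0 hj
    have hP := hpq j hj0 hj
    constructor
    · rintro rfl
      exact h4 ((hmemT _).mpr ⟨j, hj0, hj, h2, Or.inl rfl⟩)
    · rintro rfl
      exact h4 ((hmemT _).mpr ⟨j, hj0, hj, fun h => h2 ((hht j hj0 hj).mp h), Or.inr rfl⟩)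
  · intro χ hχ
    refine ⟨hTht χ hχ, ?_⟩
    obtain ⟨j, h1, h2, h3, h4⟩ := (hmemT χ).mp hχ
    have hP := hpq j h1 h2
    refine ⟨j, h1, h2, ?_, ?_⟩
    · rcases h4 with rfl | rfl
      · rw [hP.fp]; norm_num
      · rw [hP.fq]; norm_num
    · intro l hl hlj
      rcases Nat.eq_zero_or_pos l with rfl | hl0
      · exact h0b χ (hTI hχ) (hTht χ hχ)
      · have hd := hdis j l h1 h2 hl0 hl hlj.symm
        rcases h4 with rfl | rfl
        · exact hd.1
        · exact hd.2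
  · intro l hl0 hl
    have h0' : ∀ j, 2 * j < 2 ^ (m - 1) → 0 < j → A 1 j τ = 0 := by
      intro j hj hj0
      by_contra hcon
      obtain ⟨i, hi0, hi, hi2⟩ := L.sup1 h1m hpq hj0 hj hτ hcon
      rcases hi2 with h | h
      · exact (hτT i hi0 hi).1 h
      · exact (hτT i hi0 hi).2 h
    rcases Nat.lt_trichotomy (2 * l) (2 ^ (m - 1)) with h1 | h1 | h1
    · exact h0' l h1 hl0
    · have h2 := L.mid 1 h1m τ hτ
      have h3 : 2 ^ (m - 1) / 2 = l := by omega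
      rwa [h3] at h2
    · have h2 := h0' (2 ^ (m - 1) - l) (by omega) (by omega)
      rcases L.sym 1 h1m τ hτ l hl0 hl with h3 | h3
      · rw [h2] at h3; exact h3.symm
      · rw [h2] at h3; omega

end Cfsg.Agent.H10.LD
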