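import Cfsg.Agent.H10.Cyc

/-!
# Integrality of trigonometric sums (owner: helper10)
-/

set_option autoImplicit false
set_option linter.unusedSectionVars false

namespace Cfsg.Agent.H10.Cyc

open scoped BigOperators ComplexConjugate

/-- `F` is an integral combination of the powers of `ζ`, with coefficients divisible by `N` -/
def Pd (F : ℕ → ℂ) (ζ : ℂ) (n : ℕ) (N : ℤ) : Prop :=
  ∃ c : ℕ → ℤ, (∀ j, N ∣ c j) ∧ ∀ k, F k = ∑ j ∈ Finset.range (2 * n), (c j : ℂ) * ζ ^ (k * j)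

theorem sum_two_mul {R : Type*} [AddCommMonoid R] (n : ℕ) (f : ℕ → R) :
    ∑ j ∈ Finset.range (2 * n), f j = ∑ j ∈ Finset.range n, (f j + f (j + n)) := by
  rw [two_mul, Finset.sum_range_add, Finset.sum_add_distrib]
  congr 1
  exact Finset.sum_congr rfl fun j _ => by rw [add_comm n j]

theorem halve {ζ : ℂ} {n : ℕ} (h1 : ζ ^ (2 * n) = 1) (c : ℕ → ℤ) (k : ℕ) :
    ∑ j ∈ Finset.range (2 * n), (c j : ℂ) * ζ ^ (2 * k * j) =
      ∑ j ∈ Finset.range n, ((c j + c (j + n) : ℤ) : ℂ) * (ζ ^ 2) ^ (k * j) := by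
  rw [sum_two_mul]
  refine Finset.sum_congr rfl fun j _ => ?_
  have h2 : ζ ^ (2 * k * (j + n)) = ζ ^ (2 * k * j) := by
    rw [mul_add, pow_add, show 2 * k * n = (2 * n) * k by ring, pow_mul ζ (2 * n) k, h1, one_pow,
      mul_one]
  rw [h2, ← pow_mul]
  push_cast
  ring_nf

variable {ζ : ℂ} {h : ℕ}

theorem coef_of_Pd (hh : 0 < h) (hζ : IsPrimitiveRoot ζ (2 * h)) {F : ℕ → ℂ} {c : ℕ → ℤ}
    (hF : ∀ k, F k = ∑ j ∈ Finset.range (2 * h), (c j : ℂ) * ζ ^ (k * j)) {m : ℤ} {A : ℕ → ℤ}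
    (hA : ∀ k, Odd k → F k = (m : ℂ) * ∑ l ∈ Finset.range h, (A l : ℂ) * ζ ^ (k * l)) {l : ℕ}
    (hl : l < h) : m * A l = c l - c (l + h) := by
  have h1 := cf_eq_coeff hh hζ (g := F) (A := fun l => (m : ℂ) * (A l : ℂ)) (fun i hi => by
    rw [hA i hi, Finset.mul_sum]
    exact Finset.sum_congr rfl fun _ _ => by ring) hl
  have h2 := cf_eq_coeff hh hζ (g := F) (A := fun l => ((c l - c (l + h) : ℤ) : ℂ)) (fun i hi => by
    rw [hF i]
    exact fold hh hζ c hi) hl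
  rw [h1] at h2
  exact_mod_cast h2

theorem Pd.coef (hh : 0 < h) (hζ : IsPrimitiveRoot ζ (2 * h)) {F : ℕ → ℂ} {N : ℤ}
    (hP : Pd F ζ h N) {m : ℤ} {A : ℕ → ℤ}
    (hA : ∀ k, Odd k → F k = (m : ℂ) * ∑ l ∈ Finset.range h, (A l : ℂ) * ζ ^ (k * l)) {l : ℕ}
    (hl : l < h) : N ∣ m * A l := by
  obtain ⟨c, hc, hF⟩ := hP
  rw [coef_of_Pd hh hζ hF hA hl]
  exact dvd_sub (hc _) (hc _)

theorem Pd.half {F : ℕ → ℂ} {N : ℤ} (hζ : ζ ^ (2 * (2 * h)) = 1) (hP : Pd F ζ (2 * h) N) :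
    Pd (fun k => F (2 * k)) (ζ ^ 2) h N := by
  obtain ⟨c, hc, hF⟩ := hP
  refine ⟨fun j => c j + c (j + 2 * h), fun j => dvd_add (hc _) (hc _), fun k => ?_⟩
  exact (hF (2 * k)).trans (halve hζ c k)

theorem Pd.half_of_zero (hh : 0 < h) (hζ : IsPrimitiveRoot ζ (2 * (2 * h))) {F : ℕ → ℂ} {N : ℤ}
    (hP : Pd F ζ (2 * h) N) (h0 : ∀ k, Odd k → F k = 0) :
    Pd (fun k => F (2 * k)) (ζ ^ 2) h (2 * N) := by
  obtain ⟨c, hc, hF⟩ := hP
  have h1 : ∀ l < 2 * h, c (l + 2 * h) = c l := by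
    intro l hl
    have h2 := coef_of_Pd (by omega) hζ hF (m := 0) (A := fun _ => 0) (fun k hk => by
      rw [h0 k hk]; simp) hl
    omega
  refine ⟨fun j => 2 * c j, fun j => mul_dvd_mul_left 2 (hc j), fun k => ?_⟩
  refine (hF (2 * k)).trans ((halve hζ.pow_eq_one c k).trans ?_)
  refine Finset.sum_congr rfl fun j hj => ?_
  rw [h1 j (Finset.mem_range.mp hj)]
  push_cast; ring

/-- sums of roots of unity -/
theorem Pd.of_multiset (hh : 0 < h) (hζ : IsPrimitiveRoot ζ (2 * h)) (s : Multiset ℂ)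
    (hs : ∀ ω ∈ s, ω ^ (2 * h) = 1) : Pd (fun k => (s.map (· ^ k)).sum) ζ h 1 := by
  classical
  induction s using Multiset.induction_on with
  | empty => exact ⟨fun _ => 0, fun _ => one_dvd _, fun k => by simp⟩
  | cons a s ih =>
    obtain ⟨c, -, hc⟩ := ih fun ω hω => hs ω (Multiset.mem_cons_of_mem hω)
    haveI : NeZero (2 * h) := ⟨by omega⟩
    obtain ⟨i, hi, hia⟩ := hζ.eq_pow_of_pow_eq_one (hs a (Multiset.mem_cons_self a s))
    refine ⟨fun j => c j + if j = i then 1 else 0, fun _ => one_dvd _, fun k => ?_⟩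
    have hck := hc k
    simp only at hck ⊢
    rw [Multiset.map_cons, Multiset.sum_cons, hck, ← hia]
    have h1 : ∀ j ∈ Finset.range (2 * h), ((c j + if j = i then (1 : ℤ) else 0 : ℤ) : ℂ) * ζ ^ (k * j) =
        (c j : ℂ) * ζ ^ (k * j) + (if j = i then ζ ^ (k * j) else 0) := by
      intro j _
      push_cast
      split_ifs <;> ring
    rw [Finset.sum_congr rfl h1, Finset.sum_add_distrib, Finset.sum_ite_eq' _ i,
      if_pos (Finset.mem_range.mpr hi), ← pow_mul, mul_comm i k, add_comm]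

end Cfsg.Agent.H10.Cyc
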