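import Cfsg.Agent.H10.NonMaj
import Cfsg.Agent.H10.MCLev
import Cfsg.Agent.H10.LevNum2
import Cfsg.Agent.H10.PdLem
import Cfsg.Agent.H10.ExLem
import Cfsg.Agent.H10.DihC

/-!
# The columns of all levels of a block (owner: helper10)
-/

set_option autoImplicit false
set_option linter.style.haveILetI false
set_option linter.unusedSectionVars false

namespace Cfsg.Agent.H10.MC

open scoped ComplexConjugate BigOperators
open Cfsg Cfsg.Agent.CharBase Cfsg.Agent.Blk Cfsg.Agent.BlkF Cfsg.Agent.BlkInd Cfsg.Agent.BlkC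
  Cfsg.Agent.Star Cfsg.Agent.H4 Cfsg.Agent.H10.Col MonoidAlgebra

universe u

/-- the exponent at level `s` -/
def tS (m t s : ℕ) : ℕ := if s = 0 then t else 2 * 2 ^ (m - s) - 1

theorem two_pow_sub {m s : ℕ} (hs : s < m) : 2 ^ (m - s) * 2 ^ s = 2 ^ m := by
  rw [← pow_add]; congr 1; omega

theorem isT_tS {m t s : ℕ} (ht : Cyc.IsT (2 ^ m) t) (hs : s < m) :
    Cyc.IsT (2 ^ (m - s)) (tS m t s) := by
  unfold tS
  split_ifs with h
  · rw [h, Nat.sub_zero]; exact ht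
  · exact ⟨dvd_pow_self 2 (by omega), by positivity, Or.inl rfl⟩

/-- averages of orthogonal columns -/
theorem cross_cf {ι : Type*} {I : Finset ι} {h h' : ℕ} {ζ ζ' : ℂ} {f g : ℕ → ι → ℂ}
    (H : ∀ i i', Odd i → Odd i' → ∑ χ ∈ I, f i χ * conj (g i' χ) = 0) (j j' : ℤ) :
    ∑ χ ∈ I, Cyc.cf ζ h (fun i => f i χ) j * conj (Cyc.cf ζ' h' (fun i => g i χ) j') = 0 := by
  have h1 : ∀ χ ∈ I, Cyc.cf ζ h (fun i => f i χ) j * conj (Cyc.cf ζ' h' (fun i => g i χ) j') =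
      ∑ k ∈ Finset.range h, ∑ k' ∈ Finset.range h', ((h : ℂ)⁻¹ * (h' : ℂ)⁻¹ *
        ζ ^ (-((2 * (k : ℤ) + 1) * j)) * conj (ζ' ^ (-((2 * (k' : ℤ) + 1) * j')))) *
          (f (2 * k + 1) χ * conj (g (2 * k' + 1) χ)) := by
    intro χ _
    unfold Cyc.cf
    simp only [map_mul, map_inv₀, map_natCast, map_sum]
    rw [mul_mul_mul_comm, Finset.sum_mul_sum, Finset.mul_sum]
    refine Finset.sum_congr rfl fun k _ => ?_
    rw [Finset.mul_sum]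
    exact Finset.sum_congr rfl fun k' _ => by ring
  rw [Finset.sum_congr rfl h1, Finset.sum_comm]
  refine Finset.sum_eq_zero fun k _ => ?_
  rw [Finset.sum_comm]
  refine Finset.sum_eq_zero fun k' _ => ?_
  rw [← Finset.mul_sum, H _ _ ⟨k, rfl⟩ ⟨k', rfl⟩, mul_zero]

/-- averages against a fixed vector -/
theorem avg_cf {ι : Type*} {I : Finset ι} {h : ℕ} {ζ : ℂ} {f : ℕ → ι → ℂ} {w : ι → ℂ}
    (hw : ∀ i, Odd i → ∑ χ ∈ I, w χ * conj (f i χ) = 0) (j : ℤ) :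
    ∑ χ ∈ I, w χ * conj (Cyc.cf ζ h (fun i => f i χ) j) = 0 := by
  have h1 : ∀ χ ∈ I, w χ * conj (Cyc.cf ζ h (fun i => f i χ) j) =
      ∑ k ∈ Finset.range h, ((h : ℂ)⁻¹ * conj (ζ ^ (-((2 * (k : ℤ) + 1) * j)))) *
          (w χ * conj (f (2 * k + 1) χ)) := by
    intro χ _
    unfold Cyc.cf
    simp only [map_mul, map_inv₀, map_natCast, map_sum]
    rw [Finset.mul_sum, Finset.mul_sum]
    exact Finset.sum_congr rfl fun k' _ => by ring
  rw [Finset.sum_congr rfl h1, Finset.sum_comm]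
  refine Finset.sum_eq_zero fun k _ => ?_
  rw [← Finset.mul_sum, hw _ ⟨k, rfl⟩, mul_zero]

section

variable {G : Type u} [Group G] [Fintype G] {M : Ideal AlgInt} [hMp : M.IsPrime]
  {B : Set (IrrCharacter G)} {D : Subgroup G} {E : MonoidAlgebra (kM M) G} {x y : G} {m t : ℕ}
  [∀ v : G, Fintype (Subgroup.centralizer (Subgroup.zpowers v : Set G))]
  {es : ∀ s : ℕ, Set (IrrCharacter (Subgroup.centralizer (Subgroup.zpowers (x ^ 2 ^ s) : Set G)))}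
  {φs : ∀ s : ℕ, Subgroup.centralizer (Subgroup.zpowers (x ^ 2 ^ s) : Set G) → ℂ}
  {ds : ∀ s : ℕ, IrrCharacter (Subgroup.centralizer (Subgroup.zpowers (x ^ 2 ^ s) : Set G)) → ℕ}

/-- the blocks of the centralizers of the elements `x ^ 2 ^ s` -/
structure LS (M : Ideal AlgInt) [M.IsPrime] (B : Set (IrrCharacter G)) (D : Subgroup G)
    (E : MonoidAlgebra (kM M) G) (x : G) (m : ℕ)
    (es : ∀ s : ℕ, Set (IrrCharacter
      (Subgroup.centralizer (Subgroup.zpowers (x ^ 2 ^ s) : Set G))))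
    (φs : ∀ s : ℕ, Subgroup.centralizer (Subgroup.zpowers (x ^ 2 ^ s) : Set G) → ℂ)
    (ds : ∀ s : ℕ, IrrCharacter
      (Subgroup.centralizer (Subgroup.zpowers (x ^ 2 ^ s) : Set G)) → ℕ) : Prop where
  ind : ∀ s < m, IsInducedBlock M _ (es s) B
  mle : ∀ s < m, MLe 2 (Subgroup.zpowers (x ^ 2 ^ s)) (EB M _ (es s)) D E
  rk : ∀ s < m, blockRank 2 (es s) = 1
  df : ∀ s < m, 2 ^ blockDefect 2 (es s) = 2 * 2 ^ m
  r1 : ∀ s < m, R1 2 (es s) (φs s) (ds s)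
  pel : ∀ s < m, ∃ k : ℕ, orderOf (x ^ 2 ^ s) = 2 ^ k

theorem not_dvd_lev (_H : MC D x y (2 ^ m) t) {s : ℕ} (hs : s < m) {i : ℕ} (hi : Odd i) :
    ¬ 2 ^ m ∣ 2 ^ s * i := by
  rintro ⟨c, hc⟩
  rw [← two_pow_sub hs, mul_comm (2 ^ (m - s)), mul_assoc] at hc
  have h1 := Nat.eq_of_mul_eq_mul_left (by positivity) hc
  obtain ⟨k, hk⟩ := hi
  obtain ⟨c', hc'⟩ : ∃ c', m - s = c' + 1 := ⟨m - s - 1, by omega⟩
  rw [hc', pow_succ] at h1
  have : 2 * (2 ^ c' * c) = 2 * k + 1 := by rw [← hk, h1]; ring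
  omega

theorem m_pos (H : MC D x y (2 ^ m) t) : 0 < m := by
  rcases Nat.eq_zero_or_pos m with rfl | h
  · have := H.ht.1; norm_num at this
  · exact h

theorem not_dvd_lev' (H : MC D x y (2 ^ m) t) {s : ℕ} (hs : s < m) : ¬ 2 ^ m ∣ 2 ^ s := by
  have := H.not_dvd_lev hs odd_one
  rwa [mul_one] at this

theorem exists_LS (hM : IsPModular 2 M) (hB : IsPBlock M B)
    (he : haveI := charP_kM hM; MMax 2 D E)
    (hb : haveI := charP_kM hM; MPairOf 2 (eB M B) D E) (H : MC D x y (2 ^ m) t) :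
    ∃ es φs ds, LS M B D E x m es φs ds := by
  haveI := charP_kM hM
  have hex : ∀ s : ℕ, ∃ f : Set (IrrCharacter
      (Subgroup.centralizer (Subgroup.zpowers (x ^ 2 ^ s) : Set G))),
      MLe 2 (Subgroup.zpowers (x ^ 2 ^ s)) (EB M _ f) D E ∧
      IsInducedBlock M (Subgroup.centralizer (Subgroup.zpowers (x ^ 2 ^ s) : Set G)) f B ∧
      ∃ k : ℕ, orderOf (x ^ 2 ^ s) = 2 ^ k := fun i =>
    exists_below hM hB he hb (D.pow_mem H.hx _)
  choose es hes1 hes2 hes3 using hex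
  have hrk : ∀ s < m, blockRank 2 (es s) = 1 := fun s hs =>
    H.rank_x hM he (H.not_dvd_lev' hs) (hes2 s).1 (hes1 s)
  have hex2 : ∀ s, ∃ φ d, s < m → R1 2 (es s) φ d := by
    intro s
    by_cases hs : s < m
    · obtain ⟨φ, d, h⟩ := exists_R1 hM (hes2 s).1 (hrk s hs)
      exact ⟨φ, d, fun _ => h⟩
    · exact ⟨0, 0, fun h => absurd h hs⟩
  choose φs ds hR using hex2
  exact ⟨es, φs, ds, fun s _ => hes2 s, fun s _ => hes1 s, hrk,
    fun s hs => H.defect_x hM he (H.not_dvd_lev' hs) (hes2 s).1 (hes1 s), hR, fun s _ => hes3 s⟩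

theorem pow_pow_eq (s i : ℕ) : (x ^ 2 ^ s) ^ i = x ^ (2 ^ s * i) := by rw [← pow_mul]

theorem ord_lev (H : MC D x y (2 ^ m) t) {s : ℕ} (hs : s < m) :
    orderOf (x ^ 2 ^ s) = 2 * 2 ^ (m - s) := by
  have h1 : orderOf x = 2 ^ s * (2 * 2 ^ (m - s)) := by
    rw [H.ordx, ← two_pow_sub hs]; ring
  rw [orderOf_pow_of_dvd (by positivity) (by rw [h1]; exact Dvd.intro _ rfl), h1,
    Nat.mul_div_cancel_left _ (by positivity)]

theorem zp_lev (H : MC D x y (2 ^ m) t) {s : ℕ} (hs : s < m) {i : ℕ} (hi : Odd i) :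
    Subgroup.zpowers ((x ^ 2 ^ s) ^ i) = Subgroup.zpowers (x ^ 2 ^ s) := by
  apply zpowers_pow_of_coprime
  rw [H.ord_lev hs]
  have : 2 * 2 ^ (m - s) = 2 ^ (m - s + 1) := by rw [pow_succ]; ring
  rw [this]
  exact Nat.Coprime.pow_left _ (Nat.coprime_two_left.mpr hi)

theorem conj_lev (H : MC D x y (2 ^ m) t) {s : ℕ} (hs : s < m) :
    y * x ^ 2 ^ s * y⁻¹ = (x ^ 2 ^ s) ^ tS m t s := by
  rw [H.conj_pow, ← pow_mul]
  unfold tS
  split_ifs with h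
  · rw [h, pow_zero, mul_one, one_mul]
  · rw [H.pow_eq_pow]
    obtain ⟨c, hc⟩ := H.ht.dvd_add_one
    obtain ⟨s', rfl⟩ : ∃ s', s = s' + 1 := ⟨s - 1, by omega⟩
    apply Nat.ModEq.symm
    rw [Nat.modEq_iff_dvd]
    have h1 : ((2 * 2 ^ (m - (s' + 1)) - 1 : ℕ) : ℤ) = 2 * 2 ^ (m - (s' + 1)) - 1 := by
      have : 0 < 2 ^ (m - (s' + 1)) := by positivity
      push_cast [Nat.cast_sub (show 1 ≤ 2 * 2 ^ (m - (s' + 1)) by omega)]
      ring
    have h2 : ((2 : ℤ) ^ (m - (s' + 1))) * 2 ^ (s' + 1) = 2 ^ m := by exact_mod_cast two_pow_sub hs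
    push_cast [h1]
    refine ⟨2 ^ s' * c - 1, ?_⟩
    have h3 : (t : ℤ) = 2 ^ m * c - 1 := by
      push_cast at hc; linarith
    rw [h3]
    have h4 : (2 : ℤ) ^ (s' + 1) = 2 * 2 ^ s' := by rw [pow_succ]; ring
    rw [h4] at h2 ⊢
    linear_combination -2 * h2

theorem levS (hM : IsPModular 2 M) (hB : IsPBlock M B) (he : haveI := charP_kM hM; MMax 2 D E)
    (H : MC D x y (2 ^ m) t) (L : LS M B D E x m es φs ds) {ζ : ℂ}
    (hζ : IsPrimitiveRoot ζ (2 * 2 ^ m)) {s : ℕ} (hs : s < m) :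
    IsPrimitiveRoot (ζ ^ 2 ^ s) (2 * 2 ^ (m - s)) ∧
    Cyc.Lev (Bfin B) (2 ^ (m - s)) (tS m t s) (2 ^ blockDefect 2 (es s)) (ζ ^ 2 ^ s)
      (fun i χ => Col.D ((x ^ 2 ^ s) ^ i) (es s) (ds s) (χ : G → ℂ)) := by
  haveI := charP_kM hM
  have hζs : IsPrimitiveRoot (ζ ^ 2 ^ s) (2 * 2 ^ (m - s)) := by
    apply hζ.pow (by positivity)
    rw [← two_pow_sub hs]; ring
  refine ⟨hζs, ?_⟩
  refine lev_of hM hB (isT_tS H.ht hs) hζs (H.ord_lev hs) (L.pel s hs) rfl (L.ind s hs)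
    (L.rk s hs) (L.r1 s hs) (g := y) (H.conj_lev hs) ?_ ?_
  · apply cj_fix hM he (L.mle s hs) H.hy
    rw [show cjS y (Subgroup.zpowers (x ^ 2 ^ s)) = Subgroup.zpowers (y * x ^ 2 ^ s * y⁻¹) from
      MonoidHom.map_zpowers (MulAut.conj y).toMonoidHom _, H.conj_lev hs,
      H.zp_lev hs (isT_tS H.ht hs).odd]
  · intro i i' hi hi' hsc
    obtain ⟨g, hg1, hg2⟩ := hsc
    have hz := H.zp_lev hs hi
    have hz' := H.zp_lev hs hi'
    have h1 : MLe 2 (Subgroup.zpowers (x ^ (2 ^ s * i))) (EB M _ (es s)) D E := by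
      rw [← pow_pow_eq, hz]; exact L.mle s hs
    have h2 : MLe 2 (Subgroup.zpowers (g * x ^ (2 ^ s * i) * g⁻¹))
        (Blk.cj g (EB M _ (es s))) D E := by
      rw [← pow_pow_eq, ← hg1, ← hg2, hz']; exact L.mle s hs
    have h3 : g * x ^ (2 ^ s * i) * g⁻¹ = x ^ (2 ^ s * i') := by
      rw [← pow_pow_eq, ← pow_pow_eq]; exact hg1.symm
    have key : ∀ a b : ℕ, x ^ (2 ^ s * a) = x ^ (2 ^ s * b) → a ≡ b [MOD 2 * 2 ^ (m - s)] := by
      intro a b hab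
      rw [← pow_pow_eq, ← pow_pow_eq, pow_eq_pow_iff_modEq, H.ord_lev hs] at hab
      exact hab
    rcases H.fusX hM he (H.not_dvd_lev hs hi) (H.not_dvd_lev hs hi') h1 h2 h3 with h4 | h4
    · left; exact key _ _ h4
    · right
      apply key
      rw [h4, ← H.conj_pow]
      calc y * x ^ (2 ^ s * i) * y⁻¹ = (y * x ^ 2 ^ s * y⁻¹) ^ i := by
            rw [_root_.conj_pow, pow_pow_eq]
        _ = _ := by rw [H.conj_lev hs, ← pow_mul, ← pow_mul]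

/-- the coefficients at level `s` -/
theorem exists_levA (hM : IsPModular 2 M) (hB : IsPBlock M B)
    (he : haveI := charP_kM hM; MMax 2 D E)
    (H : MC D x y (2 ^ m) t) (L : LS M B D E x m es φs ds) {ζ : ℂ}
    (hζ : IsPrimitiveRoot ζ (2 * 2 ^ m)) {s : ℕ} (hs : s < m) :
    ∃ A : ℕ → IrrCharacter G → ℤ,
      (∀ χ ∈ B, ∀ i, Odd i → Col.D ((x ^ 2 ^ s) ^ i) (es s) (ds s) (χ : G → ℂ) =
        ∑ l ∈ Finset.range (2 ^ (m - s)), (A l χ : ℂ) * (ζ ^ 2 ^ s) ^ (i * l)) ∧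
      (∀ χ ∈ B, ∀ j : ℕ, j < 2 ^ (m - s) → Cyc.cf (ζ ^ 2 ^ s) (2 ^ (m - s))
        (fun i => Col.D ((x ^ 2 ^ s) ^ i) (es s) (ds s) (χ : G → ℂ)) (j : ℤ) = (A j χ : ℂ)) ∧
      (∑ χ ∈ Bfin B, A 0 χ ^ 2 = 4 * 2 ^ s) ∧
      (∀ l, 0 < l → 2 * l < 2 ^ (m - s) → ∑ χ ∈ Bfin B, A l χ ^ 2 = 2 * 2 ^ s) ∧
      (∀ j j', 2 * j < 2 ^ (m - s) → 2 * j' < 2 ^ (m - s) → j ≠ j' →
        ∑ χ ∈ Bfin B, A j χ * A j' χ = 0) ∧
      (∀ χ ∈ Bfin B, ∀ j, 0 < j → j < 2 ^ (m - s) →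
        (A (2 ^ (m - s) - j) χ = A j χ ∨ A (2 ^ (m - s) - j) χ = - A j χ)) ∧
      (∀ χ ∈ Bfin B, A (2 ^ (m - s) / 2) χ = 0) ∧
      (∀ χ ∈ Bfin B, (Even (A 0 χ) ↔
        MemLocalIdeal M (Col.D (x ^ 2 ^ s) (es s) (ds s) (χ : G → ℂ)))) := by
  haveI := charP_kM hM
  obtain ⟨hζs, hL⟩ := levS hM hB he H L hζ hs
  have hT := isT_tS H.ht hs
  obtain ⟨A, h1, h2, h3, h4, h5, h6, h7⟩ := hL.exists_coeff hT hζs
  have hh : 0 < 2 ^ (m - s) := hT.2.1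
  have h0 : ((2 ^ (m - s) : ℕ) : ℤ) ≠ 0 := by exact_mod_cast hh.ne'
  rw [L.df s hs] at h3 h4
  have hpp : ((2 ^ m : ℕ) : ℤ) = ((2 ^ (m - s) : ℕ) : ℤ) * 2 ^ s := by
    rw [← two_pow_sub hs]; push_cast; ring
  refine ⟨A, fun χ hχ => h1 χ (mem_Bfin.mpr hχ), fun χ hχ => h2 χ (mem_Bfin.mpr hχ), ?_, ?_, h5,
    h6, h7, ?_⟩
  · apply mul_left_cancel₀ h0
    rw [h3]
    push_cast at hpp ⊢
    rw [hpp]; ring
  · intro j hj hj2
    apply mul_left_cancel₀ h0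
    rw [h4 j hj hj2]
    push_cast at hpp ⊢
    rw [hpp]; ring
  · intro χ hχ
    have h9 := h1 χ hχ 1 odd_one
    simp only [pow_one, one_mul] at h9
    have h10 := Cyc.sum_coeff_parity (A := fun l => A l χ) hT.1 hh
      (fun j hj hj2 => h6 χ hχ j hj hj2) (h7 χ hχ)
    have h13 : ∑ l ∈ Finset.range (2 ^ (m - s)), (A l χ : ℂ) * (ζ ^ 2 ^ s) ^ l =
        ∑ l ∈ Finset.range (2 ^ (m - s)),
        (A l χ : ℂ) * ((ζ ^ 2 ^ s) ^ l - 1) +
        ((∑ l ∈ Finset.range (2 ^ (m - s)), A l χ : ℤ) : ℂ) := by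
      push_cast
      rw [← Finset.sum_add_distrib]
      exact Finset.sum_congr rfl fun l _ => by ring
    have h14 : MemLocalIdeal M (∑ l ∈ Finset.range (2 ^ (m - s)),
        (A l χ : ℂ) * ((ζ ^ 2 ^ s) ^ l - 1)) := by
      refine mli_sum _ _ fun l _ => mli_mul_left (mlr_intCast _) ?_
      refine mli_sub_one_of_pow_eq_one hM (n := m + 1) ?_
      have : 2 ^ (m + 1) = 2 * 2 ^ m := by rw [pow_succ]; ring
      have e2 : ((ζ ^ 2 ^ s) ^ l) ^ 2 ^ (m + 1) = (ζ ^ (2 * 2 ^ m)) ^ (2 ^ s * l) := by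
        rw [this, ← pow_mul, ← pow_mul, ← pow_mul]; congr 1; ring
      rw [e2, hζ.pow_eq_one, one_pow]
    rw [h9, h13]
    constructor
    · intro hev
      rw [even_iff_two_dvd] at hev
      refine mli_add h14 ((mli_intCast_iff hM _).mpr ?_)
      have := dvd_add h10 hev
      rwa [sub_add_cancel] at this
    · intro hm
      have h15 : MemLocalIdeal M ((∑ l ∈ Finset.range (2 ^ (m - s)), A l χ : ℤ) : ℂ) := by
        have := mli_sub hm h14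
        rwa [add_sub_cancel_left] at this
      rw [mli_intCast_iff hM] at h15
      rw [even_iff_two_dvd]
      have h16 : (2 : ℤ) ∣ ∑ l ∈ Finset.range (2 ^ (m - s)), A l χ := by exact_mod_cast h15
      have := dvd_sub h16 h10
      rwa [sub_sub_cancel] at this

end

end Cfsg.Agent.H10.MC
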