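import Cfsg.Agent.H10.DihNum

/-!
# Arithmetic of the columns of all levels (owner: helper10)
-/

set_option autoImplicit false

namespace Cfsg.Agent.H10

open scoped BigOperators

variable {ι : Type*} {I : Finset ι} {ht : ι → ℕ}

theorem sq1 {x : ℤ} (h : x ^ 2 = 1) : x = 1 ∨ x = -1 := by
  have h1 : (x - 1) * (x + 1) = 0 := by linear_combination h
  rcases mul_eq_zero.mp h1 with h | h <;> omega

/-- an integral vector `e_p - e_q` -/
structure PQ (I : Finset ι) (f : ι → ℤ) (p q : ι) : Prop where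
  hp : p ∈ I
  hq : q ∈ I
  ne : p ≠ q
  fp : f p = 1
  fq : f q = -1
  other : ∀ ψ ∈ I, ψ ≠ p → ψ ≠ q → f ψ = 0

theorem exists_PQ {f d : ι → ℤ} (h2 : ∑ χ ∈ I, f χ ^ 2 = 2) (hd : ∀ χ ∈ I, 0 < d χ)
    (h0 : ∑ χ ∈ I, f χ * d χ = 0) : ∃ p q, PQ I f p q := by
  classical
  set P := I.filter (fun χ => f χ ≠ 0) with hP
  have hsub : P ⊆ I := Finset.filter_subset _ _
  have h3 : ∑ χ ∈ P, f χ ^ 2 = 2 := by
    rw [← h2]
    refine Finset.sum_subset hsub fun χ hχ hn => ?_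
    have : f χ = 0 := by
      by_contra h
      exact hn (Finset.mem_filter.mpr ⟨hχ, h⟩)
    rw [this]; norm_num
  have h4 : ∑ χ ∈ P, f χ * d χ = 0 := by
    rw [← h0]
    refine Finset.sum_subset hsub fun χ hχ hn => ?_
    have : f χ = 0 := by
      by_contra h
      exact hn (Finset.mem_filter.mpr ⟨hχ, h⟩)
    rw [this]; ring
  have h5 : ∀ χ ∈ P, f χ ^ 2 = 1 := by
    intro χ hχ
    have h6 : f χ ^ 2 ≤ 2 := by
      rw [← h3]
      exact Finset.single_le_sum (f := fun χ => f χ ^ 2) (fun i _ => sq_nonneg _) hχ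
    have h7 : f χ ≠ 0 := (Finset.mem_filter.mp hχ).2
    have h8 : f χ ≤ 1 := by nlinarith
    have h9 : -1 ≤ f χ := by nlinarith
    have h10 : f χ = 1 ∨ f χ = -1 := by omega
    rcases h10 with h | h <;> rw [h] <;> norm_num
  have hcard : P.card = 2 := by
    rw [Finset.sum_congr rfl h5] at h3
    simp only [Finset.sum_const, nsmul_eq_mul, mul_one] at h3
    exact_mod_cast h3
  obtain ⟨a, b, hab, hPab⟩ := Finset.card_eq_two.mp hcard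
  have ha : a ∈ P := by rw [hPab]; simp
  have hb : b ∈ P := by rw [hPab]; simp
  have hoth : ∀ ψ ∈ I, ψ ≠ a → ψ ≠ b → f ψ = 0 := by
    intro ψ hψ h1 h2
    by_contra h
    have : ψ ∈ P := Finset.mem_filter.mpr ⟨hψ, h⟩
    rw [hPab] at this
    simp only [Finset.mem_insert, Finset.mem_singleton] at this
    rcases this with h | h
    · exact h1 h
    · exact h2 h
  rw [hPab, Finset.sum_pair hab] at h4
  have hda := hd a (hsub ha)
  have hdb := hd b (hsub hb)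
  have ha1 : f a = 1 ∨ f a = -1 := sq1 (h5 a ha)
  have hb1 : f b = 1 ∨ f b = -1 := sq1 (h5 b hb)
  rcases ha1 with ha1 | ha1
  · rcases hb1 with hb1 | hb1
    · exfalso; rw [ha1, hb1] at h4; linarith
    · exact ⟨a, b, ⟨hsub ha, hsub hb, hab, ha1, hb1, hoth⟩⟩
  · rcases hb1 with hb1 | hb1
    · exact ⟨b, a, ⟨hsub hb, hsub ha, hab.symm, hb1, ha1, fun ψ hψ h1 h2 => hoth ψ hψ h2 h1⟩⟩
    · exfalso; rw [ha1, hb1] at h4; linarith

theorem PQ.sum_mul {f : ι → ℤ} {p q : ι} (h : PQ I f p q) (g : ι → ℤ) :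
    ∑ χ ∈ I, f χ * g χ = g p - g q := by
  classical
  have h1 : ∑ χ ∈ I, f χ * g χ = ∑ χ ∈ ({p, q} : Finset ι), f χ * g χ := by
    symm
    apply Finset.sum_subset
    · intro x hx
      simp only [Finset.mem_insert, Finset.mem_singleton] at hx
      rcases hx with rfl | rfl
      · exact h.hp
      · exact h.hq
    · intro x hx hn
      simp only [Finset.mem_insert, Finset.mem_singleton, not_or] at hn
      rw [h.other x hx hn.1 hn.2, zero_mul]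
  rw [h1, Finset.sum_pair h.ne, h.fp, h.fq]; ring

theorem PQ.eq {f g : ι → ℤ} {p q : ι} (h : PQ I f p q) (h0 : ∑ χ ∈ I, f χ * g χ = 0) :
    g p = g q := by
  rw [h.sum_mul] at h0; omega

theorem PQ.sep {f g : ι → ℤ} {p q p' q' : ι} (h : PQ I f p q) (h' : PQ I g p' q')
    (h0 : ∑ χ ∈ I, f χ * g χ = 0) : g p = 0 ∧ g q = 0 := by
  have h1 := h.eq h0
  by_cases hpp : p = p'
  · exfalso
    have h2 : g q = 1 := by rw [← h1, hpp, h'.fp]
    by_cases hqp : q = p'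
    · exact h.ne (hpp.trans hqp.symm)
    · by_cases hqq : q = q'
      · rw [hqq, h'.fq] at h2; omega
      · rw [h'.other q h.hq hqp hqq] at h2; omega
  · by_cases hpq : p = q'
    · exfalso
      have h2 : g q = -1 := by rw [← h1, hpq, h'.fq]
      by_cases hqp : q = p'
      · rw [hqp, h'.fp] at h2; omega
      · by_cases hqq : q = q'
        · exact h.ne (hpq.trans hqq.symm)
        · rw [h'.other q h.hq hqp hqq] at h2; omega
    · have h2 := h'.other p h.hp hpp hpq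
      exact ⟨h2, by rw [← h1]; exact h2⟩

/-- the columns of the powers of `x` -/
structure LD (I : Finset ι) (ht : ι → ℕ) (m : ℕ) (A : ℕ → ℕ → ι → ℤ) : Prop where
  n0 : ∀ s < m, ∑ χ ∈ I, A s 0 χ ^ 2 = 4 * 2 ^ s
  n1 : ∀ s < m, ∀ l, 0 < l → 2 * l < 2 ^ (m - s) → ∑ χ ∈ I, A s l χ ^ 2 = 2 * 2 ^ s
  orth : ∀ j j', 2 * j < 2 ^ m → 2 * j' < 2 ^ m → j ≠ j' → ∑ χ ∈ I, A 0 j χ * A 0 j' χ = 0
  sym : ∀ s < m, ∀ χ ∈ I, ∀ j, 0 < j → j < 2 ^ (m - s) →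
    (A s (2 ^ (m - s) - j) χ = A s j χ ∨ A s (2 ^ (m - s) - j) χ = - A s j χ)
  mid : ∀ s < m, ∀ χ ∈ I, A s (2 ^ (m - s) / 2) χ = 0
  odd : ∀ s < m, ∀ χ ∈ I, ht χ = 0 → Odd (A s 0 χ)
  even : ∀ s < m, ∀ χ ∈ I, ht χ ≠ 0 → Even (A s 0 χ)
  deg : ∃ d : ι → ℤ, (∀ χ ∈ I, 0 < d χ) ∧ ∀ j, 2 * j < 2 ^ m → ∑ χ ∈ I, A 0 j χ * d χ = 0
  cross : 1 < m → ∀ j, 2 * j < 2 ^ m → ∑ χ ∈ I, A 0 j χ * A 1 0 χ = 0
  par : 1 < m → ∀ χ ∈ I, ∀ l, l < 2 ^ (m - 1) →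
    (2 : ℤ) ∣ A 1 l χ - (A 0 l χ + A 0 (l + 2 ^ (m - 1)) χ)
  div : ∀ s < m, ∀ χ ∈ I, (∀ s' < s, ∀ l < 2 ^ (m - s'), A s' l χ = 0) →
    ∀ l < 2 ^ (m - s), (2 : ℤ) ^ s ∣ A s l χ
  ex : ∃ χ ∈ I, ht χ = 0
  hm : 0 < m

namespace LD

variable {m : ℕ} {A : ℕ → ℕ → ι → ℤ}

/-- the characters of height zero -/
theorem h0 (L : LD I ht m A) : (I.filter (fun χ => ht χ = 0)).card = 4 ∧
    (∀ χ ∈ I, ht χ = 0 → A 0 0 χ ^ 2 = 1) ∧ (∀ χ ∈ I, ht χ ≠ 0 → A 0 0 χ = 0) := by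
  classical
  have hn := L.n0 0 L.hm
  rw [pow_zero, mul_one] at hn
  set I0 := I.filter (fun χ => ht χ = 0) with hI0
  set I1 := I.filter (fun χ => ht χ ≠ 0) with hI1
  have hsplit : ∑ χ ∈ I0, A 0 0 χ ^ 2 + ∑ χ ∈ I1, A 0 0 χ ^ 2 = 4 := by
    rw [← hn, hI0, hI1, Finset.sum_filter_add_sum_filter_not]
  have hc0 : ∃ c : ℤ, 0 ≤ c ∧ ∑ χ ∈ I0, A 0 0 χ ^ 2 = I0.card + 8 * c := by
    have h1 : ∀ χ ∈ I0, ∃ c : ℤ, 0 ≤ c ∧ A 0 0 χ ^ 2 = 1 + 8 * c := by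
      intro χ hχ
      have h2 := Finset.mem_filter.mp hχ
      obtain ⟨c, hc⟩ := odd_sq_mod (L.odd 0 L.hm χ h2.1 h2.2)
      refine ⟨c, ?_, hc⟩
      have := one_le_sq_of_odd (L.odd 0 L.hm χ h2.1 h2.2)
      omega
    choose! c hc0 hc using h1
    refine ⟨∑ χ ∈ I0, c χ, Finset.sum_nonneg hc0, ?_⟩
    rw [Finset.sum_congr rfl hc, Finset.sum_add_distrib, ← Finset.mul_sum]
    simp
  have hc1 : ∃ c : ℤ, 0 ≤ c ∧ ∑ χ ∈ I1, A 0 0 χ ^ 2 = 4 * c := by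
    have h1 : ∀ χ ∈ I1, ∃ c : ℤ, 0 ≤ c ∧ A 0 0 χ ^ 2 = 4 * c := by
      intro χ hχ
      have h2 := Finset.mem_filter.mp hχ
      obtain ⟨c, hc⟩ := L.even 0 L.hm χ h2.1 h2.2
      exact ⟨c ^ 2, sq_nonneg _, by rw [hc]; ring⟩
    choose! c hc0 hc using h1
    exact ⟨∑ χ ∈ I1, c χ, Finset.sum_nonneg hc0, by rw [Finset.sum_congr rfl hc, ← Finset.mul_sum]⟩
  have hpos : 0 < I0.card := by
    obtain ⟨χ, hχ, h0⟩ := L.ex
    exact Finset.card_pos.mpr ⟨χ, Finset.mem_filter.mpr ⟨hχ, h0⟩⟩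
  obtain ⟨c, hc, hc'⟩ := hc0
  obtain ⟨e, he, he'⟩ := hc1
  have h4 : I0.card = 4 := by omega
  refine ⟨h4, ?_, ?_⟩
  · have h5 : ∑ χ ∈ I0, (A 0 0 χ ^ 2 - 1) = 0 := by
      rw [Finset.sum_sub_distrib]
      simp only [Finset.sum_const, nsmul_eq_mul, mul_one]
      omega
    have h6 := (Finset.sum_eq_zero_iff_of_nonneg (fun χ hχ => by
      have h2 := Finset.mem_filter.mp hχ
      have := one_le_sq_of_odd (L.odd 0 L.hm χ h2.1 h2.2)
      omega)).mp h5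
    intro χ hχ h0
    have := h6 χ (Finset.mem_filter.mpr ⟨hχ, h0⟩)
    omega
  · have h5 : ∑ χ ∈ I1, A 0 0 χ ^ 2 = 0 := by omega
    have h6 := (Finset.sum_eq_zero_iff_of_nonneg (fun χ _ => sq_nonneg _)).mp h5
    intro χ hχ h0
    have := h6 χ (Finset.mem_filter.mpr ⟨hχ, h0⟩)
    exact pow_eq_zero_iff (two_ne_zero) |>.mp this

theorem exists_pairs (L : LD I ht m A) : ∃ p q : ℕ → ι, ∀ j, 0 < j → 2 * j < 2 ^ m →
    PQ I (A 0 j) (p j) (q j) := by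
  obtain ⟨d, hd, hd2⟩ := L.deg
  have h1 : ∀ j : ℕ, ∃ pq : ι × ι, 0 < j → 2 * j < 2 ^ m → PQ I (A 0 j) pq.1 pq.2 := by
    intro j
    by_cases hj : 0 < j ∧ 2 * j < 2 ^ m
    · have h2 := L.n1 0 L.hm j hj.1 (by rw [Nat.sub_zero]; exact hj.2)
      rw [pow_zero, mul_one] at h2
      obtain ⟨p, q, h3⟩ := exists_PQ h2 hd (hd2 j hj.2)
      exact ⟨(p, q), fun _ _ => h3⟩
    · obtain ⟨χ, -, -⟩ := L.ex
      exact ⟨(χ, χ), fun h2 h3 => absurd ⟨h2, h3⟩ hj⟩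
  choose pq hpq using h1
  exact ⟨fun j => (pq j).1, fun j => (pq j).2, hpq⟩

/-- at level zero all coefficients are determined by those with `2 j < h` -/
theorem zero_of {s : ℕ} (L : LD I ht m A) (hs : s < m) {χ : ι} (hχ : χ ∈ I)
    (h : ∀ j, 2 * j < 2 ^ (m - s) → A s j χ = 0) : ∀ l < 2 ^ (m - s), A s l χ = 0 := by
  intro l hl
  rcases Nat.lt_trichotomy (2 * l) (2 ^ (m - s)) with h1 | h1 | h1
  · exact h l h1
  · have h2 := L.mid s hs χ hχ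
    have h3 : 2 ^ (m - s) / 2 = l := by omega
    rwa [h3] at h2
  · have h2 := h (2 ^ (m - s) - l) (by omega)
    rcases L.sym s hs χ hχ l (by omega) hl with h3 | h3
    · rw [h2] at h3; exact h3.symm
    · rw [h2] at h3; omega

/-- the character `τ` -/
theorem tau (L : LD I ht m A) (h1m : 1 < m) {p q : ℕ → ι}
    (hpq : ∀ j, 0 < j → 2 * j < 2 ^ m → PQ I (A 0 j) (p j) (q j)) :
    ∃ τ ∈ I, ht τ ≠ 0 ∧ A 1 0 τ ^ 2 = 4 ∧ (∀ l < 2 ^ m, A 0 l τ = 0) ∧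
      (∀ χ ∈ I, ht χ ≠ 0 → χ ≠ τ → A 1 0 χ = 0) := by
  classical
  have hn := L.n0 1 h1m
  rw [pow_one] at hn
  set I0 := I.filter (fun χ => ht χ = 0) with hI0
  set I1 := I.filter (fun χ => ht χ ≠ 0) with hI1
  have hsplit : ∑ χ ∈ I0, A 1 0 χ ^ 2 + ∑ χ ∈ I1, A 1 0 χ ^ 2 = 8 := by
    rw [hI0, hI1, Finset.sum_filter_add_sum_filter_not, hn]; norm_num
  have hc0 : ∃ c : ℤ, 0 ≤ c ∧ ∑ χ ∈ I0, A 1 0 χ ^ 2 = I0.card + 8 * c := by
    have h1 : ∀ χ ∈ I0, ∃ c : ℤ, 0 ≤ c ∧ A 1 0 χ ^ 2 = 1 + 8 * c := by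
      intro χ hχ
      have h2 := Finset.mem_filter.mp hχ
      obtain ⟨c, hc⟩ := odd_sq_mod (L.odd 1 h1m χ h2.1 h2.2)
      refine ⟨c, ?_, hc⟩
      have := one_le_sq_of_odd (L.odd 1 h1m χ h2.1 h2.2)
      omega
    choose! c hc0 hc using h1
    refine ⟨∑ χ ∈ I0, c χ, Finset.sum_nonneg hc0, ?_⟩
    rw [Finset.sum_congr rfl hc, Finset.sum_add_distrib, ← Finset.mul_sum]
    simp
  have h4 : I0.card = 4 := L.h0.1
  obtain ⟨c, hc, hc'⟩ := hc0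
  have hex : ∃ c : ι → ℤ, ∀ χ ∈ I1, A 1 0 χ = 2 * c χ := by
    have h1 : ∀ χ ∈ I1, ∃ c : ℤ, A 1 0 χ = 2 * c := by
      intro χ hχ
      have h2 := Finset.mem_filter.mp hχ
      obtain ⟨c, hc⟩ := L.even 1 h1m χ h2.1 h2.2
      exact ⟨c, by omega⟩
    choose! c hc using h1
    exact ⟨c, hc⟩
  obtain ⟨e, he⟩ := hex
  have h5 : ∑ χ ∈ I1, A 1 0 χ ^ 2 = 4 * ∑ χ ∈ I1, e χ ^ 2 := by
    rw [Finset.mul_sum]
    exact Finset.sum_congr rfl fun χ hχ => by rw [he χ hχ]; ring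
  have h6 : ∑ χ ∈ I1, e χ ^ 2 = 1 := by
    have : 0 ≤ ∑ χ ∈ I1, e χ ^ 2 := Finset.sum_nonneg fun _ _ => sq_nonneg _
    omega
  obtain ⟨τ, hτ, hτ0⟩ : ∃ τ ∈ I1, e τ ≠ 0 := by
    by_contra hcon
    push Not at hcon
    rw [Finset.sum_eq_zero fun χ hχ => by rw [hcon χ hχ]; norm_num] at h6
    omega
  have h7 : ∀ χ ∈ I1, χ ≠ τ → e χ = 0 := by
    intro χ hχ hne
    have h8 : e τ ^ 2 + e χ ^ 2 ≤ ∑ χ ∈ I1, e χ ^ 2 := by
      have h9 : ∑ ψ ∈ ({τ, χ} : Finset ι), e ψ ^ 2 ≤ ∑ χ ∈ I1, e χ ^ 2 := by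
        apply Finset.sum_le_sum_of_subset_of_nonneg
        · intro ψ hψ
          simp only [Finset.mem_insert, Finset.mem_singleton] at hψ
          rcases hψ with rfl | rfl
          · exact hτ
          · exact hχ
        · intro _ _ _; exact sq_nonneg _
      rwa [Finset.sum_pair hne.symm] at h9
    have h10 : 0 < e τ ^ 2 := by positivity
    have h11 : e χ ^ 2 = 0 := by
      have := sq_nonneg (e χ)
      omega
    exact pow_eq_zero_iff two_ne_zero |>.mp h11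
  have hτI := Finset.mem_filter.mp hτ
  have hτ2 : e τ ^ 2 = 1 := by
    rw [← h6]
    symm
    apply Finset.sum_eq_single τ
    · intro χ hχ hne; rw [h7 χ hχ hne]; norm_num
    · intro h; exact absurd hτ h
  have huniq : ∀ χ ∈ I, ht χ ≠ 0 → χ ≠ τ → A 1 0 χ = 0 := by
    intro χ hχ h0 hne
    have h8 : χ ∈ I1 := Finset.mem_filter.mpr ⟨hχ, h0⟩
    rw [he χ h8, h7 χ h8 hne]; norm_num
  refine ⟨τ, hτI.1, hτI.2, by rw [he τ hτ]; linear_combination 4 * hτ2, ?_, huniq⟩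
  have h0' := L.zero_of (s := 0) (by omega) hτI.1
  rw [Nat.sub_zero] at h0'
  apply h0'
  intro j hj
  rcases Nat.eq_zero_or_pos j with rfl | hj0
  · exact L.h0.2.2 τ hτI.1 hτI.2
  · have hP := hpq j hj0 hj
    have heq := hP.eq (L.cross h1m j hj)
    have hτne : A 1 0 τ ≠ 0 := by
      rw [he τ hτ]
      intro h
      apply hτ0
      omega
    have hodd : ∀ χ ∈ I, A 1 0 χ = A 1 0 τ → χ = τ := by
      intro χ hχ h1
      by_contra hne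
      by_cases h0 : ht χ = 0
      · have h2 := L.odd 1 h1m χ hχ h0
        rw [h1, he τ hτ] at h2
        rw [Int.odd_iff] at h2
        omega
      · exact hτne (by rw [← h1, huniq χ hχ h0 hne])
    have hpτ : τ ≠ p j := by
      intro h
      apply hP.ne
      rw [← h]
      exact (hodd (q j) hP.hq (by rw [← heq, ← h])).symm
    have hqτ : τ ≠ q j := by
      intro h
      apply hP.ne
      rw [← h]
      exact hodd (p j) hP.hp (by rw [heq, ← h])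
    exact hP.other τ hτI.1 hpτ hqτ

end LD

end Cfsg.Agent.H10
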