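import Cfsg.Agent.H10.LevCol
import Cfsg.Agent.H10.DihEx

/-!
# The level structure of a block (owner: helper10)
-/

set_option autoImplicit false
set_option linter.style.haveILetI false
set_option linter.unusedSectionVars false

namespace Cfsg.Agent.H10

open scoped ComplexConjugate BigOperators
open Cfsg Cfsg.Agent.CharBase Cfsg.Agent.Blk Cfsg.Agent.BlkF Cfsg.Agent.BlkInd Cfsg.Agent.BlkC
  Cfsg.Agent.Star Cfsg.Agent.H4 Cfsg.Agent.H10.Col MonoidAlgebra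

universe u

section cyc

variable {p : ℕ} [hp : Fact p.Prime] {M : Ideal AlgInt} [hMp : M.IsPrime]

theorem cyc_int (hM : IsPModular p M) {k : ℕ} {z : ℂ} (hz : z ∈ cycRing (p ^ k)) :
    MemLocalRing M z ∧ MemLocalRing M (conj z) ∧
      ∃ n : ℤ, MemLocalIdeal M (z - n) ∧ MemLocalIdeal M (conj z - n) := by
  unfold cycRing at hz
  induction hz using Subring.closure_induction with
  | mem z hz =>
    have hz1 : z ^ p ^ k = 1 := hz
    have hz2 : (conj z) ^ p ^ k = 1 := by rw [← map_pow, hz1, map_one]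
    have hint : ∀ w : ℂ, w ^ p ^ k = 1 → MemLocalRing M w := fun w hw =>
      mlr_of_isIntegral (IsIntegral.of_pow (pow_pos hp.out.pos k) (by rw [hw]; exact isIntegral_one))
    refine ⟨hint _ hz1, hint _ hz2, 1, ?_, ?_⟩
    · rw [Int.cast_one]; exact mli_sub_one_of_pow_eq_one hM hz1
    · rw [Int.cast_one]; exact mli_sub_one_of_pow_eq_one hM hz2
  | zero => exact ⟨mlr_zero, by rw [map_zero]; exact mlr_zero, 0, by simp [mli_zero], by simp [mli_zero]⟩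
  | one =>
    exact ⟨mlr_one, by rw [map_one]; exact mlr_one, 1, by simp [mli_zero], by simp [mli_zero]⟩
  | add z w _ _ ihz ihw =>
    obtain ⟨a1, a2, n, a3, a4⟩ := ihz
    obtain ⟨b1, b2, n', b3, b4⟩ := ihw
    refine ⟨mlr_add a1 b1, by rw [map_add]; exact mlr_add a2 b2, n + n', ?_, ?_⟩
    · have := mli_add a3 b3
      have e : z + w - ((n + n' : ℤ) : ℂ) = z - n + (w - n') := by push_cast; ring
      rw [e]; exact this
    · have := mli_add a4 b4
      have e : conj (z + w) - ((n + n' : ℤ) : ℂ) = conj z - n + (conj w - n') := by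
        rw [map_add]; push_cast; ring
      rw [e]; exact this
  | neg z _ ihz =>
    obtain ⟨a1, a2, n, a3, a4⟩ := ihz
    refine ⟨mlr_neg a1, by rw [map_neg]; exact mlr_neg a2, -n, ?_, ?_⟩
    · have := mli_neg a3
      have e : -z - ((-n : ℤ) : ℂ) = -(z - n) := by push_cast; ring
      rw [e]; exact this
    · have := mli_neg a4
      have e : conj (-z) - ((-n : ℤ) : ℂ) = -(conj z - n) := by rw [map_neg]; push_cast; ring
      rw [e]; exact this
  | mul z w _ _ ihz ihw =>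
    obtain ⟨a1, a2, n, a3, a4⟩ := ihz
    obtain ⟨b1, b2, n', b3, b4⟩ := ihw
    refine ⟨mlr_mul a1 b1, by rw [map_mul]; exact mlr_mul a2 b2, n * n', ?_, ?_⟩
    · have e : z * w - ((n * n' : ℤ) : ℂ) = z * (w - n') + n' * (z - n) := by push_cast; ring
      rw [e]; exact mli_add (mli_mul_left a1 b3) (mli_mul_left (mlr_intCast _) a3)
    · have e : conj (z * w) - ((n * n' : ℤ) : ℂ) =
          conj z * (conj w - n') + n' * (conj z - n) := by rw [map_mul]; push_cast; ring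
      rw [e]; exact mli_add (mli_mul_left a2 b4) (mli_mul_left (mlr_intCast _) a4)

theorem mli_conj_iff (hM : IsPModular p M) {k : ℕ} {z : ℂ} (hz : z ∈ cycRing (p ^ k)) :
    MemLocalIdeal M (conj z) ↔ MemLocalIdeal M z := by
  obtain ⟨-, -, n, h1, h2⟩ := cyc_int hM hz
  constructor
  · intro h
    have h3 := mli_sub h h2
    rw [sub_sub_cancel] at h3
    have := mli_add h1 h3
    rwa [sub_add_cancel] at this
  · intro h
    have h3 := mli_sub h h1
    rw [sub_sub_cancel] at h3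
    have := mli_add h2 h3
    rwa [sub_add_cancel] at this

end cyc

namespace MC

variable {G : Type u} [Group G] [Fintype G] {M : Ideal AlgInt} [hMp : M.IsPrime]
  {B : Set (IrrCharacter G)} {D : Subgroup G} {E : MonoidAlgebra (kM M) G} {x y : G} {m t : ℕ}
  [∀ v : G, Fintype (Subgroup.centralizer (Subgroup.zpowers v : Set G))]
  {es : ∀ s : ℕ, Set (IrrCharacter (Subgroup.centralizer (Subgroup.zpowers (x ^ 2 ^ s) : Set G)))}
  {φs : ∀ s : ℕ, Subgroup.centralizer (Subgroup.zpowers (x ^ 2 ^ s) : Set G) → ℂ}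
  {ds : ∀ s : ℕ, IrrCharacter (Subgroup.centralizer (Subgroup.zpowers (x ^ 2 ^ s) : Set G)) → ℕ}

/-- the character functions of a source -/
theorem exists_F (hM : IsPModular 2 M) (hB : IsPBlock M B)
    (hD : haveI := charP_kM hM; IsDef 2 ⊤ (eB M B) D)
    (he : haveI := charP_kM hM; MMax 2 D E)
    (hb : haveI := charP_kM hM; MPairOf 2 (eB M B) D E)
    (H : MC D x y (2 ^ m) t) (L : LS M B D E x m es φs ds) {ζ : ℂ}
    (hζ : IsPrimitiveRoot ζ (2 * 2 ^ m)) {χ₀ : IrrCharacter G} (hχ₀ : χ₀ ∈ B)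
    (h00 : blockHeight 2 B (χ₀ : G → ℂ) = 0) :
    ∃ (F : IrrCharacter G → ℕ → ℂ) (ms : ℕ → ℤ),
      (∀ χ, Cyc.Pd (F χ) ζ (2 ^ m) 1) ∧
      (∀ s < m, ∀ χ : IrrCharacter G, ∀ i, Odd i → F χ (2 ^ s * i) =
        (ms s : ℂ) * Col.D ((x ^ 2 ^ s) ^ i) (es s) (ds s) (χ : G → ℂ)) ∧
      (∀ s < m, Odd (ms s)) := by
  classical
  haveI := charP_kM hM
  obtain ⟨i, hi, hEi, hbr, hti⟩ := exists_src' hM hB hD hb hχ₀ h00
  obtain ⟨X, hX⟩ := Star.exists_lift hi.fixed hi.idem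
  have hmult : ∀ s, ∃ k : ℤ, s < m → ∀ v' : G,
      Subgroup.zpowers v' = Subgroup.zpowers (x ^ 2 ^ s) → ∀ χ : IrrCharacter G,
      Tc (χ : G → ℂ) (MonoidAlgebra.single v' 1 * X) =
        (k : ℂ) * Col.D v' (es s) (ds s) (χ : G → ℂ) := by
    intro s
    by_cases hs : s < m
    · obtain ⟨k, hk⟩ := Src.exists_mult hM he.1 hi hEi hbr hX (D.pow_mem H.hx (2 ^ s)) rfl
        (L.ind s hs).1 (L.mle s hs) (L.r1 s hs)
      exact ⟨k, fun _ => hk⟩
    · exact ⟨0, fun h => absurd h hs⟩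
  choose ms hms using hmult
  have hroots : ∀ χ : IrrCharacter G, ∃ s : Multiset ℂ, (∀ ω ∈ s, ω ^ (2 * 2 ^ m) = 1) ∧
      ∀ k : ℕ, Tc (χ : G → ℂ) (MonoidAlgebra.single (x ^ k) 1 * X) = (s.map (· ^ k)).sum := by
    intro χ
    obtain ⟨s, -, hs2, hs3⟩ := Cfsg.Agent.Char.exists_roots_pow
      (isCharacter_Tc (irr_isCharacter χ) hX.fixed hX.idem) (⟨x, H.hx⟩ : D)
    refine ⟨s, ?_, fun k => ?_⟩
    · intro ω hω
      have h1 : orderOf (⟨x, H.hx⟩ : D) = 2 * 2 ^ m := by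
        rw [← H.ordx, ← Subgroup.orderOf_coe]
      rw [← h1]; exact hs2 ω hω
    · rw [← hs3 k]; rfl
  have hval : ∀ s < m, ∀ χ : IrrCharacter G, ∀ i, Odd i →
      Tc (χ : G → ℂ) (MonoidAlgebra.single (x ^ (2 ^ s * i)) 1 * X) =
        (ms s : ℂ) * Col.D ((x ^ 2 ^ s) ^ i) (es s) (ds s) (χ : G → ℂ) := by
    intro s hs χ i hi
    rw [← pow_pow_eq]
    exact hms s hs _ (H.zp_lev hs hi) χ
  refine ⟨fun χ k => Tc (χ : G → ℂ) (MonoidAlgebra.single (x ^ k) 1 * X), ms, ?_, hval, ?_⟩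
  · intro χ
    obtain ⟨s, hs1, hs2⟩ := hroots χ
    obtain ⟨c, hc1, hc2⟩ := Cyc.Pd.of_multiset (by positivity) hζ s hs1
    exact ⟨c, hc1, fun k => (hs2 k).trans (hc2 k)⟩
  · intro s hs
    by_contra hev
    rw [Int.not_odd_iff_even, even_iff_two_dvd] at hev
    obtain ⟨S, hS1, hS2⟩ := hroots χ₀
    have h1 := hval s hs χ₀ 1 odd_one
    rw [mul_one, pow_one] at h1
    have h2 : MemLocalIdeal M (Tc (χ₀ : G → ℂ) (MonoidAlgebra.single (x ^ 2 ^ s) 1 * X)) := by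
      rw [h1, mul_comm]
      exact mli_mul_left (mlr_of_isIntegral (D_integral (cent_eq rfl) χ₀))
        ((mli_intCast_iff hM _).mpr hev)
    have h3 : MemLocalIdeal M (Tc (χ₀ : G → ℂ) (MonoidAlgebra.single (x ^ 2 ^ s) 1 * X) -
        Tc (χ₀ : G → ℂ) (MonoidAlgebra.single (x ^ 0) 1 * X)) := by
      rw [hS2, hS2]
      have key : ∀ S : Multiset ℂ, (∀ ω ∈ S, ω ^ (2 * 2 ^ m) = 1) →
          MemLocalIdeal M ((S.map (· ^ 2 ^ s)).sum - (S.map (· ^ 0)).sum) := by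
        intro S
        induction S using Multiset.induction_on with
        | empty => intro _; simp [mli_zero]
        | cons a S ih =>
          intro h
          rw [Multiset.map_cons, Multiset.map_cons, Multiset.sum_cons, Multiset.sum_cons]
          have e : a ^ 2 ^ s + (S.map (· ^ 2 ^ s)).sum - (a ^ 0 + (S.map (· ^ 0)).sum) =
              (a ^ 2 ^ s - 1) + ((S.map (· ^ 2 ^ s)).sum - (S.map (· ^ 0)).sum) := by
            rw [pow_zero]; ring
          rw [e]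
          refine mli_add ?_ (ih fun ω hω => h ω (Multiset.mem_cons_of_mem hω))
          refine mli_sub_one_of_pow_eq_one hM (n := m + 1) ?_
          have h4 := h a (Multiset.mem_cons_self a S)
          have : 2 ^ (m + 1) = 2 * 2 ^ m := by rw [pow_succ]; ring
          rw [this, ← pow_mul, mul_comm, pow_mul, h4, one_pow]
      exact key S hS1
    have h4 : MemLocalIdeal M (Tc (χ₀ : G → ℂ) X) := by
      have h5 := mli_sub h2 h3
      rw [sub_sub_cancel, pow_zero] at h5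
      rwa [← MonoidAlgebra.one_def, one_mul] at h5
    apply hti
    have h5 := Src.rd_Tc_irr χ₀ hX.lr
    rw [hX.red] at h5
    rw [← h5, rd_eq_zero_iff]
    · exact h4
    · exact (rd_Tc (fun g => rv_irr χ₀ g) hX.lr).1

/-- **the level structure** -/
theorem exists_LD (hM : IsPModular 2 M) (hB : IsPBlock M B)
    (hD : haveI := charP_kM hM; IsDef 2 ⊤ (eB M B) D)
    (he : haveI := charP_kM hM; MMax 2 D E)
    (hb : haveI := charP_kM hM; MPairOf 2 (eB M B) D E)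
    (H : MC D x y (2 ^ m) t) (L : LS M B D E x m es φs ds) {ζ : ℂ}
    (hζ : IsPrimitiveRoot ζ (2 * 2 ^ m)) :
    ∃ A : ℕ → ℕ → IrrCharacter G → ℤ,
      LD (Bfin B) (fun χ => blockHeight 2 B (χ : G → ℂ)) m A ∧
      ∀ s < m, ∀ χ ∈ B, ∀ i, Odd i → Col.D ((x ^ 2 ^ s) ^ i) (es s) (ds s) (χ : G → ℂ) =
        ∑ l ∈ Finset.range (2 ^ (m - s)), (A s l χ : ℂ) * (ζ ^ 2 ^ s) ^ (i * l) := by
  classical
  haveI := charP_kM hM
  have hm := H.m_pos
  obtain ⟨χ₀, hχ₀, h00⟩ := exists_height_zero hM hB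
  have hA : ∀ s, ∃ A : ℕ → IrrCharacter G → ℤ, s < m →
      ((∀ χ ∈ B, ∀ i, Odd i → Col.D ((x ^ 2 ^ s) ^ i) (es s) (ds s) (χ : G → ℂ) =
        ∑ l ∈ Finset.range (2 ^ (m - s)), (A l χ : ℂ) * (ζ ^ 2 ^ s) ^ (i * l)) ∧
      (∀ χ ∈ B, ∀ j : ℕ, j < 2 ^ (m - s) → Cyc.cf (ζ ^ 2 ^ s) (2 ^ (m - s))
        (fun i => Col.D ((x ^ 2 ^ s) ^ i) (es s) (ds s) (χ : G → ℂ)) (j : ℤ) = (A j χ : ℂ)) ∧
      (∑ χ ∈ Bfin B, A 0 χ ^ 2 = 4 * 2 ^ s) ∧
      (∀ l, 0 < l → 2 * l < 2 ^ (m - s) → ∑ χ ∈ Bfin B, A l χ ^ 2 = 2 * 2 ^ s) ∧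
      (∀ j j', 2 * j < 2 ^ (m - s) → 2 * j' < 2 ^ (m - s) → j ≠ j' →
        ∑ χ ∈ Bfin B, A j χ * A j' χ = 0) ∧
      (∀ χ ∈ Bfin B, ∀ j, 0 < j → j < 2 ^ (m - s) →
        (A (2 ^ (m - s) - j) χ = A j χ ∨ A (2 ^ (m - s) - j) χ = - A j χ)) ∧
      (∀ χ ∈ Bfin B, A (2 ^ (m - s) / 2) χ = 0) ∧
      (∀ χ ∈ Bfin B, (Even (A 0 χ) ↔
        MemLocalIdeal M (Col.D (x ^ 2 ^ s) (es s) (ds s) (χ : G → ℂ))))) := by
    intro s
    by_cases hs : s < m
    · obtain ⟨A, hA⟩ := exists_levA hM hB he H L hζ hs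
      exact ⟨A, fun _ => hA⟩
    · exact ⟨0, fun h => absurd h hs⟩
  choose A hA using hA
  obtain ⟨F, ms, hPd, hval, hodd⟩ := exists_F hM hB hD he hb H L hζ hχ₀ h00
  have hdB := H.blockDefect_B hM hB hD
  have hcyc : ∀ s < m, ∀ χ ∈ B, Col.D (x ^ 2 ^ s) (es s) (ds s) (χ : G → ℂ) ∈
      cycRing (2 ^ (m + 1)) := by
    intro s hs χ hχ
    have h1 := (hA s hs).1 χ hχ 1 odd_one
    simp only [pow_one, one_mul] at h1
    rw [h1]
    refine Subring.sum_mem _ fun l _ => Subring.mul_mem _ (intCast_mem _ _)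
      (Subring.pow_mem _ (Subring.pow_mem _ (Subring.subset_closure ?_) _) _)
    change ζ ^ 2 ^ (m + 1) = 1
    rw [pow_succ, mul_comm, hζ.pow_eq_one]
  -- coefficients from `F`
  have hFA : ∀ s < m, ∀ χ ∈ B, ∀ k, Odd k → F χ (2 ^ s * k) = (ms s : ℂ) *
      ∑ l ∈ Finset.range (2 ^ (m - s)), (A s l χ : ℂ) * (ζ ^ 2 ^ s) ^ (k * l) := by
    intro s hs χ hχ k hk
    rw [hval s hs χ k hk, (hA s hs).1 χ hχ k hk]
  have hζs : ∀ s < m, IsPrimitiveRoot (ζ ^ 2 ^ s) (2 * 2 ^ (m - s)) := fun s hs =>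
    (levS hM hB he H L hζ hs).1
  refine ⟨A, ?_, fun s hs => (hA s hs).1⟩
  refine ⟨fun s hs => (hA s hs).2.2.1, fun s hs => (hA s hs).2.2.2.1, ?_,
    fun s hs => (hA s hs).2.2.2.2.2.1, fun s hs => (hA s hs).2.2.2.2.2.2.1, ?_, ?_, ?_, ?_, ?_, ?_,
    ⟨χ₀, mem_Bfin.mpr hχ₀, h00⟩, hm⟩
  · intro j j' hj hj' hne
    have := (hA 0 hm).2.2.2.2.1 j j'
    rw [Nat.sub_zero] at this
    exact this hj hj' hne
  · -- odd
    intro s hs χ hχ h0
    have h1 := (hA s hs).2.2.2.2.2.2.2 χ hχ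
    rw [← Int.not_even_iff_odd, h1]
    exact not_mli_D hM (L.pel s hs) (cent_eq rfl) (L.ind s hs) (L.rk s hs) (L.r1 s hs)
      (mem_Bfin.mp hχ) h0
  · -- even
    intro s hs χ hχ h0
    rw [(hA s hs).2.2.2.2.2.2.2 χ hχ]
    have hχB := mem_Bfin.mp hχ
    have hdf := L.df s hs
    have hlt : blockDefect 2 (es s) < blockDefect 2 B := by
      by_contra hcon
      push Not at hcon
      have h1 := Nat.pow_le_pow_right (n := 2) (by norm_num) hcon
      rw [hdf, hdB] at h1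
      have : 0 < 2 ^ m := by positivity
      omega
    obtain ⟨w, hw1, hw2⟩ := exists_val_nonmajor hM hB (L.pel s hs) (cent_eq rfl) (L.ind s hs) hlt
      hχB hχ₀
    have h1 := sc_eq_D hM (L.ind s hs).1 (L.rk s hs) (L.r1 s hs) (x ^ 2 ^ s) (χ : G → ℂ)
      (χ₀ : G → ℂ)
    have hpow : ((2 : ℕ) : ℂ) ^ blockDefect 2 B = 2 * ((2 : ℕ) : ℂ) ^ blockDefect 2 (es s) := by
      have : 2 ^ blockDefect 2 B = 2 * 2 ^ blockDefect 2 (es s) := by rw [hdf, hdB]; ring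
      exact_mod_cast this
    rw [hpow, mul_assoc, h1] at hw2
    obtain ⟨n, hn⟩ := Nat.exists_eq_succ_of_ne_zero h0
    have hn' : blockHeight 2 B (χ : G → ℂ) = n + 1 := hn
    rw [hn', pow_succ] at hw2
    have h2 : Col.D (x ^ 2 ^ s) (es s) (ds s) (χ : G → ℂ) *
        conj (Col.D (x ^ 2 ^ s) (es s) (ds s) (χ₀ : G → ℂ)) = ((2 : ℕ) : ℂ) ^ n * w := by
      have h3 : (2 : ℂ) ≠ 0 := two_ne_zero
      apply mul_left_cancel₀ h3
      rw [hw2]; push_cast; ring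
    have h3 : MemLocalIdeal M (Col.D (x ^ 2 ^ s) (es s) (ds s) (χ : G → ℂ) *
        conj (Col.D (x ^ 2 ^ s) (es s) (ds s) (χ₀ : G → ℂ))) := by
      rw [h2]; exact mli_mul_left (mlr_pow (mlr_natCast _) _) hw1
    have h4 := cyc_int hM (hcyc s hs χ hχB)
    have h5 := cyc_int hM (hcyc s hs χ₀ hχ₀)
    rcases mli_or_of_mul h4.1 h5.2.1 h3 with h6 | h6
    · exact h6
    · rw [mli_conj_iff hM (hcyc s hs χ₀ hχ₀)] at h6
      exact absurd h6 (not_mli_D hM (L.pel s hs) (cent_eq rfl) (L.ind s hs) (L.rk s hs)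
        (L.r1 s hs) hχ₀ h00)
  · -- degrees
    have hdeg : ∀ χ : IrrCharacter G, ∃ d : ℕ, 0 < d ∧ (χ : G → ℂ) 1 = d := fun χ =>
      ⟨charDegree (χ : G → ℂ), charDegree_pos χ, (charDegree_spec χ).symm ▸ rfl⟩
    choose d hd0 hd using hdeg
    refine ⟨fun χ => (d χ : ℤ), fun χ _ => Int.natCast_pos.mpr (hd0 χ), ?_⟩
    intro j hj
    have h1 : ∀ i, Odd i → ∑ χ ∈ Bfin B, (χ : G → ℂ) 1 *
        conj (Col.D ((x ^ 2 ^ 0) ^ i) (es 0) (ds 0) (χ : G → ℂ)) = 0 := by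
      intro i hi
      have hz := H.zp_lev hm hi
      refine D_orth_reg hM hB (x := (x ^ 2 ^ 0) ^ i) (by rw [hz]) ?_ ?_ (L.ind 0 hm)
        (L.rk 0 hm) (L.r1 0 hm) one_reg
      · obtain ⟨k, hk⟩ := L.pel 0 hm
        have h2 : orderOf ((x ^ 2 ^ 0) ^ i) ∣ 2 ^ k := hk ▸ orderOf_pow_dvd i
        obtain ⟨j, -, hj⟩ := (Nat.dvd_prime_pow Nat.prime_two).mp h2
        exact ⟨j, hj⟩
      · intro h2
        have h3 := hz
        rw [h2, Subgroup.zpowers_one_eq_bot] at h3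
        have h4 : x ^ 2 ^ 0 = 1 := Subgroup.zpowers_eq_bot.mp h3.symm
        rw [H.pow_eq_one] at h4
        have := Nat.le_of_dvd (by norm_num) h4
        have : 0 < 2 ^ m := by positivity
        omega
    have h2 := avg_cf (I := Bfin B) (h := 2 ^ (m - 0)) (ζ := ζ ^ 2 ^ 0) (w := fun χ => (χ : G → ℂ) 1)
      (f := fun i χ => Col.D ((x ^ 2 ^ 0) ^ i) (es 0) (ds 0) (χ : G → ℂ)) h1 (j : ℤ)
    have h3 : ((∑ χ ∈ Bfin B, A 0 j χ * (d χ : ℤ) : ℤ) : ℂ) = 0 := by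
      rw [← h2]
      simp only [Int.cast_sum, Int.cast_mul, Int.cast_natCast]
      refine Finset.sum_congr rfl fun χ hχ => ?_
      rw [(hA 0 hm).2.1 χ (mem_Bfin.mp hχ) j (by rw [Nat.sub_zero]; omega), map_intCast, hd χ,
        mul_comm]
    exact_mod_cast h3
  · -- cross
    intro h1m j hj
    have h1 : ∀ i i', Odd i → Odd i' → ∑ χ ∈ Bfin B,
        Col.D ((x ^ 2 ^ 0) ^ i) (es 0) (ds 0) (χ : G → ℂ) *
        conj (Col.D ((x ^ 2 ^ 1) ^ i') (es 1) (ds 1) (χ : G → ℂ)) = 0 := by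
      intro i i' hi hi'
      have hz := H.zp_lev hm hi
      have hz' := H.zp_lev h1m hi'
      have hpe : ∀ s < m, ∀ i, Odd i → ∃ k : ℕ, orderOf ((x ^ 2 ^ s) ^ i) = 2 ^ k := by
        intro s hs i _
        obtain ⟨k, hk⟩ := L.pel s hs
        have h2 : orderOf ((x ^ 2 ^ s) ^ i) ∣ 2 ^ k := hk ▸ orderOf_pow_dvd i
        obtain ⟨j, -, hj⟩ := (Nat.dvd_prime_pow Nat.prime_two).mp h2
        exact ⟨j, hj⟩
      refine D_orth hM hB (by rw [hz]) (by rw [hz']) (hpe 0 hm i hi) (hpe 1 h1m i' hi')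
        (L.ind 0 hm) (L.ind 1 h1m) (L.rk 0 hm) (L.rk 1 h1m) (L.r1 0 hm) (L.r1 1 h1m) ?_
      rintro ⟨g, hg, -⟩
      have h2 : orderOf ((x ^ 2 ^ 1) ^ i') = orderOf ((x ^ 2 ^ 0) ^ i) := by
        rw [hg, Col.orderOf_conj']
      have h3 : orderOf ((x ^ 2 ^ 0) ^ i) = 2 * 2 ^ (m - 0) := by
        rw [← H.ord_lev hm, ← Nat.card_zpowers, hz, Nat.card_zpowers]
      have h4 : orderOf ((x ^ 2 ^ 1) ^ i') = 2 * 2 ^ (m - 1) := by
        rw [← H.ord_lev h1m, ← Nat.card_zpowers, hz', Nat.card_zpowers]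
      rw [h3, h4, Nat.sub_zero] at h2
      have h5 : 2 ^ m = 2 * 2 ^ (m - 1) := by rw [← pow_succ']; congr 1; omega
      have : 0 < 2 ^ (m - 1) := by positivity
      omega
    have h2 := cross_cf (I := Bfin B) (h := 2 ^ (m - 0)) (h' := 2 ^ (m - 1)) (ζ := ζ ^ 2 ^ 0)
      (ζ' := ζ ^ 2 ^ 1)
      (f := fun i χ => Col.D ((x ^ 2 ^ 0) ^ i) (es 0) (ds 0) (χ : G → ℂ))
      (g := fun i χ => Col.D ((x ^ 2 ^ 1) ^ i) (es 1) (ds 1) (χ : G → ℂ)) h1 (j : ℤ) ((0 : ℕ) : ℤ)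
    have h3 : ((∑ χ ∈ Bfin B, A 0 j χ * A 1 0 χ : ℤ) : ℂ) = 0 := by
      rw [← h2]
      simp only [Int.cast_sum, Int.cast_mul]
      refine Finset.sum_congr rfl fun χ hχ => ?_
      rw [(hA 0 hm).2.1 χ (mem_Bfin.mp hχ) j (by rw [Nat.sub_zero]; omega)]
      have h4 := (hA 1 h1m).2.1 χ (mem_Bfin.mp hχ) 0 (by positivity)
      rw [h4, map_intCast]
    exact_mod_cast h3
  · -- parity
    intro h1m χ hχ l hl
    have hχB := mem_Bfin.mp hχ
    obtain ⟨k, rfl⟩ : ∃ k, m = k + 1 := ⟨m - 1, by omega⟩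
    rw [Nat.add_sub_cancel] at hl ⊢
    have h2k : 2 ^ (k + 1) = 2 * 2 ^ k := by rw [pow_succ]; ring
    obtain ⟨c, -, hc⟩ := hPd χ
    have e0 : ∀ l, l < 2 ^ (k + 1) → ms 0 * A 0 l χ = c l - c (l + 2 ^ (k + 1)) := by
      intro l hl
      refine Cyc.coef_of_Pd (by positivity) hζ hc (A := fun l => A 0 l χ) (m := ms 0) ?_ hl
      intro k' hk'
      have := hFA 0 (by omega) χ hχB k' hk'
      rw [pow_zero, one_mul, pow_one, Nat.sub_zero] at this
      exact this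
    have e1 : ms 1 * A 1 l χ = (c l + c (l + 2 ^ (k + 1))) -
        (c (l + 2 ^ k) + c (l + 2 ^ k + 2 ^ (k + 1))) := by
      have h4 : ∀ k', F χ (2 * k') = ∑ j ∈ Finset.range (2 * 2 ^ k),
          ((c j + c (j + 2 ^ (k + 1)) : ℤ) : ℂ) * (ζ ^ 2) ^ (k' * j) := by
        intro k'
        rw [hc (2 * k')]
        have := Cyc.halve (ζ := ζ) (n := 2 ^ (k + 1)) hζ.pow_eq_one c k'
        rw [this, h2k]
      refine Cyc.coef_of_Pd (F := fun k' => F χ (2 * k'))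
        (c := fun j => c j + c (j + 2 ^ (k + 1))) (ζ := ζ ^ 2) (h := 2 ^ k) (by positivity) ?_ h4
        (A := fun l => A 1 l χ) (m := ms 1) ?_ hl
      · have := hζs 1 h1m
        rwa [pow_one, Nat.add_sub_cancel] at this
      · intro k' hk'
        have := hFA 1 h1m χ hχB k' hk'
        rw [pow_one, Nat.add_sub_cancel] at this
        exact this
    have e2 := e0 l (by omega)
    have e3 := e0 (l + 2 ^ k) (by omega)
    obtain ⟨a, ha⟩ := hodd 0 (by omega)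
    obtain ⟨b, hb⟩ := hodd 1 h1m
    rw [ha] at e2 e3
    rw [hb] at e1
    refine ⟨c (l + 2 ^ (k + 1)) - c (l + 2 ^ k) + a * A 0 l χ + a * A 0 (l + 2 ^ k) χ -
      b * A 1 l χ, ?_⟩
    linear_combination e1 - e2 - e3
  · -- divisibility
    intro s hs χ hχ hz l hl
    have hχB := mem_Bfin.mp hχ
    have key : ∀ s ≤ m, (∀ s' < s, ∀ l < 2 ^ (m - s'), A s' l χ = 0) → s < m →
        Cyc.Pd (fun k => F χ (2 ^ s * k)) (ζ ^ 2 ^ s) (2 ^ (m - s)) (2 ^ s) := by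
      intro s
      induction s with
      | zero =>
        intro _ _ _
        have := hPd χ
        simpa using this
      | succ s ih =>
        intro h1 h2 h3
        have h4 := ih (by omega) (fun s' hs' => h2 s' (by omega)) (by omega)
        have h5 : m - s = (m - (s + 1)) + 1 := by omega
        have h6 : 2 ^ (m - s) = 2 * 2 ^ (m - (s + 1)) := by rw [h5, pow_succ]; ring
        rw [h6] at h4
        have h7 := h4.half_of_zero (by positivity) (by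
          have := hζs s (by omega)
          rwa [h6] at this) (by
          intro k hk
          rw [hFA s (by omega) χ hχB k hk]
          rw [Finset.sum_eq_zero, mul_zero]
          intro l hl
          rw [h2 s (by omega) l (Finset.mem_range.mp hl)]
          simp)
        have h8 : (fun k => F χ (2 ^ s * (2 * k))) = fun k => F χ (2 ^ (s + 1) * k) := by
          funext k
          rw [← mul_assoc, ← pow_succ]
        have h9 : (ζ ^ 2 ^ s) ^ 2 = ζ ^ 2 ^ (s + 1) := by rw [← pow_mul, ← pow_succ]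
        have h10 : (2 : ℤ) * 2 ^ s = 2 ^ (s + 1) := by rw [pow_succ]; ring
        rw [h8, h9, h10] at h7
        exact h7
    have h1 := key s hs.le hz hs
    have h2 := h1.coef (by positivity) (hζs s hs) (m := ms s) (A := fun l => A s l χ)
      (fun k hk => hFA s hs χ hχB k hk) hl
    have h3 : IsCoprime ((2 : ℤ) ^ s) (ms s) := by
      apply IsCoprime.pow_left
      obtain ⟨a, ha⟩ := hodd s hs
      exact ⟨-a, 1, by rw [ha]; ring⟩
    exact h3.dvd_of_dvd_mul_left h2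

end MC

end Cfsg.Agent.H10
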