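import Cfsg.Agent.H10.MCLoc

/-!
# Nilpotency of the block of the centralizer of the central involution (owner: helper10)
-/

set_option autoImplicit false
set_option linter.style.haveILetI false
set_option linter.unusedSectionVars false

namespace Cfsg.Agent.H10

open Cfsg Cfsg.Agent.Blk Cfsg.Agent.BlkF Cfsg.Agent.BlkInd Cfsg.Agent.Fus MonoidAlgebra

universe u

namespace MC

section grp

variable {G : Type*} [Group G] {D : Subgroup G} {x y : G} {h t : ℕ}

theorem div_mem (H : MC D x y h t) {a b : G} (ha : a ∈ D) (hb : b ∈ D)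
    (ha' : a ∉ Subgroup.zpowers x) (hb' : b ∉ Subgroup.zpowers x) :
    a * b⁻¹ ∈ Subgroup.zpowers x := by
  obtain ⟨i, rfl | rfl⟩ := H.cov a ha
  · exact absurd (mem_zp i) ha'
  obtain ⟨j, rfl | rfl⟩ := H.cov b hb
  · exact absurd (mem_zp j) hb'
  have : x ^ i * y * (x ^ j * y)⁻¹ = x ^ i * (x ^ j)⁻¹ := by group
  rw [this]
  exact Subgroup.mul_mem _ (mem_zp i) (Subgroup.inv_mem _ (mem_zp j))

theorem orderOf_two_pow (H : MC D x y h t) {a : G} (ha : a ∈ Subgroup.zpowers x) :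
    ∃ k : ℕ, orderOf a = 2 ^ k := by
  have h5 : orderOf a ∣ orderOf x := orderOf_dvd_of_mem_zpowers ha
  obtain ⟨m, hm⟩ := H.hp
  rw [H.ordx, hm, show 2 * 2 ^ m = 2 ^ (m + 1) by ring] at h5
  obtain ⟨k', -, hk'⟩ := (Nat.dvd_prime_pow Nat.prime_two).1 h5
  exact ⟨k', hk'⟩

/-- elements of odd order normalizing a subgroup of `D` and fixing its cyclic part setwise -/
theorem cent_of_norm [Finite G] (H : MC D x y h t) {Q : Subgroup G} (hQ : Q ≤ D) {w : G}
    (h2 : ¬ 2 ∣ orderOf w) (hw : w ∈ Subgroup.normalizer (Q : Set G))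
    (hc : ∀ q ∈ Q, q ∈ Subgroup.zpowers x → w * q * w⁻¹ ∈ Subgroup.zpowers x) :
    w ∈ Subgroup.centralizer (Q : Set G) := by
  have hnorm : ∀ q ∈ Q, w * q * w⁻¹ ∈ Q := fun q hq => (Subgroup.mem_normalizer_iff.mp hw q).mp hq
  -- the cyclic part
  have hXc : ∀ q ∈ Q, q ∈ Subgroup.zpowers x → w * q = q * w := by
    intro q hq hqx
    set X : Subgroup G := Q ⊓ Subgroup.zpowers x with hX
    have hcyc : IsCyclic X := by
      have h3 : IsCyclic (Subgroup.zpowers x) := inferInstance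
      exact isCyclic_of_injective (Subgroup.inclusion (inf_le_right : X ≤ Subgroup.zpowers x))
        (Subgroup.inclusion_injective _)
    obtain ⟨⟨c, hcX⟩, hgen⟩ := hcyc.exists_generator
    have hXc : X = Subgroup.zpowers c := by
      apply le_antisymm
      · intro g hg
        obtain ⟨a, ha⟩ := Subgroup.mem_zpowers_iff.mp (hgen ⟨g, hg⟩)
        exact Subgroup.mem_zpowers_iff.mpr ⟨a, congrArg Subtype.val ha⟩
      · rw [Subgroup.zpowers_le]; exact hcX
    have h3 : w * c = c * w := by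
      apply comm_of_conj_mem (H.orderOf_two_pow hcX.2) h2
      rw [← hXc]
      exact ⟨hnorm c hcX.1, hc c hcX.1 hcX.2⟩
    have h4 : q ∈ Subgroup.zpowers c := by rw [← hXc]; exact ⟨hq, hqx⟩
    obtain ⟨a, rfl⟩ := Subgroup.mem_zpowers_iff.mp h4
    exact (Commute.zpow_right (show Commute w c from h3) a)
  rw [Subgroup.mem_centralizer_iff]
  intro q hq
  by_cases hqx : q ∈ Subgroup.zpowers x
  · exact (hXc q hq hqx).symm
  · have hq2 : w * q * w⁻¹ ∉ Subgroup.zpowers x := by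
      intro h3
      have h4 := hXc _ (hnorm q hq) h3
      have h5 : w * q * w⁻¹ = q := by
        have : w * (w * q * w⁻¹) * w⁻¹ = w * q * w⁻¹ := by rw [h4]; group
        have h6 : w⁻¹ * (w * (w * q * w⁻¹) * w⁻¹) * w = w⁻¹ * (w * q * w⁻¹) * w := by rw [this]
        have h7 : w⁻¹ * (w * (w * q * w⁻¹) * w⁻¹) * w = w * q * w⁻¹ := by group
        have h8 : w⁻¹ * (w * q * w⁻¹) * w = q := by group
        rw [h7, h8] at h6
        exact h6
      rw [h5] at h3
      exact hqx h3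
    set u := w * q * w⁻¹ * q⁻¹ with hu
    have hux : u ∈ Subgroup.zpowers x := H.div_mem (hQ (hnorm q hq)) (hQ hq) hq2 hqx
    have huQ : u ∈ Q := Q.mul_mem (hnorm q hq) (Q.inv_mem hq)
    have huw := hXc u huQ hux
    have h3 : w * q * w⁻¹ = u * q := by rw [hu]; group
    have h4 : ∀ k : ℕ, w ^ k * q * (w ^ k)⁻¹ = u ^ k * q := by
      intro k
      induction k with
      | zero => simp
      | succ k ih =>
        have : w ^ (k + 1) * q * (w ^ (k + 1))⁻¹ = w * (w ^ k * q * (w ^ k)⁻¹) * w⁻¹ := by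
          rw [pow_succ']; group
        rw [this, ih]
        have h5 : w * u ^ k = u ^ k * w := (Commute.pow_right (show Commute w u from huw) k)
        calc w * (u ^ k * q) * w⁻¹ = (w * u ^ k) * q * w⁻¹ := by group
          _ = (u ^ k * w) * q * w⁻¹ := by rw [h5]
          _ = u ^ k * (w * q * w⁻¹) := by group
          _ = u ^ k * (u * q) := congrArg _ h3
          _ = u ^ (k + 1) * q := by rw [pow_succ]; simp only [mul_assoc]
    have h5 := h4 (orderOf w)
    rw [pow_orderOf_eq_one, one_mul, inv_one, mul_one] at h5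
    have h6 : u ^ orderOf w = 1 := by
      have := congrArg (fun g => g * q⁻¹) h5
      simp only [mul_inv_cancel, mul_assoc, mul_one] at this
      exact this.symm
    obtain ⟨k, hk⟩ := H.orderOf_two_pow hux
    have h7 := orderOf_dvd_of_pow_eq_one h6
    rw [hk] at h7
    have h8 : k = 0 := by
      by_contra hk0
      exact h2 ((dvd_pow_self 2 hk0).trans h7)
    rw [h8, pow_zero, orderOf_eq_one_iff] at hk
    rw [hk, one_mul] at h3
    calc q * w = w * q * w⁻¹ * w := by rw [h3]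
      _ = w * q := by group

/-- the dihedral case -/
def Dih (y : G) (h t : ℕ) : Prop := t = 2 * h - 1 ∧ y * y = 1

theorem Dih.sq (H : MC D x y h t) (hd : Dih y h t) {d : G} (hdD : d ∈ D)
    (hdx : d ∉ Subgroup.zpowers x) : d * d = 1 := by
  obtain ⟨i, rfl | rfl⟩ := H.cov d hdD
  · exact absurd (mem_zp i) hdx
  · have h1 := H.conj_pow i
    have h2 : x ^ i * y * (x ^ i * y) = x ^ i * (y * x ^ i * y⁻¹) * (y * y) := by group
    rw [h2, h1, hd.2, mul_one, ← pow_add, H.pow_eq_one]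
    have h3 := H.pos
    exact ⟨i, by
      have : t + 1 = 2 * h := by have := hd.1; omega
      calc i + t * i = (t + 1) * i := by ring
        _ = 2 * h * i := by rw [this]⟩

theorem sq_pow (H : MC D x y h t) {i : ℕ} (h1 : x ^ i * x ^ i = 1) : x ^ i = 1 ∨ x ^ i = x ^ h := by
  rw [← pow_add, H.pow_eq_one] at h1
  have h2 : h ∣ i := by
    obtain ⟨c, hc⟩ := h1
    exact ⟨c, by linarith⟩
  obtain ⟨c, rfl⟩ := h2
  rcases Nat.even_or_odd c with ⟨d, hd⟩ | ⟨d, hd⟩
  · left
    rw [H.pow_eq_one]; exact ⟨d, by rw [hd]; ring⟩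
  · right
    rw [H.pow_eq_pow]
    have : h * c = h + 2 * h * d := by rw [hd]; ring
    rw [this]
    exact (Nat.modEq_iff_dvd' (by omega)).mpr ⟨d, by omega⟩ |>.symm

theorem Dih.cent [Finite G] (H : MC D x y h t) (hd : Dih y h t) (hz : ∀ g : G, g * x ^ h = x ^ h * g)
    {Q : Subgroup G} (hQ : Q ≤ D) {w : G}
    (h2 : ¬ 2 ∣ orderOf w) (hw : w ∈ Subgroup.normalizer (Q : Set G)) :
    w ∈ Subgroup.centralizer (Q : Set G) := by
  refine H.cent_of_norm hQ h2 hw ?_
  intro q hq hqx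
  obtain ⟨i, -, rfl⟩ := H.exists_pow hqx
  by_cases h3 : x ^ i * x ^ i = 1
  · rcases H.sq_pow h3 with h4 | h4
    · rw [h4]; simp
    · rw [h4, hz w]
      have : x ^ h * w * w⁻¹ = x ^ h := by group
      rw [this]
      exact mem_zp h
  · by_contra h4
    have h5 := hd.sq H (hQ ((Subgroup.mem_normalizer_iff.mp hw _).mp hq)) h4
    apply h3
    have h6 : w * x ^ i * w⁻¹ * (w * x ^ i * w⁻¹) = w * (x ^ i * x ^ i) * w⁻¹ := by group
    rw [h6] at h5
    have h8 : w⁻¹ * (w * (x ^ i * x ^ i) * w⁻¹) * w = x ^ i * x ^ i := by group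
    rw [h5] at h8
    rw [← h8]; group

/-- transport to a subgroup -/
theorem sub (H : MC D x y h t) {K : Subgroup G} (hK : D ≤ K) :
    MC (D.subgroupOf K) (⟨x, hK H.hx⟩ : K) ⟨y, hK H.hy⟩ h t where
  ht := H.ht
  hp := H.hp
  ordx := by rw [← Subgroup.orderOf_coe]; exact H.ordx
  hx := Subgroup.mem_subgroupOf.mpr H.hx
  hy := Subgroup.mem_subgroupOf.mpr H.hy
  conj := Subtype.ext H.conj
  hyx := by
    intro hc
    obtain ⟨a, ha⟩ := Subgroup.mem_zpowers_iff.mp hc
    exact H.hyx (Subgroup.mem_zpowers_iff.mpr ⟨a, congrArg Subtype.val ha⟩)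
  cov := by
    rintro ⟨d, hdK⟩ hd
    obtain ⟨i, hi | hi⟩ := H.cov d (Subgroup.mem_subgroupOf.mp hd)
    · exact ⟨i, Or.inl (Subtype.ext hi)⟩
    · exact ⟨i, Or.inr (Subtype.ext hi)⟩

end grp

variable {G : Type u} [Group G] [Fintype G] {M : Ideal AlgInt} [hMp : M.IsPrime]
  {D : Subgroup G} {E : MonoidAlgebra (kM M) G} {x y : G} {h t : ℕ}

/-- the block of `C(z)` is nilpotent in the dihedral case -/
theorem Dih.nilp_z (hM : IsPModular 2 M) (he : haveI := charP_kM hM; MMax 2 D E)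
    (H : MC D x y h t) (hd : Dih y h t) {C : Subgroup G} [Fintype C]
    (hC : C = Subgroup.centralizer (Subgroup.zpowers (x ^ h) : Set G))
    {b : Set (IrrCharacter C)}
    (hb : IsPBlock M b)
    (hf : MLe 2 (Subgroup.zpowers (x ^ h)) (EB M C b) D E) :
    IsNilpotentBlock 2 M b := by
  haveI := charP_kM hM
  have h1 := H.isDef_z hM he hf
  rw [← hC] at h1
  have hDC : D ≤ C := hC ▸ H.le_cent_z
  have h2 : IsDef 2 ⊤ (eB M b) (D.subgroupOf C) := by
    rw [← isDef_incl_top_iff, map_subgroupOf hDC, ← EB_eq]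
    exact h1
  have H' := H.sub hDC
  refine nilp_of_aut hM hb h2 ?_
  intro Q hQ w hw hw2
  refine Dih.cent H' ⟨hd.1, Subtype.ext hd.2⟩ ?_ hQ hw2 hw
  rintro ⟨g, hg⟩
  apply Subtype.ext
  push_cast
  have h3 : g ∈ Subgroup.centralizer (Subgroup.zpowers (x ^ h) : Set G) := hC ▸ hg
  exact ((Subgroup.mem_centralizer_iff.mp h3) (x ^ h) (Subgroup.mem_zpowers _)).symm

end MC

end Cfsg.Agent.H10
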