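import Cfsg.Agent.H10.MaxCyc
import Cfsg.Agent.H10.SubSum
import Cfsg.Agent.BlkF.Sat
import Cfsg.Agent.H21.TFFus
import Cfsg.Agent.Star.NilApp

/-!
# Fusion of the elements of the cyclic maximal subgroup of the defect group (owner: helper10)
-/

set_option autoImplicit false
set_option linter.style.haveILetI false
set_option linter.unusedSectionVars false

namespace Cfsg.Agent.H10

open Cfsg Cfsg.Agent.Blk Cfsg.Agent.BlkF Cfsg.Agent.Fus MonoidAlgebra

universe u

theorem isPGroup_aut_cyclic {G : Type*} [Group G] {h : ℕ} (hp : ∃ m, h = 2 ^ m) {x : G}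
    (hx : orderOf x = 2 * h) : IsPGroup 2 (MulAut (Subgroup.zpowers x)) := by
  obtain ⟨m, rfl⟩ := hp
  have : Finite (Subgroup.zpowers x) :=
    Nat.finite_of_card_ne_zero (by rw [Nat.card_zpowers, hx]; positivity)
  refine IsPGroup.of_card (n := m) ?_
  rw [IsCyclic.card_mulAut, Nat.card_zpowers, hx, ← pow_succ',
    Nat.totient_prime_pow Nat.prime_two (by omega)]
  simp

namespace MC

variable {G : Type u} [Group G] [Fintype G] {M : Ideal AlgInt} [hMp : M.IsPrime]
  {D : Subgroup G} {E : MonoidAlgebra (kM M) G} {x y : G} {h t : ℕ}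

theorem centIn (H : MC D x y h t) {i : ℕ} (hi : ¬ h ∣ i) :
    FusionSystem.centralizerIn D (Subgroup.zpowers (x ^ i)) = Subgroup.zpowers x := by
  apply le_antisymm
  · intro d hd
    obtain ⟨hd1, hd2⟩ := hd
    apply H.mem_of_comm hi hd1
    exact ((Subgroup.mem_centralizer_iff.mp hd2) (x ^ i) (Subgroup.mem_zpowers _)).symm
  · intro d hd
    refine ⟨H.zp_le hd, Subgroup.mem_centralizer_iff.mpr ?_⟩
    intro g hg
    obtain ⟨a, rfl⟩ := Subgroup.mem_zpowers_iff.mp hd
    obtain ⟨b, rfl⟩ := Subgroup.mem_zpowers_iff.mp hg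
    rw [← zpow_natCast, ← zpow_mul, ← zpow_add, ← zpow_add, add_comm]

theorem card_centIn_le (H : MC D x y h t) {r : G} (hr : r ∈ D) (hr2 : r * r ≠ 1) :
    Nat.card (FusionSystem.centralizerIn D (Subgroup.zpowers r)) ≤ 2 * h := by
  have hlt : FusionSystem.centralizerIn D (Subgroup.zpowers r) < D := by
    refine lt_of_le_of_ne inf_le_left ?_
    intro hc
    apply hr2
    apply H.sq_of_central hr
    intro g hg
    rw [← hc] at hg
    exact ((Subgroup.mem_centralizer_iff.mp hg.2) r (Subgroup.mem_zpowers _)).symm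
  have h1 := Subgroup.card_dvd_of_le hlt.le
  obtain ⟨c, hc⟩ := h1
  have h2 : Nat.card (FusionSystem.centralizerIn D (Subgroup.zpowers r)) ≠ Nat.card D := by
    intro h3
    exact hlt.ne (Subgroup.eq_of_le_of_card_ge hlt.le h3.ge)
  rw [H.card] at hc h2
  have hpos := H.pos
  have h3 : c ≠ 0 := by rintro rfl; omega
  have h4 : c ≠ 1 := by rintro rfl; omega
  have h5 : 2 ≤ c := by omega
  nlinarith

/-- **fusion in the cyclic maximal subgroup** -/
theorem fusX (hM : IsPModular 2 M) (he : haveI := charP_kM hM; MMax 2 D E) (H : MC D x y h t)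
    {i j : ℕ} (hi : ¬ h ∣ i) (hj : ¬ h ∣ j) {g : G} {f : MonoidAlgebra (kM M) G}
    (hf : MLe 2 (Subgroup.zpowers (x ^ i)) f D E)
    (hf' : MLe 2 (Subgroup.zpowers (g * x ^ i * g⁻¹)) (Blk.cj g f) D E)
    (hg : g * x ^ i * g⁻¹ = x ^ j) : x ^ j = x ^ i ∨ x ^ j = x ^ (t * i) := by
  haveI := charP_kM hM
  have hDp := he.1.isPGroup
  have hsat := isSaturated_blkFus he (fun K f hf => splitBlk hf)
  set S := blkFus he.1 with hS
  set P := Subgroup.zpowers (x ^ i) with hP
  set Q := Subgroup.zpowers (x ^ j) with hQ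
  have hcarP : Car 2 D E P g := by
    refine ⟨f, hf, ?_⟩
    rw [show cjS g P = Subgroup.zpowers (g * x ^ i * g⁻¹) from
      MonoidHom.map_zpowers (MulAut.conj g).toMonoidHom _]
    exact hf'
  have hmap : IsMap S P (fun v => g * v * g⁻¹) := by
    rw [hS, isMap_blkFus]
    exact ⟨g, fun v _ => rfl, hcarP⟩
  have himg : img P (fun v => g * v * g⁻¹) = Q := by
    rw [img_eq_cjS (g := g) (fun v _ => rfl)]
    rw [show cjS g P = Subgroup.zpowers (g * x ^ i * g⁻¹) from
      MonoidHom.map_zpowers (MulAut.conj g).toMonoidHom _, hg]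
  have hxj : (x ^ j) * (x ^ j) ≠ 1 := by
    rw [← pow_add, Ne, H.pow_eq_one]
    rintro ⟨c, hc⟩
    exact hj ⟨c, by linarith⟩
  have hQfc : S.IsFullyCentralized Q := by
    refine ⟨?_, fun R hR => ?_⟩
    · rw [hQ, Subgroup.zpowers_le]; exact D.pow_mem H.hx j
    · rw [hQ, H.centIn hj, Nat.card_zpowers, H.ordx]
      obtain ⟨f', hf', hR2⟩ := Fus.isConj_iff.mp hR
      have h1 : R = Subgroup.zpowers (f' (x ^ j)) := by
        rw [← hR2]
        apply le_antisymm
        · intro w hw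
          obtain ⟨v, hv, rfl⟩ := hf'.mem_img.mp hw
          obtain ⟨a, rfl⟩ := Subgroup.mem_zpowers_iff.mp hv
          rw [hf'.map_zpow (Subgroup.mem_zpowers _)]
          exact Subgroup.zpow_mem_zpowers _ _
        · rw [Subgroup.zpowers_le]
          exact subset_img (Subgroup.mem_zpowers _)
      rw [h1]
      apply H.card_centIn_le (hf'.mem (Subgroup.mem_zpowers _))
      rw [← hf'.map_mul (Subgroup.mem_zpowers _) (Subgroup.mem_zpowers _)]
      intro hc
      exact hxj ((hf'.eq_one_iff (Q.mul_mem (Subgroup.mem_zpowers _) (Subgroup.mem_zpowers _))).mp hc)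
  obtain ⟨g', hg', hg1, hg2⟩ := sat_exists_extend_centralizer hDp hsat hQfc hmap himg
  rw [hP, H.centIn hi] at hg' hg2
  rw [hQ, H.centIn hj] at hg2
  set X := Subgroup.zpowers x with hX
  have hXmap : IsMap S X g' := hg'.mono le_sup_right
  have hXfin : Finite X := inferInstance
  have hXimg := hXmap.img_eq hg2
  obtain ⟨α, hα, hα2⟩ := hXmap.exists_aut hXimg
  have hXn : S.IsFullyNormalized X := by
    refine Cfsg.Agent.H21.TFus.fullyNormalized_of_normal H.zp_le ?_
    intro s hs v hv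
    obtain ⟨a, -, rfl⟩ := H.exists_pow hv
    rcases H.conj_D hs a with h1 | h1 <;> rw [h1] <;> exact MC.mem_zp _
  obtain ⟨-, R, hR⟩ := sat_fullyAutomized hDp hsat hXn
  have hRtop : (R : Subgroup (S.autGroup X)) = ⊤ := by
    have h1 : IsPGroup 2 (S.autGroup X) := (isPGroup_aut_cyclic H.hp H.ordx).to_subgroup _
    have h2 : IsPGroup 2 (⊤ : Subgroup (S.autGroup X)) := h1.to_subgroup _
    exact (R.3 h2 le_top).symm
  rw [hRtop] at hR
  have h1 : α ∈ autInducedBy D X := by
    have : (⟨α, hα⟩ : S.autGroup X) ∈ (autInducedBy D X).subgroupOf (S.autGroup X) := by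
      rw [← hR]; trivial
    exact this
  obtain ⟨d, hd, hd2⟩ := mem_autInducedBy'.mp h1
  have h2 : x ^ j = d * x ^ i * d⁻¹ := by
    rw [← hd2 _ (MC.mem_zp i), hα2 _ (MC.mem_zp i), hg1 _ (Subgroup.mem_zpowers _), hg]
  rw [h2]
  exact H.conj_D hd i

end MC

end Cfsg.Agent.H10
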