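import Cfsg.Agent.H10.MCFus
import Cfsg.Agent.S4689
import Cfsg.Agent.BlkInd.FocAct

/-!
# Local structure of blocks whose defect group has a cyclic maximal subgroup (owner: helper10)
-/

set_option autoImplicit false
set_option linter.style.haveILetI false
set_option linter.unusedSectionVars false

namespace Cfsg.Agent.H10

open Cfsg Cfsg.Agent.Blk Cfsg.Agent.BlkF Cfsg.Agent.BlkInd Cfsg.Agent.Fus MonoidAlgebra

universe u

/-- a block is nilpotent if the `p`-regular elements normalizing a subgroup of the defect group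
centralize it -/
theorem nilp_of_aut {p : ℕ} [Fact p.Prime] {M : Ideal AlgInt} [hMp : M.IsPrime]
    (hM : IsPModular p M) {H : Type u} [Group H] [Fintype H] {B : Set (IrrCharacter H)}
    (hB : IsPBlock M B) {P : Subgroup H}
    (hP : haveI := charP_kM hM; IsDef p ⊤ (eB M B) P)
    (hA : ∀ Q ≤ P, ∀ w ∈ Subgroup.normalizer (Q : Set H), ¬ p ∣ orderOf w →
      w ∈ Subgroup.centralizer (Q : Set H)) : IsNilpotentBlock p M B := by
  haveI := charP_kM hM
  obtain ⟨e, he, hb⟩ := Star.exists_mmax_on hM hB hP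
  exact (isNilpotentBlock_iff hM).2 ⟨hB, (mnilp_iff_below he hb).2
    (fun Q f hf x hx hxp => hA Q hf.le x hx.1 hxp)⟩

/-- an element of odd order normalizing a cyclic 2-group centralizes it -/
theorem comm_of_conj_mem {H : Type*} [Group H] [Finite H] {u w : H}
    (hu : ∃ k : ℕ, orderOf u = 2 ^ k) (h2 : ¬ 2 ∣ orderOf w)
    (hw : w * u * w⁻¹ ∈ Subgroup.zpowers u) : w * u = u * w := by
  obtain ⟨a, ha⟩ := Subgroup.mem_zpowers_iff.mp hw
  -- powers
  have h1 : ∀ m : ℕ, w ^ m * u * (w ^ m)⁻¹ = u ^ (a ^ m) := by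
    intro m
    induction m with
    | zero => simp
    | succ m ih =>
      rw [pow_succ']
      have : w * w ^ m * u * (w * w ^ m)⁻¹ = w * (w ^ m * u * (w ^ m)⁻¹) * w⁻¹ := by group
      rw [this, ih]
      have h3 : w * u ^ (a ^ m) * w⁻¹ = (w * u * w⁻¹) ^ (a ^ m) := by
        rw [conj_zpow]
      rw [h3, ← ha, ← zpow_mul, pow_succ']
  obtain ⟨k, hk⟩ := hu
  -- the order of `a` modulo `2 ^ k` is a power of two
  rcases Nat.eq_zero_or_pos k with hk0 | hk0
  · rw [hk0, pow_zero, orderOf_eq_one_iff] at hk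
    rw [hk]; simp
  have hodd : Odd a := by
    rcases Int.even_or_odd a with he | ho
    · exfalso
      have h5 : orderOf (u ^ a) = orderOf u := by
        rw [ha]; exact Cfsg.Agent.BlkF.orderOf_conj' w u
      obtain ⟨c, hc⟩ := he
      have h6 : (u ^ a) ^ (2 ^ (k - 1)) = 1 := by
        rw [hc, ← two_mul, ← zpow_natCast, ← zpow_mul]
        have : (2 * c * ((2 ^ (k - 1) : ℕ) : ℤ)) = ((2 ^ k : ℕ) : ℤ) * c := by
          obtain ⟨k', rfl⟩ : ∃ k', k = k' + 1 := ⟨k - 1, by omega⟩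
          rw [Nat.add_sub_cancel, pow_succ]; push_cast; ring
        rw [this, zpow_mul, zpow_natCast, ← hk, pow_orderOf_eq_one, one_zpow]
      have h7 := orderOf_dvd_of_pow_eq_one h6
      rw [h5, hk, Nat.pow_dvd_pow_iff_le_right (by norm_num)] at h7
      omega
    · exact ho
  have h4 : ((2 ^ k : ℕ) : ℤ) ∣ a ^ (2 ^ k) - 1 := by
    clear hw ha h1 hk
    have : ∀ k : ℕ, ((2 ^ k : ℕ) : ℤ) ∣ a ^ (2 ^ k) - 1 := by
      intro k
      induction k with
      | zero => simp
      | succ k ih =>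
        have h8 : a ^ (2 ^ (k + 1)) - 1 = (a ^ (2 ^ k) - 1) * (a ^ (2 ^ k) + 1) := by
          rw [pow_succ]; ring
        rw [h8, pow_succ, Nat.cast_mul]
        apply mul_dvd_mul ih
        have : Odd (a ^ 2 ^ k) := hodd.pow
        obtain ⟨c, hc⟩ := this
        exact ⟨c + 1, by rw [hc]; push_cast; ring⟩
    exact this k
  have h5 : w ^ (2 ^ k) * u * (w ^ (2 ^ k))⁻¹ = u := by
    rw [h1]
    obtain ⟨c, hc⟩ := h4
    have : a ^ (2 ^ k) = 1 + ((2 ^ k : ℕ) : ℤ) * c := by linarith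
    rw [this, zpow_add, zpow_one, zpow_mul, zpow_natCast, ← hk, pow_orderOf_eq_one, one_zpow,
      mul_one]
  have hcop : Nat.Coprime (orderOf w) (2 ^ k) := by
    apply Nat.Coprime.pow_right
    exact ((Nat.Prime.coprime_iff_not_dvd Nat.prime_two).2 h2).symm
  have hw : w ∈ Subgroup.zpowers (w ^ (2 ^ k)) := by
    rw [mem_zpowers_pow_iff]
    exact hcop.symm
  obtain ⟨c, hc⟩ := Subgroup.mem_zpowers_iff.mp hw
  have h6 : w ^ (2 ^ k) ∈ Subgroup.centralizer ({u} : Set H) := by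
    rw [Subgroup.mem_centralizer_singleton_iff]
    calc w ^ (2 ^ k) * u = w ^ (2 ^ k) * u * (w ^ (2 ^ k))⁻¹ * w ^ (2 ^ k) := by group
      _ = _ := by rw [h5]
  have h7 : w ∈ Subgroup.centralizer ({u} : Set H) := by
    rw [← hc]
    exact Subgroup.zpow_mem _ h6 c
  exact Subgroup.mem_centralizer_singleton_iff.mp h7

theorem cent_of_norm_cyclic {H : Type*} [Group H] [Finite H] {Q : Subgroup H}
    {c w : H} (hc : ∃ k : ℕ, orderOf c = 2 ^ k) (hQ : Q = Subgroup.zpowers c)
    (h2 : ¬ 2 ∣ orderOf w)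
    (hw : w ∈ Subgroup.normalizer (Q : Set H)) : w ∈ Subgroup.centralizer (Q : Set H) := by
  subst hQ
  have h1 : w * c * w⁻¹ ∈ Subgroup.zpowers c :=
    (Subgroup.mem_normalizer_iff.mp hw c).mp (Subgroup.mem_zpowers c)
  have h3 := comm_of_conj_mem hc h2 h1
  rw [Subgroup.mem_centralizer_iff]
  intro g hg
  obtain ⟨a, rfl⟩ := Subgroup.mem_zpowers_iff.mp hg
  exact (Commute.zpow_left (show Commute c w from h3.symm) a)

namespace MC

variable {G : Type u} [Group G] [Fintype G] {M : Ideal AlgInt} [hMp : M.IsPrime]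
  {D : Subgroup G} {E : MonoidAlgebra (kM M) G} {x y : G} {h t : ℕ}

theorem fullyCent (hM : IsPModular 2 M) (he : haveI := charP_kM hM; MMax 2 D E)
    (H : MC D x y h t) {j : ℕ} (hj : ¬ h ∣ j) :
    haveI := charP_kM hM
    (blkFus he.1).IsFullyCentralized (Subgroup.zpowers (x ^ j)) := by
  haveI := charP_kM hM
  set S := blkFus he.1 with hS
  set Q := Subgroup.zpowers (x ^ j) with hQ
  have hxj : (x ^ j) * (x ^ j) ≠ 1 := by
    rw [← pow_add, Ne, H.pow_eq_one]
    rintro ⟨c, hc⟩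
    exact hj ⟨c, by linarith⟩
  refine ⟨?_, fun R hR => ?_⟩
  · rw [hQ, Subgroup.zpowers_le]; exact D.pow_mem H.hx j
  · rw [hQ, H.centIn hj, Nat.card_zpowers, H.ordx]
    obtain ⟨f', hf', hR2⟩ := Fus.isConj_iff.mp hR
    have h1 : R = Subgroup.zpowers (f' (x ^ j)) := by
      rw [← hR2]
      apply le_antisymm
      · intro w hw
        obtain ⟨v, hv, rfl⟩ := hf'.mem_img.mp hw
        obtain ⟨a, rfl⟩ := Subgroup.mem_zpowers_iff.mp hv
        rw [hf'.map_zpow (Subgroup.mem_zpowers _)]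
        exact Subgroup.zpow_mem_zpowers _ _
      · rw [Subgroup.zpowers_le]
        exact subset_img (Subgroup.mem_zpowers _)
    rw [h1]
    apply H.card_centIn_le (hf'.mem (Subgroup.mem_zpowers _))
    rw [← hf'.map_mul (Subgroup.mem_zpowers _) (Subgroup.mem_zpowers _)]
    intro hc
    exact hxj ((hf'.eq_one_iff (Q.mul_mem (Subgroup.mem_zpowers _) (Subgroup.mem_zpowers _))).mp hc)

/-- the defect group of the block of `C(x ^ j)` is `⟨x⟩` -/
theorem isDef_x (hM : IsPModular 2 M) (he : haveI := charP_kM hM; MMax 2 D E)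
    (H : MC D x y h t) {j : ℕ} (hj : ¬ h ∣ j) {f : MonoidAlgebra (kM M) G}
    (hf : MLe 2 (Subgroup.zpowers (x ^ j)) f D E) :
    haveI := charP_kM hM
    IsDef 2 (Subgroup.centralizer (Subgroup.zpowers (x ^ j) : Set G)) f (Subgroup.zpowers x) := by
  haveI := charP_kM hM
  have h1 := (isFullyCentralized_iff he hf).1 (H.fullyCent hM he hj)
  have h2 : D ⊓ Subgroup.centralizer (Subgroup.zpowers (x ^ j) : Set G) = Subgroup.zpowers x :=
    H.centIn hj
  rwa [h2] at h1

/-- the block of `C(x ^ j)` is nilpotent -/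
theorem nilp_x (hM : IsPModular 2 M) (he : haveI := charP_kM hM; MMax 2 D E)
    (H : MC D x y h t) {j : ℕ} (hj : ¬ h ∣ j) {C : Subgroup G} [Fintype C]
    (hC : C = Subgroup.centralizer (Subgroup.zpowers (x ^ j) : Set G))
    {b : Set (IrrCharacter C)}
    (hb : IsPBlock M b)
    (hf : MLe 2 (Subgroup.zpowers (x ^ j)) (EB M C b) D E) :
    IsNilpotentBlock 2 M b := by
  haveI := charP_kM hM
  have h1 := H.isDef_x hM he hj hf
  rw [← hC] at h1
  have hxC : x ∈ C := by
    rw [hC, Subgroup.mem_centralizer_iff]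
    intro g hg
    obtain ⟨a, rfl⟩ := Subgroup.mem_zpowers_iff.mp hg
    exact ((Commute.refl x).pow_left j).zpow_left a
  set x' : C := ⟨x, hxC⟩ with hx'
  have hmap : (Subgroup.zpowers x').map C.subtype = Subgroup.zpowers x := by
    rw [MonoidHom.map_zpowers]; rfl
  have hordx' : ∃ k : ℕ, orderOf x' = 2 ^ k := by
    obtain ⟨m, hm⟩ := H.hp
    refine ⟨m + 1, ?_⟩
    rw [← Subgroup.orderOf_coe]
    change orderOf x = _
    rw [H.ordx, hm, pow_succ, mul_comm]
  have h2 : IsDef 2 ⊤ (eB M b) (Subgroup.zpowers x') := by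
    rw [← isDef_incl_top_iff, hmap, ← EB_eq]
    exact h1
  refine nilp_of_aut hM hb h2 ?_
  intro Q hQ w hw hw2
  -- `Q` is cyclic
  have hcyc : IsCyclic Q := by
    have h3 : IsCyclic (Subgroup.zpowers x') := inferInstance
    have h4 : Function.Injective (Subgroup.inclusion hQ) := Subgroup.inclusion_injective hQ
    exact isCyclic_of_injective (Subgroup.inclusion hQ) h4
  obtain ⟨⟨c, hcQ⟩, hc⟩ := hcyc.exists_generator
  have hQc : Q = Subgroup.zpowers c := by
    apply le_antisymm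
    · intro g hg
      obtain ⟨a, ha⟩ := Subgroup.mem_zpowers_iff.mp (hc ⟨g, hg⟩)
      exact Subgroup.mem_zpowers_iff.mpr ⟨a, congrArg Subtype.val ha⟩
    · rw [Subgroup.zpowers_le]; exact hcQ
  have hcord : ∃ k : ℕ, orderOf c = 2 ^ k := by
    obtain ⟨k, hk⟩ := hordx'
    have h5 : orderOf c ∣ orderOf x' := orderOf_dvd_of_mem_zpowers (hQ hcQ)
    rw [hk] at h5
    obtain ⟨k', -, hk'⟩ := (Nat.dvd_prime_pow Nat.prime_two).1 h5
    exact ⟨k', hk'⟩
  exact cent_of_norm_cyclic hcord hQc hw2 hw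

theorem rank_x (hM : IsPModular 2 M) (he : haveI := charP_kM hM; MMax 2 D E)
    (H : MC D x y h t) {j : ℕ} (hj : ¬ h ∣ j)
    {b : Set (IrrCharacter (Subgroup.centralizer (Subgroup.zpowers (x ^ j) : Set G)))}
    (hb : IsPBlock M b)
    (hf : MLe 2 (Subgroup.zpowers (x ^ j)) (EB M _ b) D E) : blockRank 2 b = 1 := by
  haveI := Fintype.ofFinite (Subgroup.centralizer (Subgroup.zpowers (x ^ j) : Set G))
  exact (Cfsg.Agent.S4689.result 2 M hM b (H.nilp_x hM he hj rfl hb hf)).1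

theorem defect_x (hM : IsPModular 2 M) (he : haveI := charP_kM hM; MMax 2 D E)
    (H : MC D x y h t) {j : ℕ} (hj : ¬ h ∣ j)
    {b : Set (IrrCharacter (Subgroup.centralizer (Subgroup.zpowers (x ^ j) : Set G)))}
    (hb : IsPBlock M b)
    (hf : MLe 2 (Subgroup.zpowers (x ^ j)) (EB M _ b) D E) : 2 ^ blockDefect 2 b = 2 * h := by
  haveI := charP_kM hM
  rw [← card_of_isDef hM hb (H.isDef_x hM he hj hf), Nat.card_zpowers, H.ordx]

theorem le_cent_z (H : MC D x y h t) :
    D ≤ Subgroup.centralizer (Subgroup.zpowers (x ^ h) : Set G) := by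
  intro d hd
  rw [Subgroup.mem_centralizer_iff]
  intro g hg
  obtain ⟨a, rfl⟩ := Subgroup.mem_zpowers_iff.mp hg
  exact (Commute.zpow_right (show Commute d (x ^ h) from H.z_central hd) a).symm

theorem isDef_z (hM : IsPModular 2 M) (he : haveI := charP_kM hM; MMax 2 D E)
    (H : MC D x y h t) {f : MonoidAlgebra (kM M) G}
    (hf : MLe 2 (Subgroup.zpowers (x ^ h)) f D E) :
    haveI := charP_kM hM
    IsDef 2 (Subgroup.centralizer (Subgroup.zpowers (x ^ h) : Set G)) f D := by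
  haveI := charP_kM hM
  exact isDef_of_central he hf H.le_cent_z

theorem defect_z (hM : IsPModular 2 M) (he : haveI := charP_kM hM; MMax 2 D E)
    (H : MC D x y h t)
    {b : Set (IrrCharacter (Subgroup.centralizer (Subgroup.zpowers (x ^ h) : Set G)))}
    (hb : IsPBlock M b)
    (hf : MLe 2 (Subgroup.zpowers (x ^ h)) (EB M _ b) D E) : 2 ^ blockDefect 2 b = 4 * h := by
  haveI := charP_kM hM
  rw [← card_of_isDef hM hb (H.isDef_z hM he hf), H.card]

end MC

end Cfsg.Agent.H10
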