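import Cfsg.Agent.H10.MCDih
import Cfsg.Agent.H4.Major2

/-!
# Integral columns (owner: helper10)
-/

set_option autoImplicit false
set_option linter.style.haveILetI false
set_option linter.unusedSectionVars false

namespace Cfsg.Agent.H10.Col

open scoped ComplexConjugate BigOperators
open Cfsg Cfsg.Agent.CharBase Cfsg.Agent.Blk Cfsg.Agent.BlkInd Cfsg.Agent.BlkC Cfsg.Agent.Star
  Cfsg.Agent.H4 MonoidAlgebra

universe u

variable {G : Type u} [Group G] [Fintype G] {M : Ideal AlgInt} [hMp : M.IsPrime]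
  {B : Set (IrrCharacter G)} {C : Subgroup G} [Fintype C] {e : Set (IrrCharacter C)}
  {φ : C → ℂ} {d : IrrCharacter C → ℕ}

theorem primRoot_neg_one : IsPrimitiveRoot (-1 : ℂ) (2 * 1) := by
  rw [mul_one]
  exact IsPrimitiveRoot.neg_one 0 (by norm_num)

/-- the column of an involution is integral -/
theorem D_int {z : G} (hz : orderOf z = 2) (hC : C = Subgroup.centralizer ({z} : Set G))
    (e : Set (IrrCharacter C)) (d : IrrCharacter C → ℕ) (χ : IrrCharacter G) :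
    ∃ a : ℤ, D z e d (χ : G → ℂ) = (a : ℂ) := by
  obtain ⟨A, hA⟩ := D_poly hC one_pos primRoot_neg_one (by rw [hz, mul_one]) e d χ
  have h1 := hA 1 odd_one
  rw [pow_one, Finset.sum_range_one] at h1
  exact ⟨A 0, by rw [h1]; simp⟩

theorem int_of_cycRing_two {z : ℂ} (hz : z ∈ cycRing (2 ^ (0 + 1))) : ∃ a : ℤ, z = (a : ℂ) := by
  have h1 : cycRing (2 ^ (0 + 1)) ≤ (Int.castRingHom ℂ).range := by
    unfold cycRing
    rw [Subring.closure_le]
    intro w hw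
    have hw2 : w ^ 2 = 1 := by simpa using hw
    have hw3 : (w - 1) * (w + 1) = 0 := by linear_combination hw2
    rcases mul_eq_zero.mp hw3 with h | h
    · exact ⟨1, by rw [sub_eq_zero.mp h]; simp⟩
    · exact ⟨-1, by rw [eq_neg_of_add_eq_zero_left h]; simp⟩
  obtain ⟨a, ha⟩ := h1 hz
  exact ⟨a, ha.symm⟩

/-- **the column of a central involution** -/
theorem zcol (hM : IsPModular 2 M) (hB : IsPBlock M B) {z : G} (hz : orderOf z = 2)
    (hC : C = Subgroup.centralizer ({z} : Set G)) (hind : IsInducedBlock M C e B)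
    (hl : blockRank 2 e = 1) (hd : blockDefect 2 e = blockDefect 2 B) (hR : R1 2 e φ d) :
    ∃ a : IrrCharacter G → ℤ, (∀ χ : IrrCharacter G, D z e d (χ : G → ℂ) = (a χ : ℂ)) ∧
      (∀ χ ∈ B, ∃ s : ℤ, Odd s ∧ a χ = 2 ^ blockHeight 2 B (χ : G → ℂ) * s) ∧
      ∑ χ ∈ Bfin B, a χ ^ 2 = 2 ^ blockDefect 2 B := by
  have hx : ∃ k : ℕ, orderOf z = 2 ^ k := ⟨1, by rw [hz]; norm_num⟩
  choose a ha using D_int hz hC e d
  refine ⟨a, ha, ?_, ?_⟩
  · obtain ⟨ψ, hψ, h0⟩ := exists_height_zero hM hB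
    obtain ⟨w, hw1, hw2, hw3⟩ := exists_val hM hB (j := 0) ⟨1, le_refl _, by rw [hz]; norm_num⟩ hC
      hind hd
    have hodd : Odd (a ψ) := by
      have h1 := not_mli_D hM hx hC hind hl hR hψ h0
      rw [ha, mli_intCast_iff hM] at h1
      rw [← Int.not_even_iff_odd, even_iff_two_dvd]
      exact h1
    intro χ hχ
    obtain ⟨c, hc⟩ := int_of_cycRing_two (hw2 χ hχ ψ)
    have h2 := hw1 χ hχ ψ
    have h4 := sc_eq_D hM hind.1 hl hR z (χ : G → ℂ) (ψ : G → ℂ)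
    rw [hd] at h4
    rw [h4, ha, ha, hc, map_intCast] at h2
    have h5 : a χ * a ψ = 2 ^ blockHeight 2 B (χ : G → ℂ) * c := by exact_mod_cast h2
    have hcodd : Odd c := by
      have h6 : ¬ MemLocalIdeal M (w χ ψ) := fun h => (hw3 χ hχ ψ hψ).mp h h0
      rw [hc, mli_intCast_iff hM] at h6
      rw [← Int.not_even_iff_odd, even_iff_two_dvd]
      exact h6
    have hcop : IsCoprime ((2 : ℤ) ^ blockHeight 2 B (χ : G → ℂ)) (a ψ) := by
      apply IsCoprime.pow_left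
      rw [Int.isCoprime_iff_gcd_eq_one, Int.gcd_comm]
      obtain ⟨k, hk⟩ := hodd
      rw [← Int.isCoprime_iff_gcd_eq_one]
      exact ⟨1, -k, by rw [hk]; ring⟩
    have h6 : (2 : ℤ) ^ blockHeight 2 B (χ : G → ℂ) ∣ a χ :=
      hcop.dvd_of_dvd_mul_right (Dvd.intro _ h5.symm)
    obtain ⟨s, hs⟩ := h6
    refine ⟨s, ?_, hs⟩
    rw [hs, mul_assoc] at h5
    have h7 := mul_left_cancel₀ (pow_ne_zero _ (by norm_num)) h5
    rw [← h7] at hcodd
    exact (Int.odd_mul.mp hcodd).1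
  · have h1 := norm_D hM hx hC hind hl hR
    rw [Finset.sum_congr rfl fun χ _ => by rw [ha, map_intCast]] at h1
    rw [hd] at h1
    have h2 : ((∑ χ ∈ Bfin B, a χ ^ 2 : ℤ) : ℂ) = ((2 ^ blockDefect 2 B : ℤ) : ℂ) := by
      push_cast at h1 ⊢
      rw [← h1]
      exact Finset.sum_congr rfl fun χ _ => by ring
    exact_mod_cast h2

/-- **the level zero part of the column of `x`** -/
theorem xcol (hM : IsPModular 2 M) {x : G} {h t : ℕ} (ht : Cyc.IsT h t)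
    {ζ : ℂ} (hζ : IsPrimitiveRoot ζ (2 * h)) (hhp : ∃ m, h = 2 ^ m)
    (hx : ∃ k : ℕ, orderOf x = 2 ^ k)
    (hC : C = Subgroup.centralizer ({x} : Set G))
    (hind : IsInducedBlock M C e B) (hl : blockRank 2 e = 1) (hR : R1 2 e φ d)
    (hd : 2 ^ blockDefect 2 e = 2 * h)
    (hL : Cyc.Lev (Bfin B) h t (2 ^ blockDefect 2 e) ζ (fun i χ => D (x ^ i) e d (χ : G → ℂ))) :
    ∃ A : ℕ → IrrCharacter G → ℤ,
      (∀ χ ∈ B, ∀ i, Odd i → D (x ^ i) e d (χ : G → ℂ) =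
        ∑ l ∈ Finset.range h, (A l χ : ℂ) * ζ ^ (i * l)) ∧
      (∀ χ ∈ B, ∀ j : ℕ, j < h → Cyc.cf ζ h (fun i => D (x ^ i) e d (χ : G → ℂ)) (j : ℤ) =
        (A j χ : ℂ)) ∧
      (∑ χ ∈ Bfin B, A 0 χ ^ 2 = 4) ∧
      (∀ j, 0 < j → 2 * j < h → ∑ χ ∈ Bfin B, A j χ ^ 2 = 2) ∧
      (∀ j j', 2 * j < h → 2 * j' < h → j ≠ j' → ∑ χ ∈ Bfin B, A j χ * A j' χ = 0) ∧
      (∀ χ ∈ B, ∀ j, 0 < j → j < h → (A (h - j) χ = A j χ ∨ A (h - j) χ = - A j χ)) ∧
      (∀ χ ∈ B, A (h / 2) χ = 0) ∧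
      (∀ χ ∈ B, blockHeight 2 B (χ : G → ℂ) = 0 → Odd (A 0 χ)) := by
  obtain ⟨A, h1, h2, h3, h4, h5, h6, h7⟩ := hL.exists_coeff ht hζ
  have hh : 0 < h := ht.2.1
  rw [hd] at h3 h4
  refine ⟨A, fun χ hχ => h1 χ (mem_Bfin.mpr hχ), fun χ hχ => h2 χ (mem_Bfin.mpr hχ), ?_, ?_, h5,
    fun χ hχ => h6 χ (mem_Bfin.mpr hχ), fun χ hχ => h7 χ (mem_Bfin.mpr hχ), ?_⟩
  · have h8 : (h : ℤ) * ∑ χ ∈ Bfin B, A 0 χ ^ 2 = h * 4 := by rw [h3]; push_cast; ring
    exact mul_left_cancel₀ (by exact_mod_cast hh.ne') h8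
  · intro j hj hj2
    have h8 : (h : ℤ) * ∑ χ ∈ Bfin B, A j χ ^ 2 = h * 2 := by
      rw [h4 j hj hj2]; push_cast; ring
    exact mul_left_cancel₀ (by exact_mod_cast hh.ne') h8
  · intro χ hχ h0
    by_contra hne
    rw [Int.not_odd_iff_even, even_iff_two_dvd] at hne
    have h8 := not_mli_D hM hx hC hind hl hR hχ h0
    apply h8
    have h9 := h1 χ (mem_Bfin.mpr hχ) 1 odd_one
    simp only [pow_one, one_mul] at h9
    rw [h9]
    have h10 := Cyc.sum_coeff_parity (A := fun l => A l χ) ht.1 hh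
      (fun j hj hj2 => h6 χ (mem_Bfin.mpr hχ) j hj hj2) (h7 χ (mem_Bfin.mpr hχ))
    have h11 : (2 : ℤ) ∣ ∑ l ∈ Finset.range h, A l χ := by
      have := dvd_add h10 hne
      rwa [sub_add_cancel] at this
    have h12 : MemLocalIdeal M ((∑ l ∈ Finset.range h, A l χ : ℤ) : ℂ) :=
      (mli_intCast_iff hM _).mpr h11
    have h13 : ∑ l ∈ Finset.range h, (A l χ : ℂ) * ζ ^ l = ∑ l ∈ Finset.range h,
        (A l χ : ℂ) * (ζ ^ l - 1) + ((∑ l ∈ Finset.range h, A l χ : ℤ) : ℂ) := by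
      push_cast
      rw [← Finset.sum_add_distrib]
      exact Finset.sum_congr rfl fun l _ => by ring
    rw [h13]
    refine mli_add (mli_sum _ _ fun l _ => mli_mul_left (mlr_intCast _) ?_) h12
    obtain ⟨m, hm⟩ := hhp
    refine mli_sub_one_of_pow_eq_one hM (n := m + 1) ?_
    rw [← pow_mul, mul_comm, pow_mul, show 2 ^ (m + 1) = 2 * h by rw [hm]; ring, hζ.pow_eq_one,
      one_pow]

end Cfsg.Agent.H10.Col
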