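import Mathlib
import Cfsg.Agent.H10.Cyc

/-!
# `2`-groups with a cyclic maximal subgroup inverted up to the centre (owner: helper10)
-/

set_option autoImplicit false
set_option linter.unusedSectionVars false

namespace Cfsg.Agent.H10

variable {G : Type*} [Group G]

/-- `D = ⟨x, y⟩` of order `4h`, `x` of order `2h`, `y x y⁻¹ = x^t`. -/
structure MC (D : Subgroup G) (x y : G) (h t : ℕ) : Prop where
  ht : Cyc.IsT h t
  hp : ∃ m, h = 2 ^ m
  ordx : orderOf x = 2 * h
  hx : x ∈ D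
  hy : y ∈ D
  conj : y * x * y⁻¹ = x ^ t
  hyx : y ∉ Subgroup.zpowers x
  cov : ∀ d ∈ D, ∃ i : ℕ, d = x ^ i ∨ d = x ^ i * y

namespace MC

variable {D : Subgroup G} {x y : G} {h t : ℕ}

theorem pos (H : MC D x y h t) : 0 < h := H.ht.2.1

theorem conj_pow (H : MC D x y h t) (i : ℕ) : y * x ^ i * y⁻¹ = x ^ (t * i) := by
  rw [← _root_.conj_pow, H.conj, ← pow_mul]

theorem pow_eq_pow (H : MC D x y h t) {i j : ℕ} : x ^ i = x ^ j ↔ i ≡ j [MOD 2 * h] := by
  rw [← H.ordx]; exact pow_eq_pow_iff_modEq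

theorem pow_eq_one (H : MC D x y h t) {i : ℕ} : x ^ i = 1 ↔ 2 * h ∣ i := by
  rw [← H.ordx, orderOf_dvd_iff_pow_eq_one]

theorem mem_zp (i : ℕ) : x ^ i ∈ Subgroup.zpowers x := Subgroup.npow_mem_zpowers x i

theorem exists_pow (H : MC D x y h t) {g : G} (hg : g ∈ Subgroup.zpowers x) :
    ∃ i : ℕ, i < 2 * h ∧ g = x ^ i := by
  have hfin : IsOfFinOrder x := by
    rw [← orderOf_pos_iff, H.ordx]
    have := H.pos
    omega
  obtain ⟨n, rfl⟩ := (Submonoid.mem_powers_iff _ _).mp (hfin.mem_powers_iff_mem_zpowers.mpr hg)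
  refine ⟨n % (2 * h), Nat.mod_lt _ (by have := H.pos; omega), ?_⟩
  rw [← H.ordx, pow_mod_orderOf]

/-- `x^i` is fixed by `y` iff `h ∣ i` -/
theorem fixed_iff (H : MC D x y h t) {i : ℕ} : y * x ^ i * y⁻¹ = x ^ i ↔ h ∣ i := by
  rw [H.conj_pow, H.pow_eq_pow]
  obtain ⟨m, hm⟩ := H.hp
  have h2 := H.ht
  obtain ⟨h2', h0, h3⟩ := H.ht
  constructor
  · intro hc
    have h4 := Nat.modEq_iff_dvd.mp hc
    push_cast at h4
    rcases h3 with h3 | ⟨h3, h5⟩
    · have h6 : (t : ℤ) = 2 * h - 1 := by omega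
      rw [h6] at h4
      obtain ⟨c, hc'⟩ := h4
      have : (i : ℤ) = h * (c + i) := by linarith
      exact Int.natCast_dvd_natCast.mp ⟨c + i, this⟩
    · have h6 : (t : ℤ) = h - 1 := by omega
      rw [h6] at h4
      obtain ⟨c, hc'⟩ := h4
      obtain ⟨g, hg⟩ := h3
      -- h = 4 g, (2 - h) i = 2 h c, so (1 - 2g) i = h c
      have h7 : (h : ℤ) = 4 * g := by exact_mod_cast hg
      have h8 : (1 - 2 * (g : ℤ)) * i = h * c := by
        rw [h7] at hc' ⊢
        linarith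
      have h9 : IsCoprime (h : ℤ) (1 - 2 * (g : ℤ)) := by
        have : (h : ℤ) = 2 ^ m := by exact_mod_cast hm
        rw [this]
        refine IsCoprime.pow_left ?_
        exact ⟨g, 1, by ring⟩
      have h10 : (h : ℤ) ∣ (i : ℤ) := h9.dvd_of_dvd_mul_left ⟨c, h8⟩
      exact Int.natCast_dvd_natCast.mp h10
  · rintro ⟨c, rfl⟩
    obtain ⟨k, hk⟩ := H.ht.odd
    apply Nat.ModEq.symm
    rw [Nat.modEq_iff_dvd]
    refine ⟨(k : ℤ) * c, ?_⟩
    push_cast
    have : (t : ℤ) = 2 * k + 1 := by exact_mod_cast hk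
    rw [this]
    ring

theorem z_central (H : MC D x y h t) {d : G} (hd : d ∈ D) : d * x ^ h = x ^ h * d := by
  obtain ⟨i, rfl | rfl⟩ := H.cov d hd
  · rw [← pow_add, ← pow_add, add_comm]
  · have h1 : y * x ^ h * y⁻¹ = x ^ h := H.fixed_iff.mpr dvd_rfl
    have h2 : y * x ^ h = x ^ h * y := by
      calc y * x ^ h = y * x ^ h * y⁻¹ * y := by group
        _ = _ := by rw [h1]
    rw [mul_assoc, h2, ← mul_assoc, ← mul_assoc, ← pow_add, ← pow_add, add_comm]

theorem z_ne (H : MC D x y h t) : x ^ h ≠ 1 := by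
  rw [Ne, H.pow_eq_one]
  intro hc
  have := Nat.le_of_dvd H.pos hc
  have := H.pos
  omega

theorem z_sq (H : MC D x y h t) : x ^ h * x ^ h = 1 := by
  rw [← pow_add, H.pow_eq_one]
  exact ⟨1, by ring⟩

/-- an element of `D` commuting with `x^i`, `h ∤ i`, is a power of `x` -/
theorem mem_of_comm (H : MC D x y h t) {i : ℕ} (hi : ¬ h ∣ i) {d : G} (hd : d ∈ D)
    (hc : d * x ^ i = x ^ i * d) : d ∈ Subgroup.zpowers x := by
  obtain ⟨j, rfl | rfl⟩ := H.cov d hd
  · exact mem_zp j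
  · exfalso
    apply hi
    apply H.fixed_iff.mp
    have h1 : x ^ j * (y * x ^ i) = x ^ j * (x ^ i * y) := by
      rw [← mul_assoc, hc, ← mul_assoc, ← mul_assoc, ← pow_add, ← pow_add, add_comm]
    have h2 := mul_left_cancel h1
    rw [h2]; group

/-- elements of `D` central in `D` have square `1` -/
theorem sq_of_central (H : MC D x y h t) {d : G} (hd : d ∈ D)
    (hc : ∀ g ∈ D, g * d = d * g) : d * d = 1 := by
  obtain ⟨j, rfl | rfl⟩ := H.cov d hd
  · have h1 := H.fixed_iff.mp (show y * x ^ j * y⁻¹ = x ^ j by rw [hc y H.hy]; group)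
    obtain ⟨c, rfl⟩ := h1
    rw [← pow_add, H.pow_eq_one]
    exact ⟨c, by ring⟩
  · exfalso
    have h1 := hc x H.hx
    have h2 : x ^ j * (x * y) = x ^ j * (y * x) := by
      calc x ^ j * (x * y) = x * (x ^ j * y) := by
            rw [← mul_assoc, ← mul_assoc, ← pow_succ, ← pow_succ']
        _ = _ := by rw [h1]; group
    have h3 := mul_left_cancel h2
    have h4 : h ∣ 1 := H.fixed_iff.mp (show y * x ^ 1 * y⁻¹ = x ^ 1 by rw [pow_one, ← h3]; group)
    have h5 := H.ht.1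
    have h6 := Nat.le_of_dvd one_pos h4
    have h7 := H.pos
    omega

theorem zp_le (H : MC D x y h t) : Subgroup.zpowers x ≤ D := by
  rw [Subgroup.zpowers_le]; exact H.hx

/-- `d x^i d⁻¹ ∈ {x^i, x^(t i)}` -/
theorem conj_D (H : MC D x y h t) {d : G} (hd : d ∈ D) (i : ℕ) :
    d * x ^ i * d⁻¹ = x ^ i ∨ d * x ^ i * d⁻¹ = x ^ (t * i) := by
  obtain ⟨j, rfl | rfl⟩ := H.cov d hd
  · left
    rw [← pow_add, add_comm, pow_add, mul_inv_cancel_right]
  · right
    have h1 : x ^ j * y * x ^ i * (x ^ j * y)⁻¹ = x ^ j * (y * x ^ i * y⁻¹) * (x ^ j)⁻¹ := by group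
    rw [h1, H.conj_pow, ← pow_add, add_comm, pow_add, mul_inv_cancel_right]

theorem card [Finite G] (H : MC D x y h t) : Nat.card D = 4 * h := by
  classical
  have h1 : (Subgroup.zpowers x).relIndex D = 2 := by
    have hne : (Subgroup.zpowers x).subgroupOf D ≠ ⊤ := by
      intro hc
      rw [Subgroup.subgroupOf_eq_top] at hc
      exact H.hyx (hc H.hy)
    rw [Subgroup.relIndex, Subgroup.index_eq_two_iff_exists_notMem_and]
    refine ⟨⟨y, H.hy⟩, ?_, ?_⟩
    · rw [Subgroup.mem_subgroupOf]; exact H.hyx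
    · rintro ⟨d, hd⟩
      rw [Subgroup.mem_subgroupOf, Subgroup.mem_subgroupOf]
      obtain ⟨j, rfl | rfl⟩ := H.cov d hd
      · right; exact mem_zp j
      · left
        have h2 : y * y ∈ Subgroup.zpowers x := by
          obtain ⟨k, hk | hk⟩ := H.cov (y * y) (D.mul_mem H.hy H.hy)
          · rw [hk]; exact mem_zp k
          · exfalso
            apply H.hyx
            rw [mul_left_inj] at hk
            rw [hk]; exact mem_zp k
        change x ^ j * y * y ∈ _
        rw [mul_assoc]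
        exact Subgroup.mul_mem _ (mem_zp j) h2
  have h2 := ((Subgroup.zpowers x).subgroupOf D).index_mul_card
  rw [Subgroup.relIndex] at h1
  rw [h1, Nat.card_congr (Subgroup.subgroupOfEquivOfLe H.zp_le).toEquiv, Nat.card_zpowers,
    H.ordx] at h2
  omega

end MC

end Cfsg.Agent.H10
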