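import Cfsg.Agent.H10.CoefConv
import Cfsg.Agent.Star.NilApp
import Cfsg.Agent.BlkInd.FocAct

/-!
# Columns of nilpotent blocks (owner: helper10)
-/

set_option autoImplicit false
set_option linter.style.haveILetI false
set_option linter.unusedSectionVars false

namespace Cfsg.Agent.H10.Col

open scoped ComplexConjugate BigOperators
open Cfsg Cfsg.Agent.CharBase Cfsg.Agent.Blk Cfsg.Agent.BlkF Cfsg.Agent.BlkInd Cfsg.Agent.BlkC
  Cfsg.Agent.Star Cfsg.Agent.H4 MonoidAlgebra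

universe u

variable {G : Type u} [Group G] [Fintype G] {p : ℕ} [hp : Fact p.Prime] {M : Ideal AlgInt}
  [hMp : M.IsPrime] {B : Set (IrrCharacter G)} {P : Subgroup G} {E : MonoidAlgebra (kM M) G}
  {C : Subgroup G} [Fintype C] {e : Set (IrrCharacter C)} {φ : C → ℂ} {d : IrrCharacter C → ℕ}

/-- columns of a nilpotent block -/
theorem D_nilp (hM : IsPModular p M) (hf : InnerF p P E) {u : G} (hu : u ∈ P)
    (hux : ∃ k : ℕ, orderOf u = p ^ k)
    (hC : C = Subgroup.centralizer (Subgroup.zpowers u : Set G)) (he : IsPBlock M e)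
    (hle : MLe p (Subgroup.zpowers u) (EB M C e) P E) (hR : R1 p e φ d)
    {χ₀ ψ : IrrCharacter G} {ζ : IrrCharacter P}
    (h : wstar p (wt p P E (xt P (ζ : P → ℂ))) (χ₀ : G → ℂ) = (ψ : G → ℂ)) :
    D u e d (ψ : G → ℂ) = (ζ : P → ℂ) ⟨u, hu⟩ * D u e d (χ₀ : G → ℂ) := by
  subst hC
  rw [D_eq hR, D_eq hR, ← h, dpart_wstar hM (irr_isClassFunction χ₀) hux he,
    wt_of_mle (stableF_xt hM hf (irr_isClassFunction ζ)) hle]
  have h1 : xt P (ζ : P → ℂ) u = (ζ : P → ℂ) ⟨u, hu⟩ := xt_coe (ζ : P → ℂ) ⟨u, hu⟩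
  rw [h1, Pi.smul_apply, smul_eq_mul, mul_div_assoc]

/-- sum over the block through the parametrization -/
theorem sum_Psi [Fintype (IrrCharacter P)] {Ψ : IrrCharacter P → IrrCharacter G}
    (h1 : ∀ ζ, Ψ ζ ∈ B)
    (h2 : Function.Injective Ψ) (h3 : ∀ ψ ∈ B, ∃ ζ, Ψ ζ = ψ) {β : Type*} [AddCommMonoid β]
    (F : IrrCharacter G → β) : ∑ χ ∈ Bfin B, F χ = ∑ ζ : IrrCharacter P, F (Ψ ζ) := by
  symm
  refine Finset.sum_bij (fun ζ _ => Ψ ζ) (fun ζ _ => mem_Bfin.mpr (h1 ζ))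
    (fun ζ _ ζ' _ h => h2 h) (fun ψ hψ => ?_) (fun ζ _ => rfl)
  obtain ⟨ζ, hζ⟩ := h3 ψ (mem_Bfin.mp hψ)
  exact ⟨ζ, Finset.mem_univ _, hζ⟩

/-- the absolute value of the entries at the base character -/
theorem norm_base (hM : IsPModular p M) (hB : IsPBlock M B) (he : MMax p P E)
    (hb : MPairOf p (eB M B) P E) (hn : MNilp p (eB M B)) (hf : InnerF p P E) {u : G} (hu : u ∈ P)
    (hux : ∃ k : ℕ, orderOf u = p ^ k)
    (hC : C = Subgroup.centralizer (Subgroup.zpowers u : Set G)) (hind : IsInducedBlock M C e B)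
    (hl : blockRank p e = 1)
    (hle : MLe p (Subgroup.zpowers u) (EB M C e) P E) (hR : R1 p e φ d)
    {χ₀ : IrrCharacter G} {Ψ : IrrCharacter P → IrrCharacter G} (h1 : ∀ ζ, Ψ ζ ∈ B)
    (h : ∀ ζ : IrrCharacter P,
      wstar p (wt p P E (xt P (ζ : P → ℂ))) (χ₀ : G → ℂ) = (Ψ ζ : G → ℂ))
    (h2 : Function.Injective Ψ) (h3 : ∀ ψ ∈ B, ∃ ζ, Ψ ζ = ψ) :
    D u e d (χ₀ : G → ℂ) * conj (D u e d (χ₀ : G → ℂ)) = 1 := by
  haveI := charP_kM hM
  haveI := Fintype.ofFinite (IrrCharacter P)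
  haveI := Fintype.ofFinite P
  have hC1 : C = Subgroup.centralizer ({u} : Set G) := cent_eq hC
  have h4 := norm_D hM hux hC1 hind hl hR
  rw [sum_Psi h1 h2 h3] at h4
  have h5 : ∀ ζ : IrrCharacter P, D u e d (Ψ ζ : G → ℂ) * conj (D u e d (Ψ ζ : G → ℂ)) =
      (ζ : P → ℂ) ⟨u, hu⟩ * conj ((ζ : P → ℂ) ⟨u, hu⟩) *
        (D u e d (χ₀ : G → ℂ) * conj (D u e d (χ₀ : G → ℂ))) := by
    intro ζ
    rw [D_nilp hM hf hu hux hC hind.1 hle hR (h ζ), map_mul]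
    ring
  rw [Finset.sum_congr rfl fun ζ _ => h5 ζ, ← Finset.sum_mul,
    column_orthogonality_of_isConj (IsConj.refl _), card_centralizer_sub] at h4
  have h6 := isDef_of_mnilp he hb (fun K f hf => splitBlk hf) hn hle
  have h6' : IsDef p C (EB M C e) (P ⊓ Subgroup.centralizer (Subgroup.zpowers u : Set G)) := by
    convert h6
  have h7 : Nat.card (P ⊓ Subgroup.centralizer (Subgroup.zpowers u : Set G) : Subgroup G) =
      p ^ blockDefect p e := card_of_isDef hM hind.1 h6'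
  rw [show ((⟨u, hu⟩ : P) : G) = u from rfl, h7] at h4
  have h8 : ((p ^ blockDefect p e : ℕ) : ℂ) ≠ 0 := by
    push_cast; exact pne e
  exact mul_left_cancel₀ h8 (by rw [h4, mul_one])

end Cfsg.Agent.H10.Col
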