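import Cfsg.Agent.H30.Schmidt
import Cfsg.Agent.H49.Core
import Cfsg.Agent.Transfer.Frobenius
import Cfsg.Agent.Hall.Basic

set_option autoImplicit false

/-! Wielandt: nilpotent Hall subgroups dominate. -/

namespace Cfsg.Agent.H10

open Subgroup Pointwise

theorem isNilpotent_of_le {G : Type*} [Group G] {M H : Subgroup G} (h : M ≤ H)
    (hH : Group.IsNilpotent H) : Group.IsNilpotent M :=
  Group.nilpotent_of_mulEquiv (Subgroup.subgroupOfEquivOfLe h)

theorem index_conj_smul {G : Type*} [Group G] (g : G) (A : Subgroup G) :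
    (MulAut.conj g • A).index = A.index := by
  have : (MulAut.conj g • A) = A.map (MulAut.conj g).toMonoidHom := rfl
  rw [this, Subgroup.index_map_of_bijective (MulAut.conj g).bijective]

theorem nilp_hall_step {G : Type*} [Group G] [Finite G] {p : ℕ} [hp : Fact p.Prime]
    (H : Subgroup G) (hH : Group.IsNilpotent H) (hHall : (Nat.card H).Coprime H.index)
    (hpH : p ∣ Nat.card H) (K M P : Subgroup G) (hMH : M ≤ H)
    (hKM : K ≤ normalizer (M : Set G)) (hMK : M ≤ K) (hP : IsPGroup p P) (hPK : P ≤ K) (hKP : K ≤ M ⊔ P)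
    (hPs : ∀ Q : Subgroup G, Q ≤ K → K ≤ normalizer (Q : Set G) → IsPGroup p Q → Q ≤ P) :
    ∃ x : G, K ≤ MulAut.conj x • H := by
  have hM : Group.IsNilpotent M := isNilpotent_of_le hMH hH
  set A := (Cfsg.pResidual p M).map M.subtype with hA
  have hAcl := Cfsg.Agent.Transfer.pResidual_map_subtype (p := p) M
  have hAM : A ≤ M := by rw [hA]; exact Subgroup.map_subtype_le _
  have hKA : K ≤ normalizer (A : Set G) :=
    hKM.trans (Cfsg.Agent.H49.normalizer_le_normalizer_map_of_char M _)
  obtain ⟨S, hS⟩ := Cfsg.Agent.Transfer.exists_sylow_of_hall hHall hpH (default : Sylow p H)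
  have hSH : (S : Subgroup G) ≤ H := by rw [hS]; exact Subgroup.map_subtype_le _
  have hSA : (S : Subgroup G) ≤ centralizer (A : Set G) := by
    rw [Subgroup.le_centralizer_iff, hA, hAcl, closure_le]
    rintro x ⟨hxM, hx⟩
    rw [SetLike.mem_coe, mem_centralizer_iff]
    intro s hs
    obtain ⟨k, hk⟩ := S.2 ⟨s, hs⟩
    have hk' : s ^ p ^ k = 1 := congrArg Subtype.val hk
    have h1 := Cfsg.Agent.Transfer.commute_of_isNilpotent (p := p) hH
      (x := ⟨s, hSH hs⟩) (y := ⟨x, hMH hxM⟩) (k := k) (Subtype.ext hk')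
      (by rwa [Subgroup.orderOf_mk])
    exact congrArg Subtype.val h1
  set N := normalizer (A : Set G) with hN
  have hSN : (S : Subgroup G) ≤ N := hSA.trans (Cfsg.Agent.H49.centralizer_le_normalizer' A)
  have hPN : P ≤ N := hPK.trans hKA
  have hPp : IsPGroup p (P.subgroupOf N) := hP.comap_subtype
  obtain ⟨T, hT⟩ := hPp.exists_le_sylow
  obtain ⟨n, hn⟩ := MulAction.exists_smul_eq N T (S.subtype hSN)
  have hnP : MulAut.conj (n : G) • P ≤ (S : Subgroup G) := by
    rintro _ ⟨y, hy, rfl⟩
    have h1 : (⟨y, hPN hy⟩ : N) ∈ (T : Subgroup N) := hT hy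
    have h2 : n * ⟨y, hPN hy⟩ * n⁻¹ ∈ ((n • T : Sylow p N) : Subgroup N) := ⟨_, h1, rfl⟩
    rw [hn] at h2
    exact h2
  have hnA : MulAut.conj (n : G) • A = A := by
    have h1 : (n : G) ∈ normalizer (A : Set G) := n.2
    exact mem_normalizer_iff_map_conj_eq.mp h1
  -- M ≤ A ⊔ P
  have hMAP : M ≤ A ⊔ P := by
    intro m hm
    obtain ⟨a, b, hab, ⟨k, hk⟩, hb⟩ := Cfsg.Agent.Transfer.exists_pow_decomp p m (orderOf_pos m).ne'
    rw [hab]
    apply mul_mem
    · apply mem_sup_right
      have hQ : (Cfsg.pCore p M).map M.subtype ≤ P := by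
        apply hPs _ ((Subgroup.map_subtype_le _).trans hMK)
          (hKM.trans (Cfsg.Agent.H49.normalizer_le_normalizer_pCoreOf p M))
          (Cfsg.Agent.H49.isPGroup_pCoreOf p M)
      apply hQ
      refine ⟨⟨m ^ a, pow_mem hm a⟩, ?_, rfl⟩
      have h1 : IsPGroup p (zpowers (⟨m ^ a, pow_mem hm a⟩ : M)) := by
        apply IsPGroup.of_card (n := k)
        rw [Nat.card_zpowers, Subgroup.orderOf_mk, hk]
      obtain ⟨R, hR⟩ := h1.exists_le_sylow
      have htfae := (Group.isNilpotent_of_finite_tfae (G := M)).out 0 3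
      have hRn : (R : Subgroup M).Normal := htfae.mp hM p hp R
      exact Cfsg.Agent.H49.le_pCore hRn R.2 (hR (mem_zpowers _))
    · apply mem_sup_left
      rw [hA, hAcl]
      exact subset_closure ⟨pow_mem hm b, hb⟩
  have hKAP : K ≤ A ⊔ P := hKP.trans (sup_le hMAP le_sup_right)
  have hfin : MulAut.conj (n : G) • K ≤ H := by
    refine (Cfsg.Agent.Hall.conj_smul_mono hKAP).trans ?_
    rw [Cfsg.Agent.Hall.conj_smul_sup, hnA]
    exact sup_le (hAM.trans hMH) (hnP.trans hSH)
  refine ⟨(n : G)⁻¹, ?_⟩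
  have h5 := Cfsg.Agent.Hall.conj_smul_mono (g := (n : G)⁻¹) hfin
  rw [smul_smul, ← map_mul, inv_mul_cancel, map_one, one_smul] at h5
  exact h5

theorem nilp_hall_dominates {G : Type*} [Group G] [Finite G] (H : Subgroup G)
    (hH : Group.IsNilpotent H) (hHall : (Nat.card H).Coprime H.index) (n : ℕ) :
    ∀ K : Subgroup G, Nat.card K = n → (∀ p : ℕ, p.Prime → p ∣ Nat.card K → p ∣ Nat.card H) →
    ∃ x : G, K ≤ MulAut.conj x • H := by
  induction n using Nat.strong_induction_on with
  | _ n ih =>
    intro K hKn hK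
    have hind : ∀ L : Subgroup G, L < K → ∃ x : G, L ≤ MulAut.conj x • H := by
      intro L hL
      apply ih (Nat.card L) _ L rfl
      · intro p hp hpL
        exact hK p hp (hpL.trans (Subgroup.card_dvd_of_le hL.le))
      · rw [← hKn]
        rcases (Subgroup.card_le_of_le hL.le).lt_or_eq with h | h
        · exact h
        · exact absurd (Subgroup.eq_of_le_of_card_ge hL.le h.ge) hL.ne
    have hnilH : ∀ x : G, Group.IsNilpotent (MulAut.conj x • H : Subgroup G) := fun x =>
      Group.nilpotent_of_mulEquiv (Subgroup.equivSMul (MulAut.conj x) H)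
    by_cases hKb : K = ⊥
    · exact ⟨1, by rw [hKb]; exact bot_le⟩
    have hsolv : Group.IsSolvable K := by
      apply Cfsg.Agent.H30.isSolvable_of_coatoms_nilpotent
      intro M hM
      have hlt : M.map K.subtype < K := by
        have h1 : M.map K.subtype < (⊤ : Subgroup K).map K.subtype :=
          (Subgroup.map_lt_map_iff_of_injective K.subtype_injective).mpr hM.lt_top
        rwa [← MonoidHom.range_eq_map, Subgroup.range_subtype] at h1
      obtain ⟨x, hx⟩ := hind _ hlt
      have h2 := isNilpotent_of_le hx (hnilH x)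
      exact Group.nilpotent_of_mulEquiv (M.equivMapOfInjective K.subtype K.subtype_injective).symm
    have hKt : Nontrivial K := (Subgroup.nontrivial_iff_ne_bot K).mpr hKb
    have hcomm : commutator K ≠ ⊤ := (Group.IsSolvable.commutator_lt_top_of_nontrivial K).ne
    obtain ⟨M, hM, hMc⟩ := (eq_top_or_exists_le_coatom (commutator K)).resolve_left hcomm
    have hMn : M.Normal := Subgroup.Normal.of_commutator_le _ hMc
    have hMidx : M.index ≠ 1 := by
      rw [Ne, Subgroup.index_eq_one]
      exact hM.1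
    obtain ⟨p, hp, hpM⟩ := Nat.exists_prime_and_dvd hMidx
    have hpf : Fact p.Prime := ⟨hp⟩
    let P : Sylow p K := default
    have hPM : ¬ (P : Subgroup K) ≤ M := by
      intro h
      have h1 := Subgroup.index_dvd_of_le h
      exact P.not_dvd_index (hpM.trans h1)
    have hMP : M ⊔ (P : Subgroup K) = ⊤ := hM.2 _ (by
      refine lt_of_le_of_ne le_sup_left ?_
      intro h2
      exact hPM (h2 ▸ le_sup_right))
    have hpK : p ∣ Nat.card K := hpM.trans (Subgroup.index_dvd_card M)
    have hpH := hK p hp hpK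
    have hlt : M.map K.subtype < K := by
      have h1 : M.map K.subtype < (⊤ : Subgroup K).map K.subtype :=
        (Subgroup.map_lt_map_iff_of_injective K.subtype_injective).mpr hM.lt_top
      rwa [← MonoidHom.range_eq_map, Subgroup.range_subtype] at h1
    obtain ⟨x, hx⟩ := hind _ hlt
    have hcardH : Nat.card (MulAut.conj x • H : Subgroup G) = Nat.card H :=
      Cfsg.Agent.Hall.card_conj_smul x H
    obtain ⟨y, hy⟩ := nilp_hall_step (p := p) (MulAut.conj x • H) (hnilH x)
      (by rw [hcardH, index_conj_smul]; exact hHall) (by rw [hcardH]; exact hpH) K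
      (M.map K.subtype) ((P : Subgroup K).map K.subtype) hx
      (by
        intro k hk
        have h1 : M.map (MulAut.conj (⟨k, hk⟩ : K)).toMonoidHom = M :=
          Subgroup.mem_normalizer_iff_map_conj_eq.mp (by rw [Subgroup.normalizer_eq_top_iff.mpr hMn]; trivial)
        rw [Subgroup.mem_normalizer_iff_map_conj_eq]
        conv_rhs => rw [← h1]
        rw [Subgroup.map_map, Subgroup.map_map]
        rfl)
      hlt.le (P.2.map _) (Subgroup.map_subtype_le _)
      (by
        rw [← Subgroup.map_sup, hMP, ← MonoidHom.range_eq_map, Subgroup.range_subtype])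
      (by
        intro Q hQK hKQ hQp z hz
        have h1 := Cfsg.Agent.H49.mem_pCore_of_mem hQK hKQ hQp hz
        exact ⟨_, Cfsg.Agent.H49.pCore_le_sylow P h1, rfl⟩)
    rw [smul_smul, ← map_mul] at hy
    exact ⟨_, hy⟩

end Cfsg.Agent.H10
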