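import Cfsg.Agent.H10.NilpCol
import Cfsg.Agent.H10.MCDih
import Cfsg.Agent.H10.MCNum

/-!
# Sums of characters of a nilpotent block over involutions (owner: helper10)
-/

set_option autoImplicit false
set_option linter.style.haveILetI false
set_option linter.unusedSectionVars false

namespace Cfsg.Agent.H10.Col

open scoped ComplexConjugate BigOperators
open Cfsg Cfsg.Agent.CharBase Cfsg.Agent.Blk Cfsg.Agent.BlkF Cfsg.Agent.BlkInd Cfsg.Agent.BlkC
  Cfsg.Agent.Star Cfsg.Agent.H4 MonoidAlgebra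

universe u

variable {G : Type u} [Group G] [Fintype G] {p : ℕ} [hp : Fact p.Prime] {M : Ideal AlgInt}
  [hMp : M.IsPrime] {B : Set (IrrCharacter G)} {P : Subgroup G} {E : MonoidAlgebra (kM M) G}

/-- the weight of a stable function through orbit weights -/
theorem wt_eq_sum (hM : IsPModular p M) (he : MMax p P E) (hf : InnerF p P E) {S : Finset G}
    {F : G → MonoidAlgebra (kM M) G} {Q : G → Prop} (hQ : ∀ g k, Q g → Q (k * g * k⁻¹))
    (hle : ∀ u ∈ S, MLe p (Subgroup.zpowers u) (F u) P E)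
    (hne : ∀ u ∈ S, ∀ v ∈ S, ∀ w ∈ P, v = w * u * w⁻¹ → u = v)
    (hrep : ∀ u ∈ P, Q u → ∃ w ∈ P, w * u * w⁻¹ ∈ S) {η : G → ℂ} (hst : StableF p P E η)
    {g : G} (hg : Q g) (f : MonoidAlgebra (kM M) G) :
    wt p P E η g f = ∑ u ∈ S, η u * wOrb u (F u) g f := by
  classical
  haveI := charP_kM hM
  by_cases hex : ∃ k : G, MLe p (Subgroup.zpowers (k * g * k⁻¹)) (cj k f) P E
  · obtain ⟨k, hk⟩ := hex
    have hu' : k * g * k⁻¹ ∈ P := hk.le (Subgroup.mem_zpowers _)
    obtain ⟨w, hw, hwS⟩ := hrep _ hu' (hQ _ _ hg)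
    set u := w * (k * g * k⁻¹) * w⁻¹ with hudef
    have hku : (w * k) * g * (w * k)⁻¹ = u := by rw [hudef]; group
    have h1 : MLe p (Subgroup.zpowers u) (cj (w * k) f) P E := by
      have h2 := mle_cj_of_mem he.1 hk hw
      rw [cj_cj] at h2
      have h3 : cjS w (Subgroup.zpowers (k * g * k⁻¹)) = Subgroup.zpowers u :=
        MonoidHom.map_zpowers (MulAut.conj w).toMonoidHom _
      rwa [h3] at h2
    have h2 : cj (w * k) f = F u := MLe.unique he.1 _ _ _ h1 (hle u hwS)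
    rw [wt_eq hst (g := w * k) (by rw [hku]; exact h1), hku,
      Finset.sum_eq_single_of_mem u hwS]
    · have h3 : wOrb u (F u) g f = 1 := by
        unfold wOrb
        rw [if_pos]
        refine ⟨(w * k)⁻¹, ?_, ?_⟩
        · rw [← hku]; group
        · rw [← h2, cj_cj, inv_mul_cancel, cj_one_left]
      rw [h3, mul_one]
    · intro v hv hvu
      have h3 : wOrb v (F v) g f = 0 := by
        unfold wOrb
        rw [if_neg]
        rintro ⟨k', hk1, hk2⟩
        apply hvu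
        have h4 : u = (w * k * k') * v * (w * k * k')⁻¹ := by
          rw [← hku, hk1]; group
        obtain ⟨c, hc, hc2⟩ := hf v (w * k * k') (F v) (hle v hv) (by
          rw [← h4, ← cj_cj, ← hk2]; exact h1)
        rw [← h4] at hc2
        exact hne v hv u hwS c hc hc2
      rw [h3, mul_zero]
  · rw [wt_of_not hex]
    symm
    refine Finset.sum_eq_zero fun u hu => ?_
    have h3 : wOrb u (F u) g f = 0 := by
      unfold wOrb
      rw [if_neg]
      rintro ⟨k, hk1, hk2⟩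
      apply hex
      refine ⟨k⁻¹, ?_⟩
      have h4 : k⁻¹ * g * k⁻¹⁻¹ = u := by rw [hk1]; group
      rw [h4, hk2, cj_cj, inv_mul_cancel, cj_one_left]
      exact hle u hu
    rw [h3, mul_zero]

theorem wstar_at (χ : G → ℂ) {w w' : G → MonoidAlgebra (kM M) G → ℂ} {g : G}
    (hg : ∃ k : ℕ, orderOf g = p ^ k) (h : ∀ f, w g f = w' g f) :
    wstar p w χ g = wstar p w' χ g := by
  have h1 : pp p g = g := by
    have h2 := pp_mul (p := p) hg (s := 1) one_reg (by simp)
    rwa [mul_one] at h2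
  unfold wstar
  rw [h1]
  exact Finset.sum_congr rfl fun f _ => by rw [h f]

theorem wstar_lin (χ : G → ℂ) {ι : Type*} (S : Finset ι) (c : ι → ℂ)
    (w : ι → G → MonoidAlgebra (kM M) G → ℂ) (g : G) :
    wstar p (fun v f => ∑ i ∈ S, c i * w i v f) χ g = ∑ i ∈ S, c i * wstar p (w i) χ g := by
  unfold wstar
  simp only [Finset.sum_mul, Finset.mul_sum]
  rw [Finset.sum_comm]
  refine Finset.sum_congr rfl fun i _ => Finset.sum_congr rfl fun f _ => by ring

/-- sums over involutions -/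
theorem sum_inv_eq (hM : IsPModular p M) (he : MMax p P E) (hf : InnerF p P E) {S : Finset G}
    {F : G → MonoidAlgebra (kM M) G} {Q : G → Prop} (hQ : ∀ g k, Q g → Q (k * g * k⁻¹))
    (hQp : ∀ g, Q g → ∃ k : ℕ, orderOf g = p ^ k)
    (hle : ∀ u ∈ S, MLe p (Subgroup.zpowers u) (F u) P E)
    (hne : ∀ u ∈ S, ∀ v ∈ S, ∀ w ∈ P, v = w * u * w⁻¹ → u = v)
    (hrep : ∀ u ∈ P, Q u → ∃ w ∈ P, w * u * w⁻¹ ∈ S) {η : G → ℂ} (hst : StableF p P E η)
    {K : G → ℂ} (hK : ∀ g, K g ≠ 0 → Q g) {χ ψ : G → ℂ} (h : wstar p (wt p P E η) χ = ψ) :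
    ∑ g : G, K g * ψ g = ∑ u ∈ S, η u * ∑ g : G, K g * wstar p (wOrb u (F u)) χ g := by
  have h1 : ∀ g : G, K g * ψ g = ∑ u ∈ S, η u * (K g * wstar p (wOrb u (F u)) χ g) := by
    intro g
    by_cases hg : K g = 0
    · simp [hg]
    · rw [← h, wstar_at χ (hQp g (hK g hg))
        (w' := fun v f => ∑ u ∈ S, η u * wOrb u (F u) v f)
        (fun f => wt_eq_sum hM he hf hQ hle hne hrep hst (hK g hg) f),
        wstar_lin, Finset.mul_sum]
      exact Finset.sum_congr rfl fun u _ => by ring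
  rw [Finset.sum_congr rfl fun g _ => h1 g, Finset.sum_comm]
  exact Finset.sum_congr rfl fun u _ => (Finset.mul_sum _ _ _).symm

theorem phi_int {C : Subgroup G} [Fintype C] {e : Set (IrrCharacter C)} {φ : C → ℂ}
    {d : IrrCharacter C → ℕ} (hR : R1 p e φ d) : ∃ m : ℤ, φ 1 = (m : ℂ) := by
  obtain ⟨n, hn⟩ := hR.comb
  refine ⟨∑ η ∈ Bfin e, n η * (charDegree (η : C → ℂ) : ℤ), ?_⟩
  push_cast
  have h1 : ∀ η ∈ Bfin e, (n η : ℂ) * (charDegree (η : C → ℂ) : ℂ) = (n η * d η : ℤ) * φ 1 := by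
    intro η hη
    have h2 := hR.eq η (mem_Bfin.mp hη) 1 one_reg
    rw [charDegree_spec] at h2
    rw [h2]; push_cast; ring
  rw [Finset.sum_congr rfl h1, ← Finset.sum_mul, ← Int.cast_sum, hn]
  simp

/-- the constants `c_u` are nonzero rational numbers -/
theorem sum_wOrb_rat {M : Ideal AlgInt} [hMp : M.IsPrime] {B : Set (IrrCharacter G)}
    (hM : IsPModular 2 M) {u : G} {C : Subgroup G} [Fintype C]
    {e : Set (IrrCharacter C)} {φ : C → ℂ} {d : IrrCharacter C → ℕ}
    (hC : C = Subgroup.centralizer (Subgroup.zpowers u : Set G)) (hu : orderOf u = 2)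
    (hind : IsInducedBlock M C e B) (hl : blockRank 2 e = 1) (hR : R1 2 e φ d)
    {K : G → ℂ} (hKu : K u = 1) (hKc : IsClassFunction G K)
    (hK2 : ∀ g, K g ≠ 0 → orderOf g = 2) {χ : IrrCharacter G} (hχ : χ ∈ B)
    (h0 : blockHeight 2 B (χ : G → ℂ) = 0) :
    ∃ q : ℚ, q ≠ 0 ∧ ∑ g : G, K g * wstar 2 (wOrb u (EB M C e)) (χ : G → ℂ) g = (q : ℂ) := by
  classical
  have hux : ∃ k : ℕ, orderOf u = 2 ^ k := ⟨1, by rw [hu]; norm_num⟩
  have hC1 : C = Subgroup.centralizer ({u} : Set G) := cent_eq hC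
  obtain ⟨a, ha⟩ := D_int hu hC1 e d χ
  have ha0 : a ≠ 0 := by
    intro h
    apply D_ne_zero hM hux hC hind hl hR hχ h0
    rw [ha, h]; simp
  obtain ⟨m, hm⟩ := phi_int hR
  have hm0 : m ≠ 0 := by
    intro h
    apply hR.ne
    rw [hm, h]; simp
  set W : G → ℂ := wstar 2 (wOrb u (EB M C e)) (χ : G → ℂ) with hW
  have hWc : IsClassFunction G W :=
    wstar_classFn (p := 2) (fun u' v f => wOrb_inv u (EB M C e) u' v f) (irr_isClassFunction χ)
  have hWu : W u = (a * m : ℤ) := by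
    rw [hW, wOrb_one_eq hC hux hind.1 (irr_isClassFunction χ), dpart_eq_D hR u _ one_reg, ha, hm]
    push_cast; ring
  have hterm : ∀ g : G, K g * W g = if IsConj u g then ((a * m : ℤ) : ℂ) else 0 := by
    intro g
    by_cases hc : IsConj u g
    · rw [if_pos hc]
      obtain ⟨k, rfl⟩ := isConj_iff.mp hc
      rw [hKc, hWc, hKu, hWu, one_mul]
    · rw [if_neg hc]
      by_cases hg : K g = 0
      · rw [hg, zero_mul]
      · have h1 : ∃ k : ℕ, orderOf g = 2 ^ k := ⟨1, by rw [hK2 g hg]; norm_num⟩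
        have h2 : W g = 0 := by
          rw [hW, wstar_at _ h1 (w' := fun _ _ => 0) (fun f => wOrb_of_not_isConj hc _ _),
            wstar_zero _ (fun _ _ => rfl)]
          rfl
        rw [h2, mul_zero]
  rw [Finset.sum_congr rfl fun g _ => hterm g, ← Finset.sum_filter, Finset.sum_const, nsmul_eq_mul]
  have hpos : 0 < (Finset.univ.filter (fun g : G => IsConj u g)).card :=
    Finset.card_pos.mpr ⟨u, Finset.mem_filter.mpr ⟨Finset.mem_univ _, IsConj.refl _⟩⟩
  refine ⟨((Finset.univ.filter (fun g : G => IsConj u g)).card : ℚ) * ((a * m : ℤ) : ℚ), ?_, ?_⟩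
  · apply mul_ne_zero
    · exact_mod_cast hpos.ne'
    · exact_mod_cast mul_ne_zero ha0 hm0
  · push_cast; ring

end Cfsg.Agent.H10.Col
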