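import Mathlib

set_option autoImplicit false

namespace Cfsg.Agent.H10.No22

open MulAction Subgroup

variable {G Ω : Type*} [Group G] [Fintype Ω] [MulAction G Ω]

/-- an element of order `r` commuting with a fixed point free `11`-subgroup, degree `22` -/
theorem comm_false [FaithfulSMul G Ω] (h22 : Fintype.card Ω = 22) (R : Subgroup G)
    (hR : IsPGroup 11 R) (hfix : ∀ a : Ω, ∃ y ∈ R, y • a ≠ a) (r : ℕ) [Fact r.Prime]
    (hr : r = 3 ∨ r = 7) (x : G) (hx : orderOf x = r) (hc : ∀ y ∈ R, x * y = y * x) : False := by
  classical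
  have f11 : Fact (Nat.Prime 11) := ⟨by norm_num⟩
  -- the fixed points of `x` as a sub-action of `R`
  let F : SubMulAction R Ω :=
    { carrier := {a : Ω | x • a = a}
      smul_mem' := by
        intro y a ha
        change x • ((y : G) • a) = (y : G) • a
        rw [smul_smul, hc y y.2, ← smul_smul]
        congr 1 }
  have h1 : Nat.card F ≡ Nat.card (fixedPoints R F) [MOD 11] := hR.card_modEq_card_fixedPoints F
  have h2 : Nat.card (fixedPoints R F) = 0 := by
    rw [Nat.card_eq_zero]
    left
    refine ⟨fun a => ?_⟩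
    obtain ⟨y, hy, hya⟩ := hfix ((a : F) : Ω)
    apply hya
    have := a.2 ⟨y, hy⟩
    exact congrArg Subtype.val this
  rw [h2] at h1
  have h3 : IsPGroup r (zpowers x) := IsPGroup.of_card (n := 1) (by rw [Nat.card_zpowers, hx, pow_one])
  have h4 : Nat.card Ω ≡ Nat.card (fixedPoints (zpowers x) Ω) [MOD r] :=
    h3.card_modEq_card_fixedPoints Ω
  have h5 : Nat.card (fixedPoints (zpowers x) Ω) = Nat.card F := by
    apply Nat.card_congr
    refine Equiv.subtypeEquivRight (fun a => ?_)
    change (∀ m : zpowers x, m • a = a) ↔ x • a = a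
    constructor
    · intro h
      exact h ⟨x, mem_zpowers x⟩
    · rintro h ⟨m, hm⟩
      change m • a = a
      have hst : x ∈ stabilizer G a := h
      have : m ∈ stabilizer G a := (zpowers_le.2 hst) hm
      exact this
  rw [h5, Nat.card_eq_fintype_card, h22] at h4
  have h6 : Nat.card F ≤ 22 := by
    rw [← h22, ← Nat.card_eq_fintype_card]
    exact Nat.card_le_card_of_injective (fun a : F => (a : Ω)) Subtype.val_injective
  have h7 : Nat.card F = 22 := by
    unfold Nat.ModEq at h1 h4
    rcases hr with rfl | rfl <;> omega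
  have h8 : ∀ a : Ω, x • a = a := by
    have hb : Function.Bijective (fun a : F => (a : Ω)) := by
      rw [Nat.bijective_iff_injective_and_card]
      exact ⟨Subtype.val_injective, by rw [h7, Nat.card_eq_fintype_card, h22]⟩
    intro a
    obtain ⟨b, rfl⟩ := hb.2 a
    exact b.2
  have h9 : x = 1 := FaithfulSMul.eq_of_smul_eq_smul (α := Ω) (fun a => by rw [h8, one_smul])
  rw [h9, orderOf_one] at hx
  rcases hr with h | h <;> omega

theorem no22 {G Ω : Type*} [Group G] [Finite G] [Fintype Ω] [MulAction G Ω] [FaithfulSMul G Ω]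
    (h2 : MulAction.IsMultiplyPretransitive G Ω 2) (h22 : Fintype.card Ω = 22)
    (hG : Nat.card G = 3696 ∨ Nat.card G = 7392) : False := by
  classical
  have f11 : Fact (Nat.Prime 11) := ⟨by norm_num⟩
  have htr : IsPretransitive G Ω := by
    have := h2
    exact isPretransitive_of_is_two_pretransitive
  have hprim : IsPreprimitive G Ω := isPreprimitive_of_is_two_pretransitive h2
  have hΩ : Nat.card Ω = 22 := by rw [Nat.card_eq_fintype_card, h22]
  have R : Sylow 11 G := default
  obtain ⟨k, hk⟩ := IsPGroup.iff_card.1 R.isPGroup'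
  have hmul := (R : Subgroup G).card_mul_index
  have hnd : ¬ 11 ∣ (R : Subgroup G).index := R.not_dvd_index
  have hR11 : Nat.card R = 11 := by
    rw [hk] at hmul ⊢
    rcases k with _ | _ | k
    · exfalso
      apply hnd
      rw [pow_zero, one_mul] at hmul
      rw [hmul]
      rcases hG with h | h <;> rw [h] <;> norm_num
    · norm_num
    · exfalso
      have : 121 ∣ Nat.card G := by
        rw [← hmul]
        exact Dvd.dvd.mul_right ⟨11 ^ k, by ring⟩ _
      rcases hG with h | h <;> rw [h] at this <;> norm_num at this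
  have hfix : ∀ a : Ω, ∃ y ∈ (R : Subgroup G), y • a ≠ a := by
    intro a
    by_contra hno
    push Not at hno
    have hle : (R : Subgroup G) ≤ stabilizer G a := hno
    have hd := card_dvd_of_le hle
    have hi := (stabilizer G a).card_mul_index
    rw [index_stabilizer_of_transitive, hΩ] at hi
    rw [hR11] at hd
    obtain ⟨c, hc⟩ := hd
    rw [hc] at hi
    rcases hG with h | h <;> rw [h] at hi <;> omega
  set N := normalizer ((R : Subgroup G) : Set G) with hN
  have hcyc : IsCyclic R := isCyclic_of_prime_card hR11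
  have hndvd : ∀ r : ℕ, (r = 3 ∨ r = 7) → ¬ r ∣ Nat.card N := by
    intro r hr hd
    have fr : Fact r.Prime := ⟨by rcases hr with rfl | rfl <;> norm_num⟩
    obtain ⟨x, hx⟩ := exists_prime_orderOf_dvd_card' r hd
    have h1 : orderOf ((R : Subgroup G).normalizerMonoidHom x) ∣ r := by
      rw [← hx]; exact orderOf_map_dvd _ _
    have h3 : orderOf ((R : Subgroup G).normalizerMonoidHom x) ∣ 10 := by
      have := orderOf_dvd_natCard ((R : Subgroup G).normalizerMonoidHom x)
      have h4 : Nat.card (MulAut R) = 10 := by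
        rw [IsCyclic.card_mulAut, hR11]
        decide
      rwa [h4] at this
    have h5 : orderOf ((R : Subgroup G).normalizerMonoidHom x) = 1 := by
      have := Nat.dvd_gcd h1 h3
      rcases hr with rfl | rfl <;> simpa using this
    rw [orderOf_eq_one_iff] at h5
    have h6 : x ∈ ((R : Subgroup G).normalizerMonoidHom).ker := h5
    rw [normalizerMonoidHom_ker, mem_subgroupOf, mem_centralizer_iff] at h6
    exact comm_false h22 R R.isPGroup' hfix r hr (x : G)
      (by rw [orderOf_coe]; exact hx) (fun y hy => (h6 y hy).symm)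
  have hNG : Nat.card N * N.index = Nat.card G := N.card_mul_index
  have hsyl : N.index ≡ 1 [MOD 11] := by
    have := card_sylow_modEq_one 11 G
    rwa [Sylow.card_eq_index_normalizer R] at this
  have h352 : Nat.card N ∣ 352 := by
    have h3 : (Nat.card N).Coprime 3 := ((Nat.Prime.coprime_iff_not_dvd (by norm_num)).2
      (hndvd 3 (Or.inl rfl))).symm
    have h7 : (Nat.card N).Coprime 7 := ((Nat.Prime.coprime_iff_not_dvd (by norm_num)).2
      (hndvd 7 (Or.inr rfl))).symm
    have hd : Nat.card N ∣ 352 * 3 * 7 := by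
      have : Nat.card N ∣ Nat.card G := ⟨_, hNG.symm⟩
      rcases hG with h | h <;> rw [h] at this
      · exact this.trans (by norm_num)
      · exact this.trans (by norm_num)
    exact h3.dvd_of_dvd_mul_right (h7.dvd_of_dvd_mul_right hd)
  have h11 : 11 ∣ Nat.card N := by
    rw [← hR11]
    exact card_dvd_of_le le_normalizer
  obtain ⟨m, hm⟩ := h11
  have hm32 : m ∣ 32 := by
    rw [hm] at h352
    have : 11 * m ∣ 11 * 32 := by simpa using h352
    exact Nat.dvd_of_mul_dvd_mul_left (by norm_num) this
  have hmle : m ≤ 32 := Nat.le_of_dvd (by norm_num) hm32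
  have hfinal : Nat.card G = 7392 ∧ m = 1 := by
    rw [hm] at hNG
    unfold Nat.ModEq at hsyl
    have hm0 : 0 < m := Nat.pos_of_dvd_of_pos hm32 (by norm_num)
    have hcases : m = 1 ∨ m = 2 ∨ m = 4 ∨ m = 8 ∨ m = 16 ∨ m = 32 := by
      interval_cases m <;> revert hm32 <;> decide
    rcases hcases with rfl | rfl | rfl | rfl | rfl | rfl <;>
      rcases hG with h | h <;> rw [h] at hNG <;> first
        | exact ⟨h, rfl⟩
        | (exfalso; omega)
  obtain ⟨hG', rfl⟩ := hfinal
  have hNR : N = (R : Subgroup G) := by
    symm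
    apply eq_of_le_of_card_ge le_normalizer
    rw [hm, hR11]
  have hcomm : N ≤ centralizer ((R : Subgroup G) : Set G) := by
    rw [hNR]
    exact le_centralizer _
  have hcompl := MonoidHom.ker_transferSylow_isComplement' R hcomm
  set K := (MonoidHom.transferSylow R hcomm).ker with hK
  have hKcard : Nat.card K = 672 := by
    have := hcompl.card_mul_card
    rw [hR11, hG'] at this
    omega
  have hfp : fixedPoints K Ω ≠ Set.univ := by
    intro hfp
    have : K = ⊥ := by
      rw [eq_bot_iff]
      intro x hx
      rw [mem_bot]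
      apply FaithfulSMul.eq_of_smul_eq_smul (α := Ω)
      intro a
      rw [one_smul]
      have ha : a ∈ fixedPoints K Ω := by rw [hfp]; trivial
      exact ha ⟨x, hx⟩
    rw [this, card_bot] at hKcard
    omega
  have hKtr : IsPretransitive K Ω := IsQuasiPreprimitive.isPretransitive_of_normal hfp
  have hne : Nonempty Ω := by
    rw [← Fintype.card_pos_iff, h22]; norm_num
  obtain ⟨a⟩ := hne
  have hi := (stabilizer K a).card_mul_index
  rw [index_stabilizer_of_transitive, hΩ, hKcard] at hi
  omega

end Cfsg.Agent.H10.No22
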