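import Cfsg.Agent.H10.SrcOdd

/-!
# Odd multiplicities of a source idempotent (owner: helper10)
-/

set_option autoImplicit false
set_option linter.style.haveILetI false
set_option linter.unusedSectionVars false

namespace Cfsg.Agent.H10.Src

open scoped ComplexConjugate BigOperators
open Cfsg Cfsg.Agent.CharBase Cfsg.Agent.Blk Cfsg.Agent.BlkF Cfsg.Agent.BlkInd Cfsg.Agent.BlkC
  Cfsg.Agent.Star Cfsg.Agent.H4 Cfsg.Agent.H10.Col MonoidAlgebra

universe u

variable {G : Type u} [Group G] [Fintype G] {M : Ideal AlgInt} [hMp : M.IsPrime]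
  {B : Set (IrrCharacter G)} {D : Subgroup G}

/-- a maximal pair with a primitive idempotent of odd rank -/
theorem exists_src (hM : IsPModular 2 M) (hB : IsPBlock M B)
    (hD : haveI := charP_kM hM; IsDef 2 ⊤ (eB M B) D) {χ : IrrCharacter G} (hχ : χ ∈ B)
    (h0 : blockHeight 2 B (χ : G → ℂ) = 0) :
    haveI := charP_kM hM
    ∃ (E i : MonoidAlgebra (kM M) G), MMax 2 D E ∧ MPairOf 2 (eB M B) D E ∧ PrimF D i ∧
      E * br D i = br D i ∧ br D i ≠ 0 ∧ trF (χ : G → ℂ) i ≠ 0 := by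
  haveI := charP_kM hM
  obtain ⟨i, hi, hBi, hti⟩ := exists_prim hM hB hD hχ h0
  have hbr : br D i ≠ 0 := by
    intro h
    apply hti
    rw [← trF_br hD.isPGroup χ hi.fixed, h, trF_zero]
  obtain ⟨g, hg, hgi⟩ := hi.exists_blk hD.isPGroup hbr
  have hEB := isBlk_eB hB
  have hfD : Fixed D (eB M B) := hEB.fixed.mono le_top
  have hfC : Fixed (Subgroup.centralizer (D : Set G)) (br D (eB M B)) :=
    (inZ_br (Q := ⊥) bot_le (hEB.fixed.mono le_top)).2
  have hof : MPairOf 2 (eB M B) D g := by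
    refine ⟨hg, hEB, ?_⟩
    have h1 := hg.blk.prim (br D (eB M B)) (supp_br D _) hfC
      (by rw [← br_mul hD.isPGroup hfD hfD, hEB.idem])
    have h2 : g * br D (eB M B) = br D (eB M B) * g :=
      (InZ.comm ⟨supp_br D _, hfC⟩ hg.blk.supp).symm
    rcases h1 with h1 | h1
    · rw [← h2]; exact h1
    · exfalso
      apply hbr
      have h3 : br D i = br D (eB M B) * br D i := by
        rw [← br_mul hD.isPGroup hfD hi.fixed, hBi]
      rw [← hgi, h3, ← mul_assoc, h1, zero_mul]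
  exact ⟨g, i, BlkF.MPairOf.mmax hof hD, hof, hi, hgi, hbr, hti⟩

theorem lr_res {C : Subgroup G} {x : MonoidAlgebra ℂ G} (hx : LR M x) : LR M (res C x) :=
  fun c => hx (c : G)

theorem red_res {C : Subgroup G} (x : MonoidAlgebra ℂ G) :
    Star.red M (res C x) = res C (Star.red M x) := rfl

theorem Tc_res {C : Subgroup G} {x : MonoidAlgebra ℂ G} (hs : Supp C x) (v : G) (χ : G → ℂ) :
    Tc χ (MonoidAlgebra.single v 1 * x) = Tc (shiftC C v χ) (res C x) := by
  classical
  haveI := Fintype.ofFinite C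
  rw [Tc_single_mul, Tc_eq]
  have h1 : ∑ g : G, x.coeff g * χ (v * g) =
      ∑ g ∈ Finset.univ.filter (fun g : G => g ∈ C), x.coeff g * χ (v * g) := by
    rw [Finset.sum_filter]
    refine Finset.sum_congr rfl fun g _ => ?_
    split_ifs with h
    · rfl
    · rw [hs g h, zero_mul]
  rw [h1]
  symm
  apply Finset.sum_bij (fun (c : C) _ => (c : G))
  · intro c _; exact Finset.mem_filter.mpr ⟨Finset.mem_univ _, c.2⟩
  · intro c _ c' _ h; exact Subtype.ext h
  · intro g hg; exact ⟨⟨g, (Finset.mem_filter.mp hg).2⟩, Finset.mem_univ _, rfl⟩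
  · intro c _; rfl

/-- **the multiplicity** -/
theorem exists_mult (hM : IsPModular 2 M) {E i : MonoidAlgebra (kM M) G}
    (hE : haveI := charP_kM hM; MPair 2 D E) (hi : PrimF D i)
    (hEi : E * br D i = br D i) (hbr : br D i ≠ 0) {x : MonoidAlgebra ℂ G} (hx : IsLift M D i x)
    {v : G} (hv : v ∈ D) {C : Subgroup G} [Fintype C]
    (hC : C = Subgroup.centralizer (Subgroup.zpowers v : Set G)) {e : Set (IrrCharacter C)}
    (he : IsPBlock M e) (hle : MLe 2 (Subgroup.zpowers v) (EB M C e) D E) {φ : C → ℂ}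
    {d : IrrCharacter C → ℕ} (hR : R1 2 e φ d) :
    ∃ m : ℤ, ∀ v' : G, Subgroup.zpowers v' = Subgroup.zpowers v → ∀ χ : IrrCharacter G,
      Tc (χ : G → ℂ) (MonoidAlgebra.single v' 1 * x) = (m : ℂ) * Col.D v' e d (χ : G → ℂ) := by
  classical
  haveI := charP_kM hM
  have hVD : Subgroup.zpowers v ≤ D := Subgroup.zpowers_le.mpr hv
  have hVp : IsPGroup 2 (Subgroup.zpowers v) := hE.isPGroup.to_le hVD
  have hfe : EB M C e * br (Subgroup.zpowers v) i = br (Subgroup.zpowers v) i :=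
    hi.br_mul_eq hE hEi hbr _ _ hle
  have hiV : Fixed (Subgroup.zpowers v) i := hi.fixed.mono hVD
  have hbV : Fixed (Subgroup.zpowers v) (br (Subgroup.zpowers v) i) :=
    hiV.br Subgroup.le_normalizer
  have hbi : br (Subgroup.zpowers v) i * br (Subgroup.zpowers v) i = br (Subgroup.zpowers v) i := by
    rw [← br_mul hVp hiV hiV, hi.idem]
  have hbs : Supp C (br (Subgroup.zpowers v) i) := hC ▸ supp_br _ _
  obtain ⟨x', hx', hxs⟩ := exists_lift_supp hbV hbi hbs
  set ε : MonoidAlgebra (kM M) C := res C (br (Subgroup.zpowers v) i) with hε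
  have hincl : incl C ε = br (Subgroup.zpowers v) i := incl_res hbs
  have hεε : ε * ε = ε := by
    apply incl_injective
    rw [incl_mul, hincl, hbi]
  have heε : eB M e * ε = ε := by
    apply incl_injective
    rw [incl_mul, hincl]
    exact hfe
  have hL : IsL M ε (res C x') := by
    refine isL_iff.2 ⟨lr_res hx'.lr, ?_, ?_⟩
    · apply incl_injective
      rw [incl_mul, incl_res hxs, hx'.idem]
    · rw [red_res, hx'.red]
  obtain ⟨n, hn⟩ := hR.comb
  choose N hN using fun η : IrrCharacter C => tz_nat (M := M) (irr_isCharacter η) hεε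
  refine ⟨∑ η ∈ Bfin e, n η * N η, ?_⟩
  intro v' hv' χ
  have hχ := irr_isClassFunction χ
  have hiV' : Fixed (Subgroup.zpowers v') i := by rw [hv']; exact hiV
  have hcomm : ∀ c ∈ C, v' * c = c * v' := by
    intro c hc
    rw [hC, ← hv'] at hc
    exact cent_comm v' c hc
  have hθ : IsClassFunction C (shiftC C v' (χ : G → ℂ)) := shiftC_isClassFunction hcomm hχ
  have h1 : Tc (χ : G → ℂ) (MonoidAlgebra.single v' 1 * x) =
      Tc (χ : G → ℂ) (MonoidAlgebra.single v' 1 * x') := by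
    have hx1 : IsLift M (Subgroup.zpowers v') i x := by rw [hv']; exact hx.mono hVD
    have hx2 : IsLift M (Subgroup.zpowers v') (br (Subgroup.zpowers v') i) x' := by
      rw [hv']; exact hx'
    rw [← tv_eq hχ hx1, ← tv_eq hχ hx2]
    exact tv_br hM hχ (by rw [hv']; exact hVp) hiV' hi.idem
  rw [h1, Tc_res hxs]
  have h2 : Tc (shiftC C v' (χ : G → ℂ)) (res C x') =
      tz M (blockPart e (shiftC C v' (χ : G → ℂ))) ε := by
    rw [tz_block_pos he hθ hεε heε, tz_eq hθ hL]
  have h3 : tz M (blockPart e (shiftC C v' (χ : G → ℂ))) ε =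
      tz M (fun s : C => ∑ η ∈ Bfin e, (Col.D v' e d (χ : G → ℂ) * n η) * (η : C → ℂ) s) ε := by
    have hcf := cf_lin (Bfin e) (fun η : IrrCharacter C => Col.D v' e d (χ : G → ℂ) * (n η : ℂ))
      (f := fun η : IrrCharacter C => (η : C → ℂ)) (fun η _ => irr_isClassFunction η)
    rw [tz_eq (cf_blockPart e _) hL, tz_eq hcf hL]
    refine Tc_congr_reg hM (isL_iff.1 hL).1 (isL_iff.1 hL).2.1 (cf_blockPart e _) hcf ?_
    intro s hs
    have h4 := dpart_eq_D hR v' (χ : G → ℂ) hs
    rw [dpart, pRegularPart_apply_of_reg hs] at h4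
    rw [h4]
    have h5 : φ s = ∑ η ∈ Bfin e, (n η : ℂ) * (η : C → ℂ) s := by
      rw [Finset.sum_congr rfl fun η hη => by rw [hR.eq η (mem_Bfin.mp hη) s hs]]
      have h6 : (∑ η ∈ Bfin e, (n η : ℂ) * ((d η : ℂ) * φ s)) =
          ((∑ η ∈ Bfin e, n η * (d η : ℤ) : ℤ) : ℂ) * φ s := by
        push_cast
        rw [Finset.sum_mul]
        exact Finset.sum_congr rfl fun η _ => by ring
      rw [h6, hn]; simp
    rw [h5, Finset.mul_sum]
    exact Finset.sum_congr rfl fun η _ => by ring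
  rw [h2, h3, tz_lin (Bfin e) (fun η : IrrCharacter C => Col.D v' e d (χ : G → ℂ) * (n η : ℂ))
    (f := fun η : IrrCharacter C => (η : C → ℂ)) (fun η _ => irr_isClassFunction η) hεε]
  push_cast
  rw [Finset.sum_mul]
  refine Finset.sum_congr rfl fun η _ => ?_
  rw [hN η]; ring

end Cfsg.Agent.H10.Src
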