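import Cfsg.Agent.H4.ScVal
import Cfsg.Agent.H10.SrcMul

/-!
# Contributions of non-major subsections; sources for all maximal pairs (owner: helper10)
-/

set_option autoImplicit false
set_option linter.style.haveILetI false
set_option linter.unusedSectionVars false

namespace Cfsg.Agent.H10

open scoped ComplexConjugate BigOperators
open Cfsg Cfsg.Agent.CharBase Cfsg.Agent.Blk Cfsg.Agent.BlkF Cfsg.Agent.BlkInd Cfsg.Agent.BlkC
  Cfsg.Agent.Star Cfsg.Agent.H4 Cfsg.Agent.H10.Col MonoidAlgebra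

universe u

section

variable {G : Type u} [Group G] [Fintype G] {p : ℕ} [hp : Fact p.Prime] {M : Ideal AlgInt}
  [hMp : M.IsPrime] {C : Subgroup G} [Fintype C] {B : Set (IrrCharacter G)}

/-- non-major subsections: all central character values are in the maximal ideal -/
theorem omega_nonmajor (hM : IsPModular p M) (hB : IsPBlock M B) {x : G}
    (hx : ∃ k : ℕ, orderOf x = p ^ k)
    (hC : C = Subgroup.centralizer ({x} : Set G)) {e : Set (IrrCharacter C)}
    (hind : IsInducedBlock M C e B) (hd : blockDefect p e < blockDefect p B)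
    {χ ψ : IrrCharacter G} (hχ : χ ∈ B) (hψ : ψ ∈ B) :
    MemLocalIdeal M (omega (χ : G → ℂ) (secF p x e (ψ : G → ℂ))) := by
  by_cases h0 : blockHeight p B (ψ : G → ℂ) = 0
  · rw [omega_secF_cong hM hx hC e hB hχ hψ]
    have h1 := val_eq hM hind.1 (x := x) hψ ψ
    rw [h0, pow_zero, mul_one] at h1
    have hscint : MemLocalRing M ((p : ℂ) ^ blockDefect p e *
        sc p x e (ψ : G → ℂ) (ψ : G → ℂ)) := by
      refine mlr_of_isIntegral ?_
      rw [pow_mul_sc]
      refine IsIntegral.sum _ fun η _ => IsIntegral.sum _ fun η' _ => ?_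
      exact ((isIntegral_dco hC ψ η).mul (isIntegral_conj (isIntegral_dco hC ψ η'))).mul
        (isIntegral_int_intCast _)
    have h2 : MemLocalIdeal M ((dg' p ψ : ℂ) *
        omega (ψ : G → ℂ) (secF p x e (ψ : G → ℂ))) := by
      rw [h1]
      obtain ⟨c, hc⟩ : ∃ c, blockDefect p B = blockDefect p e + c + 1 :=
        ⟨blockDefect p B - blockDefect p e - 1, by omega⟩
      have h3 : (gp' G p : ℂ) * ((p : ℂ) ^ blockDefect p B * sc p x e (ψ : G → ℂ) (ψ : G → ℂ)) =
          ((gp' G p : ℂ) * (p : ℂ) ^ c * ((p : ℂ) ^ blockDefect p e *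
            sc p x e (ψ : G → ℂ) (ψ : G → ℂ))) * (p : ℂ) := by
        rw [hc, pow_succ, pow_add]; ring
      rw [h3]
      exact mli_mul_left (mlr_mul (mlr_mul (mlr_natCast _) (mlr_pow (mlr_natCast _) _)) hscint)
        ((mli_natCast_iff hM p).mpr dvd_rfl)
    rcases mli_or_of_mul (mlr_natCast _) (mlr_of_isIntegral (omega_secF_int hM hx hC e ψ ψ)) h2
      with h5 | h5
    · exact absurd h5 (not_mli_natCast hM (not_dvd_dg' ψ))
    · exact h5
  · exact omega_secF_mem hM hB hx hC hind hχ hψ h0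

/-- **valuations of the contributions of a non-major subsection** -/
theorem exists_val_nonmajor (hM : IsPModular p M) (hB : IsPBlock M B) {x : G}
    (hx : ∃ k : ℕ, orderOf x = p ^ k)
    (hC : C = Subgroup.centralizer ({x} : Set G)) {e : Set (IrrCharacter C)}
    (hind : IsInducedBlock M C e B) (hd : blockDefect p e < blockDefect p B)
    {χ ψ : IrrCharacter G} (hχ : χ ∈ B) (hψ : ψ ∈ B) :
    ∃ w : ℂ, MemLocalIdeal M w ∧ (p : ℂ) ^ blockDefect p B *
      sc p x e (χ : G → ℂ) (ψ : G → ℂ) = (p : ℂ) ^ blockHeight p B (χ : G → ℂ) * w := by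
  have h1 := val_eq hM hind.1 (x := x) hχ ψ
  have hg : (gp' G p : ℂ) ≠ 0 := by
    intro h
    have h2 : gp' G p = 0 := by exact_mod_cast h
    exact not_dvd_gp' (G := G) (p := p) (by rw [h2]; exact dvd_zero _)
  refine ⟨(gp' G p : ℂ)⁻¹ * (dg' p χ : ℂ) * omega (χ : G → ℂ) (secF p x e (ψ : G → ℂ)), ?_, ?_⟩
  · exact mli_mul_left (mlr_mul (mlr_natCast_inv hM not_dvd_gp') (mlr_natCast _))
      (omega_nonmajor hM hB hx hC hind hd hχ hψ)
  · field_simp
    linear_combination -h1

end

section src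

variable {G : Type u} [Group G] [Fintype G] {M : Ideal AlgInt} [hMp : M.IsPrime]
  {B : Set (IrrCharacter G)} {D : Subgroup G}

theorem PrimF_cj {k : Type*} [Field k] {Q : Subgroup G} {e : MonoidAlgebra k G} (he : PrimF Q e)
    {g : G} (hg : g ∈ Subgroup.normalizer (Q : Set G)) : PrimF Q (Blk.cj g e) := by
  have hfix : ∀ {w : G} (_ : w ∈ Subgroup.normalizer (Q : Set G)) {z : MonoidAlgebra k G},
      Fixed Q z → Fixed Q (Blk.cj w z) := by
    intro w hw z hz u hu
    have h1 : w⁻¹ * u * w ∈ Q := by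
      have := (Subgroup.mem_normalizer_iff.mp (Subgroup.inv_mem _ hw) u).mp hu
      simpa using this
    rw [cj_cj]
    have h2 : u * w = w * (w⁻¹ * u * w) := by group
    rw [h2, ← cj_cj, hz _ h1]
  refine ⟨hfix hg he.fixed, by rw [← Blk.cj_mul, he.idem], ?_, ?_⟩
  · intro h
    apply he.ne_zero
    have h1 := congrArg (Blk.cj g⁻¹) h
    rw [cj_cj, inv_mul_cancel, cj_one_left] at h1
    rw [h1]
    simp [Blk.cj]
  · intro f hf hff h1 h2
    have hg' := Subgroup.inv_mem _ hg
    have h0 : Blk.cj g⁻¹ (0 : MonoidAlgebra k G) = 0 := by simp [Blk.cj]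
    have h0' : Blk.cj g (0 : MonoidAlgebra k G) = 0 := by simp [Blk.cj]
    rcases he.prim (Blk.cj g⁻¹ f) (hfix hg' hf) (by rw [← Blk.cj_mul, hff]) (by
      have := congrArg (Blk.cj g⁻¹) h1
      rwa [Blk.cj_mul, cj_cj, inv_mul_cancel, cj_one_left] at this) (by
      have := congrArg (Blk.cj g⁻¹) h2
      rwa [Blk.cj_mul, cj_cj, inv_mul_cancel, cj_one_left] at this) with h3 | h3
    · left
      have := congrArg (Blk.cj g) h3
      rwa [cj_cj, mul_inv_cancel, cj_one_left, h0'] at this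
    · right
      have := congrArg (Blk.cj g) h3
      rwa [cj_cj, mul_inv_cancel, cj_one_left] at this

/-- sources of odd rank for all maximal pairs -/
theorem exists_src' (hM : IsPModular 2 M) (hB : IsPBlock M B)
    (hD : haveI := charP_kM hM; IsDef 2 ⊤ (eB M B) D) {E : MonoidAlgebra (kM M) G}
    (hE : haveI := charP_kM hM; MPairOf 2 (eB M B) D E) {χ : IrrCharacter G} (hχ : χ ∈ B)
    (h0 : blockHeight 2 B (χ : G → ℂ) = 0) :
    haveI := charP_kM hM
    ∃ i : MonoidAlgebra (kM M) G, PrimF D i ∧ E * br D i = br D i ∧ br D i ≠ 0 ∧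
      trF (χ : G → ℂ) i ≠ 0 := by
  haveI := charP_kM hM
  obtain ⟨E', i, -, hE', hi, hEi, hbr, ht⟩ := Src.exists_src hM hB hD hχ h0
  obtain ⟨v, hv, hv2⟩ := exists_conj_of_mpairOf hD hE' hE
  have hDv : D.map (MulAut.conj v).toMonoidHom = D := map_conj_of_mem_normalizer hv
  have h1 : Blk.cj v (br D i) = br D (Blk.cj v i) := by
    have := cj_br D v i
    rwa [hDv] at this
  refine ⟨Blk.cj v i, PrimF_cj hi hv, ?_, ?_, ?_⟩
  · rw [← h1, ← hv2, ← Blk.cj_mul, hEi]
  · rw [← h1]
    intro h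
    apply hbr
    have := congrArg (Blk.cj v⁻¹) h
    rw [cj_cj, inv_mul_cancel, cj_one_left] at this
    rw [this]
    simp [Blk.cj]
  · rw [trF_cj]; exact ht

end src

end Cfsg.Agent.H10
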