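import Mathlib
import Cfsg.Agent.H74.OrdersB
import Cfsg.Agent.S0987

/-!
# The orders 2400, 2688 and 3360
-/

set_option autoImplicit false

namespace Cfsg.Agent.H10.OrdN

open Cfsg Subgroup
open Cfsg.Agent.BR
open Cfsg.Agent
open Cfsg.Agent.H37.Ord (Arith arith arith_one)
open Cfsg.Agent.CharBase (oneIrr)
open Cfsg.Agent.H74.CInv (two_chars exists_inv big_X big_Y sq_le dg_oneIrr exists_k)
open Cfsg.Agent.H74.SvB (thirdB thirdB_of card_of_concl pow_cases v_eq_one)
open scoped ComplexConjugate

universe u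

section

variable {G : Type u} [Group G] [Finite G] [IsSimpleGroup G]

/-- the arithmetic with the Brauer–Reynolds condition. -/
theorem full {p m : ℕ} [hp : Fact p.Prime] (hG : ¬ IsMulCommutative G) (h : Nat.card G = p * m) (hpm : ¬ p ∣ m)
    (hnp : ¬ (Nat.card G).Prime) (hcon : ¬ Concl p G)
    (P : Sylow p G) : Sp p (P : Subgroup G) ∧ ∃ n v : ℕ, n = (normalizer ((P : Subgroup G) : Set G)).index ∧
      Nat.card (centralizer ((P : Subgroup G) : Set G)) = p * v ∧ Arith p m n (ind (P : Subgroup G)) v ∧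
      n ∈ Nat.divisors m ∧ 2 * Nat.card G ∣ n.factorial ∧ thirdB p ((n - 1) / p) = true := by
  obtain ⟨hSp, n, v, hn, hCc, hA⟩ := arith (G := G) h hpm hnp P
  have hperf := perfect_of_simple hG
  have hsyl : Nat.card (Sylow p G) = n := by
    rw [hn]
    exact Sylow.card_eq_index_normalizer P
  have hpd : p ∣ Nat.card G := ⟨m, h⟩
  have hm0 : m ≠ 0 := by rintro rfl; exact hpm (dvd_zero p)
  refine ⟨hSp, n, v, hn, hCc, hA, Nat.mem_divisors.2 ⟨⟨_, hA.hm⟩, hm0⟩, ?_, ?_⟩
  · rw [← hsyl]
    exact H17.two_mul_card_dvd_factorial_card_sylow (p := p) hG hpd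
  · apply thirdB_of
    by_contra hT
    have hmod := hA.n_mod
    have hdec : n = 1 + (n - 1) / p * p := by
      have h1 : n = p * (n / p) + 1 := by
        have := Nat.div_add_mod n p
        rw [hmod] at this
        exact this.symm
      have h2 : (n - 1) / p = n / p := by
        have h3 : n - 1 = p * (n / p) := by omega
        rw [h3, Nat.mul_div_cancel_left _ hp.out.pos]
      rw [h2]
      conv_lhs => rw [h1]
      ring
    refine hcon (core_concl (n := (n - 1) / p) hperf hSp (by rw [← hn, ← hdec]) hT ?_)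
    have hN : (pPrimeCore p G).Normal := inferInstance
    rcases hN.eq_bot_or_eq_top with h | h'
    · exact h
    · exfalso
      have h1 := Solv.pPrimeCore_card_coprime (G := G) p
      rw [h', Subgroup.card_top] at h1
      have h2 := Nat.Coprime.eq_one_of_dvd h1.symm hpd
      exact hp.out.one_lt.ne' h2

/-- a normalizer quotient of order divisible by six gives an element of order six. -/
theorem exists_six {p : ℕ} [hp : Fact p.Prime] {P : Subgroup G} (hP : Sp p P) (hC : centralizer (P : Set G) = P)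
    (he : ind P = 6) : ∃ z : G, orderOf z = 6 := by
  obtain ⟨ρ, hρ⟩ := exists_rho hP hC
  have hker : ρ.ker = P.subgroupOf (normalizer (P : Set G)) := by
    ext y
    rw [MonoidHom.mem_ker, hρ, Subgroup.mem_subgroupOf]
  have hcard : Nat.card ρ.range = 6 := by
    rw [← Subgroup.index_ker, hker]
    have : (P.subgroupOf (normalizer (P : Set G))).index = P.relIndex (normalizer (P : Set G)) := rfl
    rw [this, ← he]
    unfold ind
    rw [hC]
  have hfin : Finite ρ.range := Nat.finite_of_card_ne_zero (by rw [hcard]; norm_num)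
  have hcyc : IsCyclic ρ.range := inferInstance
  obtain ⟨g, hg⟩ := IsCyclic.exists_ofOrder_eq_natCard (α := ρ.range)
  rw [hcard] at hg
  obtain ⟨⟨_, y, rfl⟩, hy⟩ : ∃ x : ρ.range, x = g := ⟨g, rfl⟩
  have hy2 : orderOf (ρ y) = 6 := by
    rw [← hg, ← hy, ← Subgroup.orderOf_coe]
  have h6 : 6 ∣ orderOf (y : G) := by
    rw [← hy2, Subgroup.orderOf_coe]
    exact orderOf_map_dvd ρ y
  obtain ⟨k, hk⟩ := h6
  have hpos : 0 < orderOf (y : G) := orderOf_pos _
  have hk0 : k ≠ 0 := by
    rintro rfl
    omega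
  refine ⟨(y : G) ^ k, ?_⟩
  rw [orderOf_pow_of_dvd hk0 ⟨6, by rw [hk]; ring⟩, hk]
  exact Nat.mul_div_cancel _ (Nat.pos_of_ne_zero hk0)

theorem n2688 (hG : ¬ IsMulCommutative G) : Nat.card G ≠ 2688 := by
  intro h
  have hp3 : Fact (Nat.Prime 3) := ⟨by norm_num⟩
  have hp7 : Fact (Nat.Prime 7) := ⟨by norm_num⟩
  obtain ⟨S⟩ : Nonempty (Sylow 3 G) := inferInstance
  obtain ⟨T⟩ : Nonempty (Sylow 7 G) := inferInstance
  have hnp : ¬ (Nat.card G).Prime := by rw [h]; norm_num
  have h3 : (Nat.card G).primeFactors.card = 3 := by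
    rw [h]
    have : (2688 : ℕ).primeFactors = {2, 3, 7} := by
      rw [show (2688 : ℕ) = 2 ^ 7 * (3 * 7) by norm_num, Nat.primeFactors_mul (by norm_num) (by norm_num),
        Nat.primeFactors_prime_pow (by norm_num) Nat.prime_two, Nat.primeFactors_mul (by norm_num) (by norm_num),
        Nat.Prime.primeFactors (by norm_num), Nat.Prime.primeFactors (by norm_num)]
      rfl
    rw [this]
    rfl
  obtain ⟨hS, n, v, hn, hC, hA⟩ := arith (G := G) (p := 3) (m := 896) h (by norm_num) hnp S
  obtain ⟨hT, n', v', hn', hC', hA'⟩ := arith (G := G) (p := 7) (m := 384) h (by norm_num) hnp T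
  have hv := v_eq_one (p := 3) (m := 896) h (by norm_num) hnp h3 S hC
  have hv' := v_eq_one (p := 7) (m := 384) h (by norm_num) hnp h3 T hC'
  have hsyl : Nat.card (Sylow 7 G) = n' := by
    rw [hn']
    exact Sylow.card_eq_index_normalizer T
  have hfac := H17.two_mul_card_dvd_factorial_card_sylow (p := 7) hG (by rw [h]; norm_num)
  rw [hsyl, h] at hfac
  have hm := hA'.hm
  have hn1 : n' ∈ Nat.divisors 384 := Nat.mem_divisors.2 ⟨⟨_, hm⟩, by norm_num⟩
  have k2 : ∀ n ∈ Nat.divisors 384, n % 7 = 1 → n ≠ 1 → n = 8 ∨ n = 64 := by decide +kernel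
  have e2 : n' = 64 := by
    rcases k2 n' hn1 hA'.n_mod hA'.n_ne with h1 | h1
    · exfalso
      rw [h1] at hfac
      revert hfac
      decide
    · exact h1
  rw [e2, hv'] at hm
  have he : ind (T : Subgroup G) = 6 := by omega
  have hCT : centralizer ((T : Subgroup G) : Set G) = T := by
    symm
    apply Subgroup.eq_of_le_of_card_ge
    · have h1 : IsCyclic (T : Subgroup G) := isCyclic_of_prime_card hT.card
      have h2 : IsMulCommutative (T : Subgroup G) := inferInstance
      exact Subgroup.le_centralizer _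
    · rw [hC', hv', hT.card]
  obtain ⟨z, hz⟩ := exists_six hT hCT he
  have h1 : orderOf (z ^ 2) = 3 := by
    rw [orderOf_pow_of_dvd (by norm_num) (by rw [hz]; norm_num), hz]
  have h2 : orderOf (z ^ 3) = 2 := by
    rw [orderOf_pow_of_dvd (by norm_num) (by rw [hz]; norm_num), hz]
  obtain ⟨x, hx⟩ := hS.exists_conj h1
  have ho : orderOf (x⁻¹ * z ^ 2 * x) = 3 := by
    have := (MulAut.conj x⁻¹).orderOf_eq (z ^ 2)
    rw [MulAut.conj_apply, inv_inv] at this
    rw [this, h1]
  have hx1 : x⁻¹ * z ^ 2 * x ≠ 1 := by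
    intro h5
    rw [h5, orderOf_one] at ho
    omega
  have hC1 := hS.centralizer_eq hx hx1
  have hmem : x⁻¹ * z ^ 3 * x ∈ centralizer ((S : Subgroup G) : Set G) := by
    rw [← hC1, mem_centralizer_singleton_iff]
    calc x⁻¹ * z ^ 3 * x * (x⁻¹ * z ^ 2 * x) = x⁻¹ * (z ^ 3 * z ^ 2) * x := by group
      _ = x⁻¹ * (z ^ 2 * z ^ 3) * x := by rw [← pow_add, ← pow_add]
      _ = x⁻¹ * z ^ 2 * x * (x⁻¹ * z ^ 3 * x) := by group
  have ho2 : orderOf (x⁻¹ * z ^ 3 * x) = 2 := by
    have := (MulAut.conj x⁻¹).orderOf_eq (z ^ 3)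
    rw [MulAut.conj_apply, inv_inv] at this
    rw [this, h2]
  have h5 := orderOf_dvd_natCard (⟨_, hmem⟩ : centralizer ((S : Subgroup G) : Set G))
  rw [← Subgroup.orderOf_coe, ho2, hC, hv] at h5
  omega

theorem n3360 (hG : ¬ IsMulCommutative G) : Nat.card G ≠ 3360 := by
  classical
  intro h
  have hp7 : Fact (Nat.Prime 7) := ⟨by norm_num⟩
  obtain ⟨T⟩ : Nonempty (Sylow 7 G) := inferInstance
  have hcon : ¬ Concl 7 G := by
    intro hc
    rcases card_of_concl hp7.out hc with h3 | ⟨m, hm, h3⟩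
    · omega
    · rcases pow_cases m with h4 | h4 | h4 | h4 | h4 | h4
      · subst h4; omega
      · subst h4; omega
      · subst h4; omega
      · subst h4; omega
      · subst h4; omega
      · omega
  obtain ⟨hT', n', v', hn', hC', hA', hnm', hf', hT7⟩ := full (p := 7) (m := 480) hG h (by norm_num)
    (by rw [h]; norm_num) hcon T
  have k2 : ∀ n ∈ Nat.divisors 480, n % 7 = 1 → n ≠ 1 → thirdB 7 ((n - 1) / 7) = true → n = 120 := by
    decide +kernel
  have e2 := k2 n' hnm' hA'.n_mod hA'.n_ne hT7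
  have hm' := hA'.hm
  have he' := hA'.e_two
  have hd' := hA'.e_dvd
  obtain ⟨B⟩ := CycG.nonempty_data hT'
  have hperf := perfect_of_simple hG
  have hidx : (normalizer ((T : Subgroup G) : Set G)).index = n' := hn'.symm
  have hv : v' = 2 ∧ ind (T : Subgroup G) = 2 := by
    generalize ind (T : Subgroup G) = e' at hm' he' hd'
    have : e' ≤ 6 := Nat.le_of_dvd (by norm_num) hd'
    rw [e2] at hm'
    interval_cases e' <;> omega
  obtain ⟨w, hw, hw2⟩ := exists_inv (H := centralizer ((T : Subgroup G) : Set G)) (by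
    rw [hC', hv.1]
    norm_num)
  obtain ⟨χ, ψ, hχ, hχ1, hψ, hsum⟩ := two_chars B hT' (by norm_num) hv.2
  have k3 := B.dvd_X hT' hχ
  have k4 := B.dvd_Y hT' hψ
  have k5 := B.congr_X hT' hχ
  have k6 := sq_le χ
  have k7 := big_X B hT' (by norm_num) hperf hχ hχ1 hw hw2
  rw [hidx, hv.2, e2] at k3 k4
  rw [h] at k6
  have hd : ∀ d ∈ Nat.divisors 240, 14 ≤ d → d * d ≤ 3360 →
      (d % 7 = 1 → d = 15) ∧ (d % 7 = 6 → (d - 1) ∉ Nat.divisors 240) := by
    decide +kernel
  have hd1 := hd _ (Nat.mem_divisors.2 ⟨k3, by norm_num⟩) k7 k6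
  have hδ : B.δ χ = 1 ∧ dg χ = 15 ∧ B.δ₀ = -1 ∧ dg ψ = 16 := by
    rcases B.sgn χ hχ with h5 | h5
    · rw [h5] at hsum k5
      have h7 : dg χ = 15 := hd1.1 (by omega)
      rw [h7] at hsum
      rcases B.sgn₀ with h6 | h6
      · rw [h6] at hsum
        omega
      · rw [h6] at hsum
        exact ⟨h5, h7, h6, by omega⟩
    · exfalso
      rw [h5] at hsum k5
      have h8 := hd1.2 (by omega)
      apply h8
      rw [Nat.mem_divisors]
      refine ⟨?_, by norm_num⟩
      rcases B.sgn₀ with h6 | h6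
      · rw [h6] at hsum
        have h9 : dg ψ = dg χ - 1 := by omega
        rw [← h9]
        exact k4
      · rw [h6] at hsum
        omega
  obtain ⟨h5, h15, h6, h16⟩ := hδ
  obtain ⟨k, hk, hpk, hk2⟩ := exists_k B hT' (by norm_num) hperf hχ hw hw2
  have hk0 : k ≠ 0 := by
    rintro rfl
    have h2 : (χ : G → ℂ) w = (χ : G → ℂ) 1 := by rw [hk, dg_eq]; simp
    have h3 := BT.faithful_of_simple hχ1 h2
    rw [h3, orderOf_one] at hw2
    omega
  have hk7 : k = 7 := by omega
  have hχw : (χ : G → ℂ) w = -13 := by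
    rw [hk, h15, hk7]
    norm_num
  have hw7 : ¬ 7 ∣ orderOf w := by rw [hw2]; norm_num
  have hX : B.X = {oneIrr G, χ} := by
    symm
    apply Finset.eq_of_subset_of_card_le
    · intro x hx
      rw [Finset.mem_insert, Finset.mem_singleton] at hx
      rcases hx with rfl | rfl
      · exact B.one_mem
      · exact hχ
    · rw [B.cardX, hv.2, Finset.card_pair (Ne.symm hχ1)]
  have hψw : ∀ ψ ∈ B.Y, (ψ : G → ℂ) w = -12 := by
    intro ψ hψ
    have h1 := B.reg w hw7 ψ hψ
    rw [hX, Finset.sum_pair (Ne.symm hχ1), h5, h6, B.δ_one hT', CharBase.oneIrr_apply, hχw] at h1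
    push_cast at h1
    linear_combination -h1
  have hY : B.Y.card = 3 := by
    have := B.cardY
    rw [hv.2] at this
    omega
  haveI : Fintype (IrrCharacter G) := Fintype.ofFinite _
  have hcol := CharBase.column_orthogonality w w
  rw [if_pos (IsConj.refl w)] at hcol
  have hcol2 : ∑ χ : IrrCharacter G, ‖(χ : G → ℂ) w‖ ^ 2 = (Nat.card (centralizer ({w} : Set G)) : ℝ) := by
    have : ((∑ χ : IrrCharacter G, ‖(χ : G → ℂ) w‖ ^ 2 : ℝ) : ℂ) = (Nat.card (centralizer ({w} : Set G)) : ℂ) := by
      rw [← hcol]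
      push_cast
      refine Finset.sum_congr rfl (fun χ _ => ?_)
      rw [Complex.mul_conj, Complex.normSq_eq_norm_sq]
      push_cast
      rfl
    exact_mod_cast this
  have hle : ∑ χ ∈ B.X ∪ B.Y, ‖(χ : G → ℂ) w‖ ^ 2 ≤ ∑ χ : IrrCharacter G, ‖(χ : G → ℂ) w‖ ^ 2 :=
    Finset.sum_le_sum_of_subset_of_nonneg (Finset.subset_univ _) (fun _ _ _ => by positivity)
  rw [Finset.sum_union B.disj, hX, Finset.sum_pair (Ne.symm hχ1), CharBase.oneIrr_apply, hχw,
    Finset.sum_congr rfl (g := fun _ => (144 : ℝ)) (fun ψ hψ => by rw [hψw ψ hψ]; norm_num), Finset.sum_const, hY,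
    hcol2] at hle
  have hge : 602 ≤ Nat.card (centralizer ({w} : Set G)) := by
    have : (602 : ℝ) ≤ (Nat.card (centralizer ({w} : Set G)) : ℝ) := by
      refine le_trans ?_ hle
      norm_num
    exact_mod_cast this
  have hidx5 := Subgroup.card_mul_index (centralizer ({w} : Set G))
  rw [h] at hidx5
  have hw1 : w ≠ 1 := by
    rintro rfl
    rw [orderOf_one] at hw2
    omega
  have hne : centralizer ({w} : Set G) ≠ ⊤ := by
    intro h1
    have h2 : w ∈ center G := by
      rw [mem_center_iff]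
      intro g
      have : g ∈ centralizer ({w} : Set G) := by rw [h1]; trivial
      rw [mem_centralizer_singleton_iff] at this
      exact this
    rcases (inferInstance : (center G).Normal).eq_bot_or_eq_top with h3 | h3
    · rw [h3, mem_bot] at h2
      exact hw1 h2
    · apply hG
      refine ⟨⟨fun a b => ?_⟩⟩
      have h4 : b ∈ center G := by rw [h3]; trivial
      exact mem_center_iff.1 h4 a
  have hf := H17.two_mul_card_dvd_factorial hG _ hne
  rw [h] at hf
  generalize (centralizer ({w} : Set G)).index = i at hf hidx5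
  generalize Nat.card (centralizer ({w} : Set G)) = c at hge hidx5
  have hi : i ≤ 5 := by
    by_contra hcon
    have : 602 * 6 ≤ c * i := Nat.mul_le_mul hge (by omega)
    omega
  revert hf
  interval_cases i <;> decide

theorem n2400 (hG : ¬ IsMulCommutative G) : Nat.card G ≠ 2400 := by
  intro h
  have : Fact (Nat.Prime 5) := ⟨by norm_num⟩
  have h1 := H17.card_sylow_mem (p := 5) (G := G) (k := 2) (m := 96) (by rw [h]; rfl) (by norm_num)
  rw [show (Nat.divisors 96).filter (· % 5 = 1) = {1, 6, 16, 96} by decide +kernel] at h1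
  have h2 := H17.card_sylow_ne_one (p := 5) hG (by rw [h]; norm_num)
  have h4 : ¬ Nat.card (Sylow 5 G) ≡ 1 [MOD 5 ^ 2] := by
    simp only [Finset.mem_insert, Finset.mem_singleton] at h1
    rcases h1 with h1 | h1 | h1 | h1
    · exact absurd h1 h2
    · rw [h1]; decide
    · rw [h1]; decide
    · rw [h1]; decide
  obtain ⟨P, D, hDc, hDP, hPC, hNt, hN1, hN2, hN3⟩ := H17.exists_subgroup_of_sq (p := 5) (G := G) (m := 96)
    (by rw [h]; rfl) (by norm_num) h4
  have h5 := H17.two_mul_card_dvd_factorial hG _ hNt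
  rw [h] at h5
  have h6 : 6 ≤ Nat.card (Sylow 5 (Subgroup.normalizer (D : Set G))) := by omega
  have hci := Subgroup.card_mul_index (Subgroup.normalizer (D : Set G))
  rw [h] at hci
  have h8 : 0 < (Subgroup.normalizer (D : Set G)).index := Nat.pos_of_ne_zero Subgroup.FiniteIndex.index_ne_zero
  have h7 : (Subgroup.normalizer (D : Set G)).index ≤ 16 := by
    have := Nat.le_of_dvd (by norm_num) hN3
    nlinarith
  have h9 : (Subgroup.normalizer (D : Set G)).index = 16 := by
    have h10 : (Subgroup.normalizer (D : Set G)).index ∣ 96 := Dvd.dvd.trans (Dvd.intro_left _ rfl) hN3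
    have h11 : (Subgroup.normalizer (D : Set G)).index ≠ 12 := by
      intro h12
      rw [h12] at hN3
      have := Nat.le_of_dvd (by norm_num) hN3
      have h13 : Nat.card (Sylow 5 (Subgroup.normalizer (D : Set G))) ≤ 8 := by omega
      have h14 : Nat.card (Sylow 5 (Subgroup.normalizer (D : Set G))) = 6 := by omega
      rw [h14] at hN3
      revert hN3
      decide
    revert h5 h11 h10
    generalize (Subgroup.normalizer (D : Set G)).index = i at *
    intro h5 h11 h10
    interval_cases i <;> first | rfl | (exfalso; revert h10; decide) | (exfalso; revert h5; decide) | omega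
  rw [h9] at hci
  have hN : Nat.card (Subgroup.normalizer (D : Set G)) = 150 := by omega
  have hDN : D ≤ Subgroup.normalizer (D : Set G) := Subgroup.le_normalizer
  haveI hDn : (D.subgroupOf (Subgroup.normalizer (D : Set G))).Normal :=
    Subgroup.normal_subgroupOf_iff_le_normalizer hDN |>.2 le_rfl
  have hDc' : Nat.card (D.subgroupOf (Subgroup.normalizer (D : Set G))) = 5 := by
    rw [Nat.card_congr (Subgroup.subgroupOfEquivOfLe hDN).toEquiv, hDc]
  set N := Subgroup.normalizer (D : Set G) with hNdef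
  set D' := D.subgroupOf N with hD'
  have hq : Nat.card (N ⧸ D') = 30 := by
    have := Subgroup.card_eq_card_quotient_mul_card_subgroup D'
    rw [hN, hDc'] at this
    omega
  obtain ⟨S⟩ : Nonempty (Sylow 5 N) := inferInstance
  have hsurj : Function.Surjective (QuotientGroup.mk' D') := QuotientGroup.mk'_surjective D'
  let R : Sylow 5 (N ⧸ D') := S.mapSurjective hsurj
  have hR : (R : Subgroup (N ⧸ D')).Normal :=
    Cfsg.Agent.S0987.result 2 3 5 Nat.prime_two Nat.prime_three (by norm_num) (by norm_num) (by rw [hq]) R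
  have hR' : (R : Subgroup (N ⧸ D')) = (S : Subgroup N).map (QuotientGroup.mk' D') := Sylow.coe_mapSurjective hsurj S
  have hD'S : D' ≤ (S : Subgroup N) := by
    have hpg : IsPGroup 5 D' := IsPGroup.of_card (n := 1) (by rw [hDc', pow_one])
    exact hpg.le_sylow_of_normal S
  have hS : (S : Subgroup N).Normal := by
    have h10 : (S : Subgroup N) = (R : Subgroup (N ⧸ D')).comap (QuotientGroup.mk' D') := by
      rw [hR', Subgroup.comap_map_eq, QuotientGroup.ker_mk', sup_eq_left.2 hD'S]
    rw [h10]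
    exact hR.comap _
  have h11 : Nat.card (Sylow 5 N) = 1 := by
    haveI := Sylow.unique_of_normal S hS
    exact Nat.card_unique
  omega

end

end Cfsg.Agent.H10.OrdN
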