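import Mathlib
import Cfsg.Agent.H74.SieveC

/-!
# A sieve for the orders of simple groups between 1092 and 3641
-/

set_option autoImplicit false

namespace Cfsg.Agent.H10.OrdSv

open Cfsg Subgroup
open Cfsg.Agent.BR (Sp ind Third Concl)
open Cfsg.Agent.H37.Ord (Arith arith arith_one)
open Cfsg.Agent.H74.SvB (kill nz card_of_concl pow_cases kill_false)
open Cfsg.Agent.H74

universe u

def left : List ℕ := [1512, 1620, 1764, 1800, 2160, 2400, 2520, 2688, 2700, 3360, 3528, 3600]

def chk (a b c d e f : ℕ) : Bool :=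
  let n := 2 ^ a * 3 ^ b * 5 ^ c * 7 ^ d * 11 ^ e * 13 ^ f
  let r := nz a + nz b + nz c + nz d + nz e + nz f
  let one := r == 3
  decide (n < 1093) || decide (3640 < n) || decide (r < 3) || kill n 2 a one || kill n 3 b one || kill n 5 c one ||
    kill n 7 d one || kill n 11 e one || kill n 13 f one || left.elem n

def chkAll : Bool := (List.range 12).all fun a => (List.range 8).all fun b => decide (3640 < 2 ^ a * 3 ^ b) ||
  (List.range 6).all fun c => decide (3640 < 2 ^ a * 3 ^ b * 5 ^ c) ||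
  (List.range 5).all fun d => decide (3640 < 2 ^ a * 3 ^ b * 5 ^ c * 7 ^ d) ||
  (List.range 4).all fun e => decide (3640 < 2 ^ a * 3 ^ b * 5 ^ c * 7 ^ d * 11 ^ e) ||
  (List.range 4).all fun f => chk a b c d e f

set_option maxRecDepth 100000 in
theorem chkAll_eq : chkAll = true := by decide +kernel

section

variable {G : Type u} [Group G] [Finite G] [IsSimpleGroup G]

theorem mem_left (hG : ¬ IsMulCommutative G) (h1 : 1092 < Nat.card G) (h2 : Nat.card G < 3641) :
    Nat.card G = 2448 ∨ Nat.card G = 3420 ∨ Nat.card G ∈ left := by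
  classical
  have hnp : ¬ (Nat.card G).Prime := fun h => hG (by
    have : Fact (Nat.card G).Prime := ⟨h⟩
    have := isCyclic_of_prime_card (α := G) rfl
    infer_instance)
  by_cases h2448 : Nat.card G = 2448
  · exact Or.inl h2448
  by_cases h3420 : Nat.card G = 3420
  · exact Or.inr (Or.inl h3420)
  by_cases h11 : ∃ p : ℕ, p.Prime ∧ 17 ≤ p ∧ p ∣ Nat.card G
  · exfalso
    obtain ⟨p, hp, hp19, hpd⟩ := h11
    have hb : Nat.card G < p ^ 3 := by
      have : 17 ^ 3 ≤ p ^ 3 := Nat.pow_le_pow_left hp19 3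
      omega
    rcases Sv.big_prime hG hp hpd hb with h3 | ⟨m, hm, h3⟩
    · have hp24 : p ≤ 20 := by
        by_contra hcon
        push Not at hcon
        obtain ⟨q, rfl⟩ : ∃ q, p = q + 1 := ⟨p - 1, by omega⟩
        rw [Nat.add_sub_cancel] at h3
        have : 21 * (20 * 22) ≤ (q + 1) * (q * (q + 1 + 1)) := by
          have h2 : 20 ≤ q := by omega
          gcongr <;> omega
        omega
      interval_cases p
      · omega
      · exact absurd hp (by norm_num)
      · omega
      · exact absurd hp (by norm_num)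
    · rcases pow_cases m with h4 | h4 | h4 | h4 | h4 | h4
      · subst h4; omega
      · subst h4; omega
      · subst h4; omega
      · subst h4; omega
      · subst h4; omega
      · obtain ⟨q, hq⟩ : ∃ q, q = 2 ^ m := ⟨_, rfl⟩
        rw [← hq] at h3 h4
        have : 32 * (31 * 33) ≤ q * ((q - 1) * (q + 1)) := by
          gcongr <;> omega
        omega
  push Not at h11
  right; right
  have hcon : ∀ p : ℕ, p.Prime → p < 17 → ¬ Concl p G := by
    intro p hp hp19 hc
    rcases card_of_concl hp hc with h3 | ⟨m, hm, h3⟩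
    · have h5 : p ≤ 13 := by
        by_contra hcon
        interval_cases p
        · exact absurd hp (by norm_num)
        · exact absurd hp (by norm_num)
        · exact absurd hp (by norm_num)
      have h6 : p * ((p - 1) * (p + 1)) ≤ 13 * (12 * 14) := by
        gcongr <;> omega
      omega
    · rcases pow_cases m with h4 | h4 | h4 | h4 | h4 | h4
      · subst h4; omega
      · subst h4; omega
      · subst h4; omega
      · subst h4; omega
      · subst h4; omega
      · omega
  have hsupp : ∀ p : ℕ, p.Prime → p ∣ Nat.card G → p = 2 ∨ p = 3 ∨ p = 5 ∨ p = 7 ∨ p = 11 ∨ p = 13 := by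
    intro p hp hd
    have h1 : p < 17 := by
      by_contra hcon
      exact h11 p hp (by omega) hd
    interval_cases p <;> first | omega | exact absurd hp (by norm_num)
  have hn0 : Nat.card G ≠ 0 := Nat.card_pos.ne'
  obtain ⟨a, ha⟩ : ∃ a, a = (Nat.card G).factorization 2 := ⟨_, rfl⟩
  obtain ⟨b, hb⟩ : ∃ b, b = (Nat.card G).factorization 3 := ⟨_, rfl⟩
  obtain ⟨c, hc⟩ : ∃ c, c = (Nat.card G).factorization 5 := ⟨_, rfl⟩
  obtain ⟨d, hd⟩ : ∃ d, d = (Nat.card G).factorization 7 := ⟨_, rfl⟩
  obtain ⟨e, he⟩ : ∃ e, e = (Nat.card G).factorization 11 := ⟨_, rfl⟩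
  obtain ⟨f, hf⟩ : ∃ f, f = (Nat.card G).factorization 13 := ⟨_, rfl⟩
  have hsub : (Nat.card G).factorization.support ⊆ ({2, 3, 5, 7, 11, 13} : Finset ℕ) := by
    intro p hp
    rw [Nat.support_factorization, Nat.mem_primeFactors] at hp
    have := hsupp p hp.1 hp.2.1
    simp only [Finset.mem_insert, Finset.mem_singleton]
    exact this
  have hcard : Nat.card G = 2 ^ a * 3 ^ b * 5 ^ c * 7 ^ d * 11 ^ e * 13 ^ f := by
    have h1 := Nat.prod_factorization_pow_eq_self hn0
    rw [Finsupp.prod_of_support_subset _ hsub _ (fun _ _ => pow_zero _)] at h1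
    rw [Finset.prod_insert (by decide), Finset.prod_insert (by decide), Finset.prod_insert (by decide),
      Finset.prod_insert (by decide), Finset.prod_insert (by decide),
      Finset.prod_singleton, ← ha, ← hb, ← hc, ← hd, ← he, ← hf] at h1
    rw [← h1]
    ring
  have hrad : (Nat.card G).primeFactors.card = nz a + nz b + nz c + nz d + nz e + nz f := by
    have h1 : (Nat.card G).primeFactors =
        ({2, 3, 5, 7, 11, 13} : Finset ℕ).filter (fun p => (Nat.card G).factorization p ≠ 0) := by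
      ext p
      rw [Finset.mem_filter, ← Nat.support_factorization, Finsupp.mem_support_iff]
      constructor
      · intro h
        exact ⟨hsub (Finsupp.mem_support_iff.2 h), h⟩
      · exact fun h => h.2
    rw [h1, Finset.card_filter, Finset.sum_insert (by decide), Finset.sum_insert (by decide),
      Finset.sum_insert (by decide), Finset.sum_insert (by decide), Finset.sum_insert (by decide),
      Finset.sum_singleton, ← ha, ← hb, ← hc, ← hd, ← he, ← hf]
    have h2 : ∀ x : ℕ, (if x ≠ 0 then 1 else 0 : ℕ) = nz x := by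
      intro x
      unfold nz
      by_cases hx : x = 0 <;> simp [hx]
    simp only [h2]
    ring
  have hdv : ∀ x y : ℕ, Nat.card G = x * y → x ≤ 3640 := by
    intro x y hxy
    have h3 : x ∣ Nat.card G := ⟨y, hxy⟩
    have := Nat.le_of_dvd (Nat.pos_of_ne_zero hn0) h3
    omega
  have hlt : ∀ p k K y : ℕ, 2 ≤ p → Nat.card G = p ^ k * y → 3640 < p ^ K → k < K := by
    intro p k K y hp hx hK
    by_contra hcon
    have h3 := hdv _ _ hx
    have h4 : p ^ K ≤ p ^ k := Nat.pow_le_pow_right (by omega) (by omega)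
    omega
  have ha' := hlt 2 a 12 (3 ^ b * 5 ^ c * 7 ^ d * 11 ^ e * 13 ^ f) (by norm_num) (by rw [hcard]; ring) (by norm_num)
  have hb' := hlt 3 b 8 (2 ^ a * 5 ^ c * 7 ^ d * 11 ^ e * 13 ^ f) (by norm_num) (by rw [hcard]; ring) (by norm_num)
  have hc' := hlt 5 c 6 (2 ^ a * 3 ^ b * 7 ^ d * 11 ^ e * 13 ^ f) (by norm_num) (by rw [hcard]; ring) (by norm_num)
  have hd' := hlt 7 d 5 (2 ^ a * 3 ^ b * 5 ^ c * 11 ^ e * 13 ^ f) (by norm_num) (by rw [hcard]; ring) (by norm_num)
  have he' := hlt 11 e 4 (2 ^ a * 3 ^ b * 5 ^ c * 7 ^ d * 13 ^ f) (by norm_num) (by rw [hcard]; ring) (by norm_num)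
  have hf' := hlt 13 f 4 (2 ^ a * 3 ^ b * 5 ^ c * 7 ^ d * 11 ^ e) (by norm_num) (by rw [hcard]; ring) (by norm_num)
  have w1 := hdv (2 ^ a * 3 ^ b) (5 ^ c * 7 ^ d * 11 ^ e * 13 ^ f) (by rw [hcard]; ring)
  have w2 := hdv (2 ^ a * 3 ^ b * 5 ^ c) (7 ^ d * 11 ^ e * 13 ^ f) (by rw [hcard]; ring)
  have w3 := hdv (2 ^ a * 3 ^ b * 5 ^ c * 7 ^ d) (11 ^ e * 13 ^ f) (by rw [hcard]; ring)
  have w4 := hdv (2 ^ a * 3 ^ b * 5 ^ c * 7 ^ d * 11 ^ e) (13 ^ f) (by rw [hcard])
  have hchk : chk a b c d e f = true := by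
    have k0 := chkAll_eq
    unfold chkAll at k0
    rw [List.all_eq_true] at k0
    have k1 := k0 a (List.mem_range.2 ha')
    rw [List.all_eq_true] at k1
    have k2 := k1 b (List.mem_range.2 hb')
    rw [Bool.or_eq_true, decide_eq_true_eq, List.all_eq_true] at k2
    have k3 := (k2.resolve_left (by omega)) c (List.mem_range.2 hc')
    rw [Bool.or_eq_true, decide_eq_true_eq, List.all_eq_true] at k3
    have k4 := (k3.resolve_left (by omega)) d (List.mem_range.2 hd')
    rw [Bool.or_eq_true, decide_eq_true_eq, List.all_eq_true] at k4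
    have k5 := (k4.resolve_left (by omega)) e (List.mem_range.2 he')
    rw [Bool.or_eq_true, decide_eq_true_eq, List.all_eq_true] at k5
    exact (k5.resolve_left (by omega)) f (List.mem_range.2 hf')
  unfold chk at hchk
  rw [← hcard] at hchk
  simp only at hchk
  have hnd : ∀ p k y : ℕ, p.Prime → k = (Nat.card G).factorization p → Nat.card G = p ^ k * y → ¬ p ∣ y := by
    intro p k y hp hk hy hpy
    obtain ⟨z, hz⟩ := hpy
    have h3 : p ^ (k + 1) ∣ Nat.card G := ⟨z, by rw [hy, hz]; ring⟩
    have h4 := (hp.pow_dvd_iff_le_factorization hn0).1 h3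
    omega
  have hkill : ∀ (p k y : ℕ), p.Prime → p < 17 → k = (Nat.card G).factorization p → Nat.card G = p ^ k * y →
      kill (Nat.card G) p k ((nz a + nz b + nz c + nz d + nz e + nz f) == 3) = false := by
    intro p k y hp hp19 hk hy
    have : Fact p.Prime := ⟨hp⟩
    refine kill_false hG hy (hnd p k y hp hk hy) hnp _ ?_ (hcon p hp hp19)
    intro h3
    rw [hrad]
    simpa using h3
  rw [hkill 2 a (3 ^ b * 5 ^ c * 7 ^ d * 11 ^ e * 13 ^ f) (by norm_num) (by norm_num) ha (by rw [hcard]; ring),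
    hkill 3 b (2 ^ a * 5 ^ c * 7 ^ d * 11 ^ e * 13 ^ f) (by norm_num) (by norm_num) hb (by rw [hcard]; ring),
    hkill 5 c (2 ^ a * 3 ^ b * 7 ^ d * 11 ^ e * 13 ^ f) (by norm_num) (by norm_num) hc (by rw [hcard]; ring),
    hkill 7 d (2 ^ a * 3 ^ b * 5 ^ c * 11 ^ e * 13 ^ f) (by norm_num) (by norm_num) hd (by rw [hcard]; ring),
    hkill 11 e (2 ^ a * 3 ^ b * 5 ^ c * 7 ^ d * 13 ^ f) (by norm_num) (by norm_num) he (by rw [hcard]; ring),
    hkill 13 f (2 ^ a * 3 ^ b * 5 ^ c * 7 ^ d * 11 ^ e) (by norm_num) (by norm_num) hf (by rw [hcard]; ring)]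
    at hchk
  simp only [Bool.or_false, Bool.or_eq_true, decide_eq_true_eq, List.elem_iff] at hchk
  rcases hchk with ((h3 | h3) | h3) | h3
  · omega
  · omega
  · exfalso
    rw [← hrad] at h3
    -- at most two primes
    have h4 := Nat.prod_factorization_pow_eq_self hn0
    rw [Finsupp.prod, Nat.support_factorization] at h4
    have h5 : ∃ q r i j : ℕ, q.Prime ∧ r.Prime ∧ Nat.card G = q ^ i * r ^ j := by
      obtain h6 | h6 | h6 : (Nat.card G).primeFactors.card = 0 ∨ (Nat.card G).primeFactors.card = 1 ∨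
          (Nat.card G).primeFactors.card = 2 := by omega
      · rw [Finset.card_eq_zero] at h6
        rw [h6, Finset.prod_empty] at h4
        omega
      · obtain ⟨q, hq⟩ := Finset.card_eq_one.1 h6
        have hqm : q ∈ (Nat.card G).primeFactors := by rw [hq]; simp
        rw [hq, Finset.prod_singleton] at h4
        exact ⟨q, 2, (Nat.card G).factorization q, 0, Nat.prime_of_mem_primeFactors hqm, Nat.prime_two,
          by rw [pow_zero, mul_one]; exact h4.symm⟩
      · obtain ⟨q, r, hqr, hq⟩ := Finset.card_eq_two.1 h6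
        have hqm : q ∈ (Nat.card G).primeFactors := by rw [hq]; simp
        have hrm : r ∈ (Nat.card G).primeFactors := by rw [hq]; simp
        rw [hq, Finset.prod_pair hqr] at h4
        exact ⟨q, r, _, _, Nat.prime_of_mem_primeFactors hqm, Nat.prime_of_mem_primeFactors hrm, h4.symm⟩
    obtain ⟨q, r, i, j, hq, hr, hc⟩ := h5
    exact Sv.not_two_primes hG q r i j hq hr hc
  · exact h3

end

end Cfsg.Agent.H10.OrdSv
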