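import Mathlib
import Cfsg.Agent.H10.OrdSv
import Cfsg.Agent.H10.OrdN
import Cfsg.Agent.H52.N1800
import Cfsg.Agent.H52.N3600
import Cfsg.Agent.H52.N3528
import Cfsg.Agent.H37.OrdI
import Cfsg.Agent.H52.N1512

/-!
# Orders of simple groups between 1092 and 3641
-/

set_option autoImplicit false

namespace Cfsg.Agent.H10.Ord

open Cfsg

theorem orders {G : Type*} [Group G] [Finite G] [IsSimpleGroup G] (h : ¬ IsMulCommutative G)
    (h1 : 1092 < Nat.card G) (h2 : Nat.card G ≤ 3640) :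
    Nat.card G = 2448 ∨ Nat.card G = 2520 ∨ Nat.card G = 3420 := by
  rcases Cfsg.Agent.H10.OrdSv.mem_left h h1 (by omega) with h3 | h3 | h3
  · exact Or.inl h3
  · exact Or.inr (Or.inr h3)
  · simp only [Cfsg.Agent.H10.OrdSv.left, List.mem_cons, List.not_mem_nil, or_false] at h3
    rcases h3 with h3 | h3 | h3 | h3 | h3 | h3 | h3 | h3 | h3 | h3 | h3 | h3
    · exact absurd h3 (Cfsg.Agent.H52.N1512.n1512 h)
    · exact absurd h3 (Cfsg.Agent.H37.OrdI.n1620 h)
    · exact absurd h3 (Cfsg.Agent.H52.n1764 h)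
    · exact absurd h3 (Cfsg.Agent.H52.n1800 h)
    · exact absurd h3 (Cfsg.Agent.H37.OrdI.n2160 h)
    · exact absurd h3 (Cfsg.Agent.H10.OrdN.n2400 h)
    · exact Or.inr (Or.inl h3)
    · exact absurd h3 (Cfsg.Agent.H10.OrdN.n2688 h)
    · exact absurd h3 (Cfsg.Agent.H52.n2700 h)
    · exact absurd h3 (Cfsg.Agent.H10.OrdN.n3360 h)
    · exact absurd h3 (Cfsg.Agent.H52.n3528 h)
    · exact absurd h3 (Cfsg.Agent.H52.n3600 h)

end Cfsg.Agent.H10.Ord
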