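import Mathlib
import Cfsg.Agent.P3.Pl1
import Cfsg.Prelude.Def_Sporadic_a

set_option autoImplicit false
set_option linter.unusedSectionVars false

open scoped Pointwise

namespace Cfsg.Agent.H10.PT2

open Subgroup MulAction Cfsg.Agent.P3

variable {G Ω : Type*} [Group G] [Finite G] [Finite Ω] [MulAction G Ω] {q : ℕ}
  {N : Ω → Subgroup G} {E : Ω → Ω → Subgroup G}

/-- plane type -/
def PLt (N : Ω → Subgroup G) (q : ℕ) (E : Ω → Ω → Subgroup G) (a : Ω) (B : Subgroup G) : Prop :=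
  IsE (N a) q B ∧ ∀ b, b ≠ a → E a b ≠ B

theorem gp (F : Fam G Ω q N) (D : PD N q E) : GP N q (PLt N q E) := D.gp F

theorem mem_L (F : Fam G Ω q N) (D : PD N q E) {a : Ω} {P L : Set (Subgroup G)}
    (h : PS (N a) q P L) (hE : ∀ b, b ≠ a → E a b ∈ P) {B : Subgroup G} (hB : PLt N q E a B) :
    B ∈ L := by
  rcases h.char hB.1.le hB.1.card hB.1.sq with h1 | h1
  · exfalso
    obtain ⟨b, hb⟩ := F.exists_ne a
    obtain ⟨n, hn, h2⟩ := h.trans_P (hE b hb) h1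
    have hna : n • a = a := F.le a n hn
    have h3 := D.conj F (Ne.symm hb) n
    rw [hna, h2] at h3
    refine hB.2 (n • b) ?_ h3.symm
    intro e
    exact hb (smul_left_cancel n (e.trans hna.symm))
  · exact h1

theorem of_L {a : Ω} {P L : Set (Subgroup G)}
    (h : PS (N a) q P L) (hE : ∀ b, b ≠ a → E a b ∈ P) {B : Subgroup G} (hB : B ∈ L) :
    PLt N q E a B := ⟨h.symm.isE hB, fun c hc e => h.disj (hE c hc) (e ▸ hB)⟩

theorem ust (D : PD N q E) {a b : Ω} {P L : Set (Subgroup G)} (hb : b ≠ a)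
    (h : PS (N a) q P L) (hE : ∀ b, b ≠ a → E a b ∈ P) {B : Subgroup G} (hB : B ∈ L)
    (hEB : E a b ⊓ B ≠ ⊥) : E a b ⊔ B ≤ stabilizer G b := by
  have := D.e2 a b (Ne.symm hb)
  rw [h.YYc_eq (hE b hb)] at this
  exact (h.U_le_YY (hE b hb) hB hEB).trans this

theorem inc_iff (D : PD N q E) {a b : Ω} {P L : Set (Subgroup G)} (hb : b ≠ a)
    (h : PS (N a) q P L) (hE : ∀ b, b ≠ a → E a b ∈ P) {B : Subgroup G} (hB : B ∈ L) :
    b ∈ (pln B : Set Ω) ↔ E a b ⊓ B ≠ ⊥ :=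
  ⟨fun hBb => h.inc_of_fix (hE b hb) hB fun x hx => D.e3 a b (Ne.symm hb) x (h.h2.le B hB hx) (hBb hx),
    fun hEB => le_sup_right.trans (ust D hb h hE hB hEB)⟩

theorem inj (F : Fam G Ω q N) (D : PD N q E) (hk : ∀ a b : Ω, a ≠ b → (ln N q a b).ncard = 2)
    {a b c : Ω} (hb : b ≠ a) (hc : c ≠ a) (he : E a b = E a c) : b = c := by
  obtain ⟨P, L, h, hE⟩ := D.type F a
  obtain ⟨B, hB, hAB⟩ := h.exists_inc (hE b hb)
  have hU := h.isFl (hE b hb) hB hAB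
  have h1 := ust D hb h hE hB hAB
  have h2 : E a b ⊔ B ≤ stabilizer G c := by
    have := ust D hc h hE hB (by rw [← he]; exact hAB)
    rwa [← he] at this
  have h3 : c ∈ ln N q a b := ((gp F D).mem_ln (Ne.symm hb) hU h1).2 h2
  by_contra hne
  have h4 : ({a, b, c} : Set Ω) ⊆ ln N q a b := by
    rintro x (rfl | rfl | rfl)
    · exact ln_left F _ _
    · exact ln_right _ _
    · exact h3
  have h5 := Set.ncard_le_ncard h4
  rw [hk a b (Ne.symm hb), Set.ncard_eq_three.2 ⟨a, b, c, Ne.symm hb, Ne.symm hc, hne, rfl⟩] at h5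
  omega

theorem surj (F : Fam G Ω q N) (D : PD N q E) {a : Ω} {P L : Set (Subgroup G)}
    (h : PS (N a) q P L) (hE : ∀ b, b ≠ a → E a b ∈ P) {A : Subgroup G} (hA : A ∈ P) :
    ∃ b, b ≠ a ∧ E a b = A := by
  obtain ⟨b, hb⟩ := F.exists_ne a
  obtain ⟨n, hn, h2⟩ := h.trans_P (hE b hb) hA
  have hna : n • a = a := F.le a n hn
  have h3 := D.conj F (Ne.symm hb) n
  rw [hna, h2] at h3
  exact ⟨n • b, fun e => hb (smul_left_cancel n (e.trans hna.symm)), h3.symm⟩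

theorem card_om (F : Fam G Ω q N) (D : PD N q E) (hk : ∀ a b : Ω, a ≠ b → (ln N q a b).ncard = 2) :
    Nat.card Ω = q ^ 2 + q + 2 := by
  obtain ⟨a⟩ := F.ne
  obtain ⟨P, L, h, hE⟩ := D.type F a
  have himg : (E a) '' ({a}ᶜ : Set Ω) = P := by
    ext A
    constructor
    · rintro ⟨b, hb, rfl⟩
      exact hE b hb
    · intro hA
      obtain ⟨b, hb, hbA⟩ := surj F D h hE hA
      exact ⟨b, hb, hbA⟩
  have hinj : Set.InjOn (E a) ({a}ᶜ : Set Ω) := fun b hb c hc he => inj F D hk hb hc he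
  have h1 : ({a}ᶜ : Set Ω).ncard = q ^ 2 + q + 1 := by
    rw [← h.h1.ncard, ← himg, hinj.ncard_image]
  have h2 := Set.ncard_add_ncard_compl ({a} : Set Ω)
  rw [Set.ncard_singleton, h1] at h2
  omega

theorem trans_a (F : Fam G Ω q N) (D : PD N q E)
    (hk : ∀ a b : Ω, a ≠ b → (ln N q a b).ncard = 2) {a x y : Ω} (hx : x ≠ a) (hy : y ≠ a) :
    ∃ g ∈ N a, g • x = y := by
  obtain ⟨P, L, h, hE⟩ := D.type F a
  obtain ⟨n, hn, h2⟩ := h.trans_P (hE x hx) (hE y hy)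
  have hna : n • a = a := F.le a n hn
  have h3 := D.conj F (Ne.symm hx) n
  rw [hna, h2] at h3
  exact ⟨n, hn, (inj F D hk hy (fun e => hx (smul_left_cancel n (e.trans hna.symm))) h3).symm⟩

theorem pln_inj (F : Fam G Ω q N) (D : PD N q E) {a : Ω} {P L : Set (Subgroup G)}
    (h : PS (N a) q P L) (hE : ∀ b, b ≠ a → E a b ∈ P) {B B' : Subgroup G} (hB : B ∈ L)
    (hB' : B' ∈ L) (he : (pln B : Set Ω) = pln B') : B = B' := by
  obtain ⟨A1, hA1, h1, -, -⟩ := h.third hB ⊥ ⊥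
  obtain ⟨A2, hA2, h2, hne, -⟩ := h.third hB A1 A1
  obtain ⟨c1, hc1, rfl⟩ := surj F D h hE hA1
  obtain ⟨c2, hc2, rfl⟩ := surj F D h hE hA2
  refine h.join_eq hA1 hA2 (Ne.symm hne) hB hB' h1 h2 ?_ ?_
  · rw [← inc_iff D hc1 h hE hB', ← he, inc_iff D hc1 h hE hB]
    exact h1
  · rw [← inc_iff D hc2 h hE hB', ← he, inc_iff D hc2 h hE hB]
    exact h2

/-- the blocks -/
def Bl (Ω : Type*) {G : Type*} [Group G] [MulAction G Ω] (N : Ω → Subgroup G) (q : ℕ)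
    (E : Ω → Ω → Subgroup G) : Set (Set Ω) := {s | ∃ a B, PLt N q E a B ∧ s = pln B}

theorem bl_at (F : Fam G Ω q N) (D : PD N q E) {s : Set Ω} (hs : s ∈ Bl Ω N q E) {c : Ω}
    (hc : c ∈ s) : ∃ B, PLt N q E c B ∧ s = pln B := by
  obtain ⟨a, B, hB, rfl⟩ := hs
  exact ⟨B, (gp F D).p1 a c B hB hc, rfl⟩

theorem bl_card (F : Fam G Ω q N) (D : PD N q E) (hk : ∀ a b : Ω, a ≠ b → (ln N q a b).ncard = 2)
    {s : Set Ω} (hs : s ∈ Bl Ω N q E) : s.ncard = q + 2 := by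
  obtain ⟨a, B, hB, rfl⟩ := hs
  obtain ⟨b, hb⟩ := F.exists_ne a
  rw [(gp F D).pln_card F (Ne.symm hb) hB, hk a b (Ne.symm hb)]
  omega

theorem bl_through (F : Fam G Ω q N) (D : PD N q E) {a : Ω} {P L : Set (Subgroup G)}
    (h : PS (N a) q P L) (hE : ∀ b, b ≠ a → E a b ∈ P) :
    {s | s ∈ Bl Ω N q E ∧ a ∈ s} = (fun B => (pln B : Set Ω)) '' L := by
  ext s
  constructor
  · rintro ⟨hs, ha⟩
    obtain ⟨B, hB, rfl⟩ := bl_at F D hs ha
    exact ⟨B, mem_L F D h hE hB, rfl⟩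
  · rintro ⟨B, hB, rfl⟩
    exact ⟨⟨a, B, of_L h hE hB, rfl⟩, (gp F D).self_pln F (of_L h hE hB)⟩

theorem bl_three (F : Fam G Ω q N) (D : PD N q E)
    (hk : ∀ a b : Ω, a ≠ b → (ln N q a b).ncard = 2) {a b c : Ω} (hab : a ≠ b) (hac : a ≠ c)
    (hbc : b ≠ c) : ∃! s, s ∈ Bl Ω N q E ∧ a ∈ s ∧ b ∈ s ∧ c ∈ s := by
  obtain ⟨P, L, h, hE⟩ := D.type F a
  have hne : E a b ≠ E a c := fun e => hbc (inj F D hk (Ne.symm hab) (Ne.symm hac) e)
  obtain ⟨B, ⟨hB, h1, h2⟩, hu⟩ := h.h1.join _ (hE b (Ne.symm hab)) _ (hE c (Ne.symm hac)) hne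
  refine ⟨pln B, ⟨⟨a, B, of_L h hE hB, rfl⟩, (gp F D).self_pln F (of_L h hE hB),
    (inc_iff D (Ne.symm hab) h hE hB).2 h1, (inc_iff D (Ne.symm hac) h hE hB).2 h2⟩, ?_⟩
  rintro s ⟨hs, ha, hb, hc⟩
  obtain ⟨B', hB', rfl⟩ := bl_at F D hs ha
  have hB'L := mem_L F D h hE hB'
  rw [hu B' ⟨hB'L, (inc_iff D (Ne.symm hab) h hE hB'L).1 hb, (inc_iff D (Ne.symm hac) h hE hB'L).1 hc⟩]

theorem bl_smul (F : Fam G Ω q N) (D : PD N q E) {s : Set Ω} (hs : s ∈ Bl Ω N q E) (g : G) :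
    g • s ∈ Bl Ω N q E := by
  obtain ⟨a, B, hB, rfl⟩ := hs
  refine ⟨g • a, cj g B, (gp F D).p5 g a B hB, ?_⟩
  ext c
  rw [Set.mem_smul_set_iff_inv_smul_mem, mem_pln, mem_pln]
  constructor
  · intro h2
    have := cj_le_stab (g := g) h2
    rwa [smul_inv_smul] at this
  · intro h2
    have := cj_le_stab (g := g⁻¹) h2
    rwa [cj_inv_cj] at this

theorem dvd12 (F : Fam G Ω q N) (D : PD N q E)
    (hk : ∀ a b : Ω, a ≠ b → (ln N q a b).ncard = 2) : (q + 2) ∣ (q ^ 2 + q + 2) * (q ^ 2 + q + 1) := by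
  classical
  have : Fintype Ω := Fintype.ofFinite Ω
  have h1 := Finset.card_mul_eq_card_mul (s := (Finset.univ : Finset Ω))
    (t := (Bl Ω N q E).toFinset) (m := q ^ 2 + q + 1) (n := q + 2) (fun (a : Ω) (s : Set Ω) => a ∈ s)
    (by
      intro a _
      obtain ⟨P, L, h, hE⟩ := D.type F a
      have h2 : ((Bl Ω N q E).toFinset.bipartiteAbove (fun (a : Ω) (s : Set Ω) => a ∈ s) a) =
          ((fun B => (pln B : Set Ω)) '' L).toFinset := by
        rw [← bl_through F D h hE]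
        ext s
        simp [Finset.bipartiteAbove]
      rw [h2, ← Set.ncard_eq_toFinset_card', Set.InjOn.ncard_image, h.h2.ncard]
      intro B hB B' hB' he
      exact pln_inj F D h hE hB hB' he)
    (by
      intro s hs
      have hs' : s ∈ Bl Ω N q E := by simpa using hs
      have h2 : (Finset.univ.bipartiteBelow (fun (a : Ω) (s : Set Ω) => a ∈ s) s) = s.toFinset := by
        ext a
        simp [Finset.bipartiteBelow]
      rw [h2, ← Set.ncard_eq_toFinset_card', bl_card F D hk hs'])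
  rw [Finset.card_univ, ← Nat.card_eq_fintype_card, card_om F D hk] at h1
  rw [h1]
  exact Dvd.intro_left _ rfl

theorem q_cases (F : Fam G Ω q N) (D : PD N q E)
    (hk : ∀ a b : Ω, a ≠ b → (ln N q a b).ncard = 2) : q = 2 ∨ q = 4 := by
  obtain ⟨a⟩ := F.ne
  obtain ⟨P, L, h⟩ := F.ps a
  obtain ⟨n, hn, hqn⟩ := h.pow
  have h2 := h.two_le
  have h3 := dvd12 F D hk
  have h4 : (q + 2) ∣ 12 := by
    have h5 : (q ^ 2 + q + 2) * (q ^ 2 + q + 1) + 5 * (q + 2) = (q ^ 3 + 4 * q) * (q + 2) + 12 := by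
      ring
    have h6 : (q + 2) ∣ (q ^ 2 + q + 2) * (q ^ 2 + q + 1) + 5 * (q + 2) :=
      dvd_add h3 (Dvd.intro_left _ rfl)
    rw [h5] at h6
    exact (Nat.dvd_add_right (Dvd.intro_left _ rfl)).1 h6
  have h5 : q ≤ 10 := by
    have := Nat.le_of_dvd (by norm_num) h4
    omega
  have h6 : n < 4 := by
    by_contra hn4
    have := Nat.pow_le_pow_right (show 0 < 2 by norm_num) (show 4 ≤ n by omega)
    omega
  interval_cases n
  · left; simpa using hqn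
  · right; simpa using hqn
  · exfalso
    rw [hqn] at h4
    revert h4
    decide

theorem pt_two {G Ω : Type*} [Group G] [Finite G] [Fintype Ω] [DecidableEq Ω] [MulAction G Ω] {q : ℕ}
    {N : Ω → Subgroup G} {E : Ω → Ω → Subgroup G} (F : Fam G Ω q N) (D : PD N q E)
    (hk : ∀ a b : Ω, a ≠ b → (ln N q a b).ncard = 2) :
    Fintype.card Ω = q ^ 2 + q + 2 ∧ (q = 2 ∨ q = 4) ∧
      (∀ a x y : Ω, x ≠ a → y ≠ a → ∃ g ∈ N a, g • x = y) ∧
      (q = 4 → ∃ B : Set (Finset Ω), Cfsg.IsSteinerSystem 3 6 B ∧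
        ∀ g : G, ∀ b ∈ B, b.image (g • ·) ∈ B) := by
  refine ⟨by rw [← Nat.card_eq_fintype_card]; exact card_om F D hk, q_cases F D hk,
    fun a x y hx hy => trans_a F D hk hx hy, ?_⟩
  intro hq
  refine ⟨{b | (b : Set Ω) ∈ Bl Ω N q E}, ⟨?_, ?_⟩, ?_⟩
  · intro b hb
    have h1 := bl_card F D hk hb
    rw [Set.ncard_coe_finset, hq] at h1
    exact h1
  · intro s hs
    obtain ⟨a, b, c, hab, hac, hbc, rfl⟩ := Finset.card_eq_three.1 hs
    obtain ⟨t, ⟨ht, ha, hb, hc⟩, hu⟩ := bl_three F D hk hab hac hbc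
    classical
    refine ⟨t.toFinset, ⟨by simpa using ht, ?_⟩, ?_⟩
    · intro x hx
      simp only [Finset.mem_insert, Finset.mem_singleton] at hx
      rw [Set.mem_toFinset]
      rcases hx with rfl | rfl | rfl
      · exact ha
      · exact hb
      · exact hc
    · rintro t' ⟨ht', hsub⟩
      have h1 := hu (t' : Set Ω) ⟨ht', by exact_mod_cast hsub (by simp), by exact_mod_cast hsub (by simp),
        by exact_mod_cast hsub (by simp)⟩
      apply Finset.coe_injective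
      rw [h1, Set.coe_toFinset]
  · intro g b hb
    have h1 := bl_smul F D hb g
    have h2 : ((b.image (g • ·) : Finset Ω) : Set Ω) = g • (b : Set Ω) := by
      rw [Finset.coe_image]
      rfl
    change ((b.image (g • ·) : Finset Ω) : Set Ω) ∈ Bl Ω N q E
    rw [h2]
    exact h1

end Cfsg.Agent.H10.PT2
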