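import Cfsg.Agent.H10.DihTop
import Cfsg.Agent.H10.CenDict
import Mathlib.GroupTheory.SpecificGroups.Quaternion

/-!
# Quaternion and semidihedral groups (owner: helper10)
-/

set_option autoImplicit false
set_option linter.style.haveILetI false
set_option linter.unusedSectionVars false

namespace Cfsg.Agent.H10.MC

open Cfsg

theorem quaternion {m : ℕ} (hm : 1 ≤ m) :
    MC (⊤ : Subgroup (QuaternionGroup (2 ^ m))) (QuaternionGroup.a 1) (QuaternionGroup.xa 0)
      (2 ^ m) (2 * 2 ^ m - 1) where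
  ht := ⟨dvd_pow_self 2 (by omega), by positivity, Or.inl rfl⟩
  hp := ⟨m, rfl⟩
  ordx := by rw [QuaternionGroup.orderOf_a_one]
  hx := Subgroup.mem_top _
  hy := Subgroup.mem_top _
  conj := by
    rw [mul_inv_eq_iff_eq_mul, QuaternionGroup.xa_mul_a, QuaternionGroup.a_one_pow,
      QuaternionGroup.a_mul_xa]
    congr 1
    have h2 : ((2 * 2 ^ m : ℕ) : ZMod (2 * 2 ^ m)) = 0 := ZMod.natCast_self _
    rw [Nat.cast_sub (by have : 0 < 2 ^ m := by positivity
                         omega), h2]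
    simp
  hyx := by
    intro hc
    obtain ⟨i, hi⟩ := Subgroup.mem_zpowers_iff.mp hc
    obtain ⟨k, hk⟩ : ∃ k : ℕ, (QuaternionGroup.a 1 : QuaternionGroup (2 ^ m)) ^ k =
        QuaternionGroup.xa 0 := by
      have hfin : IsOfFinOrder (QuaternionGroup.a 1 : QuaternionGroup (2 ^ m)) := by
        rw [← orderOf_pos_iff, QuaternionGroup.orderOf_a_one]
        positivity
      obtain ⟨k, hk⟩ := (Submonoid.mem_powers_iff _ _).mp
        (hfin.mem_powers_iff_mem_zpowers.mpr hc)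
      exact ⟨k, hk⟩
    rw [QuaternionGroup.a_one_pow] at hk
    exact absurd hk (by simp)
  cov := by
    intro d _
    cases d with
    | a i => exact ⟨i.val, Or.inl (by
        rw [QuaternionGroup.a_one_pow]; congr 1; exact (ZMod.natCast_zmod_val i).symm)⟩
    | xa i =>
      refine ⟨(-i).val, Or.inr ?_⟩
      rw [QuaternionGroup.a_one_pow, QuaternionGroup.a_mul_xa]
      congr 1
      have h1 : (((-i).val : ℕ) : ZMod (2 * 2 ^ m)) = -i := ZMod.natCast_zmod_val _
      rw [h1]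
      ring

theorem quaternion_sq {m : ℕ} : (QuaternionGroup.xa 0 : QuaternionGroup (2 ^ m)) *
    QuaternionGroup.xa 0 = (QuaternionGroup.a 1) ^ (2 ^ m) := by
  rw [QuaternionGroup.xa_mul_xa, QuaternionGroup.a_one_pow]
  congr 1
  push_cast
  ring

theorem exists_quat {G : Type*} [Group G] {D : Subgroup G} {m : ℕ} (hm : 1 ≤ m)
    (e : D ≃* QuaternionGroup (2 ^ m)) :
    ∃ x y : G, MC D x y (2 ^ m) (2 * 2 ^ m - 1) ∧ Quat x y (2 ^ m) (2 * 2 ^ m - 1) := by
  refine ⟨_, _, ofEquiv e (quaternion hm), rfl, ?_⟩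
  have h1 : e.symm (QuaternionGroup.xa 0) * e.symm (QuaternionGroup.xa 0) =
      (e.symm (QuaternionGroup.a 1)) ^ (2 ^ m) := by
    rw [← map_mul, quaternion_sq, map_pow]
  have h2 := congrArg (Subtype.val : D → G) h1
  simpa using h2

theorem exists_sdih {G : Type*} [Group G] {D : Subgroup G} (h : IsQuasiDihedral D) :
    ∃ (m : ℕ) (x y : G), 2 ≤ m ∧ Nat.card D = 2 ^ (m + 2) ∧
      MC D x y (2 ^ m) (2 ^ m - 1) ∧ SDih y (2 ^ m) (2 ^ m - 1) := by
  classical
  obtain ⟨n, hn, hcard, x, y, hx, hy, hxy⟩ := h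
  obtain ⟨m, rfl⟩ : ∃ m, n = m + 1 := ⟨n - 1, by omega⟩
  have hm : 2 ≤ m := by omega
  rw [Nat.add_sub_cancel] at hxy
  have h4 : 4 ∣ 2 ^ m := by
    obtain ⟨k, rfl⟩ : ∃ k, m = k + 2 := ⟨m - 2, by omega⟩
    exact ⟨2 ^ k, by rw [pow_add]; ring⟩
  have hpos : 0 < 2 ^ m := by positivity
  have hge : 4 ≤ 2 ^ m := Nat.le_of_dvd hpos h4
  haveI : Finite D := Nat.finite_of_card_ne_zero (by rw [hcard]; positivity)
  have hyx : y ∉ Subgroup.zpowers x := by
    intro hc
    obtain ⟨i, hi⟩ := Subgroup.mem_zpowers_iff.mp hc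
    have h1 : y * x * y⁻¹ = x := by
      rw [← hi, (Commute.zpow_left (Commute.refl x) i).eq, mul_inv_cancel_right]
    rw [hxy] at h1
    have h2 : x ^ (2 ^ m - 2) = 1 := by
      have h3 : x ^ (2 ^ m - 2) * x = x := by rw [← pow_succ, show 2 ^ m - 2 + 1 = 2 ^ m - 1 by omega, h1]
      exact mul_eq_right.mp h3
    have h3 := orderOf_dvd_of_pow_eq_one h2
    rw [hx, pow_succ] at h3
    have := Nat.le_of_dvd (by omega) h3
    omega
  have hidx : (Subgroup.zpowers x).index = 2 := by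
    have h5 := Subgroup.card_mul_index (Subgroup.zpowers x)
    rw [Nat.card_zpowers, hx, hcard, pow_succ (n := m + 1)] at h5
    exact Nat.eq_of_mul_eq_mul_left (by positivity) h5
  have htop : MC (⊤ : Subgroup D) x y (2 ^ m) (2 ^ m - 1) := by
    refine ⟨⟨dvd_pow_self 2 (by omega), hpos, Or.inr ⟨h4, rfl⟩⟩, ⟨m, rfl⟩, ?_,
      Subgroup.mem_top _, Subgroup.mem_top _, hxy, hyx, ?_⟩
    · rw [hx, pow_succ, mul_comm]
    · intro d _
      have hfin : IsOfFinOrder x := isOfFinOrder_of_finite x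
      have hp : ∀ g ∈ Subgroup.zpowers x, ∃ i : ℕ, g = x ^ i := by
        intro g hg
        obtain ⟨i, hi⟩ := (Submonoid.mem_powers_iff _ _).mp
          (hfin.mem_powers_iff_mem_zpowers.mpr hg)
        exact ⟨i, hi.symm⟩
      by_cases hd : d ∈ Subgroup.zpowers x
      · obtain ⟨i, hi⟩ := hp d hd
        exact ⟨i, Or.inl hi⟩
      · have h6 : d * y⁻¹ ∈ Subgroup.zpowers x := by
          rw [Subgroup.mul_mem_iff_of_index_two hidx]
          have : y⁻¹ ∉ Subgroup.zpowers x := fun hc => hyx ((Subgroup.inv_mem_iff _).mp hc)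
          tauto
        obtain ⟨i, hi⟩ := hp _ h6
        exact ⟨i, Or.inr (by rw [← hi]; group)⟩
  refine ⟨m, (x : G), (y : G), hm, by rw [hcard], ?_, h4, rfl, ?_⟩
  · exact ofEquiv (MulEquiv.refl D) htop
  · have h7 : y * y = 1 := by rw [← pow_two, ← hy, pow_orderOf_eq_one]
    exact congrArg Subtype.val h7

end Cfsg.Agent.H10.MC
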