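import Cfsg.Agent.H10.NilpInv

/-!
# Degrees in a block of rank one (owner: helper10)
-/

set_option autoImplicit false
set_option linter.style.haveILetI false
set_option linter.unusedSectionVars false

namespace Cfsg.Agent.H10.Col

open scoped ComplexConjugate BigOperators
open Cfsg Cfsg.Agent.CharBase Cfsg.Agent.Blk Cfsg.Agent.BlkF Cfsg.Agent.BlkInd Cfsg.Agent.BlkC
  Cfsg.Agent.Star Cfsg.Agent.H4 MonoidAlgebra

universe u

variable {G : Type u} [Group G] [Fintype G] {p : ℕ} [hp : Fact p.Prime] {M : Ideal AlgInt}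
  [hMp : M.IsPrime] {B : Set (IrrCharacter G)} {φ : G → ℂ} {d : IrrCharacter G → ℕ}

theorem R1.phi_int (hR : R1 p B φ d) : ∃ m : ℤ, φ 1 = (m : ℂ) := by
  obtain ⟨n, hn⟩ := hR.comb
  refine ⟨∑ η ∈ Bfin B, n η * (charDegree (η : G → ℂ) : ℤ), ?_⟩
  push_cast
  have h1 : ∀ η ∈ Bfin B, (n η : ℂ) * (charDegree (η : G → ℂ) : ℂ) = (n η * d η : ℤ) * φ 1 := by
    intro η hη
    have h2 := hR.eq η (mem_Bfin.mp hη) 1 one_reg
    rw [charDegree_spec] at h2
    rw [h2]; push_cast; ring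
  rw [Finset.sum_congr rfl h1, ← Finset.sum_mul, ← Int.cast_sum, hn]
  simp

theorem R1.pos (hR : R1 p B φ d) {χ : IrrCharacter G} (hχ : χ ∈ B) : 0 < d χ := by
  rw [Nat.pos_iff_ne_zero]
  intro h
  have h1 := hR.eq χ hχ 1 one_reg
  rw [h] at h1
  exact irr_one_ne_zero χ.2 (by rw [h1]; simp)

theorem R1.height (hM : IsPModular p M) (hB : IsPBlock M B) (hR : R1 p B φ d)
    {χ : IrrCharacter G} (hχ : χ ∈ B) : (d χ).factorization p = blockHeight p B (χ : G → ℂ) := by
  obtain ⟨m, hm⟩ := hR.phi_int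
  have hm0 : m ≠ 0 := by
    intro h
    apply hR.ne
    rw [hm, h]; simp
  have hdeg : ∀ χ ∈ B, charDegree (χ : G → ℂ) = d χ * m.natAbs := by
    intro χ hχ
    have h1 := hR.eq χ hχ 1 one_reg
    rw [charDegree_spec, hm] at h1
    have h2 : (charDegree (χ : G → ℂ) : ℤ) = d χ * m := by exact_mod_cast h1
    have h3 := congrArg Int.natAbs h2
    rw [Int.natAbs_mul, Int.natAbs_natCast, Int.natAbs_natCast] at h3
    exact h3
  have hv : ∀ χ ∈ B, (charDegree (χ : G → ℂ)).factorization p =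
      (d χ).factorization p + m.natAbs.factorization p := by
    intro χ hχ
    rw [hdeg χ hχ, Nat.factorization_mul (hR.pos hχ).ne' (Int.natAbs_ne_zero.mpr hm0),
      Finsupp.add_apply]
  -- some `d χ` is prime to `p`
  obtain ⟨χ₁, hχ₁, h1⟩ : ∃ χ₁ ∈ B, (d χ₁).factorization p = 0 := by
    by_contra hne
    push Not at hne
    obtain ⟨n, hn⟩ := hR.comb
    have h2 : (p : ℤ) ∣ 1 := by
      rw [← hn]
      refine Finset.dvd_sum fun η hη => Dvd.dvd.mul_left ?_ _
      have h3 := hne η (mem_Bfin.mp hη)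
      exact_mod_cast (hp.out.dvd_iff_one_le_factorization (hR.pos (mem_Bfin.mp hη)).ne').mpr
        (by omega)
    have h3 := Int.eq_one_of_dvd_one (by positivity) h2
    have := hp.out.one_lt
    omega
  obtain ⟨χ₀, hχ₀, h0⟩ := exists_height_zero hM hB
  have e0 := nu_eq_height_add (p := p) hχ₀
  have e1 := nu_eq_height_add (p := p) hχ₁
  have e := nu_eq_height_add (p := p) hχ
  unfold nu at e0 e1 e
  rw [hv _ hχ₀] at e0
  rw [hv _ hχ₁] at e1
  rw [hv _ hχ] at e
  omega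

end Cfsg.Agent.H10.Col
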