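import Cfsg.Agent.H10.LamChar
import Cfsg.Agent.Star.Irr

/-!
# Vanishing and divisibility of contributions (owner: helper10)
-/

set_option autoImplicit false
set_option linter.style.haveILetI false
set_option linter.unusedSectionVars false

namespace Cfsg.Agent.H10.MC

open scoped BigOperators
open Cfsg Cfsg.Agent.CharBase Cfsg.Agent.Blk Cfsg.Agent.BlkF Cfsg.Agent.BlkInd Cfsg.Agent.BlkC
  Cfsg.Agent.Star Cfsg.Agent.H4 Cfsg.Agent.H10.Col MonoidAlgebra

universe u

section grp

variable {G : Type*} [Group G] {D : Subgroup G} {x y : G} {h t : ℕ}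

theorem sq_out_mem (H : MC D x y h t) (h2 : Two x y h) {u : G} (hu : u ∈ D)
    (hux : u ∉ Subgroup.zpowers x) : u * u = 1 ∨ u * u = x ^ h := by
  obtain ⟨i, rfl | rfl⟩ := H.cov u hu
  · exact absurd (mem_zp i) hux
  · rw [← H.mem_zz, H.sq_out]
    refine Subgroup.mul_mem _ ?_ (h2.mem H)
    rw [H.pow_mem_zz]
    have h3 : h ∣ t + 1 := by
      have hpos := H.pos
      rcases H.ht.2.2 with h4 | ⟨-, h4⟩
      · exact ⟨2, by omega⟩
      · exact ⟨1, by omega⟩
    exact h3.mul_right i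

theorem mem_zp_of_ord (H : MC D x y h t) (h2 : Two x y h) {u : G} (hu : u ∈ D)
    (o2 : orderOf u ≠ 2) (o4 : orderOf u ≠ 4) : u ∈ Subgroup.zpowers x := by
  by_contra hux
  rcases H.sq_out_mem h2 hu hux with h3 | h3
  · have h4 : orderOf u ∣ 2 := orderOf_dvd_of_pow_eq_one (by rw [pow_two]; exact h3)
    rcases (Nat.dvd_prime Nat.prime_two).mp h4 with h5 | h5
    · rw [orderOf_eq_one_iff] at h5
      exact hux (h5 ▸ Subgroup.one_mem _)
    · exact o2 h5
  · exact o4 (H.ord_four h3)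

end grp

variable {G : Type u} [Group G] [Fintype G] {M : Ideal AlgInt} [hMp : M.IsPrime]
  {B : Set (IrrCharacter G)} {D : Subgroup G} {E : MonoidAlgebra (kM M) G} {x y : G} {h t : ℕ}
  {eG : ∀ v : G, Set (IrrCharacter (Subgroup.centralizer (Subgroup.zpowers v : Set G)))}
  {η : G → ℂ}

theorem not_dvd_of_ord (H : MC D x y h t) {i : ℕ} (o1 : orderOf (x ^ i) ≠ 1)
    (o2 : orderOf (x ^ i) ≠ 2) : ¬ h ∣ i := by
  rintro ⟨c, rfl⟩
  rw [pow_mul] at o1 o2
  have h1 : (x ^ h) ^ c ∈ Subgroup.zpowers (x ^ h) := Subgroup.npow_mem_zpowers _ _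
  rw [H.mem_zz] at h1
  rcases h1 with h1 | h1
  · rw [h1, orderOf_one] at o1; exact o1 rfl
  · rw [h1, H.ord_z] at o2; exact o2 rfl

theorem Lam.stable (hM : IsPModular 2 M) (he : haveI := charP_kM hM; MMax 2 D E)
    (H : MC D x y h t) (h2 : Two x y h) (hl : Lam D x h t η) :
    StableF 2 D E η := by
  haveI := charP_kM hM
  intro u g f hf hf'
  have hu : u ∈ D := hf.le (Subgroup.mem_zpowers _)
  have hv : g * u * g⁻¹ ∈ D := hf'.le (Subgroup.mem_zpowers _)
  have hord : orderOf (g * u * g⁻¹) = orderOf u := Col.orderOf_conj' g u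
  by_cases e1 : orderOf u = 1
  · rw [orderOf_eq_one_iff] at e1
    rw [e1]; simp
  by_cases e2 : orderOf u = 2
  · obtain ⟨c, hc⟩ := hl.two
    rw [hc _ hv (hord.trans e2), hc _ hu e2]
  by_cases e4 : orderOf u = 4
  · obtain ⟨c, hc⟩ := hl.four
    rw [hc _ hv (hord.trans e4), hc _ hu e4]
  obtain ⟨i, -, rfl⟩ := H.exists_pow (H.mem_zp_of_ord h2 hu e2 e4)
  obtain ⟨j, -, hj⟩ := H.exists_pow (H.mem_zp_of_ord h2 hv (by rw [hord]; exact e2)
    (by rw [hord]; exact e4))
  have hi : ¬ h ∣ i := H.not_dvd_of_ord e1 e2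
  have hj' : ¬ h ∣ j := H.not_dvd_of_ord (by rw [← hj, hord]; exact e1)
    (by rw [← hj, hord]; exact e2)
  rcases H.fusX hM he hi hj' hf hf' hj with h3 | h3
  · rw [hj, h3]
  · rw [hj, h3, hl.inv]

/-- the columns of unfused outer elements are rational integers -/
theorem out_int (hM : IsPModular 2 M) (he : haveI := charP_kM hM; MMax 2 D E)
    (L : Loc M B D E eG) (H : MC D x y h t) (h2 : Two x y h) {u : G} (hu : u ∈ D)
    (hux : u ∉ Subgroup.zpowers x)
    [Fintype (Subgroup.centralizer (Subgroup.zpowers u : Set G))]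
    {φ : Subgroup.centralizer (Subgroup.zpowers u : Set G) → ℂ}
    {d : IrrCharacter (Subgroup.centralizer (Subgroup.zpowers u : Set G)) → ℕ}
    (hR : R1 2 (eG u) φ d) (χ : IrrCharacter G) :
    ∃ a : ℤ, Col.D u (eG u) d (χ : G → ℂ) = (a : ℂ) := by
  haveI := charP_kM hM
  rcases H.sq_out_mem h2 hu hux with h3 | h3
  · refine D_int (orderOf_eq_prime (by rw [pow_two]; exact h3) ?_) (cent_eq rfl) _ _ χ
    intro hc
    exact hux (hc ▸ Subgroup.one_mem _)
  · have hord : orderOf u = 2 * 2 := H.ord_four h3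
    have hζ : IsPrimitiveRoot Complex.I (2 * 2) := Complex.isPrimitiveRoot_I
    obtain ⟨A, hA⟩ := D_poly (cent_eq rfl) (by norm_num : 0 < 2) hζ hord (eG u) d χ
    have hg := H.conj_half hu hux
    have hu3 : x ^ h * u = u ^ 3 := by rw [← h3, pow_succ, pow_two]
    have hzp : Subgroup.zpowers (x ^ h * u) = Subgroup.zpowers u := by
      rw [hu3]
      exact zpowers_pow_of_coprime (by rw [hord]; decide)
    have h4 := BlkF.mle_cj_of_mem he.1 (L.mle u hu) (D.pow_mem H.hx (h / 2))
    rw [show cjS (x ^ (h / 2)) (Subgroup.zpowers u) = Subgroup.zpowers (x ^ (h / 2) * u *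
      (x ^ (h / 2))⁻¹) from MonoidHom.map_zpowers (MulAut.conj (x ^ (h / 2))).toMonoidHom _,
      hg, hzp] at h4
    have h5 := L.uniq hM he hu h4
    have h6 := D_inv hM (g := x ^ (h / 2)) rfl (by rw [hg, hzp]) (L.pel u hu) (L.ind u hu).1 hR h5 χ
    rw [hg, hu3, hA 3 (by decide)] at h6
    have h7 := hA 1 odd_one
    rw [pow_one] at h7
    rw [h7] at h6
    simp only [Finset.sum_range_succ, Finset.sum_range_zero] at h6 h7
    have h8 : Complex.I ^ (3 * 1) = -Complex.I := by
      rw [mul_one, pow_succ, Complex.I_sq]; ring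
    rw [h8] at h6
    norm_num at h6 h7
    have h9 : (2 : ℂ) * (A 1 : ℂ) * Complex.I = 0 := by linear_combination -h6
    have h10 : (A 1 : ℂ) = 0 := by
      rcases mul_eq_zero.mp h9 with h11 | h11
      · rcases mul_eq_zero.mp h11 with h12 | h12
        · norm_num at h12
        · exact h12
      · exact absurd h11 Complex.I_ne_zero
    refine ⟨A 0, ?_⟩
    rw [h7, h10]; ring

/-- **the unfused outer columns vanish on characters of positive height** -/
theorem out_zero (hM : IsPModular 2 M)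
    (he : haveI := charP_kM hM; MMax 2 D E)
    (L : Loc M B D E eG) (H : MC D x y h t) (h2 : Two x y h)
    (h4 : ((Bfin B).filter (fun χ : IrrCharacter G => blockHeight 2 B (χ : G → ℂ) = 0)).card = 4)
    {u : G} (hu : u ∈ D) (hunf : ∀ i : ℕ, ¬ SC M eG u (x ^ i))
    [Fintype (Subgroup.centralizer (Subgroup.zpowers u : Set G))]
    {χ : IrrCharacter G} (hχ : χ ∈ B) (h0 : blockHeight 2 B (χ : G → ℂ) ≠ 0)
    (ψ : IrrCharacter G) :
    sc 2 u (eG u) (χ : G → ℂ) (ψ : G → ℂ) = 0 := by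
  classical
  haveI := charP_kM hM
  have hux : u ∉ Subgroup.zpowers x := by
    intro hv
    obtain ⟨i, -, rfl⟩ := H.exists_pow hv
    exact hunf i (SC.refl _)
  obtain ⟨hr, hd⟩ := H.nilp_out hM he L hu hunf
  obtain ⟨φ, d, hR⟩ := exists_R1 hM (L.ind u hu).1 hr
  have hint := fun χ => H.out_int hM he L h2 hu hux hR χ
  choose a ha using hint
  have hn := norm_D hM (L.pel u hu) (cent_eq rfl) (L.ind u hu) hr hR
  rw [hd] at hn
  have hn2 : ∑ χ ∈ Bfin B, a χ ^ 2 = 4 := by
    have : ((∑ χ ∈ Bfin B, a χ ^ 2 : ℤ) : ℂ) = ((4 : ℤ) : ℂ) := by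
      push_cast
      rw [show ((4 : ℕ) : ℂ) = 4 by norm_num] at hn
      rw [← hn]
      refine Finset.sum_congr rfl fun χ _ => ?_
      rw [ha, map_intCast]; ring
    exact_mod_cast this
  have hsplit := Finset.sum_filter_add_sum_filter_not (Bfin B)
    (fun χ : IrrCharacter G => blockHeight 2 B (χ : G → ℂ) = 0) (fun χ => a χ ^ 2)
  have h5 : (4 : ℤ) ≤ ∑ χ ∈ (Bfin B).filter (fun χ : IrrCharacter G =>
      blockHeight 2 B (χ : G → ℂ) = 0), a χ ^ 2 := by
    have h6 : ∑ χ ∈ (Bfin B).filter (fun χ : IrrCharacter G =>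
      blockHeight 2 B (χ : G → ℂ) = 0), (1 : ℤ) ≤ ∑ χ ∈ (Bfin B).filter (fun χ : IrrCharacter G =>
      blockHeight 2 B (χ : G → ℂ) = 0), a χ ^ 2 := by
      refine Finset.sum_le_sum fun χ hχ => ?_
      have h7 := Finset.mem_filter.mp hχ
      have h8 := D_ne_zero hM (L.pel u hu) rfl (L.ind u hu) hr hR (mem_Bfin.mp h7.1) h7.2
      rw [ha] at h8
      have h9 : a χ ≠ 0 := by exact_mod_cast h8
      have := Int.one_le_abs h9
      nlinarith [sq_abs (a χ)]
    rw [Finset.sum_const, h4] at h6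
    simpa using h6
  have h6 : a χ ^ 2 ≤ ∑ χ ∈ (Bfin B).filter (fun χ : IrrCharacter G =>
      ¬ blockHeight 2 B (χ : G → ℂ) = 0), a χ ^ 2 :=
    Finset.single_le_sum (f := fun χ => a χ ^ 2) (fun _ _ => sq_nonneg _)
      (Finset.mem_filter.mpr ⟨mem_Bfin.mpr hχ, h0⟩)
  have h7 : a χ = 0 := by
    have h8 : a χ ^ 2 = 0 := by
      have := sq_nonneg (a χ)
      omega
    exact pow_eq_zero_iff (two_ne_zero) |>.mp h8
  have h8 := sc_eq_D hM (L.ind u hu).1 hr hR u (χ : G → ℂ) (ψ : G → ℂ)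
  rw [ha, h7, Int.cast_zero, zero_mul] at h8
  exact (mul_eq_zero.mp h8).resolve_left (pne _)

theorem exists_b {C C' : Subgroup G} (hC : C = C') (e : Set (IrrCharacter C))
    (hind : IsInducedBlock M C e B) : ∃ b : Set (IrrCharacter C'), IsInducedBlock M C' b B ∧
      EB M C' b = EB M C e := by
  subst hC; exact ⟨e, hind, rfl⟩

/-- every non-trivial element of `D` is conjugate to a member of the family -/
theorem exists_vf (hM : IsPModular 2 M) (hB : IsPBlock M B)
    (he : haveI := charP_kM hM; MMax 2 D E)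
    (hb : haveI := charP_kM hM; MPairOf 2 (eB M B) D E) (L : Loc M B D E eG)
    (H : MC D x y h t) {v : G} (hv : v ∈ D) (hv1 : v ≠ 1) :
    ∃ i, SC M eG v (vf M x y h t eG i) := by
  classical
  haveI := Fintype.ofFinite {j : Fin 2 // Unf M x y eG j}
  obtain ⟨F, hc⟩ := H.famC hM hB he hb L
  obtain ⟨b, hb1, hb2⟩ := exists_b (centralizer_zpowers_eq v) (eG v) (L.ind v hv)
  obtain ⟨i, hi⟩ := hc v hv1 (L.pel v hv) b hb1
  refine ⟨i, ?_⟩
  rw [hb2] at hi
  exact hi

/-- **divisibility of the contributions of the central involution** -/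
theorem S_div (hM : IsPModular 2 M) (hB : IsPBlock M B)
    (he : haveI := charP_kM hM; MMax 2 D E)
    (hb : haveI := charP_kM hM; MPairOf 2 (eB M B) D E) (L : Loc M B D E eG)
    (H : MC D x y h t) (h2 : Two x y h) (hl : Lam D x h t η)
    [∀ v : G, Fintype (Subgroup.centralizer (Subgroup.zpowers v : Set G))]
    {χ : IrrCharacter G} (hχ : χ ∈ B)
    (hz : ∀ i, i ≠ Sum.inl ⟨h - 1, Nat.sub_lt H.pos one_pos⟩ →
      sc 2 (vf M x y h t eG i) (eG (vf M x y h t eG i)) (χ : G → ℂ) (χ : G → ℂ) = 0)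
    (ψ : IrrCharacter G) :
    ∃ n : ℤ, 4 * sc 2 (x ^ h) (eG (x ^ h)) (χ : G → ℂ) (ψ : G → ℂ) = n := by
  classical
  haveI := charP_kM hM
  have hst := hl.stable hM he H h2
  have hzD : x ^ h ∈ D := D.pow_mem H.hx h
  have hχc := irr_isClassFunction χ
  have hψc := irr_isClassFunction ψ
  have hwt : IsWt 2 (wt 2 D E η) := by
    haveI := Fintype.ofFinite D
    exact isWt_wt hM he hl.gen hst
  have hgen := wstar_gen hM hwt (irr_isCharacter χ)
  obtain ⟨n1, hn1⟩ := classInner_intCast hgen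
    (Cfsg.Agent.Char.BI.isGeneralizedCharacter_of_isCharacter (irr_isCharacter ψ))
  obtain ⟨n0, hn0⟩ := classInner_intCast
    (Cfsg.Agent.Char.BI.isGeneralizedCharacter_of_isCharacter (irr_isCharacter χ))
    (Cfsg.Agent.Char.BI.isGeneralizedCharacter_of_isCharacter (irr_isCharacter ψ))
  obtain ⟨c, hc⟩ := hl.one
  have hkey : wstar 2 (fun v f => η 1 - wt 2 D E η v f) (χ : G → ℂ) =
      wstar 2 (fun v f => 4 * wOrb (x ^ h) (EB M _ (eG (x ^ h))) v f) (χ : G → ℂ) := by
    refine wstar_ext hχc hχc ?_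
    intro v e hv hep _
    by_cases hpair : MPairOf 2 (eB M B) (Subgroup.zpowers v) (EB M _ e)
    · obtain ⟨v', hv', hs, g, hg⟩ := L.exists_sc hM he hb hpair
      by_cases hv1 : v = 1
      · have h3 : wt 2 D E η v (EB M _ e) = η 1 := by
          obtain ⟨g', hg'⟩ := he.exists_conj_le hb hpair
          rw [zpowers_conj'] at hg'
          rw [wt_eq hst hg', hv1]; simp
        have h4 : wOrb (x ^ h) (EB M _ (eG (x ^ h))) v (EB M _ e) = 0 := by
          unfold wOrb
          rw [if_neg]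
          rintro ⟨g', hg', -⟩
          rw [hv1] at hg'
          apply H.z_ne
          have : x ^ h = g'⁻¹ * (g' * x ^ h * g'⁻¹) * g' := by group
          rw [this, ← hg']; group
        rw [h3, h4, sub_self, mul_zero]
      · have hv'1 : v' ≠ 1 := by
          intro h3
          apply hv1
          have : v = g⁻¹ * (g * v * g⁻¹) * g := by group
          rw [this, ← hg, h3]; group
        obtain ⟨i, hi⟩ := H.exists_vf hM hB he hb L hv' hv'1
        have hs2 : SConj v (EB M _ e) (vf M x y h t eG i) (EB M _ (eG (vf M x y h t eG i))) :=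
          hs.trans hi
        by_cases hil : i = Sum.inl ⟨h - 1, Nat.sub_lt H.pos one_pos⟩
        · have h5 : vf M x y h t eG i = x ^ h := by
            rw [hil]
            change x ^ rr h t (h - 1 + 1) = x ^ h
            rw [Nat.sub_add_cancel H.pos, H.rr_h]
          rw [h5] at hs2
          obtain ⟨g1, hg1, hg2⟩ := hs2
          have h6 : wt 2 D E η v (EB M _ e) = η (x ^ h) := by
            have h7 : MLe 2 (Subgroup.zpowers (g1 * v * g1⁻¹)) (Blk.cj g1 (EB M _ e)) D E := by
              rw [← hg1, ← hg2]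
              exact L.mle _ hzD
            rw [wt_eq hst h7, ← hg1]
          have h8 : wOrb (x ^ h) (EB M _ (eG (x ^ h))) v (EB M _ e) = 1 := by
            unfold wOrb
            rw [if_pos]
            refine ⟨g1⁻¹, ?_, ?_⟩
            · rw [hg1]; group
            · rw [hg2, cj_cj, inv_mul_cancel, cj_one_left]
          rw [h6, h8, hl.diff, mul_one]
        · have h9 := sc_congr hM rfl rfl hv hep (L.ind _ (H.vf_mem i)).1 hs2 χ χ
          rw [hz i hil] at h9
          have h10 : dpart 2 v e (χ : G → ℂ) = 0 := by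
            by_contra hne
            obtain ⟨s, hs⟩ := Function.ne_iff.mp hne
            have h11 : 0 < (sc 2 v e (χ : G → ℂ) (χ : G → ℂ)).re := by
              rw [sc_self, Complex.ofReal_re]
              apply mul_pos (inv_pos.mpr (by exact_mod_cast Nat.card_pos))
              refine Finset.sum_pos' (fun s _ => Complex.normSq_nonneg _)
                ⟨s, Finset.mem_univ _, ?_⟩
              exact Complex.normSq_pos.mpr hs
            rw [h9, Complex.zero_re] at h11
            exact lt_irrefl _ h11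
          rw [h10, smul_zero, smul_zero]
    · rw [dpart_eq_zero hM hB hχ hv hep hpair, smul_zero, smul_zero]
  have hpt : ∀ g, η 1 * (χ : G → ℂ) g - wstar 2 (wt 2 D E η) (χ : G → ℂ) g =
      4 * wstar 2 (wOrb (x ^ h) (EB M _ (eG (x ^ h)))) (χ : G → ℂ) g := by
    intro g
    have h3 := congrFun hkey g
    have h4 := congrFun (wstar_one (p := 2) (M := M) hχc) g
    simp only [wstar, sub_mul, Finset.sum_sub_distrib, mul_assoc, ← Finset.mul_sum, one_mul]
      at h3 h4 ⊢
    rw [← h3, h4]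
  have hinner : η 1 * classInner (χ : G → ℂ) (ψ : G → ℂ) -
      classInner (wstar 2 (wt 2 D E η) (χ : G → ℂ)) (ψ : G → ℂ) =
      4 * classInner (wstar 2 (wOrb (x ^ h) (EB M _ (eG (x ^ h)))) (χ : G → ℂ)) (ψ : G → ℂ) := by
    unfold classInner
    rw [mul_left_comm, Finset.mul_sum (a := η 1), ← mul_sub, ← Finset.sum_sub_distrib,
      mul_left_comm, Finset.mul_sum (a := (4 : ℂ))]
    congr 1
    refine Finset.sum_congr rfl fun g _ => ?_
    have := hpt g
    linear_combination ((starRingEnd ℂ) ((ψ : G → ℂ) g)) * this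
  rw [classInner_wOrb' hM rfl (L.pel _ hzD) (L.ind _ hzD).1 hχc hψc, hn0, hn1, hc] at hinner
  exact ⟨c * n0 - n1, by rw [← hinner]; push_cast; ring⟩

end Cfsg.Agent.H10.MC
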