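import Cfsg.Agent.H10.LevSrc
import Cfsg.Agent.H10.RankOneHt
import Cfsg.Agent.H10.SDiv

/-!
# Heights of the characters supported on few levels (owner: helper10)
-/

set_option autoImplicit false
set_option linter.style.haveILetI false
set_option linter.unusedSectionVars false

namespace Cfsg.Agent.H10

open scoped ComplexConjugate BigOperators
open Cfsg Cfsg.Agent.CharBase Cfsg.Agent.Blk Cfsg.Agent.BlkF Cfsg.Agent.BlkInd Cfsg.Agent.BlkC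
  Cfsg.Agent.Star Cfsg.Agent.H4 Cfsg.Agent.H10.Col MonoidAlgebra

universe u

/-- `1 - ω` divides two -/
theorem two_eq (K : ℕ) {ω : ℂ} (h1 : ω ^ 2 ^ K = 1) (hne : ω ≠ 1) :
    ∃ s : ℂ, IsIntegral ℤ s ∧ (1 - ω) * s = 2 := by
  induction K with
  | zero => rw [pow_zero, pow_one] at h1; exact absurd h1 hne
  | succ K ih =>
    by_cases h2 : ω ^ 2 ^ K = 1
    · exact ih h2
    · have h3 : ω ^ 2 ^ K = -1 := by
        have h4 : (ω ^ 2 ^ K - 1) * (ω ^ 2 ^ K + 1) = 0 := by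
          have : ω ^ 2 ^ (K + 1) = (ω ^ 2 ^ K) ^ 2 := by rw [← pow_mul, ← pow_succ]
          rw [this] at h1
          linear_combination h1
        rcases mul_eq_zero.mp h4 with h5 | h5
        · exact absurd (sub_eq_zero.mp h5) h2
        · exact eq_neg_of_add_eq_zero_left h5
      refine ⟨∑ i ∈ Finset.range (2 ^ K), ω ^ i, ?_, ?_⟩
      · have hω : IsIntegral ℤ ω := by
          refine IsIntegral.of_pow (n := 2 ^ (K + 1)) (by positivity) ?_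
          rw [h1]; exact isIntegral_one
        exact IsIntegral.sum _ fun i _ => hω.pow i
      · rw [mul_neg_geom_sum, h3]; norm_num

theorem int_of_root {ζ : ℂ} {N : ℕ} (hN : 0 < N) (h : ζ ^ N = 1) : IsIntegral ℤ ζ := by
  refine IsIntegral.of_pow hN ?_
  rw [h]; exact isIntegral_one

/-- the values on the characters of type `T` -/
theorem T_val {m : ℕ} (hm : 0 < m) {ζ : ℂ} (hζ : IsPrimitiveRoot ζ (2 * 2 ^ m)) {A : ℕ → ℤ} {j : ℕ}
    (hj0 : 0 < j) (hj : 2 * j < 2 ^ m) (hAj : A j ^ 2 = 1)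
    (hz : ∀ l, 2 * l < 2 ^ m → l ≠ j → A l = 0)
    (hsym : ∀ l, 0 < l → l < 2 ^ m → (A (2 ^ m - l) = A l ∨ A (2 ^ m - l) = - A l))
    (hmid : A (2 ^ m / 2) = 0) :
    ∃ c : ℂ, IsIntegral ℤ c ∧ (∑ l ∈ Finset.range (2 ^ m), (A l : ℂ) * ζ ^ l) * c = 2 := by
  have h2m : 2 ∣ 2 ^ m := dvd_pow_self 2 hm.ne'
  have hall : ∀ l ∈ Finset.range (2 ^ m), l ≠ j ∧ l ≠ 2 ^ m - j → (A l : ℂ) * ζ ^ l = 0 := by
    rintro l hl ⟨h1, h2⟩
    rw [Finset.mem_range] at hl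
    have h3 : A l = 0 := by
      rcases lt_trichotomy (2 * l) (2 ^ m) with h4 | h4 | h4
      · exact hz l h4 h1
      · have : l = 2 ^ m / 2 := by omega
        rw [this]; exact hmid
      · have h5 : 2 ^ m - (2 ^ m - l) = l := by omega
        have h6 := hsym (2 ^ m - l) (by omega) (by omega)
        rw [h5] at h6
        have h7 : A (2 ^ m - l) = 0 := hz _ (by omega) (by omega)
        rw [h7] at h6
        simpa using h6
    rw [h3]; simp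
  have hsum : ∑ l ∈ Finset.range (2 ^ m), (A l : ℂ) * ζ ^ l =
      (A j : ℂ) * ζ ^ j + (A (2 ^ m - j) : ℂ) * ζ ^ (2 ^ m - j) := by
    refine Finset.sum_eq_add_of_mem j (2 ^ m - j) ?_ ?_ (by omega) hall
    · rw [Finset.mem_range]; omega
    · rw [Finset.mem_range]; omega
  obtain ⟨ε, hε, hε2⟩ : ∃ ε : ℤ, ε ^ 2 = 1 ∧ A (2 ^ m - j) = ε * A j := by
    rcases hsym j hj0 (by omega) with h1 | h1
    · exact ⟨1, by norm_num, by rw [h1, one_mul]⟩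
    · exact ⟨-1, by norm_num, by rw [h1]; ring⟩
  have hζ1 : ζ ^ (2 * 2 ^ m) = 1 := hζ.pow_eq_one
  have hω1 : (-(ε : ℂ) * ζ ^ (2 ^ m - 2 * j)) ^ 2 ^ (m + 1) = 1 := by
    have e1 : (2 : ℕ) ^ (m + 1) = 2 * 2 ^ m := pow_succ' 2 m
    have a0 : (ε : ℂ) ^ 2 = 1 := by exact_mod_cast hε
    have a1 : (-(ε : ℂ)) ^ (2 * 2 ^ m) = 1 := by rw [pow_mul, neg_sq, a0, one_pow]
    have a2 : (ζ ^ (2 ^ m - 2 * j)) ^ (2 * 2 ^ m) = 1 := by
      rw [← pow_mul, mul_comm, pow_mul, hζ1, one_pow]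
    rw [e1, mul_pow, a1, a2, one_mul]
  have hωne : -(ε : ℂ) * ζ ^ (2 ^ m - 2 * j) ≠ 1 := by
    intro hc
    have h1 : (-(ε : ℂ) * ζ ^ (2 ^ m - 2 * j)) ^ 2 = 1 := by rw [hc, one_pow]
    have h3 : (ε : ℂ) ^ 2 = 1 := by exact_mod_cast hε
    rw [mul_pow, neg_sq, h3, one_mul, ← pow_mul] at h1
    have h2 := hζ.dvd_of_pow_eq_one _ h1
    have := Nat.le_of_dvd (by omega) h2
    omega
  obtain ⟨s, hs1, hs2⟩ := two_eq (m + 1) hω1 hωne
  refine ⟨(A j : ℂ) * ζ ^ (2 * 2 ^ m - j) * s, ?_, ?_⟩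
  · exact ((isIntegral_algebraMap (R := ℤ) (x := A j)).mul
      ((int_of_root (by positivity) hζ1).pow _)).mul hs1
  · rw [hsum, hε2]
    push_cast
    have e1 : ζ ^ (2 ^ m - j) = ζ ^ j * ζ ^ (2 ^ m - 2 * j) := by
      rw [← pow_add]; congr 1; omega
    have e2 : ζ ^ j * ζ ^ (2 * 2 ^ m - j) = 1 := by
      rw [← pow_add, show j + (2 * 2 ^ m - j) = 2 * 2 ^ m by omega, hζ1]
    have e3 : (A j : ℂ) ^ 2 = 1 := by exact_mod_cast hAj
    rw [e1]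
    calc ((A j : ℂ) * ζ ^ j + (ε : ℂ) * (A j : ℂ) * (ζ ^ j * ζ ^ (2 ^ m - 2 * j))) *
        ((A j : ℂ) * ζ ^ (2 * 2 ^ m - j) * s) =
        (A j : ℂ) ^ 2 * (ζ ^ j * ζ ^ (2 * 2 ^ m - j)) *
          ((1 - -(ε : ℂ) * ζ ^ (2 ^ m - 2 * j)) * s) := by ring
      _ = 2 := by rw [e2, e3, hs2]; ring

namespace MC

variable {G : Type u} [Group G] [Fintype G] {M : Ideal AlgInt} [hMp : M.IsPrime]
  {B : Set (IrrCharacter G)} {D : Subgroup G} {E : MonoidAlgebra (kM M) G} {x y : G} {t m : ℕ}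
  [∀ v : G, Fintype (Subgroup.centralizer (Subgroup.zpowers v : Set G))]
  {es : ∀ s : ℕ, Set (IrrCharacter (Subgroup.centralizer (Subgroup.zpowers (x ^ 2 ^ s) : Set G)))}
  {φs : ∀ s : ℕ, Subgroup.centralizer (Subgroup.zpowers (x ^ 2 ^ s) : Set G) → ℂ}
  {ds : ∀ s : ℕ, IrrCharacter (Subgroup.centralizer (Subgroup.zpowers (x ^ 2 ^ s) : Set G)) → ℕ}

theorem ht_le_one (hM : IsPModular 2 M) (hB : IsPBlock M B)
    (hD : haveI := charP_kM hM; IsDef 2 ⊤ (eB M B) D)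
    (H : MC D x y (2 ^ m) t) (L : LS M B D E x m es φs ds) {ζ : ℂ}
    (hζ : IsPrimitiveRoot ζ (2 * 2 ^ m)) {s : ℕ} (hs : s < m) {A : ℕ → IrrCharacter G → ℤ}
    (hA : ∀ χ ∈ B, ∀ i, Odd i → Col.D ((x ^ 2 ^ s) ^ i) (es s) (ds s) (χ : G → ℂ) =
        ∑ l ∈ Finset.range (2 ^ (m - s)), (A l χ : ℂ) * (ζ ^ 2 ^ s) ^ (i * l))
    {χ : IrrCharacter G} (hχ : χ ∈ B) {c : ℂ} (hc : IsIntegral ℤ c)
    (hDc : Col.D (x ^ 2 ^ s) (es s) (ds s) (χ : G → ℂ) * c = 2) :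
    blockHeight 2 B (χ : G → ℂ) ≤ 1 := by
  haveI := charP_kM hM
  obtain ⟨χ₀, hχ₀, h00⟩ := exists_height_zero hM hB
  have hdB := H.blockDefect_B hM hB hD
  have hdf := L.df s hs
  have hcyc : Col.D (x ^ 2 ^ s) (es s) (ds s) (χ₀ : G → ℂ) ∈ cycRing (2 ^ (m + 1)) := by
    have h1 := hA χ₀ hχ₀ 1 odd_one
    simp only [pow_one, one_mul] at h1
    rw [h1]
    refine Subring.sum_mem _ fun l _ => Subring.mul_mem _ (intCast_mem _ _)
      (Subring.pow_mem _ (Subring.pow_mem _ (Subring.subset_closure ?_) _) _)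
    change ζ ^ 2 ^ (m + 1) = 1
    rw [pow_succ, mul_comm, hζ.pow_eq_one]
  have hlt : blockDefect 2 (es s) < blockDefect 2 B := by
    by_contra hcon
    push Not at hcon
    have h1 := Nat.pow_le_pow_right (n := 2) (by norm_num) hcon
    rw [hdf, hdB] at h1
    have : 0 < 2 ^ m := by positivity
    omega
  obtain ⟨w, hw1, hw2⟩ := exists_val_nonmajor hM hB (L.pel s hs) (cent_eq rfl) (L.ind s hs) hlt
    hχ hχ₀
  have h1 := sc_eq_D hM (L.ind s hs).1 (L.rk s hs) (L.r1 s hs) (x ^ 2 ^ s) (χ : G → ℂ)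
    (χ₀ : G → ℂ)
  have hpow : ((2 : ℕ) : ℂ) ^ blockDefect 2 B = 2 * ((2 : ℕ) : ℂ) ^ blockDefect 2 (es s) := by
    have : 2 ^ blockDefect 2 B = 2 * 2 ^ blockDefect 2 (es s) := by rw [hdf, hdB]; ring
    exact_mod_cast this
  rw [hpow, mul_assoc, h1] at hw2
  by_contra hcon
  push Not at hcon
  obtain ⟨n, hn⟩ := Nat.exists_eq_add_of_le hcon
  have hn' : blockHeight 2 B (χ : G → ℂ) = n + 2 := by omega
  rw [hn', pow_add] at hw2
  have h2 : conj (Col.D (x ^ 2 ^ s) (es s) (ds s) (χ₀ : G → ℂ)) = ((2 : ℕ) : ℂ) ^ n * c * w := by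
    have h3 : (4 : ℂ) ≠ 0 := by norm_num
    apply mul_left_cancel₀ h3
    have e1 : ((2 : ℕ) : ℂ) ^ 2 = 4 := by norm_num
    rw [e1] at hw2
    linear_combination c * hw2 - 2 * conj (Col.D (x ^ 2 ^ s) (es s) (ds s) (χ₀ : G → ℂ)) * hDc
  have h3 : MemLocalIdeal M (conj (Col.D (x ^ 2 ^ s) (es s) (ds s) (χ₀ : G → ℂ))) := by
    rw [h2]
    exact mli_mul_left (mlr_mul (mlr_pow (mlr_natCast _) _) (mlr_of_isIntegral hc)) hw1
  rw [mli_conj_iff hM hcyc] at h3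
  exact not_mli_D hM (L.pel s hs) (cent_eq rfl) (L.ind s hs) (L.rk s hs) (L.r1 s hs) hχ₀ h00 h3

/-- the contributions vanish when the coefficients vanish -/
theorem sc_lev_zero (hM : IsPModular 2 M) 
    (he : haveI := charP_kM hM; MMax 2 D E)
    {eG : ∀ v : G, Set (IrrCharacter (Subgroup.centralizer (Subgroup.zpowers v : Set G)))}
    (LG : Loc M B D E eG)
    (H : MC D x y (2 ^ m) t) (L : LS M B D E x m es φs ds) {ζ : ℂ}
    {A : ℕ → ℕ → IrrCharacter G → ℤ}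
    (hA : ∀ s < m, ∀ χ ∈ B, ∀ i, Odd i → Col.D ((x ^ 2 ^ s) ^ i) (es s) (ds s) (χ : G → ℂ) =
        ∑ l ∈ Finset.range (2 ^ (m - s)), (A s l χ : ℂ) * (ζ ^ 2 ^ s) ^ (i * l))
    {χ : IrrCharacter G} (hχ : χ ∈ B) (hz : ∀ s < m, ∀ l < 2 ^ (m - s), A s l χ = 0)
    {r : ℕ} (hr : ¬ 2 ^ m ∣ r) (ψ : IrrCharacter G) :
    sc 2 (x ^ r) (eG (x ^ r)) (χ : G → ℂ) (ψ : G → ℂ) = 0 := by
  haveI := charP_kM hM
  have hr0 : r ≠ 0 := by rintro rfl; exact hr (dvd_zero _)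
  obtain ⟨s, i, hi, hri⟩ := Nat.exists_eq_two_pow_mul_odd hr0
  have hs : s < m := by
    by_contra hcon
    push Not at hcon
    apply hr
    rw [hri]
    exact (Nat.pow_dvd_pow 2 hcon).mul_right i
  have hpow : x ^ r = (x ^ 2 ^ s) ^ i := by rw [hri, pow_mul]
  have hzp := H.zp_lev hs hi
  rw [← hpow] at hzp
  have hEB : EB M _ (eG (x ^ r)) = EB M _ (es s) := by
    have h1 := LG.mle _ (D.pow_mem H.hx r)
    obtain ⟨f, hf⟩ : ∃ f, f = EB M _ (es s) := ⟨_, rfl⟩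
    have h2 := L.mle s hs
    rw [← hf] at h2 ⊢
    rw [← hzp] at h2
    exact MLe.unique he.1 _ _ _ h1 h2
  have hpel := LG.pel _ (D.pow_mem H.hx r)
  rw [sc_congr hM (C := Subgroup.centralizer (Subgroup.zpowers (x ^ r) : Set G))
    (C' := Subgroup.centralizer (Subgroup.zpowers (x ^ 2 ^ s) : Set G)) (x' := x ^ r) rfl
    (by rw [hzp]) hpel (LG.ind _ (D.pow_mem H.hx r)).1 (L.ind s hs).1
    (by rw [hEB]; exact SConj.refl _ _) χ ψ]
  have h3 := sc_eq_D hM (L.ind s hs).1 (L.rk s hs) (L.r1 s hs) (x ^ r) (χ : G → ℂ) (ψ : G → ℂ)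
  have h4 : Col.D (x ^ r) (es s) (ds s) (χ : G → ℂ) = 0 := by
    rw [hpow, hA s hs χ hχ i hi]
    refine Finset.sum_eq_zero fun l hl => ?_
    rw [hz s hs l (Finset.mem_range.mp hl)]
    simp
  rw [h4, zero_mul] at h3
  exact (mul_eq_zero.mp h3).resolve_left (pne _)

end MC

end Cfsg.Agent.H10
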