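import Cfsg.Agent.H10.QSHt

/-!
# Blocks with generalized quaternion and semidihedral defect groups (owner: helper10)
-/

set_option autoImplicit false
set_option linter.style.haveILetI false
set_option linter.unusedSectionVars false

namespace Cfsg.Agent.H10.MC

open scoped ComplexConjugate BigOperators
open Cfsg Cfsg.Agent.CharBase Cfsg.Agent.Blk Cfsg.Agent.BlkF Cfsg.Agent.BlkInd Cfsg.Agent.BlkC
  Cfsg.Agent.Star Cfsg.Agent.H4 Cfsg.Agent.H10.Col MonoidAlgebra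

universe u

variable {G : Type u} [Group G] [Fintype G] {M : Ideal AlgInt} [hMp : M.IsPrime]
  {B : Set (IrrCharacter G)} {D : Subgroup G} {E : MonoidAlgebra (kM M) G} {x y : G} {t m : ℕ}

/-- the reduced inner products in a block of rank one -/
theorem regInner_R1 (hM : IsPModular 2 M) (hB : IsPBlock M B) {φ : G → ℂ}
    {d : IrrCharacter G → ℕ} (hl : blockRank 2 B = 1) (hR : R1 2 B φ d) {χ ψ : IrrCharacter G}
    (hχ : χ ∈ B) (hψ : ψ ∈ B) :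
    (2 : ℂ) ^ blockDefect 2 B * regInner 2 (χ : G → ℂ) (ψ : G → ℂ) = (d χ : ℂ) * (d ψ : ℂ) := by
  classical
  set N : ℂ := (Nat.card G : ℂ)⁻¹ * ∑ g : G, (if 2 ∣ orderOf g then 0 else φ g * conj (φ g)) with hN
  have h1 : ∀ χ ∈ B, ∀ ψ ∈ B, regInner 2 ((χ : IrrCharacter G) : G → ℂ)
      ((ψ : IrrCharacter G) : G → ℂ) = (d χ : ℂ) * (d ψ : ℂ) * N := by
    intro χ hχ ψ hψ
    unfold regInner
    rw [hN, mul_left_comm, Finset.mul_sum (a := (d χ : ℂ) * (d ψ : ℂ))]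
    refine congrArg _ (Finset.sum_congr rfl fun g _ => ?_)
    unfold regConj
    split_ifs with h2
    · ring
    · rw [hR.eq χ hχ g h2, hR.eq ψ hψ g h2, map_mul, map_natCast]; ring
  have h2 := sum_regInner_self hM hB
  rw [hl, Nat.cast_one, Finset.sum_congr rfl (fun χ hχ => h1 χ (mem_Bfin.mp hχ) χ (mem_Bfin.mp hχ)),
    ← Finset.sum_mul] at h2
  have h3 : (∑ χ ∈ Bfin B, (d χ : ℂ) * (d χ : ℂ)) = (2 : ℂ) ^ blockDefect 2 B := by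
    have := hR.sum
    have h4 : ((∑ χ ∈ Bfin B, d χ ^ 2 : ℕ) : ℂ) = ((2 ^ blockDefect 2 B : ℕ) : ℂ) := by rw [this]
    push_cast at h4
    rw [← h4]
    exact Finset.sum_congr rfl fun χ _ => by ring
  rw [h3] at h2
  rw [h1 χ hχ ψ hψ]
  linear_combination (d χ : ℂ) * (d ψ : ℂ) * h2

variable [∀ v : G, Fintype (Subgroup.centralizer (Subgroup.zpowers v : Set G))]
  {eG : ∀ v : G, Set (IrrCharacter (Subgroup.centralizer (Subgroup.zpowers v : Set G)))}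
  {es : ∀ s : ℕ, Set (IrrCharacter (Subgroup.centralizer (Subgroup.zpowers (x ^ 2 ^ s) : Set G)))}
  {φs : ∀ s : ℕ, Subgroup.centralizer (Subgroup.zpowers (x ^ 2 ^ s) : Set G) → ℂ}
  {ds : ∀ s : ℕ, IrrCharacter (Subgroup.centralizer (Subgroup.zpowers (x ^ 2 ^ s) : Set G)) → ℕ}
  {W : IrrCharacter G → IrrCharacter G → ℤ}

/-- the characters on which all levels vanish -/
structure SV (B : Set (IrrCharacter G)) (x y : G) (m t : ℕ) (H : MC D x y (2 ^ m) t)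
    (M : Ideal AlgInt) [M.IsPrime]
    (eG : ∀ v : G, Set (IrrCharacter (Subgroup.centralizer (Subgroup.zpowers v : Set G))))
    (χ : IrrCharacter G) : Prop where
  mem : χ ∈ B
  pos : blockHeight 2 B (χ : G → ℂ) ≠ 0
  van : ∀ i, i ≠ Sum.inl ⟨2 ^ m - 1, Nat.sub_lt H.pos one_pos⟩ → ∀ ψ : IrrCharacter G,
      sc 2 (vf M x y (2 ^ m) t eG i) (eG (vf M x y (2 ^ m) t eG i)) (χ : G → ℂ) (ψ : G → ℂ) = 0

theorem SV.mk' (hM : IsPModular 2 M)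
    (he : haveI := charP_kM hM; MMax 2 D E)
    (LG : Loc M B D E eG)
    (H : MC D x y (2 ^ m) t) (h2 : Two x y (2 ^ m)) (L : LS M B D E x m es φs ds) {ζ : ℂ}
    {A : ℕ → ℕ → IrrCharacter G → ℤ}
    (hA : ∀ s < m, ∀ χ ∈ B, ∀ i, Odd i → Col.D ((x ^ 2 ^ s) ^ i) (es s) (ds s) (χ : G → ℂ) =
        ∑ l ∈ Finset.range (2 ^ (m - s)), (A s l χ : ℂ) * (ζ ^ 2 ^ s) ^ (i * l))
    (h4 : ((Bfin B).filter (fun χ : IrrCharacter G => blockHeight 2 B (χ : G → ℂ) = 0)).card = 4)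
    {χ : IrrCharacter G} (hχ : χ ∈ B) (h0 : blockHeight 2 B (χ : G → ℂ) ≠ 0)
    (hz : ∀ s < m, ∀ l < 2 ^ (m - s), A s l χ = 0) :
    SV B x y m t H M eG χ where
  mem := hχ
  pos := h0
  van := by
    intro i hi ψ
    have hpos := H.pos
    rcases i with k | j
    · have h1 : k.val + 1 ≠ 2 ^ m := by
        intro h2
        apply hi
        congr 1
        apply Fin.ext
        change k.val = 2 ^ m - 1
        omega
      obtain ⟨a1, a2, a3⟩ := H.rr_lt (i := k.val + 1) (by omega) k.2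
      exact H.sc_lev_zero hM he LG L hA hχ hz (not_dvd_of_lt a1 a2 (fun hc => h1 (a3.mp hc))) ψ
    · exact H.out_zero hM he LG h2 h4 (H.yv_mem j.1) j.2.1 hχ h0 ψ

theorem SV.dvd (hM : IsPModular 2 M) (hB : IsPBlock M B)
    (he : haveI := charP_kM hM; MMax 2 D E)
    (hb : haveI := charP_kM hM; MPairOf 2 (eB M B) D E) (LG : Loc M B D E eG)
    {H : MC D x y (2 ^ m) t} (h2 : Two x y (2 ^ m)) {η : G → ℂ} (hl : Lam D x (2 ^ m) t η)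
    (hW : ∀ χ ∈ B, ∀ ψ ∈ B, (W χ ψ : ℂ) = 4 * 2 ^ m *
      sc 2 (x ^ 2 ^ m) (eG (x ^ 2 ^ m)) (χ : G → ℂ) (ψ : G → ℂ))
    {χ : IrrCharacter G} (hS : SV B x y m t H M eG χ) {ψ : IrrCharacter G} (hψ : ψ ∈ B) :
    (2 : ℤ) ^ m ∣ W χ ψ := by
  obtain ⟨n, hn⟩ := H.S_div hM hB he hb LG h2 hl hS.mem (fun i hi => hS.van i hi χ) ψ
  refine ⟨n, ?_⟩
  have h1 := hW χ hS.mem ψ hψ
  have hn' : 4 * sc 2 (x ^ 2 ^ m) (eG (x ^ 2 ^ m)) (χ : G → ℂ) (ψ : G → ℂ) = n := hn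
  have h3 : (W χ ψ : ℂ) = ((2 ^ m * n : ℤ) : ℂ) := by
    rw [Int.cast_mul, Int.cast_pow, Int.cast_ofNat, h1, ← hn']; ring
  exact_mod_cast h3

theorem SV.reg (hM : IsPModular 2 M) (hB : IsPBlock M B)
    (he : haveI := charP_kM hM; MMax 2 D E)
    (hb : haveI := charP_kM hM; MPairOf 2 (eB M B) D E) (LG : Loc M B D E eG)
    {H : MC D x y (2 ^ m) t}
    {χ : IrrCharacter G} (hS : SV B x y m t H M eG χ) {ψ : IrrCharacter G} (hψ : ψ ∈ B) :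
    regInner 2 (χ : G → ℂ) (ψ : G → ℂ) +
      sc 2 (x ^ 2 ^ m) (eG (x ^ 2 ^ m)) (χ : G → ℂ) (ψ : G → ℂ) =
      classInner (χ : G → ℂ) (ψ : G → ℂ) := by
  classical
  haveI := Fintype.ofFinite {j : Fin 2 // Unf M x y eG j}
  obtain ⟨F, hc⟩ := H.famC hM hB he hb LG
  rw [← F.sum_sc hM hB hc hS.mem hψ, Finset.sum_eq_single_of_mem
    (Sum.inl ⟨2 ^ m - 1, Nat.sub_lt H.pos one_pos⟩) (Finset.mem_univ _)
    (fun i _ hi => hS.van i hi ψ)]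
  have h5 : vf M x y (2 ^ m) t eG (Sum.inl ⟨2 ^ m - 1, Nat.sub_lt H.pos one_pos⟩) = x ^ 2 ^ m := by
    change x ^ rr (2 ^ m) t (2 ^ m - 1 + 1) = x ^ 2 ^ m
    rw [Nat.sub_add_cancel H.pos, H.rr_h]
  rw [h5]

/-- a block of rank one has no such character -/
theorem SV.no_rank_one (hM : IsPModular 2 M) (hB : IsPBlock M B) (hm : 1 < m)
    (he : haveI := charP_kM hM; MMax 2 D E)
    (hb : haveI := charP_kM hM; MPairOf 2 (eB M B) D E) (LG : Loc M B D E eG)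
    {H : MC D x y (2 ^ m) t} (hdB : 2 ^ blockDefect 2 B = 4 * 2 ^ m)
    (h4 : ((Bfin B).filter (fun χ : IrrCharacter G => blockHeight 2 B (χ : G → ℂ) = 0)).card = 4)
    (hW : ∀ χ ∈ B, ∀ ψ ∈ B, (W χ ψ : ℂ) = 4 * 2 ^ m *
      sc 2 (x ^ 2 ^ m) (eG (x ^ 2 ^ m)) (χ : G → ℂ) (ψ : G → ℂ)) {lam : ℕ}
    (Z : ZD (Bfin B) (fun χ => blockHeight 2 B (χ : G → ℂ)) m W lam)
    {χ : IrrCharacter G} (hS : SV B x y m t H M eG χ)
    (hdvd : ∀ ψ ∈ B, (2 : ℤ) ^ m ∣ W χ ψ) (hl : blockRank 2 B = 1) : False := by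
  classical
  obtain ⟨φ, d, hR⟩ := Col.exists_R1 hM hB hl
  obtain ⟨χ₀, hχ₀, h00⟩ := exists_height_zero hM hB
  obtain ⟨-, z1, z2, -⟩ := Z.str h4 (mem_Bfin.mpr hS.mem) hS.pos
    (fun ψ hψ => hdvd ψ (mem_Bfin.mp hψ))
  have z3 := z2 χ₀ (mem_Bfin.mpr hχ₀) h00
  have hne : χ ≠ χ₀ := by
    rintro rfl
    exact hS.pos h00
  have hdB' : (2 : ℂ) ^ blockDefect 2 B = 4 * 2 ^ m := by exact_mod_cast hdB
  have a1 := regInner_R1 hM hB hl hR hS.mem hS.mem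
  have a2 := regInner_R1 hM hB hl hR hS.mem hχ₀
  have b1 := hS.reg hM hB he hb LG hS.mem
  have b2 := hS.reg hM hB he hb LG hχ₀
  rw [classInner_irr_self] at b1
  rw [classInner_irr_of_ne hne] at b2
  have c1 := hW χ hS.mem χ hS.mem
  have c2 := hW χ hS.mem χ₀ hχ₀
  have e1 : ((d χ : ℤ) * d χ : ℤ) = 4 * 2 ^ m - W χ χ := by
    have : (((d χ : ℤ) * d χ : ℤ) : ℂ) = ((4 * 2 ^ m - W χ χ : ℤ) : ℂ) := by
      rw [Int.cast_mul, Int.cast_natCast, ← a1, Int.cast_sub, c1, hdB', Int.cast_mul, Int.cast_pow,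
        Int.cast_ofNat, Int.cast_ofNat]
      linear_combination (4 : ℂ) * 2 ^ m * b1
    exact_mod_cast this
  have e2 : ((d χ : ℤ) * d χ₀ : ℤ) = - W χ χ₀ := by
    have : (((d χ : ℤ) * d χ₀ : ℤ) : ℂ) = ((- W χ χ₀ : ℤ) : ℂ) := by
      rw [Int.cast_mul, Int.cast_natCast, Int.cast_natCast, ← a2, Int.cast_neg, c2, hdB']
      linear_combination (4 : ℂ) * 2 ^ m * b2
    exact_mod_cast this
  have hpos : (0 : ℤ) < 2 ^ m := by positivity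
  have e3 : (d χ : ℤ) * d χ = 2 * 2 ^ m := by rw [e1, z1]; ring
  have e4 : ((d χ : ℤ) * d χ₀) ^ 2 = (2 ^ m) ^ 2 := by rw [e2, neg_sq, z3]
  have e5 : 2 * (d χ₀ : ℤ) ^ 2 = 2 ^ m := by
    have : (2 : ℤ) ^ m * (2 * (d χ₀ : ℤ) ^ 2) = 2 ^ m * 2 ^ m := by
      calc (2 : ℤ) ^ m * (2 * (d χ₀ : ℤ) ^ 2) = ((d χ : ℤ) * d χ) * (d χ₀ : ℤ) ^ 2 := by rw [e3]; ring
        _ = ((d χ : ℤ) * d χ₀) ^ 2 := by ring
        _ = 2 ^ m * 2 ^ m := by rw [e4]; ring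
    exact mul_left_cancel₀ hpos.ne' this
  have hev : Even (d χ₀) := by
    obtain ⟨m', rfl⟩ : ∃ m', m = m' + 2 := ⟨m - 2, by omega⟩
    have h1 : (d χ₀ : ℤ) ^ 2 = 2 * 2 ^ m' := by
      have : (2 : ℤ) ^ (m' + 2) = 2 * (2 * 2 ^ m') := by rw [pow_add]; ring
      rw [this] at e5
      linarith
    have h2 : Even ((d χ₀ : ℤ) ^ 2) := ⟨2 ^ m', by rw [h1]; ring⟩
    have h3 := (Int.even_pow.mp h2).1
    exact_mod_cast h3
  have h5 := hR.height hM hB hχ₀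
  rw [h00] at h5
  have h6 : 1 ≤ (d χ₀).factorization 2 :=
    (Nat.prime_two.dvd_iff_one_le_factorization (hR.pos hχ₀).ne').mp hev.two_dvd
  omega

/-- the common data -/
theorem common (hM : IsPModular 2 M) (hB : IsPBlock M B)
    (hD : IsDefectGroup 2 M B D) (H : MC D x y (2 ^ m) t)
    (hqs : Quat x y (2 ^ m) t ∨ SDih y (2 ^ m) t) :
    haveI := charP_kM hM
    ∃ (E : MonoidAlgebra (kM M) G)
      (eG : ∀ v : G, Set (IrrCharacter (Subgroup.centralizer (Subgroup.zpowers v : Set G))))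
      (δ lam : ℕ) (W : IrrCharacter G → IrrCharacter G → ℤ) (A : ℕ → ℕ → IrrCharacter G → ℤ),
      MMax 2 D E ∧ MPairOf 2 (eB M B) D E ∧ Loc M B D E eG ∧
      (Quat x y (2 ^ m) t → δ = 0) ∧ δ ≤ 1 ∧
      (SDih y (2 ^ m) t → lam ≤ 2 ∧ (δ = 1 → SC M eG y (x ^ 2 ^ m))) ∧
      lam + Nat.card {j : Fin 2 // Unf M x y eG j} + δ = 3 ∧
      Nat.card B + δ = blockRank 2 B + 2 ^ m + 2 ∧
      LD (Bfin B) (fun χ => blockHeight 2 B (χ : G → ℂ)) m A ∧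
      ZD (Bfin B) (fun χ => blockHeight 2 B (χ : G → ℂ)) m W lam ∧
      (∀ χ ∈ B, blockHeight 2 B (χ : G → ℂ) ≠ 0 →
        (∀ s < m, ∀ l < 2 ^ (m - s), A s l χ = 0) →
        (∀ ψ ∈ B, (2 : ℤ) ^ m ∣ W χ ψ) ∧ (1 < m → blockRank 2 B ≠ 1)) ∧
      (∀ χ ∈ B, (∃ j, 0 < j ∧ 2 * j < 2 ^ m ∧ A 0 j χ ^ 2 = 1 ∧
          ∀ l, 2 * l < 2 ^ m → l ≠ j → A 0 l χ = 0) → blockHeight 2 B (χ : G → ℂ) ≤ 1) ∧
      (1 < m → ∀ χ ∈ B, A 1 0 χ ^ 2 = 4 → (∀ l, 0 < l → l < 2 ^ (m - 1) → A 1 l χ = 0) →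
        blockHeight 2 B (χ : G → ℂ) ≤ 1) := by
  classical
  haveI := charP_kM hM
  have hD' : IsDef 2 ⊤ (eB M B) D := (Blk.isDefectGroup_iff hM hB D).1 hD
  have h2 : Two x y (2 ^ m) := by
    rcases hqs with h | h
    · exact h.two
    · exact h.two
  obtain ⟨E, eG, he, hE, LG, p1, p2, p3, p4⟩ := H.pack hM hB hD hqs
  have hcardC := H.cardC hM hB he hE LG
  obtain ⟨η, hη⟩ : ∃ η, Lam D x (2 ^ m) t η := by
    rcases hqs with h | h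
    · exact Quat.lam H h
    · exact SDih.lam H h
  obtain ⟨es, φs, ds, L⟩ := exists_LS hM hB he hE H
  obtain ⟨ζ, hζ⟩ : ∃ ζ : ℂ, IsPrimitiveRoot ζ (2 * 2 ^ m) :=
    ⟨_, Complex.isPrimitiveRoot_exp (2 * 2 ^ m) (by positivity)⟩
  obtain ⟨A, hLD, hA⟩ := exists_LD hM hB hD' he hE H L hζ
  have hdB := H.blockDefect_B hM hB hD'
  have hzD : x ^ 2 ^ m ∈ D := D.pow_mem H.hx _
  have hdz := H.defect_z1 hM he rfl (LG.ind _ hzD).1 (LG.mle _ hzD)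
  have hdd : blockDefect 2 (eG (x ^ 2 ^ m)) = blockDefect 2 B := by
    apply Nat.pow_right_injective (le_refl 2)
    change 2 ^ _ = 2 ^ _
    rw [hdz, hdB]
  obtain ⟨W, hW, hZD⟩ := exists_ZD hM hB (m := m) H.ord_z rfl (LG.ind _ hzD) hdd hdB
  obtain ⟨h4, -, -⟩ := hLD.h0
  have hm := hLD.hm
  have hnq : SDih y (2 ^ m) t → ¬ Quat x y (2 ^ m) t := by
    intro h h'
    apply H.z_ne
    rw [← h'.2, h.2.2]
  have hmain : ∀ χ ∈ B, blockHeight 2 B ((χ : IrrCharacter G) : G → ℂ) ≠ 0 →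
        (∀ s < m, ∀ l < 2 ^ (m - s), A s l χ = 0) →
        (∀ ψ ∈ B, (2 : ℤ) ^ m ∣ W χ ψ) ∧ (1 < m → blockRank 2 B ≠ 1) := by
    intro χ hχ h0 hz
    have hSV := SV.mk' hM he LG H h2 L hA h4 hχ h0 hz
    have hdvd : ∀ ψ ∈ B, (2 : ℤ) ^ m ∣ W χ ψ := fun ψ hψ =>
      hSV.dvd hM hB he hE LG h2 hη hW hψ
    exact ⟨hdvd, fun h1m hl => hSV.no_rank_one hM hB h1m he hE LG hdB h4 hW hZD hdvd hl⟩
  have hT : ∀ χ ∈ B, (∃ j, 0 < j ∧ 2 * j < 2 ^ m ∧ A 0 j χ ^ 2 = 1 ∧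
          ∀ l, 2 * l < 2 ^ m → l ≠ j → A 0 l χ = 0) →
          blockHeight 2 B ((χ : IrrCharacter G) : G → ℂ) ≤ 1 := by
    rintro χ hχ ⟨j, hj0, hj, hj1, hjz⟩
    have hsym := hLD.sym 0 hm χ (mem_Bfin.mpr hχ)
    have hmid := hLD.mid 0 hm χ (mem_Bfin.mpr hχ)
    rw [Nat.sub_zero] at hsym hmid
    obtain ⟨c, hc1, hc2⟩ := T_val hm hζ (A := fun l => A 0 l χ) hj0 hj hj1 hjz hsym hmid
    refine H.ht_le_one hM hB hD' L hζ hm (hA 0 hm) hχ hc1 ?_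
    have h5 := hA 0 hm χ hχ 1 odd_one
    rw [pow_one] at h5
    rw [h5, Nat.sub_zero]
    simpa using hc2
  have hτ : 1 < m → ∀ χ ∈ B, A 1 0 χ ^ 2 = 4 → (∀ l, 0 < l → l < 2 ^ (m - 1) → A 1 l χ = 0) →
        blockHeight 2 B ((χ : IrrCharacter G) : G → ℂ) ≤ 1 := by
    intro h1m χ hχ h4' hz
    obtain ⟨c, hc, hc2⟩ : ∃ c : ℤ, A 1 0 χ * c = 2 ∧ True := by
      have h6 : (A 1 0 χ - 2) * (A 1 0 χ + 2) = 0 := by linear_combination h4'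
      rcases mul_eq_zero.mp h6 with h7 | h7
      · exact ⟨1, by omega, trivial⟩
      · exact ⟨-1, by omega, trivial⟩
    refine H.ht_le_one hM hB hD' L hζ h1m (hA 1 h1m) hχ
      (isIntegral_algebraMap (R := ℤ) (x := c)) ?_
    have h5 : Col.D (x ^ 2 ^ 1) (es 1) (ds 1) (χ : G → ℂ) =
        ∑ l ∈ Finset.range (2 ^ (m - 1)), (A 1 l χ : ℂ) * (ζ ^ 2 ^ 1) ^ (1 * l) := by
      rw [← hA 1 h1m χ hχ 1 odd_one, pow_one (x ^ 2 ^ 1)]
    rw [h5, Finset.sum_eq_single_of_mem 0 (Finset.mem_range.mpr (by positivity))]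
    · simp only [mul_zero, pow_zero, mul_one]
      have : ((A 1 0 χ * c : ℤ) : ℂ) = ((2 : ℤ) : ℂ) := by rw [hc]
      push_cast at this
      exact this
    · intro l hl hl0
      rw [hz l (Nat.pos_of_ne_zero hl0) (Finset.mem_range.mp hl)]
      simp
  rcases hqs with hq | hq
  · refine ⟨E, eG, 0, _, W, A, he, hE, LG, fun _ => rfl, by omega, ?_, ?_, ?_, hLD, hZD, hmain, hT,
      hτ⟩
    · intro h'
      exact absurd hq (hnq h')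
    · rw [p1 hq]
    · have := p1 hq
      omega
  · by_cases hs : SC M eG y (x ^ 2 ^ m)
    · refine ⟨E, eG, 1, _, W, A, he, hE, LG, fun h' => absurd h' (hnq hq), by omega, ?_, ?_, ?_,
        hLD, hZD, hmain, hT, hτ⟩
      · intro _
        exact ⟨p4 hq, fun _ => hs⟩
      · rw [p2 hq hs]
      · have := p2 hq hs
        omega
    · refine ⟨E, eG, 0, _, W, A, he, hE, LG, fun h' => rfl, by omega, ?_, ?_, ?_,
        hLD, hZD, hmain, hT, hτ⟩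
      · intro _
        exact ⟨p4 hq, fun h => by omega⟩
      · rw [p3 hq hs]
      · have := p3 hq hs
        omega

end Cfsg.Agent.H10.MC
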