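import Cfsg.Agent.H10.QSMain

/-!
# The invariants of blocks with quaternion and semidihedral defect groups (owner: helper10)
-/

set_option autoImplicit false
set_option linter.style.haveILetI false
set_option linter.unusedSectionVars false

namespace Cfsg.Agent.H10.MC

open scoped BigOperators
open Cfsg Cfsg.Agent.CharBase Cfsg.Agent.Blk Cfsg.Agent.BlkF Cfsg.Agent.BlkInd Cfsg.Agent.BlkC
  Cfsg.Agent.Star Cfsg.Agent.H4 Cfsg.Agent.H10.Col MonoidAlgebra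

universe u

variable {G : Type u} [Group G] [Fintype G] {M : Ideal AlgInt} [hMp : M.IsPrime]
  {B : Set (IrrCharacter G)} {D : Subgroup G} {E : MonoidAlgebra (kM M) G} {x y : G} {t m : ℕ}
  [∀ v : G, Fintype (Subgroup.centralizer (Subgroup.zpowers v : Set G))]

/-- the case of defect at least four -/
theorem main_big (hM : IsPModular 2 M) (hB : IsPBlock M B)
    (hD : IsDefectGroup 2 M B D) (H : MC D x y (2 ^ m) t)
    (hqs : Quat x y (2 ^ m) t ∨ SDih y (2 ^ m) t) (h1m : 1 < m) :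
    haveI := charP_kM hM
    ∃ (E : MonoidAlgebra (kM M) G)
      (eG : ∀ v : G, Set (IrrCharacter (Subgroup.centralizer (Subgroup.zpowers v : Set G))))
      (s δ lam : ℕ),
      MMax 2 D E ∧ MPairOf 2 (eB M B) D E ∧ Loc M B D E eG ∧
      (Quat x y (2 ^ m) t → δ = 0) ∧ δ ≤ 1 ∧
      (SDih y (2 ^ m) t → lam ≤ 2 ∧ (δ = 1 → SC M eG y (x ^ 2 ^ m))) ∧
      s + 1 ≤ lam ∧
      lam + Nat.card {j : Fin 2 // Unf M x y eG j} + δ = 3 ∧
      Nat.card B = 2 ^ m + 3 + s ∧ blockRank 2 B = 1 + s + δ ∧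
      ((Bfin B).filter (fun χ : IrrCharacter G => blockHeight 2 B (χ : G → ℂ) = 0)).card = 4 ∧
      ((Bfin B).filter (fun χ : IrrCharacter G => blockHeight 2 B (χ : G → ℂ) = 1)).card =
        2 ^ m - 1 ∧
      (∀ χ ∈ B, blockHeight 2 B (χ : G → ℂ) = 0 ∨ blockHeight 2 B (χ : G → ℂ) = 1 ∨
        blockHeight 2 B (χ : G → ℂ) = m) := by
  classical
  haveI := charP_kM hM
  obtain ⟨E, eG, δ, lam, W, A, he, hE, LG, q1, q2, q3, q4, q5, hLD, hZD, hmain, hT, hτ⟩ :=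
    H.common hM hB hD hqs
  obtain ⟨b, T, S, τ, hTI, hSI, hτI, c1, c2, hτ0, hτT, hτS, hdis, hall, hS, hT', hτ4, hτz⟩ :=
    hLD.main h1m
  obtain ⟨h4, -, -⟩ := hLD.h0
  have hcard : (Bfin B).card = Nat.card B := (natCard_eq_Bfin).symm
  have hRpos := Col.blockRank_pos hM hB
  have hS2 : ∀ χ ∈ S, blockHeight 2 B ((χ : IrrCharacter G) : G → ℂ) ≠ 0 ∧
      ∀ ψ ∈ Bfin B, (2 : ℤ) ^ m ∣ W χ ψ := by
    intro χ hχ
    obtain ⟨s1, s2⟩ := hS χ hχ
    exact ⟨s1, fun ψ hψ => (hmain χ (mem_Bfin.mp (hSI hχ)) s1 s2).1 ψ (mem_Bfin.mp hψ)⟩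
  obtain ⟨-, k2⟩ := hZD.card_le h4 hSI hS2
  have k3 := k2 ⟨τ, hτI, hτ0, hτS⟩
  have hb : b = 0 := by
    by_contra hb
    have hR : blockRank 2 B = 1 := by omega
    have hne : S.Nonempty := by
      rw [← Finset.card_pos]
      omega
    obtain ⟨χ, hχ⟩ := hne
    obtain ⟨s1, s2⟩ := hS χ hχ
    exact (hmain χ (mem_Bfin.mp (hSI hχ)) s1 s2).2 h1m hR
  subst hb
  have hpow : 4 ≤ 2 ^ m := by
    calc 4 = 2 ^ 2 := by norm_num
      _ ≤ 2 ^ m := Nat.pow_le_pow_right (by norm_num) h1m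
  have hT1 : ∀ χ ∈ T, blockHeight 2 B ((χ : IrrCharacter G) : G → ℂ) = 1 := by
    intro χ hχ
    obtain ⟨t1, t2⟩ := hT' χ hχ
    have := hT χ (mem_Bfin.mp (hTI hχ)) t2
    have t1' : blockHeight 2 B (χ : G → ℂ) ≠ 0 := t1
    omega
  have hτ1 : blockHeight 2 B (τ : G → ℂ) = 1 := by
    have := hτ h1m τ (mem_Bfin.mp hτI) hτ4 hτz
    have t1' : blockHeight 2 B (τ : G → ℂ) ≠ 0 := hτ0
    omega
  have hSm : ∀ χ ∈ S, blockHeight 2 B ((χ : IrrCharacter G) : G → ℂ) = m := fun χ hχ =>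
    (hZD.str h4 (hSI hχ) (hS2 χ hχ).1 (hS2 χ hχ).2).1
  refine ⟨E, eG, S.card, δ, lam, he, hE, LG, q1, q2, q3, k3, q4, by omega, by omega, h4, ?_, ?_⟩
  · have h5 : (Bfin B).filter (fun χ : IrrCharacter G => blockHeight 2 B (χ : G → ℂ) = 1) =
        insert τ T := by
      ext χ
      rw [Finset.mem_filter, Finset.mem_insert]
      constructor
      · rintro ⟨u1, u2⟩
        rcases hall χ u1 with u3 | u3 | u3 | u3
        · have u3' : blockHeight 2 B (χ : G → ℂ) = 0 := u3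
          omega
        · exact Or.inr u3
        · exact Or.inl u3
        · have := hSm χ u3
          omega
      · rintro (rfl | u)
        · exact ⟨hτI, hτ1⟩
        · exact ⟨hTI u, hT1 χ u⟩
    rw [h5, Finset.card_insert_of_notMem hτT]
    omega
  · intro χ hχ
    rcases hall χ (mem_Bfin.mpr hχ) with u3 | u3 | u3 | u3
    · exact Or.inl u3
    · exact Or.inr (Or.inl (hT1 χ u3))
    · exact Or.inr (Or.inl (by rw [u3]; exact hτ1))
    · exact Or.inr (Or.inr (hSm χ u3))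

/-- the case of defect three -/
theorem main_small (hM : IsPModular 2 M) (hB : IsPBlock M B)
    (hD : IsDefectGroup 2 M B D) (H : MC D x y (2 ^ 1) t)
    (hqs : Quat x y (2 ^ 1) t) :
    1 ≤ blockRank 2 B ∧ blockRank 2 B ≤ 3 ∧ Nat.card B = blockRank 2 B + 4 ∧
      ((Bfin B).filter (fun χ : IrrCharacter G => blockHeight 2 B (χ : G → ℂ) = 0)).card = 4 ∧
      (∀ χ ∈ B, blockHeight 2 B (χ : G → ℂ) = 0 ∨ blockHeight 2 B (χ : G → ℂ) = 1) := by
  classical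
  haveI := charP_kM hM
  obtain ⟨E, eG, δ, lam, W, A, he, hE, LG, q1, q2, q3, q4, q5, hLD, hZD, hmain, hT, hτ⟩ :=
    H.common hM hB hD (Or.inl hqs)
  have hδ := q1 hqs
  obtain ⟨h4, -, h0⟩ := hLD.h0
  have hcard : (Bfin B).card = Nat.card B := (natCard_eq_Bfin).symm
  have hRpos := Col.blockRank_pos hM hB
  set S := (Bfin B).filter (fun χ : IrrCharacter G => ¬ blockHeight 2 B (χ : G → ℂ) = 0) with hS
  have hSv : ∀ χ ∈ S, blockHeight 2 B ((χ : IrrCharacter G) : G → ℂ) ≠ 0 ∧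
      ∀ ψ ∈ Bfin B, (2 : ℤ) ^ 1 ∣ W χ ψ := by
    intro χ hχ
    rw [hS, Finset.mem_filter] at hχ
    refine ⟨hχ.2, fun ψ hψ => (hmain χ (mem_Bfin.mp hχ.1) hχ.2 ?_).1 ψ (mem_Bfin.mp hψ)⟩
    intro s hs l hl
    have hs0 : s = 0 := by omega
    subst hs0
    have hl2 : l < 2 := by simpa using hl
    interval_cases l
    · exact h0 χ hχ.1 hχ.2
    · have := hLD.mid 0 (by norm_num) χ hχ.1
      simpa using this
  obtain ⟨k1, -⟩ := hZD.card_le h4 (Finset.filter_subset _ _) hSv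
  have hsplit := Finset.card_filter_add_card_filter_not (s := Bfin B)
    (fun χ : IrrCharacter G => blockHeight 2 B (χ : G → ℂ) = 0)
  rw [h4, hcard] at hsplit
  rw [pow_one] at q5
  refine ⟨hRpos, by omega, by omega, h4, fun χ hχ => ?_⟩
  by_cases h5 : blockHeight 2 B (χ : G → ℂ) = 0
  · exact Or.inl h5
  · have h6 : χ ∈ S := Finset.mem_filter.mpr ⟨mem_Bfin.mpr hχ, h5⟩
    exact Or.inr (hZD.str h4 (mem_Bfin.mpr hχ) h5 (hSv χ h6).2).1

end Cfsg.Agent.H10.MC
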