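import Cfsg.Agent.BlkInd.SecGal
import Cfsg.Agent.BlkC.RankOne
import Cfsg.Agent.H4.Height0
import Cfsg.Agent.H10.Cyc

/-!
# Columns of subsections with a block of rank one (owner: helper10)
-/

set_option autoImplicit false
set_option linter.style.haveILetI false
set_option linter.unusedSectionVars false

namespace Cfsg.Agent.H10.Col

open scoped ComplexConjugate BigOperators
open Cfsg Cfsg.Agent.CharBase Cfsg.Agent.Blk Cfsg.Agent.BlkInd Cfsg.Agent.BlkC Cfsg.Agent.Star
  Cfsg.Agent.H4 MonoidAlgebra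

universe u

section rank

variable {H : Type u} [Group H] [Fintype H] {p : ℕ} [hp : Fact p.Prime] {M : Ideal AlgInt}

/-- decomposition data of a block of rank one -/
structure R1 (p : ℕ) (e : Set (IrrCharacter H)) (φ : H → ℂ) (d : IrrCharacter H → ℕ) : Prop where
  eq : ∀ η ∈ e, ∀ y, ¬ p ∣ orderOf y → (η : H → ℂ) y = (d η : ℂ) * φ y
  sum : ∑ η ∈ Bfin e, d η ^ 2 = p ^ blockDefect p e
  comb : ∃ n : IrrCharacter H → ℤ, ∑ η ∈ Bfin e, n η * d η = 1
  ne : φ 1 ≠ 0

theorem exists_R1 (hM : IsPModular p M) {e : Set (IrrCharacter H)} (he : IsPBlock M e)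
    (hl : blockRank p e = 1) : ∃ φ d, R1 p e φ d := by
  obtain ⟨φ, d, ⟨n, hn⟩, h1, h2⟩ := rank_one_structure hM he hl
  haveI := isPrime_of_isPModular hM
  obtain ⟨ψ₀, hψ₀, -⟩ := exists_height_zero hM he
  have hne : φ 1 ≠ 0 := by
    intro h
    have h3 := h1 ψ₀ hψ₀ 1 one_reg
    rw [h, mul_zero] at h3
    exact irr_one_ne_zero ψ₀.2 h3
  refine ⟨φ, d, h1, h2, ⟨n, ?_⟩, hne⟩
  have h3 := hn 1 one_reg
  have h4 : φ 1 = (∑ η ∈ Bfin e, (n η : ℂ) * (d η : ℂ)) * φ 1 := by
    rw [Finset.sum_mul]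
    conv_lhs => rw [h3]
    refine Finset.sum_congr rfl fun η hη => ?_
    rw [h1 η (mem_Bfin.mp hη) 1 one_reg]
    ring
  have h5 : (∑ η ∈ Bfin e, (n η : ℂ) * (d η : ℂ)) = 1 := by
    have h6 : (1 : ℂ) * φ 1 = (∑ η ∈ Bfin e, (n η : ℂ) * (d η : ℂ)) * φ 1 := by
      rw [one_mul]; exact h4
    exact (mul_right_cancel₀ hne h6).symm
  exact_mod_cast h5

end rank

section col

variable {G : Type u} [Group G] [Fintype G] {p : ℕ} [hp : Fact p.Prime] {M : Ideal AlgInt}
  {C : Subgroup G} [Fintype C]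

/-- the column of generalized decomposition numbers -/
noncomputable def D (x : G) (e : Set (IrrCharacter C)) (d : IrrCharacter C → ℕ)
    (χ : G → ℂ) : ℂ := ∑ η ∈ Bfin e, dco x χ η * (d η : ℂ)

variable {e : Set (IrrCharacter C)} {φ : C → ℂ} {d : IrrCharacter C → ℕ}

theorem dpart_eq_D (hR : R1 p e φ d) (x : G) (χ : G → ℂ) {y : C} (hy : ¬ p ∣ orderOf y) :
    dpart p x e χ y = D x e d χ * φ y := by
  rw [dpart_eq_sum x e χ hy, D, Finset.sum_mul]
  refine Finset.sum_congr rfl fun η hη => ?_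
  rw [hR.eq η (mem_Bfin.mp hη) y hy]
  ring

theorem D_eq (hR : R1 p e φ d) (x : G) (χ : G → ℂ) :
    D x e d χ = dpart p x e χ 1 / φ 1 := by
  rw [dpart_eq_D hR x χ one_reg, mul_div_cancel_right₀ _ hR.ne]

/-- the norm of the Brauer character -/
theorem norm_phi (hM : IsPModular p M) (he : IsPBlock M e) (hl : blockRank p e = 1)
    (hR : R1 p e φ d) :
    (p : ℂ) ^ blockDefect p e * ((Nat.card C : ℂ)⁻¹ *
      ∑ s : C, (if p ∣ orderOf s then 0 else φ s * conj (φ s))) = 1 := by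
  classical
  have h1 := sum_blockKernel_self (p := p) hM he
  rw [hl, Nat.cast_one, mul_one] at h1
  have h2 : ∀ y : C, (if p ∣ orderOf y then 0 else blockKernel e y y) =
      (p : ℂ) ^ blockDefect p e * (if p ∣ orderOf y then 0 else φ y * conj (φ y)) := by
    intro y
    by_cases hy : p ∣ orderOf y
    · simp [hy]
    · rw [if_neg hy, if_neg hy, blockKernel_eq_Bfin]
      have h3 : ((∑ η ∈ Bfin e, d η ^ 2 : ℕ) : ℂ) = (p : ℂ) ^ blockDefect p e := by
        rw [hR.sum]; push_cast; rfl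
      rw [← h3]
      push_cast
      rw [Finset.sum_mul]
      refine Finset.sum_congr rfl fun η hη => ?_
      rw [hR.eq η (mem_Bfin.mp hη) y hy, map_mul, Complex.conj_natCast]
      ring
  rw [Finset.sum_congr rfl fun y _ => h2 y, ← Finset.mul_sum] at h1
  have hc : (Nat.card C : ℂ) ≠ 0 := by exact_mod_cast Nat.card_pos.ne'
  rw [mul_left_comm, h1, inv_mul_cancel₀ hc]

theorem sc_eq_D (hM : IsPModular p M) (he : IsPBlock M e) (hl : blockRank p e = 1)
    (hR : R1 p e φ d) (x : G) (χ ψ : G → ℂ) :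
    (p : ℂ) ^ blockDefect p e * sc p x e χ ψ = D x e d χ * conj (D x e d ψ) := by
  classical
  have h1 : ∀ s : C, dpart p x e χ s * conj (dpart p x e ψ s) =
      D x e d χ * conj (D x e d ψ) * (if p ∣ orderOf s then 0 else φ s * conj (φ s)) := by
    intro s
    by_cases hs : p ∣ orderOf s
    · rw [dpart_of_sing χ hs]; simp [hs]
    · rw [dpart_eq_D hR x χ hs, dpart_eq_D hR x ψ hs, if_neg hs, map_mul]
      ring
  unfold sc
  rw [Finset.sum_congr rfl fun s _ => h1 s, ← Finset.mul_sum]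
  have h2 := norm_phi hM he hl hR
  calc _ = D x e d χ * conj (D x e d ψ) * ((p : ℂ) ^ blockDefect p e * ((Nat.card C : ℂ)⁻¹ *
      ∑ s : C, (if p ∣ orderOf s then 0 else φ s * conj (φ s)))) := by ring
    _ = _ := by rw [h2, mul_one]

theorem pne (e : Set (IrrCharacter C)) : (p : ℂ) ^ blockDefect p e ≠ 0 :=
  pow_ne_zero _ (by exact_mod_cast hp.out.ne_zero)

theorem norm_D (hM : IsPModular p M) {B : Set (IrrCharacter G)} {x : G}
    (hx : ∃ k : ℕ, orderOf x = p ^ k) (hC : C = Subgroup.centralizer ({x} : Set G))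
    (hind : IsInducedBlock M C e B) (hl : blockRank p e = 1) (hR : R1 p e φ d) :
    ∑ χ ∈ Bfin B, D x e d (χ : G → ℂ) * conj (D x e d (χ : G → ℂ)) =
      ((p ^ blockDefect p e : ℕ) : ℂ) := by
  have h1 := sum_sc_self hM hx hC hind
  rw [hl, Nat.cast_one] at h1
  have h2 : ∀ χ ∈ Bfin B, D x e d (χ : G → ℂ) * conj (D x e d (χ : G → ℂ)) =
      (p : ℂ) ^ blockDefect p e * sc p x e (χ : G → ℂ) (χ : G → ℂ) := fun χ _ =>
    (sc_eq_D hM hind.1 hl hR x _ _).symm
  rw [Finset.sum_congr rfl h2, ← Finset.mul_sum, h1, mul_one]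
  push_cast; rfl

theorem D_eq_zero (hM : IsPModular p M) {B : Set (IrrCharacter G)} {x : G}
    (hx : ∃ k : ℕ, orderOf x = p ^ k) (hC : C = Subgroup.centralizer ({x} : Set G))
    (hind : IsInducedBlock M C e B) (hR : R1 p e φ d) {χ : IrrCharacter G} (hχ : χ ∉ B) :
    D x e d (χ : G → ℂ) = 0 := by
  rw [D_eq hR, dpart_eq_zero_of_notMem hM hx hC hind hχ]
  simp

theorem D_integral {x : G} (hC : C = Subgroup.centralizer ({x} : Set G)) (χ : IrrCharacter G) :
    IsIntegral ℤ (D x e d (χ : G → ℂ)) := by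
  unfold D
  refine IsIntegral.sum _ fun η _ => (isIntegral_dco hC χ η).mul ?_
  have := isIntegral_algebraMap (R := ℤ) (A := ℂ) (x := (d η : ℤ))
  simpa using this

theorem not_mli_D (hM : IsPModular p M) {B : Set (IrrCharacter G)} {x : G}
    (hx : ∃ k : ℕ, orderOf x = p ^ k) (hC : C = Subgroup.centralizer ({x} : Set G))
    (hind : IsInducedBlock M C e B) (hl : blockRank p e = 1) (hR : R1 p e φ d)
    {χ : IrrCharacter G} (hχ : χ ∈ B) (h0 : blockHeight p B (χ : G → ℂ) = 0) :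
    ¬ MemLocalIdeal M (D x e d (χ : G → ℂ)) := by
  haveI := isPrime_of_isPModular hM
  intro h
  apply not_mli_sc hM hx hC hind hχ h0 hχ h0
  rw [sc_eq_D hM hind.1 hl hR, mul_comm]
  refine mli_mul_left (mlr_of_isIntegral ?_) h
  exact (D_integral hC χ).map (starRingEnd ℂ).toIntAlgHom

/-- the column along the powers of `x`, as polynomials in a root of unity -/
theorem D_poly {x : G} (hC : C = Subgroup.centralizer ({x} : Set G)) {h : ℕ} (hh : 0 < h)
    {ζ : ℂ} (hζ : IsPrimitiveRoot ζ (2 * h)) (hx : orderOf x = 2 * h)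
    (e : Set (IrrCharacter C)) (d : IrrCharacter C → ℕ) (χ : IrrCharacter G) :
    ∃ A : ℕ → ℤ, ∀ i, Odd i → D (x ^ i) e d (χ : G → ℂ) =
      ∑ l ∈ Finset.range h, (A l : ℂ) * ζ ^ (i * l) := by
  classical
  have : NeZero (2 * h) := ⟨by omega⟩
  have h1 : ∀ η : IrrCharacter C, ∃ k : ℕ, k < 2 * h ∧ ∀ i : ℕ,
      dco (x ^ i) (χ : G → ℂ) η = ζ ^ (i * k) * (resMult χ η : ℂ) := by
    intro η
    obtain ⟨ω, hω, hω2⟩ := exists_dco_pow hC χ η
    rw [hx] at hω
    obtain ⟨k, hk, hk2⟩ := hζ.eq_pow_of_pow_eq_one hω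
    refine ⟨k, hk, fun i => ?_⟩
    rw [hω2 i, ← hk2, ← pow_mul, mul_comm k i]
  choose k hk hk2 using h1
  let P : ℕ → ℤ := fun l => ∑ η ∈ (Bfin e).filter (fun η => k η = l), (resMult χ η : ℤ) * d η
  refine ⟨fun l => P l - P (l + h), fun i hi => ?_⟩
  rw [← Cyc.fold hh hζ P hi]
  unfold D
  have h2 : ∀ l ∈ Finset.range (2 * h), (P l : ℂ) * ζ ^ (i * l) =
      ∑ η ∈ (Bfin e).filter (fun η => k η = l), dco (x ^ i) (χ : G → ℂ) η * (d η : ℂ) := by
    intro l _
    simp only [P]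
    push_cast
    rw [Finset.sum_mul]
    refine Finset.sum_congr rfl fun η hη => ?_
    rw [Finset.mem_filter] at hη
    rw [hk2, hη.2]
    ring
  rw [Finset.sum_congr rfl h2]
  exact (Finset.sum_fiberwise_of_maps_to (fun η _ => Finset.mem_range.mpr (hk η)) _).symm

end col

section sconj

variable {G : Type u} [Group G] [Fintype G] {p : ℕ} [hp : Fact p.Prime] {M : Ideal AlgInt}
  [hMp : M.IsPrime]

/-- conjugacy of subsections -/
def SConj (x : G) (f : MonoidAlgebra (kM M) G) (x' : G) (f' : MonoidAlgebra (kM M) G) : Prop :=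
  ∃ g : G, x' = g * x * g⁻¹ ∧ f' = Blk.cj g f

theorem SConj.refl (x : G) (f : MonoidAlgebra (kM M) G) : SConj x f x f :=
  ⟨1, by simp, by rw [Blk.cj_one_left]⟩

theorem SConj.symm {x x' : G} {f f' : MonoidAlgebra (kM M) G} (h : SConj x f x' f') :
    SConj x' f' x f := by
  obtain ⟨g, rfl, rfl⟩ := h
  exact ⟨g⁻¹, by group, by rw [Blk.cj_cj, inv_mul_cancel, Blk.cj_one_left]⟩

theorem SConj.trans {x x' x'' : G} {f f' f'' : MonoidAlgebra (kM M) G}
    (h : SConj x f x' f') (h' : SConj x' f' x'' f'') : SConj x f x'' f'' := by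
  obtain ⟨g, rfl, rfl⟩ := h
  obtain ⟨g', rfl, rfl⟩ := h'
  exact ⟨g' * g, by group, by rw [Blk.cj_cj]⟩

theorem wOrb_congr {x x' : G} {f f' : MonoidAlgebra (kM M) G} (h : SConj x f x' f') :
    wOrb x f = wOrb x' f' := by
  funext v g
  unfold wOrb
  congr 1
  apply propext
  exact ⟨fun h' => h.symm.trans h', fun h' => h.trans h'⟩

theorem wOrb_mul_wOrb {x x' : G} {f f' : MonoidAlgebra (kM M) G} (h : ¬ SConj x f x' f') (v : G)
    (g : MonoidAlgebra (kM M) G) : conj (wOrb x f v g) * wOrb x' f' v g = 0 := by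
  unfold wOrb
  by_cases h1 : ∃ u : G, v = u * x * u⁻¹ ∧ g = Blk.cj u f
  · by_cases h2 : ∃ u : G, v = u * x' * u⁻¹ ∧ g = Blk.cj u f'
    · exact absurd ((show SConj x f v g from h1).trans (show SConj x' f' v g from h2).symm) h
    · rw [if_neg h2, mul_zero]
  · rw [if_neg h1, map_zero, zero_mul]

theorem isWt_inv (x : G) (f : MonoidAlgebra (kM M) G) (u v : G) (g : MonoidAlgebra (kM M) G) :
    wOrb x f (u * v * u⁻¹) (Blk.cj u g) = wOrb x f v g := wOrb_inv x f u v g

theorem wstar_wstar' (hM : IsPModular p M) {w w' : G → MonoidAlgebra (kM M) G → ℂ}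
    (hw' : ∀ (u v : G) (g : MonoidAlgebra (kM M) G), w' (u * v * u⁻¹) (Blk.cj u g) = w' v g)
    {χ : G → ℂ} (hχ : IsClassFunction G χ) :
    wstar p w (wstar p w' χ) = wstar p (fun v f => w v f * w' v f) χ := by
  funext g
  obtain ⟨s, h1, h2, h3, h4⟩ := isPPart_pp p g
  obtain ⟨v, hv⟩ : ∃ v, v = pp p g := ⟨_, rfl⟩
  rw [← hv] at h1 h2 h3
  have := Fintype.ofFinite (Subgroup.centralizer (Subgroup.zpowers v : Set G))
  obtain ⟨t, rfl⟩ : ∃ t : Subgroup.centralizer (Subgroup.zpowers v : Set G), (t : G) = s :=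
    ⟨⟨s, mem_cent_zpowers.2 h2⟩, rfl⟩
  rw [Subgroup.orderOf_coe] at h4
  rw [← h1, wstar_dpart (wstar_classFn hw' hχ) h3 h4, wstar_dpart hχ h3 h4]
  refine Finset.sum_congr rfl fun e he => ?_
  rw [dpart_wstar hM hχ h3 (mem_pbl.1 he), Pi.smul_apply, smul_eq_mul]
  ring

theorem wstar_zero (χ : G → ℂ) {w : G → MonoidAlgebra (kM M) G → ℂ} (hw : ∀ v f, w v f = 0) :
    wstar p w χ = 0 := by
  funext g
  unfold wstar
  refine Finset.sum_eq_zero fun f _ => ?_
  rw [hw, zero_mul]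

variable {C C' : Subgroup G} [Fintype C] [Fintype C']

/-- the contributions of conjugate subsections are equal -/
theorem sc_congr (hM : IsPModular p M) {x x' : G}
    (hC : C = Subgroup.centralizer (Subgroup.zpowers x : Set G))
    (hC' : C' = Subgroup.centralizer (Subgroup.zpowers x' : Set G))
    {e : Set (IrrCharacter C)} {e' : Set (IrrCharacter C')}
    (hx : ∃ k : ℕ, orderOf x = p ^ k) (he : IsPBlock M e)
    (he' : IsPBlock M e') (h : SConj x (EB M C e) x' (EB M C' e')) (χ ψ : IrrCharacter G) :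
    sc p x e (χ : G → ℂ) (ψ : G → ℂ) = sc p x' e' (χ : G → ℂ) (ψ : G → ℂ) := by
  have hx' : ∃ k : ℕ, orderOf x' = p ^ k := by
    obtain ⟨g, rfl, -⟩ := h
    obtain ⟨k, hk⟩ := hx
    refine ⟨k, ?_⟩
    have := orderOf_injective (MulAut.conj g).toMonoidHom (MulAut.conj g).injective x
    rw [← hk, ← this]
    simp
  rw [← classInner_wOrb' hM hC hx he (irr_isClassFunction χ) (irr_isClassFunction ψ),
    ← classInner_wOrb' hM hC' hx' he' (irr_isClassFunction χ) (irr_isClassFunction ψ),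
    wOrb_congr h]

/-- products of contributions of nonconjugate subsections -/
theorem sum_sc_mul (hM : IsPModular p M) {B : Set (IrrCharacter G)} {x x' : G}
    (hC : C = Subgroup.centralizer (Subgroup.zpowers x : Set G))
    (hC' : C' = Subgroup.centralizer (Subgroup.zpowers x' : Set G))
    {e : Set (IrrCharacter C)} {e' : Set (IrrCharacter C')}
    (hx : ∃ k : ℕ, orderOf x = p ^ k) (hx' : ∃ k : ℕ, orderOf x' = p ^ k)
    (hind : IsInducedBlock M C e B) (he' : IsPBlock M e')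
    (h : ¬ SConj x (EB M C e) x' (EB M C' e')) (χ θ : IrrCharacter G) :
    ∑ ψ ∈ Bfin B, sc p x e (χ : G → ℂ) (ψ : G → ℂ) * sc p x' e' (ψ : G → ℂ) (θ : G → ℂ) = 0 := by
  classical
  have := Fintype.ofFinite (IrrCharacter G)
  have hcl := wstar_classFn (p := p) (fun u v f => wOrb_inv x (EB M C e) u v f)
    (irr_isClassFunction χ)
  have hcl' := wstar_classFn (p := p) (fun u v f => wOrb_inv x' (EB M C' e') u v f)
    (irr_isClassFunction θ)
  have h1 : classInner (wstar p (wOrb x (EB M C e)) (χ : G → ℂ))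
      (wstar p (wOrb x' (EB M C' e')) (θ : G → ℂ)) = 0 := by
    rw [classInner_wstar hM (irr_isClassFunction χ) hcl',
      wstar_wstar' hM (fun u v f => wOrb_inv x' (EB M C' e') u v f) (irr_isClassFunction θ),
      wstar_zero _ (fun v f => wOrb_mul_wOrb h v f)]
    unfold classInner
    simp
  rw [classInner_eq_sum hcl] at h1
  rw [← h1]
  rw [← Finset.sum_subset (Finset.subset_univ (Bfin B))]
  · refine Finset.sum_congr rfl fun ψ _ => ?_
    rw [classInner_wOrb' hM hC hx hind.1 (irr_isClassFunction χ) (irr_isClassFunction ψ)]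
    congr 1
    rw [← classInner_conj_symm, classInner_wOrb' hM hC' hx' he' (irr_isClassFunction θ)
      (irr_isClassFunction ψ), sc_conj]
  · intro ψ _ hψ
    rw [classInner_wOrb' hM hC hx hind.1 (irr_isClassFunction χ) (irr_isClassFunction ψ)]
    have hCC : C = Subgroup.centralizer ({x} : Set G) := by rw [hC, centralizer_zpowers_eq]
    have h2 := dpart_eq_zero_of_notMem hM hx hCC hind (fun h => hψ (mem_Bfin.mpr h))
    unfold sc
    rw [h2]
    simp

end sconj

end Cfsg.Agent.H10.Col
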