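import Cfsg.Agent.H10.RankCol

/-!
# Columns of subsections with a block of rank one: orthogonality (owner: helper10)
-/

set_option autoImplicit false
set_option linter.style.haveILetI false
set_option linter.unusedSectionVars false

namespace Cfsg.Agent.H10.Col

open scoped ComplexConjugate BigOperators
open Cfsg Cfsg.Agent.CharBase Cfsg.Agent.Blk Cfsg.Agent.BlkInd Cfsg.Agent.BlkC Cfsg.Agent.Star
  Cfsg.Agent.H4 MonoidAlgebra

universe u

variable {G : Type u} [Group G] [Fintype G] {p : ℕ} [hp : Fact p.Prime] {M : Ideal AlgInt}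
  [hMp : M.IsPrime] {C C' : Subgroup G} [Fintype C] [Fintype C'] {B : Set (IrrCharacter G)}

theorem orderOf_conj' (g x : G) : orderOf (g * x * g⁻¹) = orderOf x := by
  have := orderOf_injective (MulAut.conj g).toMonoidHom (MulAut.conj g).injective x
  rw [← this]; simp

theorem cent_eq {x : G} (hC : C = Subgroup.centralizer (Subgroup.zpowers x : Set G)) :
    C = Subgroup.centralizer ({x} : Set G) := by rw [hC, centralizer_zpowers_eq]

section

variable {e : Set (IrrCharacter C)} {φ : C → ℂ} {d : IrrCharacter C → ℕ}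
  {e' : Set (IrrCharacter C')} {φ' : C' → ℂ} {d' : IrrCharacter C' → ℕ}

theorem D_ne_zero (hM : IsPModular p M) {x : G}
    (hx : ∃ k : ℕ, orderOf x = p ^ k) (hC : C = Subgroup.centralizer (Subgroup.zpowers x : Set G))
    (hind : IsInducedBlock M C e B) (hl : blockRank p e = 1) (hR : R1 p e φ d)
    {χ : IrrCharacter G} (hχ : χ ∈ B) (h0 : blockHeight p B (χ : G → ℂ) = 0) :
    D x e d (χ : G → ℂ) ≠ 0 := by
  intro h
  apply not_mli_D hM hx (cent_eq hC) hind hl hR hχ h0
  rw [h]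
  exact mli_zero

/-- orthogonality of the columns of nonconjugate subsections -/
theorem D_orth (hM : IsPModular p M) (hB : IsPBlock M B) {x x' : G}
    (hC : C = Subgroup.centralizer (Subgroup.zpowers x : Set G))
    (hC' : C' = Subgroup.centralizer (Subgroup.zpowers x' : Set G))
    (hx : ∃ k : ℕ, orderOf x = p ^ k) (hx' : ∃ k : ℕ, orderOf x' = p ^ k)
    (hind : IsInducedBlock M C e B) (hind' : IsInducedBlock M C' e' B)
    (hl : blockRank p e = 1) (hl' : blockRank p e' = 1) (hR : R1 p e φ d) (hR' : R1 p e' φ' d')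
    (h : ¬ SConj x (EB M C e) x' (EB M C' e')) :
    ∑ ψ ∈ Bfin B, D x e d (ψ : G → ℂ) * conj (D x' e' d' (ψ : G → ℂ)) = 0 := by
  obtain ⟨χ, hχ, h0⟩ := exists_height_zero hM hB
  have h1 := sum_sc_mul hM hC hC' hx hx' hind hind'.1 h χ χ
  have h2 : ∑ ψ ∈ Bfin B, ((p : ℂ) ^ blockDefect p e * sc p x e (χ : G → ℂ) (ψ : G → ℂ)) *
      ((p : ℂ) ^ blockDefect p e' * sc p x' e' (ψ : G → ℂ) (χ : G → ℂ)) = 0 := by
    have h3 : ∀ ψ ∈ Bfin B, ((p : ℂ) ^ blockDefect p e * sc p x e (χ : G → ℂ) (ψ : G → ℂ)) *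
      ((p : ℂ) ^ blockDefect p e' * sc p x' e' (ψ : G → ℂ) (χ : G → ℂ)) =
      ((p : ℂ) ^ blockDefect p e * (p : ℂ) ^ blockDefect p e') *
        (sc p x e (χ : G → ℂ) (ψ : G → ℂ) * sc p x' e' (ψ : G → ℂ) (χ : G → ℂ)) := fun ψ _ => by ring
    rw [Finset.sum_congr rfl h3, ← Finset.mul_sum, h1, mul_zero]
  have h3 : ∀ ψ ∈ Bfin B, ((p : ℂ) ^ blockDefect p e * sc p x e (χ : G → ℂ) (ψ : G → ℂ)) *
      ((p : ℂ) ^ blockDefect p e' * sc p x' e' (ψ : G → ℂ) (χ : G → ℂ)) =
      (D x e d (χ : G → ℂ) * conj (D x' e' d' (χ : G → ℂ))) *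
        conj (D x e d (ψ : G → ℂ) * conj (D x' e' d' (ψ : G → ℂ))) := by
    intro ψ _
    rw [sc_eq_D hM hind.1 hl hR, sc_eq_D hM hind'.1 hl' hR', map_mul, Complex.conj_conj]
    ring
  rw [Finset.sum_congr rfl h3, ← Finset.mul_sum, ← map_sum, mul_eq_zero, mul_eq_zero] at h2
  rcases h2 with (h2 | h2) | h2
  · exact absurd h2 (D_ne_zero hM hx hC hind hl hR hχ h0)
  · rw [map_eq_zero] at h2
    exact absurd h2 (D_ne_zero hM hx' hC' hind' hl' hR' hχ h0)
  · rwa [map_eq_zero] at h2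

theorem wOrb_one_eq {x : G} (hC : C = Subgroup.centralizer (Subgroup.zpowers x : Set G))
    (hx : ∃ k : ℕ, orderOf x = p ^ k) (he : IsPBlock M e) {χ : G → ℂ} (hχ : IsClassFunction G χ) :
    wstar p (wOrb x (EB M C e)) χ x = dpart p x e χ 1 := by
  subst hC
  have := wstar_wOrb_section hx he hχ (s := (1 : Subgroup.centralizer (Subgroup.zpowers x : Set G)))
    one_reg
  simpa using this

/-- conjugation of the column element by an element fixing the block -/
theorem D_inv (hM : IsPModular p M) {x : G}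
    (hC : C = Subgroup.centralizer (Subgroup.zpowers x : Set G)) {g : G}
    (hC' : C = Subgroup.centralizer (Subgroup.zpowers (g * x * g⁻¹) : Set G))
    (hx : ∃ k : ℕ, orderOf x = p ^ k) (he : IsPBlock M e) (hR : R1 p e φ d)
    (hg : Blk.cj g (EB M C e) = EB M C e) (χ : IrrCharacter G) :
    D (g * x * g⁻¹) e d (χ : G → ℂ) = D x e d (χ : G → ℂ) := by
  have hx' : ∃ k : ℕ, orderOf (g * x * g⁻¹) = p ^ k := by rw [orderOf_conj']; exact hx
  rw [D_eq hR, D_eq hR, ← wOrb_one_eq hC hx he (irr_isClassFunction χ),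
    ← wOrb_one_eq hC' hx' he (irr_isClassFunction χ),
    wOrb_congr (show SConj x (EB M C e) (g * x * g⁻¹) (EB M C e) from ⟨g, rfl, hg.symm⟩)]
  congr 1
  exact wstar_classFn (p := p) (fun u v f => wOrb_inv _ (EB M C e) u v f)
    (irr_isClassFunction χ) x g

/-- orthogonality with the values at `p`-regular elements -/
theorem D_orth_reg (hM : IsPModular p M) (hB : IsPBlock M B) {x : G}
    (hC : C = Subgroup.centralizer (Subgroup.zpowers x : Set G))
    (hx : ∃ k : ℕ, orderOf x = p ^ k) (hx1 : x ≠ 1)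
    (hind : IsInducedBlock M C e B) (hl : blockRank p e = 1) (hR : R1 p e φ d) {c : G}
    (hc : ¬ p ∣ orderOf c) :
    ∑ ψ ∈ Bfin B, (ψ : G → ℂ) c * conj (D x e d (ψ : G → ℂ)) = 0 := by
  classical
  have := Fintype.ofFinite (IrrCharacter G)
  obtain ⟨χ, hχ, h0⟩ := exists_height_zero hM hB
  have hcl := wstar_classFn (p := p) (fun u v f => wOrb_inv x (EB M C e) u v f)
    (irr_isClassFunction χ)
  have h1 : wstar p (wOrb x (EB M C e)) (χ : G → ℂ) c = 0 := by
    have h2 := wstar_wOrb_eq_zero (p := p) (f₀ := EB M C e) (x := x) (irr_isClassFunction χ) (v := 1) (s := c)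
      ⟨0, by simp⟩ (fun h => by
        obtain ⟨g, hg⟩ := isConj_iff.mp h
        apply hx1
        have : g * x = g := by
          have := congrArg (· * g) hg
          simpa using this
        simpa using this) (by simp) hc
    simpa using h2
  rw [classFun_apply_eq_sum hcl c] at h1
  have h2 : ∀ ψ : IrrCharacter G, classInner (wstar p (wOrb x (EB M C e)) (χ : G → ℂ)) (ψ : G → ℂ) =
      sc p x e (χ : G → ℂ) (ψ : G → ℂ) := fun ψ =>
    classInner_wOrb' hM hC hx hind.1 (irr_isClassFunction χ) (irr_isClassFunction ψ)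
  rw [← Finset.sum_subset (Finset.subset_univ (Bfin B))] at h1
  · have h3 : D x e d (χ : G → ℂ) * ∑ ψ ∈ Bfin B, (ψ : G → ℂ) c * conj (D x e d (ψ : G → ℂ)) = 0 := by
      rw [Finset.mul_sum]
      have h4 : ∀ ψ ∈ Bfin B, D x e d (χ : G → ℂ) * ((ψ : G → ℂ) c * conj (D x e d (ψ : G → ℂ))) =
          (p : ℂ) ^ blockDefect p e *
            (classInner (wstar p (wOrb x (EB M C e)) (χ : G → ℂ)) (ψ : G → ℂ) * (ψ : G → ℂ) c) := by
        intro ψ _
        rw [h2, ← mul_assoc ((p : ℂ) ^ _), sc_eq_D hM hind.1 hl hR]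
        ring
      rw [Finset.sum_congr rfl h4, ← Finset.mul_sum, h1, mul_zero]
    rcases mul_eq_zero.mp h3 with h4 | h4
    · exact absurd h4 (D_ne_zero hM hx hC hind hl hR hχ h0)
    · exact h4
  · intro ψ _ hψ
    rw [h2]
    have h3 := dpart_eq_zero_of_notMem hM hx (cent_eq hC) hind (fun h => hψ (mem_Bfin.mpr h))
    unfold sc
    rw [h3]
    simp

end

section lev

variable {e : Set (IrrCharacter C)} {φ : C → ℂ} {d : IrrCharacter C → ℕ}

/-- the columns along a cyclic group -/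
theorem lev_of (hM : IsPModular p M) (hB : IsPBlock M B) {x : G} {h t : ℕ} (ht : Cyc.IsT h t)
    {ζ : ℂ} (hζ : IsPrimitiveRoot ζ (2 * h)) (hord : orderOf x = 2 * h)
    (hx : ∃ k : ℕ, orderOf x = p ^ k)
    (hC : C = Subgroup.centralizer (Subgroup.zpowers x : Set G))
    (hind : IsInducedBlock M C e B) (hl : blockRank p e = 1) (hR : R1 p e φ d)
    {g : G} (hg : g * x * g⁻¹ = x ^ t) (hge : Blk.cj g (EB M C e) = EB M C e)
    (hfus : ∀ i i' : ℕ, Odd i → Odd i' → SConj (x ^ i) (EB M C e) (x ^ i') (EB M C e) →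
      (i' ≡ i [MOD 2 * h] ∨ i' ≡ t * i [MOD 2 * h])) :
    Cyc.Lev (Bfin B) h t (p ^ blockDefect p e) ζ
      (fun i χ => D (x ^ i) e d (χ : G → ℂ)) := by
  have hp2 : p = 2 := by
    obtain ⟨k, hk⟩ := hx
    rw [hord] at hk
    have h1 : 2 ∣ p ^ k := ⟨h, hk.symm⟩
    exact ((Nat.prime_dvd_prime_iff_eq Nat.prime_two hp.out).mp
      (Nat.prime_two.dvd_of_dvd_pow h1)).symm
  have hzp : ∀ i, Odd i → Subgroup.zpowers (x ^ i) = Subgroup.zpowers x := by
    intro i hi
    apply zpowers_pow_of_coprime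
    obtain ⟨k, hk⟩ := hx
    rw [hk, hp2]
    exact Nat.Coprime.pow_left _ (Nat.coprime_two_left.mpr hi)
  have hCi : ∀ i, Odd i → C = Subgroup.centralizer (Subgroup.zpowers (x ^ i) : Set G) := by
    intro i hi; rw [hzp i hi]; exact hC
  have hxi : ∀ i : ℕ, ∃ k : ℕ, orderOf (x ^ i) = p ^ k := by
    intro i
    obtain ⟨k, hk⟩ := hx
    have h1 : orderOf (x ^ i) ∣ p ^ k := hk ▸ orderOf_pow_dvd i
    obtain ⟨j, -, hj⟩ := (Nat.dvd_prime_pow hp.out).mp h1
    exact ⟨j, hj⟩
  refine ⟨?_, ?_, ?_, ?_⟩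
  · intro χ _
    exact D_poly (cent_eq hC) ht.2.1 hζ hord e d χ
  · intro χ _ i hi
    have h1 : g * x ^ i * g⁻¹ = x ^ (t * i) := by
      rw [← conj_pow, hg, ← pow_mul]
    have h2 := D_inv hM (hCi i hi) (g := g) (by rw [h1]; exact hCi _ (ht.odd.mul hi)) (hxi i)
      hind.1 hR hge χ
    rw [h1] at h2
    exact h2
  · intro i hi
    have := norm_D hM (hxi i) (cent_eq (hCi i hi)) hind hl hR
    exact this
  · intro i i' hi hi' h1 h2
    refine D_orth hM hB (hCi i hi) (hCi i' hi') (hxi i) (hxi i') hind hind hl hl hR hR ?_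
    intro hc
    rcases hfus i i' hi hi' hc with h3 | h3
    · exact h1 h3
    · exact h2 h3

end lev

end Cfsg.Agent.H10.Col
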