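import Cfsg.Agent.H10.QSTop
import Cfsg.Agent.H10.QSGrp
import Cfsg.Agent.H79.HeightPS
import Cfsg.Agent.H76.FRRank
import Cfsg.Agent.ZJ.SolvFact
import Cfsg.Agent.BlkInd.FirstMain

/-!
# Blocks of rank three with dihedral and semidihedral defect groups (owner: helper10)
-/

set_option autoImplicit false
set_option linter.style.haveILetI false
set_option linter.unusedSectionVars false

namespace Cfsg.Agent.H10.MC

open scoped BigOperators commutatorElement
open Cfsg Cfsg.Agent.CharBase Cfsg.Agent.Blk Cfsg.Agent.BlkF Cfsg.Agent.BlkInd Cfsg.Agent.BlkC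
  Cfsg.Agent.Star Cfsg.Agent.H4 Cfsg.Agent.H10.Col MonoidAlgebra

universe u

/-- dihedral or semidihedral groups -/
def Tame {G : Type*} [Group G] (D : Subgroup G) : Prop :=
  ∃ (x y : G) (h t : ℕ), MC D x y h t ∧ (Dih y h t ∨ SDih y h t)

theorem Tame.ofEquiv {G K : Type*} [Group G] [Group K] {D : Subgroup G} {D' : Subgroup K}
    (e : D ≃* D') (hT : Tame D') : Tame D := by
  obtain ⟨x, y, h, t, H, hd⟩ := hT
  have H' := H.top
  refine ⟨_, _, h, t, MC.ofEquiv e H', ?_⟩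
  have hsq : y * y = 1 → ((e.symm ⟨y, H.hy⟩ : D) : G) * ((e.symm ⟨y, H.hy⟩ : D) : G) = 1 := by
    intro h1
    have h2 : e.symm ⟨y, H.hy⟩ * e.symm ⟨y, H.hy⟩ = 1 := by
      rw [← map_mul]
      have : (⟨y, H.hy⟩ : D') * ⟨y, H.hy⟩ = 1 := Subtype.ext h1
      rw [this, map_one]
    exact congrArg Subtype.val h2
  rcases hd with hd | hd
  · exact Or.inl ⟨hd.1, hsq hd.2⟩
  · exact Or.inr ⟨hd.1, hd.2.1, hsq hd.2.2⟩

section fus

variable {G : Type u} [Group G] [Fintype G] {M : Ideal AlgInt}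
  {B : Set (IrrCharacter G)} {D : Subgroup G} {x y : G} {h t : ℕ}

/-- the fusion of involutions in a block of rank three -/
theorem fus3 (hM : IsPModular 2 M) (hB : IsPBlock M B)
    (hD : IsDefectGroup 2 M B D) (H : MC D x y h t) (hd : Dih y h t ∨ SDih y h t)
    (hl : blockRank 2 B = 3) :
    (∃ g : G, y = g * x ^ h * g⁻¹) ∧ (Dih y h t → ∃ g : G, x * y = g * x ^ h * g⁻¹) := by
  classical
  haveI := isPrime_of_isPModular hM
  haveI := charP_kM hM
  haveI : ∀ v : G, Fintype (Subgroup.centralizer (Subgroup.zpowers v : Set G)) :=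
    fun v => Fintype.ofFinite _
  have hdih : Dih y h t → ∀ v ∈ D, orderOf v = 2 → ∃ g : G, v = g * x ^ h * g⁻¹ := by
    intro hd v hv hv2
    obtain ⟨-, -, -, -, -, h6⟩ := hd.main hM hB hD H
    obtain ⟨E, he, hE, hall⟩ := h6 hl
    obtain ⟨f, -, hf⟩ := exists_mle he.1 (Subgroup.zpowers v) (Subgroup.zpowers_le.mpr hv)
    obtain ⟨i, f', -, -, -, g, hg, -⟩ := hall v (by
      rintro rfl; rw [orderOf_one] at hv2; omega) ⟨1, by rw [hv2]; norm_num⟩ f
      ((hf.pairOf_iff he.1).1 hE)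
    have h7 : orderOf (x ^ i) = 2 := by rw [hg, Col.orderOf_conj', hv2]
    have h8 : x ^ i * x ^ i = 1 := by rw [← pow_two (x ^ i), ← h7, pow_orderOf_eq_one]
    rcases H.sq_pow h8 with h9 | h9
    · rw [h9, orderOf_one] at h7; omega
    · refine ⟨g⁻¹, ?_⟩
      rw [← h9, hg]; group
  refine ⟨?_, fun hd => hdih hd _ (D.mul_mem H.hx H.hy) ?_⟩
  · rcases hd with hd | hd
    · refine hdih hd y H.hy ?_
      have := hd.ord_y H 0
      rwa [pow_zero, one_mul] at this
    · obtain ⟨m, hm⟩ := H.hp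
      subst hm
      have h1m : 1 < m := by
        by_contra hcon
        have h4 := Nat.le_of_dvd H.pos hd.1
        have h5 : 2 ^ m ≤ 2 ^ 1 := Nat.pow_le_pow_right (by norm_num) (by omega)
        omega
      obtain ⟨E, eG, s, δ, lam, -, -, -, -, q0, q1, q2, q3, -, q5, -⟩ :=
        H.main_big hM hB hD (Or.inr hd) h1m
      obtain ⟨q6, q7⟩ := q1 hd
      obtain ⟨g, hg, -⟩ := q7 (by omega)
      refine ⟨g⁻¹, ?_⟩
      rw [hg]; group
  · have := hd.ord_y H 1
    rwa [pow_one] at this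

theorem odd_center (hM : IsPModular 2 M) (hB : IsPBlock M B)
    (hD : IsDefectGroup 2 M B D) (H : MC D x y h t) (hy : ∃ g : G, y = g * x ^ h * g⁻¹) :
    Odd (Nat.card (Subgroup.center G)) := by
  haveI := isPrime_of_isPModular hM
  by_contra hev
  rw [Nat.not_odd_iff_even, even_iff_two_dvd] at hev
  obtain ⟨⟨c, hcZ⟩, hc2⟩ := exists_prime_orderOf_dvd_card' 2 hev
  rw [Subgroup.orderOf_mk] at hc2
  have hcc : ∀ g : G, g * c = c * g := Subgroup.mem_center_iff.mp hcZ
  haveI : (Subgroup.zpowers c).Normal := by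
    refine ⟨fun n hn g => ?_⟩
    obtain ⟨a, rfl⟩ := Subgroup.mem_zpowers_iff.mp hn
    have : g * c ^ a * g⁻¹ = c ^ a := by
      rw [(Commute.zpow_right (show Commute g c from hcc g) a).eq]; group
    rw [this]
    exact Subgroup.zpow_mem_zpowers _ _
  have hle := normal_le_defectGroup hM (P := Subgroup.zpowers c) (IsPGroup.of_card (n := 1) (by
    rw [Nat.card_zpowers, hc2, pow_one])) hB hD
  have hcD : c ∈ D := hle (Subgroup.mem_zpowers c)
  have h1 := H.mem_of_comm (i := 1) (by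
    intro h2
    have := Nat.le_of_dvd one_pos h2
    obtain ⟨k, hk⟩ := H.ht.1
    have := H.pos
    omega) hcD (by rw [pow_one]; exact (hcc x).symm)
  obtain ⟨i, -, rfl⟩ := H.exists_pow h1
  have h3 : x ^ i * x ^ i = 1 := by rw [← pow_two (x ^ i), ← hc2, pow_orderOf_eq_one]
  obtain ⟨g, hg⟩ := hy
  apply H.hyx
  rcases H.sq_pow h3 with h4 | h4
  · rw [h4, orderOf_one] at hc2; omega
  · rw [hg, ← h4, hcc g]
    have : x ^ i * g * g⁻¹ = x ^ i := by group
    rw [this]
    exact mem_zp i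

end fus

/-- the group theoretic contradiction -/
theorem sylow_contra {G : Type u} [Group G] [Finite G] {D : Subgroup G} {x y : G} {h t : ℕ}
    (hsolv : IsPSolvable 2 G) (hDp : IsPGroup 2 D)
    (hDc : Nat.card D = 2 ^ (Nat.card G).factorization 2)
    (H : MC D x y h t) (hd : Dih y h t ∨ SDih y h t) (hy : ∃ g : G, y = g * x ^ h * g⁻¹)
    (hxy : Dih y h t → ∃ g : G, x * y = g * x ^ h * g⁻¹) : False := by
  classical
  obtain ⟨K, hKn, hNK, hKp, hC⟩ := H79.exists_K_of_psolvable hsolv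
  set N := pPrimeCore 2 G with hN
  have hNn : N.Normal := inferInstance
  have hNp : ¬ 2 ∣ Nat.card N := H79.not_dvd_pPrimeCore
  obtain ⟨hsup, hcent⟩ := hC (D ⊓ K) inf_le_right (hDp.to_le inf_le_left)
    (fun S hSK hS => H79.card_le_of_sylow_inf hDp hDc hS hSK)
  set L : Subgroup G := K ⊓ (Subgroup.centralizer
    ((K.map (QuotientGroup.mk' N) : Subgroup (G ⧸ N)) : Set (G ⧸ N))).comap (QuotientGroup.mk' N)
    with hL
  have hKmn : (K.map (QuotientGroup.mk' N)).Normal :=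
    hKn.map _ (QuotientGroup.mk'_surjective N)
  have hLn : L.Normal := by
    have : (Subgroup.centralizer
      ((K.map (QuotientGroup.mk' N) : Subgroup (G ⧸ N)) : Set (G ⧸ N))).Normal := inferInstance
    have h2 := this.comap (QuotientGroup.mk' N)
    exact Subgroup.normal_inf_normal _ _
  -- the involution
  have hzK : x ^ h ∈ K := hcent (by
    rw [Subgroup.mem_centralizer_iff]
    intro q hq
    exact H.z_central hq.1)
  have hzL : x ^ h ∈ L := by
    refine ⟨hzK, ?_⟩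
    change QuotientGroup.mk' N (x ^ h) ∈ Subgroup.centralizer _
    rw [Subgroup.mem_centralizer_iff]
    rintro _ ⟨w, hw, rfl⟩
    rw [← hsup, SetLike.mem_coe, ← SetLike.mem_coe, Subgroup.normal_mul] at hw
    obtain ⟨n, hn, q, hq, rfl⟩ := Set.mem_mul.1 hw
    have h1 : (QuotientGroup.mk' N) n = 1 := by
      rw [QuotientGroup.mk'_apply]; exact (QuotientGroup.eq_one_iff n).2 hn
    rw [map_mul, h1, one_mul, ← map_mul, ← map_mul, H.z_central hq.1]
  have hyL : y ∈ L := by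
    obtain ⟨g, hg⟩ := hy
    rw [hg]
    exact hLn.conj_mem _ hzL g
  have hyK : y ∈ K := hyL.1
  -- `y` commutes with `D ∩ K`
  have hcomm : ∀ q ∈ D, q ∈ K → y * q = q * y := by
    intro q hqD hqK
    have h1 := Subgroup.mem_centralizer_iff.1 hyL.2 (QuotientGroup.mk' N q) ⟨q, hqK, rfl⟩
    have h2 : ((⁅y, q⁆ : G) : G ⧸ N) = 1 := by
      change QuotientGroup.mk' N ⁅y, q⁆ = 1
      rw [map_commutatorElement, commutatorElement_eq_one_iff_mul_comm]
      exact h1.symm
    have h3 : ⁅y, q⁆ ∈ N := (QuotientGroup.eq_one_iff _).1 h2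
    have h4 : ⁅y, q⁆ ∈ D := by
      rw [commutatorElement_def]
      exact D.mul_mem (D.mul_mem (D.mul_mem H.hy hqD) (D.inv_mem H.hy)) (D.inv_mem hqD)
    have h5 : ⁅y, q⁆ = 1 := by
      obtain ⟨k, hk⟩ := hDp ⟨⁅y, q⁆, h4⟩
      have hk' : ⁅y, q⁆ ^ 2 ^ k = 1 := congrArg Subtype.val hk
      have h6 : orderOf ⁅y, q⁆ ∣ 2 ^ k := orderOf_dvd_of_pow_eq_one hk'
      have h7 : orderOf ⁅y, q⁆ ∣ Nat.card N := Subgroup.orderOf_dvd_natCard N h3
      have h8 : Nat.Coprime (2 ^ k) (Nat.card N) :=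
        Nat.Coprime.pow_left _ ((Nat.Prime.coprime_iff_not_dvd Nat.prime_two).mpr hNp)
      exact orderOf_eq_one_iff.mp (Nat.eq_one_of_dvd_coprimes h8 h6 h7)
    exact commutatorElement_eq_one_iff_mul_comm.mp h5
  have hfix : ∀ j, x ^ j ∈ K → h ∣ j := by
    intro j hj
    apply H.fixed_iff.mp
    rw [hcomm _ (D.pow_mem H.hx j) hj]; group
  have hpos := H.pos
  have h2dvd := H.ht.1
  rcases hd with hd | hd
  · obtain ⟨g, hg⟩ := hxy hd
    have h1 : x * y ∈ K := by rw [hg]; exact hKn.conj_mem _ hzK g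
    have h2 : x ∈ K := by
      have : x = x * y * y⁻¹ := by group
      rw [this]; exact K.mul_mem h1 (K.inv_mem hyK)
    have h3 := hfix 1 (by rw [pow_one]; exact h2)
    have := Nat.le_of_dvd one_pos h3
    obtain ⟨k, hk⟩ := h2dvd
    omega
  · have h1 : x * y * x⁻¹ * y⁻¹ ∈ K :=
      K.mul_mem (hKn.conj_mem _ hyK x) (K.inv_mem hyK)
    have h2 : x * y * x⁻¹ * y⁻¹ = x * (x ^ t)⁻¹ := by
      have : x * y * x⁻¹ * y⁻¹ = x * (y * x * y⁻¹)⁻¹ := by group
      rw [this, H.conj]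
    have h3 : x ^ (h + 2) = x * y * x⁻¹ * y⁻¹ := by
      rw [h2, eq_mul_inv_iff_mul_eq, ← pow_add]
      have ht : h + 2 + t = 2 * h + 1 := by have := hd.2.1; omega
      rw [ht, pow_succ, (H.pow_eq_one).mpr dvd_rfl, one_mul]
    have h4 := hfix (h + 2) (by rw [h3]; exact h1)
    have h5 : h ∣ 2 := (Nat.dvd_add_right (dvd_refl h)).mp h4
    have := Nat.le_of_dvd (by norm_num) h5
    obtain ⟨k, hk⟩ := hd.1
    omega

/-- **blocks of rank three of soluble groups do not have dihedral or semidihedral defect groups** -/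
theorem no_rank_three {M : Ideal AlgInt} (hM : IsPModular 2 M) (n : ℕ) :
    ∀ {G : Type u} [Group G] [Fintype G], Nat.card G = n → IsPSolvable 2 G →
      ∀ (B : Set (IrrCharacter G)), IsPBlock M B → ∀ (P : Subgroup G), IsDefectGroup 2 M B P →
      Tame P → blockRank 2 B = 3 → False := by
  classical
  haveI := isPrime_of_isPModular hM
  haveI := charP_kM hM
  induction n using Nat.strong_induction_on with
  | _ n ih =>
  intro G _ _ hGn hsolv B hB P hP hT hl
  set N := pPrimeCore 2 G with hN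
  have hNn : N.Normal := inferInstance
  have hNp : ¬ 2 ∣ Nat.card N := H79.not_dvd_pPrimeCore
  have := Fintype.ofFinite N
  obtain ⟨χ, hχ⟩ := block_nonempty hB
  obtain ⟨θ, hθ⟩ : ∃ θ : IrrCharacter N,
      classInner (fun n : N => (χ : G → ℂ) n) (θ : N → ℂ) ≠ 0 := by
    obtain ⟨θ, h1, h2⟩ := Char.exists_constituent_restrict N (irr_isCharacter χ) (irr_one_ne_zero χ.2)
    exact ⟨⟨θ, h1⟩, h2⟩
  by_cases hinv : ∀ g : G, Char.cj N g (θ : N → ℂ) = θ
  · obtain ⟨K, hKn, hNK, hKp, hC⟩ := H79.exists_K_of_psolvable hsolv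
    obtain ⟨B₀, hB₀, hmem, hD⟩ := H79.fong_core hM hNp hinv hNK hKp
      (fun Q h1 h2 h3 => (hC Q h1 h2 h3).2)
    have hBB : B = B₀ := by
      rw [isPBlock_eq_blockOf hB hχ, isPBlock_eq_blockOf hB₀ ((hmem χ).2 hθ)]
    subst hBB
    obtain ⟨x, y, h, t, H, hd⟩ := hT
    obtain ⟨f1, f2⟩ := fus3 hM hB hP H hd hl
    exact sylow_contra hsolv (BlkInd.isPGroup_of_isDefectGroup hP) (hD P hP) H hd f1 f2
  · push Not at hinv
    obtain ⟨g₀, hg₀⟩ := hinv
    set b : Set (IrrCharacter N) := {θ} with hb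
    have hbB : IsPBlock M b := H79.isPBlock_singleton hM hNp θ
    set T := H76.blockStab N b with hT'
    have := Fintype.ofFinite T
    have hTG : Nat.card T < Nat.card G := by
      rcases lt_or_eq_of_le (Subgroup.card_le_card_group T) with h1 | h1
      · exact h1
      · exfalso
        have h2 : T = ⊤ := Subgroup.eq_top_of_card_eq T h1
        have h3 : g₀ ∈ T := by rw [h2]; exact Subgroup.mem_top _
        have h4 := h3 θ rfl ⟨Char.cj N g₀ θ, Char.isIrrCharacter_cj N g₀ θ.2⟩ rfl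
        exact hg₀ (congrArg Subtype.val h4)
    have hTm : ∀ g : G, g ∈ T ↔ ∀ θ ∈ b, ∀ θ' : Cfsg.IrrCharacter N,
        (∀ n : N, (θ' : N → ℂ) n = (θ : N → ℂ) ⟨g * n * g⁻¹, hNn.conj_mem n n.2 g⟩) → θ' ∈ b :=
      fun g => H76.mem_blockStab
    obtain ⟨-, -, h3⟩ := Cfsg.Agent.S4435.result 2 M hM N b hbB T hTm (H76.le_blockStab N b)
    obtain ⟨B', hB', hcov, hind⟩ := h3 B hB ⟨χ, hχ, θ, rfl, hθ⟩
    obtain ⟨h4, -⟩ := Cfsg.Agent.S4436.result 2 M hM N b hbB T hTm (H76.le_blockStab N b)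
      B' hB' hcov B hind
    have hstab := H76.isStab_of (T := T) hbB hTm
    have hrk := (hstab.rank_eq (hNT := H76.le_blockStab N b) hM hbB hind hcov).2
    obtain ⟨D, hD⟩ := BlkInd.exists_defectGroup hM hB'
    have hDG := h4 D hD
    obtain ⟨w, hw⟩ := BlkInd.defectGroup_conj hM hB hDG hP
    have e1 : D ≃* D.map T.subtype := D.equivMapOfInjective _ T.subtype_injective
    have e2 : (D.map T.subtype : Subgroup G) ≃* P := by
      rw [← hw]
      exact (D.map T.subtype).equivMapOfInjective _ (MulAut.conj w).injective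
    exact ih (Nat.card T) (by rw [← hGn]; exact hTG) rfl (H76.isPSolvable_subgroup T hsolv)
      B' hB' D hD (Tame.ofEquiv (e1.trans e2) hT) (by rw [← hrk]; exact hl)

end Cfsg.Agent.H10.MC
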