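import Cfsg.Agent.S3378
import Cfsg.Agent.MaxClass.UniqueOrderP
import Cfsg.Agent.H62.SL23Rec
import Cfsg.Agent.Schur.SL2b

set_option autoImplicit false
set_option maxRecDepth 20000

/-! S4021, pieces (A) and (B): recognition of `SL(2,3)` and `SL(2,5)`. -/

namespace Cfsg.Agent.H10.S4021AB
open Subgroup

section
variable {G : Type*} [Group G] {z : G}

theorem zz (hz2 : orderOf z = 2) : z * z = 1 := by
  rw [← pow_two, ← hz2, pow_orderOf_eq_one]

theorem z1 (hz2 : orderOf z = 2) : z ≠ 1 := by
  intro h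
  rw [h, orderOf_one] at hz2
  omega

theorem sq_one (hu : ∀ u : G, orderOf u = 2 → u = z) {x : G} (h : x * x = 1) : x = 1 ∨ x = z := by
  by_cases h1 : x = 1
  · exact Or.inl h1
  · exact Or.inr (hu x (orderOf_eq_prime (by rw [pow_two, h]) h1))

theorem central (hz2 : orderOf z = 2) (hu : ∀ u : G, orderOf u = 2 → u = z) (g : G) : g * z = z * g := by
  have h1 : g * z * g⁻¹ = z := by
    apply hu
    rw [← MulAut.conj_apply, MulEquiv.orderOf_eq, hz2]
  calc g * z = (g * z * g⁻¹) * g := by group
    _ = z * g := by rw [h1]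

theorem zmem (hz2 : orderOf z = 2) (x : G) : x ∈ zpowers z ↔ x = 1 ∨ x = z := by
  constructor
  · intro hx
    rw [mem_zpowers_iff] at hx
    obtain ⟨n, rfl⟩ := hx
    have h1 : z ^ n = z ^ (n % (2 : ℤ)) := by
      have := zpow_mod_orderOf z n
      rw [hz2] at this
      exact this.symm
    rcases Int.emod_two_eq_zero_or_one n with h2 | h2
    · left; rw [h1, h2, zpow_zero]
    · right; rw [h1, h2, zpow_one]
  · rintro (rfl | rfl)
    · exact one_mem _
    · exact mem_zpowers _
end

theorem alt4 : ∀ c v : alternatingGroup (Fin 4), c ^ 3 = 1 → c ≠ 1 → v * v = 1 → v ≠ 1 →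
    c * (c * v * c⁻¹) * c⁻¹ = v * (c * v * c⁻¹) ∧ c * v * c⁻¹ ≠ v ∧
    (c * v * c⁻¹) * v = v * (c * v * c⁻¹) ∧ c * v * c⁻¹ ≠ 1 := by
  decide +kernel

theorem alt4_card : Fintype.card (alternatingGroup (Fin 4)) = 12 := by decide +kernel

theorem alt4_inv : ∃ v : alternatingGroup (Fin 4), v * v = 1 ∧ v ≠ 1 := by decide +kernel

theorem alt5 : ∀ x : alternatingGroup (Fin 5), x ^ 4 = 1 → x ^ 2 = 1 := by decide +kernel

theorem alt5_nc : ∃ a b : alternatingGroup (Fin 5), ¬ a * b = b * a := by
  decide +kernel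

theorem A {G : Type*} [Group G] [Finite G] (z : G) (hz2 : orderOf z = 2) (hu : ∀ u : G, orderOf u = 2 → u = z)
    (Z : Subgroup G) [Z.Normal] (hZ : Z = Subgroup.zpowers z) (e : G ⧸ Z ≃* alternatingGroup (Fin 4)) :
    Nonempty (G ≃* Matrix.SpecialLinearGroup (Fin 2) (ZMod 3)) := by
  have hzz := zz hz2
  have hz1 := z1 hz2
  have hzc := central hz2 hu
  have hZm : ∀ x, x ∈ Z ↔ x = 1 ∨ x = z := by intro x; rw [hZ]; exact zmem hz2 x
  have hZc : Nat.card Z = 2 := by rw [hZ, Nat.card_zpowers, hz2]
  have hG : Nat.card G = 24 := by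
    rw [Subgroup.card_eq_card_quotient_mul_card_subgroup Z, hZc, Nat.card_congr e.toEquiv,
      Nat.card_eq_fintype_card, alt4_card]
  let f : G →* alternatingGroup (Fin 4) := e.toMonoidHom.comp (QuotientGroup.mk' Z)
  have hf : ∀ x, f x = 1 ↔ x = 1 ∨ x = z := by
    intro x
    rw [← hZm, ← QuotientGroup.eq_one_iff (N := Z) x]
    exact map_eq_one_iff e e.injective
  have hfs : Function.Surjective f := e.surjective.comp (QuotientGroup.mk'_surjective Z)
  have hfeq : ∀ x y, f x = f y → x = y ∨ x = y * z := by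
    intro x y h
    have h1 : f (y⁻¹ * x) = 1 := by rw [map_mul, map_inv, h, inv_mul_cancel]
    rcases (hf _).1 h1 with h2 | h2
    · left; exact (inv_mul_eq_one.1 h2).symm
    · right; rw [← h2]; group
  -- element of order three
  haveI : Fact (Nat.Prime 3) := ⟨by norm_num⟩
  obtain ⟨x, hx⟩ := exists_prime_orderOf_dvd_card' (G := G) 3 (by rw [hG]; norm_num)
  have hx3 : x ^ 3 = 1 := by rw [← hx]; exact pow_orderOf_eq_one x
  have hx1 : x ≠ 1 := by rintro rfl; rw [orderOf_one] at hx; omega
  have hfx : f x ≠ 1 := by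
    intro h
    rcases (hf x).1 h with h1 | h1
    · exact hx1 h1
    · rw [h1, hz2] at hx; omega
  have hfx3 : f x ^ 3 = 1 := by rw [← map_pow, hx3, map_one]
  obtain ⟨v, hv, hv1⟩ := alt4_inv
  obtain ⟨s, hs⟩ := hfs v
  obtain ⟨t, ht⟩ : ∃ t, t = x * s * x⁻¹ := ⟨_, rfl⟩
  have hft : f t = f x * v * (f x)⁻¹ := by rw [ht, map_mul, map_mul, map_inv, hs]
  obtain ⟨c1, c2, c3, c4⟩ := alt4 (f x) v hfx3 hfx hv hv1
  -- squares
  have hsqz : ∀ y, f y ≠ 1 → f y * f y = 1 → y * y = z := by
    intro y h1 h2
    have h3 : f (y * y) = 1 := by rw [map_mul, h2]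
    refine ((hf _).1 h3).resolve_left fun h4 => h1 ((hf y).2 (sq_one hu h4))
  have hss : s * s = z := hsqz s (by rw [hs]; exact hv1) (by rw [hs, hv])
  have htt : t * t = z := by
    apply hsqz t
    · rw [hft]; exact c4
    · rw [hft]
      calc f x * v * (f x)⁻¹ * (f x * v * (f x)⁻¹) = f x * (v * v) * (f x)⁻¹ := by group
        _ = 1 := by rw [hv]; group
  have hsinv : s⁻¹ = s * z := by
    rw [inv_eq_iff_mul_eq_one, ← mul_assoc, hss, hzz]
  have hst : t * s * t⁻¹ = s⁻¹ := by
    have h1 : f (t * s * t⁻¹) = f s := by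
      rw [map_mul, map_mul, map_inv, hft, hs]
      rw [c3]; group
    rcases hfeq _ _ h1 with h2 | h2
    · exfalso
      have h3 : t * s = s * t := by
        calc t * s = (t * s * t⁻¹) * t := by group
          _ = s * t := by rw [h2]
      have h4 : (s * t) * (s * t) = 1 := by
        calc (s * t) * (s * t) = s * (t * s) * t := by group
          _ = s * (s * t) * t := by rw [h3]
          _ = (s * s) * (t * t) := by group
          _ = 1 := by rw [hss, htt, hzz]
      have h5 := (hf (s * t)).2 (sq_one hu h4)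
      rw [map_mul, hs, hft] at h5
      apply c2
      calc f x * v * (f x)⁻¹ = (v * v) * (f x * v * (f x)⁻¹) := by rw [hv, one_mul]
        _ = v * (v * (f x * v * (f x)⁻¹)) := by group
        _ = v := by rw [h5, mul_one]
    · rw [h2, hsinv]
  have hxt : x * t * x⁻¹ = s * t ∨ x * t * x⁻¹ = s * t * z := by
    apply hfeq
    rw [map_mul, map_mul, map_inv, hft, c1, map_mul, hs, hft]
  -- normalise
  obtain ⟨s', t', hs4, hs1, hst2, hst', hxs', hxt'⟩ : ∃ s t : G, s ^ (2 * 2) = 1 ∧ s ^ 2 ≠ 1 ∧ t * t = s ^ 2 ∧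
      t * s * t⁻¹ = s⁻¹ ∧ x * s * x⁻¹ = t ∧ x * t * x⁻¹ = s * t := by
    rcases hxt with hxt | hxt
    · exact ⟨s, t, by rw [pow_mul, pow_two s, hss, pow_two, hzz], by rw [pow_two, hss]; exact hz1,
        by rw [htt, pow_two, hss], hst, ht.symm, hxt⟩
    · have e1 : (s * z) * (s * z) = z := by
        calc (s * z) * (s * z) = s * (z * s) * z := by group
          _ = s * (s * z) * z := by rw [← hzc s]
          _ = (s * s) * (z * z) := by group
          _ = z := by rw [hss, hzz, mul_one]
      have e2 : (t * z) * (t * z) = z := by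
        calc (t * z) * (t * z) = t * (z * t) * z := by group
          _ = t * (t * z) * z := by rw [← hzc t]
          _ = (t * t) * (z * z) := by group
          _ = z := by rw [htt, hzz, mul_one]
      refine ⟨s * z, t * z, by rw [pow_mul, pow_two (s * z), e1, pow_two, hzz],
        by rw [pow_two, e1]; exact hz1, by rw [e2, pow_two, e1], ?_, ?_, ?_⟩
      · calc (t * z) * (s * z) * (t * z)⁻¹ = t * (z * s) * z * z⁻¹ * t⁻¹ := by group
          _ = t * (s * z) * z * z⁻¹ * t⁻¹ := by rw [← hzc s]
          _ = t * s * (z * t⁻¹) := by group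
          _ = t * s * (t⁻¹ * z) := by rw [← hzc t⁻¹]
          _ = (t * s * t⁻¹) * z := by group
          _ = s⁻¹ * z := by rw [hst]
          _ = (s * z)⁻¹ := by rw [mul_inv_rev, inv_eq_of_mul_eq_one_left hzz, hzc]
      · calc x * (s * z) * x⁻¹ = x * s * (z * x⁻¹) := by group
          _ = x * s * (x⁻¹ * z) := by rw [← hzc x⁻¹]
          _ = t * z := by rw [ht]; group
      · calc x * (t * z) * x⁻¹ = x * t * (z * x⁻¹) := by group
          _ = x * t * (x⁻¹ * z) := by rw [← hzc x⁻¹]
          _ = (x * t * x⁻¹) * z := by group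
          _ = s * t * z * z := by rw [hxt]
          _ = s * (t * z) * z := by group
          _ = s * (z * t) * z := by rw [hzc t]
          _ = (s * z) * (t * z) := by group
  obtain ⟨E⟩ := Cfsg.Agent.H62.sup_equiv_sl23 hs4 hs1 hst2 hst' hxs' hxt' hx3 hx1
  have hcard : Nat.card ↥(closure {s', t'} ⊔ zpowers x) = 24 := by
    rw [Nat.card_congr E.toEquiv]
    have h1 := Cfsg.Agent.Schur.card_SL2 (F := ZMod 3)
    rw [ZMod.card] at h1
    rw [h1]; norm_num
  have htop : closure {s', t'} ⊔ zpowers x = ⊤ := by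
    apply Subgroup.eq_top_of_card_eq
    rw [hcard, hG]
  rw [htop] at E
  exact ⟨Subgroup.topEquiv.symm.trans E⟩

theorem B {G : Type*} [Group G] [Finite G] (z : G) (hz2 : orderOf z = 2) (hu : ∀ u : G, orderOf u = 2 → u = z)
    (Z : Subgroup G) [Z.Normal] (hZ : Z = Subgroup.zpowers z) (e : G ⧸ Z ≃* alternatingGroup (Fin 5)) :
    Nonempty (G ≃* Matrix.SpecialLinearGroup (Fin 2) (ZMod 5)) := by
  have hz1 := z1 hz2
  have hZm : ∀ x, x ∈ Z ↔ x = 1 ∨ x = z := by intro x; rw [hZ]; exact zmem hz2 x
  have hZc : Nat.card Z = 2 := by rw [hZ, Nat.card_zpowers, hz2]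
  have hG : Nat.card G = 120 := by
    rw [Subgroup.card_eq_card_quotient_mul_card_subgroup Z, hZc, Nat.card_congr e.toEquiv,
      nat_card_alternatingGroup, Nat.card_eq_fintype_card, Fintype.card_fin]
    rfl
  let f : G →* alternatingGroup (Fin 5) := e.toMonoidHom.comp (QuotientGroup.mk' Z)
  have hf : ∀ x, f x = 1 ↔ x = 1 ∨ x = z := by
    intro x
    rw [← hZm, ← QuotientGroup.eq_one_iff (N := Z) x]
    exact map_eq_one_iff e e.injective
  have hfs : Function.Surjective f := e.surjective.comp (QuotientGroup.mk'_surjective Z)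
  refine Cfsg.Agent.S3378.result.1 G hG ?_ ?_
  · intro hs
    have h1 : Group.IsSolvable (alternatingGroup (Fin 5)) :=
      Group.isSolvable_of_surjective (f := f) hfs
    have h2 := (IsSimpleGroup.comm_iff_isSolvable (G := alternatingGroup (Fin 5))).2 h1
    obtain ⟨a, b, hab⟩ := alt5_nc
    exact hab (h2 a b)
  · intro P
    haveI := Fact.mk Nat.prime_two
    have hP8 : Nat.card P = 8 := by
      have h1 := P.card_eq_multiplicity
      rw [hG] at h1
      rw [h1]
      have : (120 : ℕ).factorization 2 = 3 := by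
        have e1 := (Nat.prime_two.pow_dvd_iff_le_factorization (k := 3) (n := 120) (by norm_num)).1 (by norm_num)
        have e2 : ¬ 4 ≤ (120 : ℕ).factorization 2 := fun h =>
          absurd ((Nat.prime_two.pow_dvd_iff_le_factorization (k := 4) (n := 120) (by norm_num)).2 h) (by norm_num)
        omega
      rw [this]; norm_num
    rcases Cfsg.Agent.MaxClass.cyclic_or_quaternion P.isPGroup' (fun H K hH hK => by
        have key : ∀ H : Subgroup (P : Subgroup G), Nat.card H = 2 → H.map (P : Subgroup G).subtype = zpowers z := by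
          intro H hH
          have h1 : Nat.card (H.map (P : Subgroup G).subtype) = 2 := by
            rw [card_map_of_injective (P : Subgroup G).subtype_injective, hH]
          refine Subgroup.eq_of_le_of_card_ge ?_ (by rw [Nat.card_zpowers, hz2, h1])
          intro y hy
          rw [zmem hz2]
          refine sq_one hu ?_
          have h3 := pow_card_eq_one' (x := (⟨y, hy⟩ : ↥(H.map (P : Subgroup G).subtype)))
          rw [h1, pow_two] at h3
          exact congrArg Subtype.val h3
        have h1 := (key H hH).trans (key K hK).symm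
        exact Subgroup.map_injective (P : Subgroup G).subtype_injective h1) with h | ⟨-, n, ⟨E⟩⟩
    · exfalso
      obtain ⟨g, hg⟩ := h.exists_ofOrder_eq_natCard
      rw [hP8] at hg
      have hg' : orderOf (g : G) = 8 := by rw [Subgroup.orderOf_coe]; exact hg
      have h4 : (g : G) ^ 4 = z := by
        apply hu
        rw [orderOf_pow, hg']; norm_num
      have h5 : f g ^ 4 = 1 := by rw [← map_pow, h4]; exact (hf z).2 (Or.inr rfl)
      have h6 := alt5 _ h5
      rw [← map_pow, hf] at h6
      have h7 : (g : G) ^ 4 = 1 := by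
        rw [show (4 : ℕ) = 2 * 2 by norm_num, pow_mul]
        rcases h6 with h6 | h6
        · rw [h6, one_pow]
        · rw [h6, pow_two, zz hz2]
      rw [h4] at h7
      exact hz1 h7
    · have h1 := Nat.card_congr E.toEquiv
      rw [hP8, Nat.card_eq_fintype_card, QuaternionGroup.card] at h1
      have h2 : n = 1 := by
        have h3 : 2 ^ n = 2 ^ 1 := by omega
        exact Nat.pow_right_injective le_rfl h3
      subst h2
      exact ⟨E⟩

end Cfsg.Agent.H10.S4021AB
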