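import Mathlib
import Cfsg.Prelude.Def_Perm
import Cfsg.Agent.ClassBase.RelHom

set_option autoImplicit false

namespace Cfsg.Agent.H10.S4021HJ

open Cfsg

theorem exists_of_aut {K : Type} [Field K] [Algebra (ZMod 2) K] (φ : K ≃ₐ[ZMod 2] K) :
    ∃ σ : ↥(Cfsg.semiaffineGroup K), orderOf σ = orderOf φ := by
  let f : (K ≃ₐ[ZMod 2] K) →* Equiv.Perm K := MulAction.toPermHom _ _
  have hfa : ∀ (a : K ≃ₐ[ZMod 2] K) (x : K), f a x = a x := fun _ _ => rfl
  have hf : Function.Injective f := by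
    intro a b hab
    apply AlgEquiv.ext
    intro x
    rw [← hfa, ← hfa, hab]
  have hmem : f φ ∈ Cfsg.semiaffineGroup K := by
    refine ⟨1, 0, φ.toRingEquiv, ?_⟩
    intro x
    rw [Units.val_one, one_mul, add_zero, hfa]
    rfl
  refine ⟨⟨f φ, hmem⟩, ?_⟩
  rw [← Subgroup.orderOf_coe]
  exact orderOf_injective f hf φ

theorem H : ∃ σ : ↥(Cfsg.semiaffineGroup (GaloisField 2 5)), orderOf σ = 5 := by
  have hφ : orderOf (FiniteField.frobeniusAlgEquivOfAlgebraic (ZMod 2) (GaloisField 2 5)) = 5 := by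
    rw [FiniteField.orderOf_frobeniusAlgEquivOfAlgebraic]
    exact GaloisField.finrank 2 (by norm_num)
  obtain ⟨σ, hσ⟩ := exists_of_aut (FiniteField.frobeniusAlgEquivOfAlgebraic (ZMod 2) (GaloisField 2 5))
  exact ⟨σ, hσ.trans hφ⟩

theorem J {F : Type} [Field F] [Fintype F] (n : ℕ) (hn : 1 ≤ n) (hF : Fintype.card F = 2 ^ n) :
    Nonempty (Matrix.ProjectiveSpecialLinearGroup (Fin 2) F ≃*
      Matrix.ProjectiveSpecialLinearGroup (Fin 2) (GaloisField 2 n)) ∧
    Nonempty (MulAut (Matrix.ProjectiveSpecialLinearGroup (Fin 2) F) ≃*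
      MulAut (Matrix.ProjectiveSpecialLinearGroup (Fin 2) (GaloisField 2 n))) := by
  have : Fintype (GaloisField 2 n) := Fintype.ofFinite _
  have h1 : Fintype.card (GaloisField 2 n) = 2 ^ n := by
    rw [← Nat.card_eq_fintype_card]
    exact GaloisField.card 2 n (by omega)
  let e := ClassBase.pslCongr (n := Fin 2) (FiniteField.ringEquivOfCardEq (hF.trans h1.symm))
  exact ⟨⟨e⟩, ⟨MulAut.congr e⟩⟩

end Cfsg.Agent.H10.S4021HJ
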