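import Mathlib

namespace Cfsg.Agent.H10.Sing

open Module

variable {F V W : Type*} [Field F] [AddCommGroup V] [Module F V] [AddCommGroup W] [Module F W]

/-- A pencil `A + t B` with `B` bijective is surjective for almost all `t`. -/
theorem pencil_finite [FiniteDimensional F V] [FiniteDimensional F W]
    (h : finrank F V = finrank F W)
    (A B : V →ₗ[F] W) (hB : Function.Surjective B) :
    {t : F | ¬ Function.Surjective (A + t • B)}.Finite := by
  have hBi : Function.Injective B :=
    (LinearMap.injective_iff_surjective_of_finrank_eq_finrank h).2 hB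
  let e : V ≃ₗ[F] W := LinearEquiv.ofBijective B ⟨hBi, hB⟩
  let C : Module.End F V := e.symm.toLinearMap ∘ₗ A
  have hfin : Set.Finite {μ | C.HasEigenvalue μ} := Module.End.finite_hasEigenvalue C
  refine (hfin.image (fun t => -t)).subset ?_
  intro t ht
  simp only [Set.mem_ofPred_eq] at ht
  have ht' : ¬ Function.Injective (A + t • B) := by
    intro h'
    exact ht ((LinearMap.injective_iff_surjective_of_finrank_eq_finrank h).1 h')
  rw [injective_iff_map_eq_zero] at ht'
  push Not at ht'
  obtain ⟨v, hv, hv0⟩ := ht'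
  refine ⟨-t, ?_, by simp⟩
  simp only [Set.mem_ofPred_eq]
  apply Module.End.hasEigenvalue_of_hasEigenvector (x := v)
  refine ⟨?_, hv0⟩
  rw [Module.End.mem_eigenspace_iff]
  have h1 : A v = -(t • B v) := by
    rw [LinearMap.add_apply, LinearMap.smul_apply] at hv
    exact eq_neg_of_add_eq_zero_left hv
  have h2 : e.symm (B v) = v := by
    have : e v = B v := rfl
    rw [← this, e.symm_apply_apply]
  change e.symm (A v) = _
  rw [h1, map_neg, map_smul, h2, neg_smul]

/-- pencil with a marked vector -/
theorem pencil_marked [Infinite F] [FiniteDimensional F V] [FiniteDimensional F W]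
    (h : finrank F V = finrank F W)
    (A B : V →ₗ[F] W) (k : V) (w : W) (hk : k ≠ 0) (hw : w ≠ 0) (α β : F)
    (hA : A k = α • w) (hB : B k = β • w) (hab : α ≠ 0 ∨ β ≠ 0)
    (hs : ∀ z : W, ∃ v : V, ∃ c : F, z = B v + c • w) :
    ∃ t : F, Function.Surjective (A + t • B) := by
  set K := Submodule.span F {k} with hK
  set S := Submodule.span F {w} with hS
  have hAK : K ≤ S.comap A := by
    rw [hK, Submodule.span_singleton_le_iff_mem, Submodule.mem_comap, hA]
    exact Submodule.smul_mem _ _ (Submodule.mem_span_singleton_self w)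
  have hBK : K ≤ S.comap B := by
    rw [hK, Submodule.span_singleton_le_iff_mem, Submodule.mem_comap, hB]
    exact Submodule.smul_mem _ _ (Submodule.mem_span_singleton_self w)
  have hf : finrank F (V ⧸ K) = finrank F (W ⧸ S) := by
    have h1 := Submodule.finrank_quotient_add_finrank K
    have h2 := Submodule.finrank_quotient_add_finrank S
    have h3 : finrank F K = 1 := finrank_span_singleton hk
    have h4 : finrank F S = 1 := finrank_span_singleton hw
    omega
  let Ab := Submodule.mapQ K S A hAK
  let Bb := Submodule.mapQ K S B hBK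
  have hBb : Function.Surjective Bb := by
    intro z
    obtain ⟨z, rfl⟩ := Submodule.Quotient.mk_surjective S z
    obtain ⟨v, c, hz⟩ := hs z
    refine ⟨Submodule.Quotient.mk v, ?_⟩
    change Submodule.mapQ K S B hBK (Submodule.Quotient.mk v) = _
    rw [Submodule.mapQ_apply, Submodule.Quotient.eq, hz]
    have : B v - (B v + c • w) = (-c) • w := by rw [neg_smul]; abel
    rw [this]
    exact Submodule.smul_mem _ _ (Submodule.mem_span_singleton_self w)
  have hfin1 := pencil_finite hf Ab Bb hBb
  have hfin2 : {t : F | α + t * β = 0}.Finite := by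
    by_cases hb : β = 0
    · have ha : α ≠ 0 := by
        rcases hab with h | h
        · exact h
        · exact absurd hb h
      convert Set.finite_empty
      ext t; simp [hb, ha]
    · refine (Set.finite_singleton (-(α / β))).subset ?_
      intro t ht
      simp only [Set.mem_ofPred_eq] at ht
      rw [Set.mem_singleton_iff]
      field_simp
      linear_combination ht
  obtain ⟨t, ht⟩ := (hfin1.union hfin2).infinite_compl.nonempty
  rw [Set.mem_compl_iff, Set.mem_union, not_or] at ht
  obtain ⟨ht1, ht2⟩ := ht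
  simp only [Set.mem_ofPred_eq, not_not] at ht1 ht2
  refine ⟨t, ?_⟩
  intro z
  obtain ⟨vb, hvb⟩ := ht1 (Submodule.Quotient.mk z)
  obtain ⟨v, rfl⟩ := Submodule.Quotient.mk_surjective K vb
  have h3 : (Submodule.Quotient.mk (A v + t • B v) : W ⧸ S) = Submodule.Quotient.mk z := by
    rw [← hvb]
    change _ = (Submodule.mapQ K S A hAK) (Submodule.Quotient.mk v) + t • (Submodule.mapQ K S B hBK) (Submodule.Quotient.mk v)
    rw [Submodule.mapQ_apply, Submodule.mapQ_apply]
    rfl
  rw [Submodule.Quotient.eq, hS, Submodule.mem_span_singleton] at h3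
  obtain ⟨c, hc⟩ := h3
  refine ⟨v - (c / (α + t * β)) • k, ?_⟩
  rw [map_sub, map_smul, LinearMap.add_apply, LinearMap.add_apply, LinearMap.smul_apply,
    LinearMap.smul_apply, hA, hB, smul_smul, ← add_smul, smul_smul, div_mul_cancel₀ _ ht2, hc]
  abel

/-- spaces of maps of rank at most one -/
theorem rank_one {U : Type*} [AddCommGroup U] [Module F U]
    (m : U →ₗ[F] V →ₗ[F] W) (hr : ∀ u, ∃ s : W, ∀ v, ∃ c : F, m u v = c • s) :
    (∃ s : W, ∀ u v, m u v ∈ Submodule.span F {s}) ∨
      (∃ φ : V →ₗ[F] F, ∀ u v, φ v = 0 → m u v = 0) := by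
  -- tensor form
  have ht : ∀ u, ∃ (s : W) (φ : V →ₗ[F] F), ∀ v, m u v = φ v • s := by
    intro u
    obtain ⟨s, hs⟩ := hr u
    by_cases h0 : s = 0
    · refine ⟨0, 0, fun v => ?_⟩
      obtain ⟨c, hc⟩ := hs v
      rw [hc, h0]; simp
    · obtain ⟨f, hf⟩ := Module.Projective.exists_dual_ne_zero (R := F) h0
      refine ⟨s, (f s)⁻¹ • (f ∘ₗ m u), fun v => ?_⟩
      obtain ⟨c, hc⟩ := hs v
      simp only [LinearMap.smul_apply, LinearMap.comp_apply, smul_eq_mul, hc, map_smul]
      congr 1
      field_simp
  choose s φ hsφ using ht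
  by_cases hz : ∀ u v, m u v = 0
  · right
    exact ⟨0, fun u v _ => hz u v⟩
  push Not at hz
  obtain ⟨u1, v1, h1⟩ := hz
  -- key: pair lemma
  have key : ∀ u u' : U, (∃ v, m u v ≠ 0) → (∃ v, m u' v ≠ 0) →
      s u' ∈ Submodule.span F {s u} ∨ (∃ c : F, φ u' = c • φ u) := by
    intro u u' hu hu'
    by_contra hcon
    push Not at hcon
    obtain ⟨hc1, hc2⟩ := hcon
    obtain ⟨w, hw⟩ := hu
    have hφw : φ u w ≠ 0 := by
      intro h; apply hw; rw [hsφ, h, zero_smul]
    have hsu : s u ≠ 0 := by
      intro h; apply hw; rw [hsφ, h, smul_zero]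
    -- a vector x with φ u x = 0 and φ u' x ≠ 0
    have hx : ∃ x, φ u x = 0 ∧ φ u' x ≠ 0 := by
      by_contra hno
      push Not at hno
      apply hc2 (φ u' w / φ u w)
      ext v
      have h2 := hno (v - (φ u v / φ u w) • w) (by
        rw [map_sub, map_smul, smul_eq_mul, div_mul_cancel₀ _ hφw, sub_self])
      rw [map_sub, map_smul, smul_eq_mul, sub_eq_zero] at h2
      rw [h2, LinearMap.smul_apply, smul_eq_mul]
      ring
    obtain ⟨x, hx1, hx2⟩ := hx
    obtain ⟨r, hr'⟩ := hr (u + u')
    have e1 : m (u + u') x = φ u' x • s u' := by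
      rw [map_add, LinearMap.add_apply, hsφ, hsφ, hx1, zero_smul, zero_add]
    have e2 : m (u + u') w = φ u w • s u + φ u' w • s u' := by
      rw [map_add, LinearMap.add_apply, hsφ, hsφ]
    obtain ⟨c1, hc1'⟩ := hr' x
    obtain ⟨c2, hc2'⟩ := hr' w
    have hs' : s u' ≠ 0 := by
      intro h; apply hc1; rw [h]; exact Submodule.zero_mem _
    have hc1n : c1 ≠ 0 := by
      intro h
      rw [e1, h, zero_smul] at hc1'
      rcases smul_eq_zero.1 hc1' with h | h
      · exact hx2 h
      · exact hs' h
    have hr1 : r = (c1⁻¹ * φ u' x) • s u' := by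
      rw [mul_smul, ← e1, hc1', smul_smul, inv_mul_cancel₀ hc1n, one_smul]
    have h3 : φ u w • s u = (c2 * (c1⁻¹ * φ u' x) - φ u' w) • s u' := by
      rw [sub_smul, mul_smul, ← hr1, ← hc2', e2]; abel
    by_cases hd : (c2 * (c1⁻¹ * φ u' x) - φ u' w) = 0
    · rw [hd, zero_smul] at h3
      rcases smul_eq_zero.1 h3 with h | h
      · exact hφw h
      · exact hsu h
    · apply hc1
      rw [Submodule.mem_span_singleton]
      refine ⟨(c2 * (c1⁻¹ * φ u' x) - φ u' w)⁻¹ * φ u w, ?_⟩
      rw [mul_smul, h3, smul_smul, inv_mul_cancel₀ hd, one_smul]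
  by_cases hall : ∀ u, (∃ v, m u v ≠ 0) → s u ∈ Submodule.span F {s u1}
  · left
    refine ⟨s u1, fun u v => ?_⟩
    by_cases h : m u v = 0
    · rw [h]; exact Submodule.zero_mem _
    · rw [hsφ]
      exact Submodule.smul_mem _ _ (hall u ⟨v, h⟩)
  · right
    push Not at hall
    obtain ⟨u2, ⟨v2, hv2⟩, hs2⟩ := hall
    refine ⟨φ u1, fun u v hv => ?_⟩
    by_contra hne
    have hs1ne : s u1 ≠ 0 := by
      intro h; apply h1; rw [hsφ, h, smul_zero]
    have hs2ne : s u2 ≠ 0 := by
      intro h; apply hv2; rw [hsφ, h, smul_zero]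
    obtain ⟨c2, hc2⟩ : ∃ c, φ u2 = c • φ u1 := by
      rcases key u1 u2 ⟨v1, h1⟩ ⟨v2, hv2⟩ with h | h
      · exact absurd h hs2
      · exact h
    have hc20 : c2 ≠ 0 := by
      intro h
      apply hv2
      rw [hsφ, hc2, h, zero_smul, LinearMap.zero_apply, zero_smul]
    rcases key u1 u ⟨v1, h1⟩ ⟨v, hne⟩ with h | ⟨c, hc⟩
    · rcases key u2 u ⟨v2, hv2⟩ ⟨v, hne⟩ with h' | ⟨c, hc⟩
      · rw [Submodule.mem_span_singleton] at h h'
        obtain ⟨a, ha⟩ := h
        obtain ⟨b, hb⟩ := h'
        have hb0 : b ≠ 0 := by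
          intro h0
          apply hne
          rw [hsφ, ← hb, h0, zero_smul, smul_zero]
        apply hs2
        rw [Submodule.mem_span_singleton]
        refine ⟨b⁻¹ * a, ?_⟩
        rw [mul_smul, ha, ← hb, smul_smul, inv_mul_cancel₀ hb0, one_smul]
      · apply hne
        rw [hsφ, hc, hc2, LinearMap.smul_apply, LinearMap.smul_apply, hv]
        simp
    · apply hne
      rw [hsφ, hc, LinearMap.smul_apply, hv]
      simp

/-- the case of a constant image line of the kernel vector -/
theorem line_case [Infinite F] (hV : finrank F V = 3) (hW : finrank F W = 3)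
    (m : V →ₗ[F] V →ₗ[F] W) (hs : Submodule.span F {z | ∃ u v, z = m u v} = ⊤)
    (hsing : ∀ x, ¬ Function.Surjective (m x))
    (k : V) (hk : k ≠ 0) (s : W) (hs0 : s ≠ 0) (hks : ∀ u, m u k ∈ Submodule.span F {s})
    (hx1 : ∃ x, m x k ≠ 0) :
    ∃ (V' : Submodule F V), Module.finrank F V' = 2 ∧
      ∀ u, ∀ v ∈ V', m u v ∈ Submodule.span F {s} := by
  have : FiniteDimensional F V := FiniteDimensional.of_finrank_pos (by omega)
  have : FiniteDimensional F W := FiniteDimensional.of_finrank_pos (by omega)
  set S := Submodule.span F {s} with hS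
  have hSf : finrank F S = 1 := finrank_span_singleton hs0
  have hWS : finrank F (W ⧸ S) = 2 := by
    have h2 := Submodule.finrank_quotient_add_finrank S
    omega
  obtain ⟨x1, hx1⟩ := hx1
  let mb : V →ₗ[F] V →ₗ[F] (W ⧸ S) := m.compr₂ S.mkQ
  have hmb : ∀ u v, mb u v = Submodule.Quotient.mk (m u v) := fun u v => rfl
  have hr : ∀ u, ∃ z : W ⧸ S, ∀ v, ∃ c : F, mb u v = c • z := by
    intro u
    have hle : finrank F (LinearMap.range (mb u)) ≤ 1 := by
      by_contra hgt
      have h2 : finrank F (LinearMap.range (mb u)) = 2 := by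
        have := Submodule.finrank_le (LinearMap.range (mb u))
        omega
      have htop : LinearMap.range (mb u) = ⊤ :=
        Submodule.eq_top_of_finrank_eq (by rw [h2, hWS])
      obtain ⟨α, hα⟩ := Submodule.mem_span_singleton.1 (hks x1)
      obtain ⟨β, hβ⟩ := Submodule.mem_span_singleton.1 (hks u)
      have hα0 : α ≠ 0 := by
        intro h; apply hx1; rw [← hα, h, zero_smul]
      obtain ⟨t, ht⟩ := pencil_marked (by rw [hV, hW]) (m x1) (m u) k s hk hs0 α β hα.symm hβ.symm
        (Or.inl hα0) (by
          intro z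
          have hz : (Submodule.Quotient.mk z : W ⧸ S) ∈ LinearMap.range (mb u) := by
            rw [htop]; trivial
          obtain ⟨v, hv⟩ := hz
          rw [hmb] at hv
          rw [Submodule.Quotient.eq] at hv
          obtain ⟨c, hc⟩ := Submodule.mem_span_singleton.1 hv
          refine ⟨v, -c, ?_⟩
          rw [neg_smul, hc]; abel)
      apply hsing (x1 + t • u)
      rw [map_add, map_smul]
      exact ht
    rw [finrank_le_one_iff] at hle
    obtain ⟨z, hz⟩ := hle
    refine ⟨(z : W ⧸ S), fun v => ?_⟩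
    obtain ⟨c, hc⟩ := hz ⟨mb u v, v, rfl⟩
    refine ⟨c, ?_⟩
    have := congrArg Subtype.val hc
    simpa using this.symm
  rcases rank_one mb hr with ⟨z, hz⟩ | ⟨φ, hφ⟩
  · exfalso
    obtain ⟨z, rfl⟩ := Submodule.Quotient.mk_surjective S z
    have hle : Submodule.span F {w | ∃ u v, w = m u v} ≤ Submodule.span F {s, z} := by
      rw [Submodule.span_le]
      rintro w ⟨u, v, rfl⟩
      obtain ⟨c, hc⟩ := Submodule.mem_span_singleton.1 (hz u v)
      rw [hmb, ← Submodule.Quotient.mk_smul, eq_comm, Submodule.Quotient.eq] at hc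
      obtain ⟨d, hd⟩ := Submodule.mem_span_singleton.1 hc
      rw [SetLike.mem_coe, Submodule.mem_span_pair]
      refine ⟨d, c, ?_⟩
      rw [hd]; abel
    rw [hs, top_le_iff] at hle
    have h1 : finrank F (Submodule.span F {s, z}) ≤ 2 := by
      classical
      have h3 := finrank_span_finset_le_card (R := F) ({s, z} : Finset W)
      have h2 : ({s, z} : Finset W).card ≤ 2 := Finset.card_le_two
      rw [Finset.coe_pair] at h3
      exact h3.trans h2
    rw [hle, finrank_top] at h1
    omega
  · by_cases hφ0 : φ = 0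
    · exfalso
      have hle : Submodule.span F {w | ∃ u v, w = m u v} ≤ S := by
        rw [Submodule.span_le]
        rintro w ⟨u, v, rfl⟩
        have := hφ u v (by rw [hφ0]; rfl)
        rw [hmb, Submodule.Quotient.mk_eq_zero] at this
        exact this
      rw [hs, top_le_iff] at hle
      have h1 := hSf
      rw [hle, finrank_top] at h1
      omega
    · refine ⟨LinearMap.ker φ, ?_, ?_⟩
      · have h1 := LinearMap.finrank_range_add_finrank_ker φ
        have h2 : finrank F (LinearMap.range φ) = 1 := by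
          rw [LinearMap.range_eq_top.2 (LinearMap.surjective hφ0), finrank_top, finrank_self]
        omega
      · intro u v hv
        have := hφ u v hv
        rw [hmb, Submodule.Quotient.mk_eq_zero] at this
        exact this

/-- the case where the images of the kernel vector form a plane -/
theorem plane_case [Infinite F] (hV : finrank F V = 3) (hW : finrank F W = 3)
    (m : V →ₗ[F] V →ₗ[F] W) (hs : Submodule.span F {z | ∃ u v, z = m u v} = ⊤)
    (hsing : ∀ x, ¬ Function.Surjective (m x))
    (x0 k0 : V) (hk0 : k0 ≠ 0) (hx0 : x0 ≠ 0) (h00 : m x0 k0 = 0)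
    (hH : finrank F (LinearMap.range (m x0)) = 2)
    (hkr : LinearMap.range (m.flip k0) = LinearMap.range (m x0)) :
    ∃ k : V →ₗ[F] V, Function.Bijective k ∧ ∀ x, m x (k x) = 0 := by
  have : FiniteDimensional F V := FiniteDimensional.of_finrank_pos (by omega)
  have : FiniteDimensional F W := FiniteDimensional.of_finrank_pos (by omega)
  set H := LinearMap.range (m x0) with hHdef
  let bH : Basis (Fin 2) F H := Module.finBasisOfFinrankEq F H hH
  obtain ⟨v1, hv1⟩ : ∃ v1, m x0 v1 = (bH 0 : W) := (bH 0).2
  obtain ⟨v2, hv2⟩ : ∃ v2, m x0 v2 = (bH 1 : W) := (bH 1).2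
  have hkr' : ∀ w ∈ H, ∃ y, m y k0 = w := by
    intro w hw
    rw [← hkr] at hw
    exact hw
  obtain ⟨y1, hy1⟩ : ∃ y1, m y1 k0 = (bH 0 : W) := hkr' _ (bH 0).2
  obtain ⟨y2, hy2⟩ : ∃ y2, m y2 k0 = (bH 1 : W) := hkr' _ (bH 1).2
  set h1 : W := (bH 0 : W) with hh1
  set h2 : W := (bH 1 : W) with hh2
  -- independence of h1 h2
  have hind : ∀ a b : F, a • h1 + b • h2 = 0 → a = 0 ∧ b = 0 := by
    intro a b hab
    have hli := bH.linearIndependent
    rw [Fintype.linearIndependent_iff] at hli
    have h3 := hli ![a, b] (by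
      rw [Fin.sum_univ_two]
      apply Subtype.ext
      simpa using hab)
    exact ⟨h3 0, h3 1⟩
  have hHmem : ∀ w ∈ H, ∃ a b : F, w = a • h1 + b • h2 := by
    intro w hw
    refine ⟨bH.repr ⟨w, hw⟩ 0, bH.repr ⟨w, hw⟩ 1, ?_⟩
    have h3 := bH.sum_repr ⟨w, hw⟩
    rw [Fin.sum_univ_two] at h3
    have h4 := congrArg Subtype.val h3
    simpa using h4.symm
  have hHtop : H ≠ ⊤ := by
    intro h
    rw [h, finrank_top] at hH
    omega
  obtain ⟨h3, hh3⟩ : ∃ h3 : W, h3 ∉ H := by
    by_contra hno
    push Not at hno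
    exact hHtop (by rw [Submodule.eq_top_iff']; exact hno)
  have hHm1 : h1 ∈ H := (bH 0).2
  have hHm2 : h2 ∈ H := (bH 1).2
  -- bases
  have liW : LinearIndependent F ![h3, h1, h2] := by
    rw [Fintype.linearIndependent_iff]
    intro g hg
    rw [Fin.sum_univ_three] at hg
    simp only [Matrix.cons_val_zero, Matrix.cons_val_one, Matrix.cons_val] at hg
    have hg0 : g 0 = 0 := by
      by_contra hne
      apply hh3
      have : h3 = (g 0)⁻¹ • (-(g 1 • h1 + g 2 • h2)) := by
        rw [show -(g 1 • h1 + g 2 • h2) = g 0 • h3 by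
          rw [neg_eq_iff_add_eq_zero]; rw [← hg]; abel]
        rw [smul_smul, inv_mul_cancel₀ hne, one_smul]
      rw [this]
      exact H.smul_mem _ (H.neg_mem (H.add_mem (H.smul_mem _ hHm1) (H.smul_mem _ hHm2)))
    rw [hg0, zero_smul, zero_add] at hg
    obtain ⟨ha, hb⟩ := hind _ _ hg
    intro i; fin_cases i
    · exact hg0
    · exact ha
    · exact hb
  have liV : LinearIndependent F ![k0, v1, v2] := by
    rw [Fintype.linearIndependent_iff]
    intro g hg
    rw [Fin.sum_univ_three] at hg
    simp only [Matrix.cons_val_zero, Matrix.cons_val_one, Matrix.cons_val] at hg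
    have h4 := congrArg (m x0) hg
    rw [map_add, map_add, map_smul, map_smul, map_smul, map_zero, h00, hv1, hv2, smul_zero,
      zero_add] at h4
    obtain ⟨ha, hb⟩ := hind _ _ h4
    rw [ha, hb, zero_smul, zero_smul, add_zero, add_zero] at hg
    have hg0 : g 0 = 0 := (smul_eq_zero.1 hg).resolve_right hk0
    intro i; fin_cases i
    · exact hg0
    · exact ha
    · exact hb
  have liY : LinearIndependent F ![x0, y1, y2] := by
    rw [Fintype.linearIndependent_iff]
    intro g hg
    rw [Fin.sum_univ_three] at hg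
    simp only [Matrix.cons_val_zero, Matrix.cons_val_one, Matrix.cons_val] at hg
    have h4 := congrArg (fun y => m y k0) hg
    simp only [map_add, map_smul, LinearMap.add_apply, LinearMap.smul_apply, map_zero,
      LinearMap.zero_apply, h00, hy1, hy2, smul_zero, zero_add] at h4
    obtain ⟨ha, hb⟩ := hind _ _ h4
    rw [ha, hb, zero_smul, zero_smul, add_zero, add_zero] at hg
    have hg0 : g 0 = 0 := (smul_eq_zero.1 hg).resolve_right hx0
    intro i; fin_cases i
    · exact hg0
    · exact ha
    · exact hb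
  let bW : Basis (Fin 3) F W := basisOfLinearIndependentOfCardEqFinrank liW (by simp [hW])
  let bV : Basis (Fin 3) F V := basisOfLinearIndependentOfCardEqFinrank liV (by simp [hV])
  let bY : Basis (Fin 3) F V := basisOfLinearIndependentOfCardEqFinrank liY (by simp [hV])
  have bW0 : bW 0 = h3 := by simp [bW]
  have bW1 : bW 1 = h1 := by simp [bW]
  have bW2 : bW 2 = h2 := by simp [bW]
  have bV0 : bV 0 = k0 := by simp [bV]
  have bV1 : bV 1 = v1 := by simp [bV]
  have bV2 : bV 2 = v2 := by simp [bV]
  have bY0 : bY 0 = x0 := by simp [bY]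
  have bY1 : bY 1 = y1 := by simp [bY]
  have bY2 : bY 2 = y2 := by simp [bY]
  -- coordinates of the matrices
  have r10 : bW.repr h1 0 = 0 := by rw [← bW1, bW.repr_self]; simp
  have r11 : bW.repr h1 1 = 1 := by rw [← bW1, bW.repr_self]; simp
  have r12 : bW.repr h1 2 = 0 := by rw [← bW1, bW.repr_self]; simp
  have r20 : bW.repr h2 0 = 0 := by rw [← bW2, bW.repr_self]; simp
  have r21 : bW.repr h2 1 = 0 := by rw [← bW2, bW.repr_self]; simp
  have r22 : bW.repr h2 2 = 1 := by rw [← bW2, bW.repr_self]; simp
  -- entries p i j = coordinate i of m y1 v_j etc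
  set c11 := bW.repr (m y1 v1) 0 with hc11
  set c12 := bW.repr (m y2 v1) 0 with hc12
  set c21 := bW.repr (m y1 v2) 0 with hc21
  set c22 := bW.repr (m y2 v2) 0 with hc22
  set b111 := bW.repr (m y1 v1) 1 with hb111
  set b112 := bW.repr (m y2 v1) 1 with hb112
  set b211 := bW.repr (m y1 v1) 2 with hb211
  set b212 := bW.repr (m y2 v1) 2 with hb212
  set b121 := bW.repr (m y1 v2) 1 with hb121
  set b122 := bW.repr (m y2 v2) 1 with hb122
  set b221 := bW.repr (m y1 v2) 2 with hb221
  set b222 := bW.repr (m y2 v2) 2 with hb222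
  have hdet : ∀ e a1 a2 : F,
      -e * (a1 * (c11 * a1 + c12 * a2) + a2 * (c21 * a1 + c22 * a2))
      + (- (c11 * a1 + c12 * a2) * a1 * (b221 * a1 + b222 * a2)
        + (c11 * a1 + c12 * a2) * (b121 * a1 + b122 * a2) * a2
        + (c21 * a1 + c22 * a2) * a1 * (b211 * a1 + b212 * a2)
        - (c21 * a1 + c22 * a2) * a2 * (b111 * a1 + b112 * a2)) = 0 := by
    intro e a1 a2
    have hdz : (LinearMap.toMatrix bV bW (m (e • x0 + a1 • y1 + a2 • y2))).det = 0 := by
      by_contra hne
      apply hsing (e • x0 + a1 • y1 + a2 • y2)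
      have hu : IsUnit (LinearMap.toMatrix bV bW (m (e • x0 + a1 • y1 + a2 • y2))).det :=
        isUnit_iff_ne_zero.2 hne
      have h4 : Function.Surjective (LinearEquiv.ofIsUnitDet hu) :=
        (LinearEquiv.ofIsUnitDet hu).surjective
      have h5 : ∀ v, LinearEquiv.ofIsUnitDet hu v = m (e • x0 + a1 • y1 + a2 • y2) v := by
        intro v
        have := LinearEquiv.coe_ofIsUnitDet hu
        exact LinearMap.congr_fun this v
      intro z
      obtain ⟨v, hv⟩ := h4 z
      exact ⟨v, by rw [← h5, hv]⟩
    rw [Matrix.det_fin_three] at hdz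
    simp only [LinearMap.toMatrix_apply, bV0, bV1, bV2, map_add, map_smul, LinearMap.add_apply,
      LinearMap.smul_apply, h00, hy1, hy2, hv1, hv2, Finsupp.add_apply, Finsupp.smul_apply,
      smul_eq_mul, r10, r11, r12, r20, r21, r22, map_zero, Finsupp.zero_apply, ← hc11, ← hc12, ← hc21, ← hc22, ← hb111,
      ← hb112, ← hb211, ← hb212, ← hb121, ← hb122, ← hb221, ← hb222] at hdz
    linear_combination hdz
  have hP : ∀ a1 a2 : F, a1 * (c11 * a1 + c12 * a2) + a2 * (c21 * a1 + c22 * a2) = 0 := by
    intro a1 a2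
    linear_combination hdet 0 a1 a2 - hdet 1 a1 a2
  have hc11z : c11 = 0 := by linear_combination hP 1 0
  have hc22z : c22 = 0 := by linear_combination hP 0 1
  have hc21z : c21 = -c12 := by linear_combination hP 1 1 - hP 1 0 - hP 0 1
  have hexp : ∀ w, w = bW.repr w 0 • h3 + bW.repr w 1 • h1 + bW.repr w 2 • h2 := by
    intro w
    have := bW.sum_repr w
    rw [Fin.sum_univ_three, bW0, bW1, bW2] at this
    exact this.symm
  have hl : c12 ≠ 0 := by
    intro hl
    have hz : m.compr₂ (bW.coord 0) = 0 := by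
      apply LinearMap.ext_basis bY bV
      intro i j
      rw [LinearMap.compr₂_apply, LinearMap.zero_apply, LinearMap.zero_apply, Basis.coord_apply]
      fin_cases i <;> fin_cases j <;>
        simp only [Fin.zero_eta, Fin.mk_one, Fin.reduceFinMk, bY0, bY1, bY2, bV0, bV1, bV2, h00,
          hv1, hv2, hy1, hy2, map_zero, Finsupp.zero_apply, r10, r20] <;>
        first
          | exact hc11z
          | exact hl
          | exact hc22z
          | (rw [← hc21, hc21z, hl, neg_zero])
    have hg : ∀ w : W, bW.coord 0 w = 0 := by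
      intro w
      have hw : w ∈ Submodule.span F {z | ∃ u v, z = m u v} := by rw [hs]; trivial
      have hle : Submodule.span F {z | ∃ u v, z = m u v} ≤ LinearMap.ker (bW.coord 0) := by
        rw [Submodule.span_le]
        rintro z ⟨u, v, rfl⟩
        rw [SetLike.mem_coe, LinearMap.mem_ker]
        have := LinearMap.congr_fun₂ hz u v
        exact this
      exact hle hw
    have := hg h3
    rw [← bW0, Basis.coord_apply, bW.repr_self] at this
    simp at this
  have hQ : ∀ a1 a2 : F, -c12 * a2 * a1 * (b221 * a1 + b222 * a2)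
      + c12 * a2 * (b121 * a1 + b122 * a2) * a2 - c12 * a1 * a1 * (b211 * a1 + b212 * a2)
      + c12 * a1 * a2 * (b111 * a1 + b112 * a2) = 0 := by
    intro a1 a2
    have h4 := hdet 0 a1 a2
    rw [hc11z, hc22z, hc21z] at h4
    linear_combination h4
  have hb211z : b211 = 0 := by
    have h4 := hQ 1 0
    have : c12 * b211 = 0 := by linear_combination -h4
    exact (mul_eq_zero.1 this).resolve_left hl
  have hb122z : b122 = 0 := by
    have h4 := hQ 0 1
    have : c12 * b122 = 0 := by linear_combination h4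
    exact (mul_eq_zero.1 this).resolve_left hl
  have hAB : ∀ t : F, t ≠ 0 → (-b221 - b212 + b111) + t * (-b222 + b121 + b112) = 0 := by
    intro t ht
    have h4 := hQ 1 t
    rw [hb211z, hb122z] at h4
    have h5 : c12 * (t * ((-b221 - b212 + b111) + t * (-b222 + b121 + b112))) = 0 := by
      linear_combination h4
    exact (mul_eq_zero.1 ((mul_eq_zero.1 h5).resolve_left hl)).resolve_left ht
  obtain ⟨t, ht⟩ := (Set.toFinite ({0, 1} : Set F)).infinite_compl.nonempty
  rw [Set.mem_compl_iff, Set.mem_insert_iff, Set.mem_singleton_iff, not_or] at ht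
  have hB : b222 = b121 + b112 := by
    have h4 : (t - 1) * (-b222 + b121 + b112) = 0 := by
      linear_combination hAB t ht.1 - hAB 1 one_ne_zero
    have h5 := (mul_eq_zero.1 h4).resolve_left (sub_ne_zero.2 ht.2)
    linear_combination -h5
  have hA : b111 = b221 + b212 := by
    have h4 := hAB 1 one_ne_zero
    rw [hB] at h4
    linear_combination h4
  -- the values
  have e11 : m y1 v1 = b111 • h1 := by
    have h4 := hexp (m y1 v1)
    rw [← hc11, ← hb111, ← hb211, hc11z, hb211z] at h4
    rw [h4]; simp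
  have e21 : m y2 v1 = c12 • h3 + b112 • h1 + b212 • h2 := hexp (m y2 v1)
  have e12 : m y1 v2 = (-c12) • h3 + b121 • h1 + b221 • h2 := by
    have h4 := hexp (m y1 v2)
    rw [← hc21, ← hb121, ← hb221, hc21z] at h4
    exact h4
  have e22 : m y2 v2 = b222 • h2 := by
    have h4 := hexp (m y2 v2)
    rw [← hc22, ← hb122, ← hb222, hc22z, hb122z] at h4
    rw [h4]; simp
  clear_value b111 b222 b221 b212 b121 b112 c12
  let k : V →ₗ[F] V := bY.constr F ![k0, b111 • k0 - v1, b222 • k0 - v2]
  have kx0 : k x0 = k0 := by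
    rw [← bY0]; simp [k]
  have ky1 : k y1 = b111 • k0 - v1 := by
    rw [← bY1]; simp [k]
  have ky2 : k y2 = b222 • k0 - v2 := by
    rw [← bY2]; simp [k]
  have hyexp : ∀ y : V, ∃ e a1 a2 : F, y = e • x0 + a1 • y1 + a2 • y2 := by
    intro y
    have h4 := bY.sum_repr y
    rw [Fin.sum_univ_three, bY0, bY1, bY2] at h4
    exact ⟨_, _, _, h4.symm⟩
  refine ⟨k, ?_, ?_⟩
  · have hinj : Function.Injective k := by
      rw [injective_iff_map_eq_zero]
      intro y hy
      obtain ⟨e, a1, a2, rfl⟩ := hyexp y
      rw [map_add, map_add, map_smul, map_smul, map_smul, kx0, ky1, ky2] at hy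
      rw [Fintype.linearIndependent_iff] at liV
      have h4 := liV ![e + a1 * b111 + a2 * b222, -a1, -a2] (by
        rw [Fin.sum_univ_three]
        simp only [Matrix.cons_val_zero, Matrix.cons_val_one, Matrix.cons_val]
        rw [← hy]; module)
      have g1 : -a1 = 0 := h4 1
      have g2 : -a2 = 0 := h4 2
      have g0 : e + a1 * b111 + a2 * b222 = 0 := h4 0
      rw [neg_eq_zero] at g1 g2
      subst g1 g2
      have : e = 0 := by linear_combination g0
      rw [this]; simp
    exact ⟨hinj, (LinearMap.injective_iff_surjective).1 hinj⟩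
  · intro y
    obtain ⟨e, a1, a2, rfl⟩ := hyexp y
    simp only [map_add, map_smul, LinearMap.add_apply, LinearMap.smul_apply, kx0, ky1, ky2,
      map_sub, h00, hv1, hv2, hy1, hy2, e11, e12, e21, e22]
    rw [hA, hB]
    module

/-- **Spaces of singular 3 by 3 matrices.** -/
theorem sing {F V W : Type*} [Field F] [Infinite F] [AddCommGroup V] [Module F V]
    [AddCommGroup W] [Module F W] (hV : Module.finrank F V = 3) (hW : Module.finrank F W = 3)
    (m : V →ₗ[F] V →ₗ[F] W) (hs : Submodule.span F {z | ∃ u v, z = m u v} = ⊤)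
    (hN : ∀ v, (∀ u, m u v = 0) → v = 0) (hsing : ∀ x, ¬ Function.Surjective (m x)) :
    (∃ (s : W) (V' : Submodule F V), Module.finrank F V' = 2 ∧
      ∀ u, ∀ v ∈ V', m u v ∈ Submodule.span F {s}) ∨
    (∃ k : V →ₗ[F] V, Function.Bijective k ∧ ∀ x, m x (k x) = 0) := by
  have : FiniteDimensional F V := FiniteDimensional.of_finrank_pos (by omega)
  have : FiniteDimensional F W := FiniteDimensional.of_finrank_pos (by omega)
  -- some `m x` has rank two
  have hrk : ∃ x0, finrank F (LinearMap.range (m x0)) = 2 := by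
    by_contra hno
    push Not at hno
    have hr : ∀ u, ∃ z : W, ∀ v, ∃ c : F, m u v = c • z := by
      intro u
      have hle : finrank F (LinearMap.range (m u)) ≤ 1 := by
        have h1 := Submodule.finrank_le (LinearMap.range (m u))
        have h2 : finrank F (LinearMap.range (m u)) ≠ 3 := by
          intro h
          apply hsing u
          rw [← LinearMap.range_eq_top]
          exact Submodule.eq_top_of_finrank_eq (by rw [h, hW])
        have h3 := hno u
        omega
      rw [finrank_le_one_iff] at hle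
      obtain ⟨z, hz⟩ := hle
      refine ⟨(z : W), fun v => ?_⟩
      obtain ⟨c, hc⟩ := hz ⟨m u v, v, rfl⟩
      refine ⟨c, ?_⟩
      have := congrArg Subtype.val hc
      simpa using this.symm
    rcases rank_one m hr with ⟨z, hz⟩ | ⟨φ, hφ⟩
    · have hle : Submodule.span F {w | ∃ u v, w = m u v} ≤ Submodule.span F {z} := by
        rw [Submodule.span_le]
        rintro w ⟨u, v, rfl⟩
        exact hz u v
      rw [hs, top_le_iff] at hle
      have h1 : finrank F (Submodule.span F {z}) ≤ 1 := by
        have := finrank_span_le_card (R := F) ({z} : Set W)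
        simpa using this
      rw [hle, finrank_top] at h1
      omega
    · have h1 := LinearMap.finrank_range_add_finrank_ker φ
      have h2 : finrank F (LinearMap.range φ) ≤ 1 := by
        have := Submodule.finrank_le (LinearMap.range φ)
        rwa [finrank_self] at this
      have h3 : LinearMap.ker φ = ⊥ := by
        rw [Submodule.eq_bot_iff]
        intro v hv
        exact hN v (fun u => hφ u v hv)
      rw [h3, finrank_bot] at h1
      omega
  obtain ⟨x0, hx0⟩ := hrk
  have hker : finrank F (LinearMap.ker (m x0)) = 1 := by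
    have := LinearMap.finrank_range_add_finrank_ker (m x0)
    omega
  obtain ⟨k0, hk0m, hk0⟩ : ∃ k0 ∈ LinearMap.ker (m x0), k0 ≠ 0 := by
    have : LinearMap.ker (m x0) ≠ ⊥ := by
      intro h; rw [h, finrank_bot] at hker; omega
    exact (Submodule.ne_bot_iff _).1 this
  rw [LinearMap.mem_ker] at hk0m
  have hx0n : x0 ≠ 0 := by
    intro h
    rw [h, map_zero, LinearMap.range_zero, finrank_bot] at hx0
    omega
  -- (S1)
  have hS1 : ∀ y, m y k0 ∈ LinearMap.range (m x0) := by
    intro y
    by_contra hy
    have hw : m y k0 ≠ 0 := by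
      intro h; apply hy; rw [h]; exact Submodule.zero_mem _
    obtain ⟨t, ht⟩ := pencil_marked (by rw [hV, hW]) (m y) (m x0) k0 (m y k0) hk0 hw 1 0
      (by rw [one_smul]) (by rw [zero_smul, hk0m]) (Or.inl one_ne_zero) (by
        have hsup : LinearMap.range (m x0) ⊔ Submodule.span F {m y k0} = ⊤ := by
          apply Submodule.eq_top_of_finrank_eq
          have h1 := Submodule.finrank_sup_add_finrank_inf_eq (LinearMap.range (m x0))
            (Submodule.span F {m y k0})
          have h2 : finrank F (Submodule.span F {m y k0}) = 1 := finrank_span_singleton hw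
          have h3 : LinearMap.range (m x0) ⊓ Submodule.span F {m y k0} = ⊥ := by
            rw [Submodule.eq_bot_iff]
            rintro z ⟨hz1, hz2⟩
            obtain ⟨c, hc⟩ := Submodule.mem_span_singleton.1 hz2
            by_cases hc0 : c = 0
            · rw [← hc, hc0, zero_smul]
            · exfalso
              apply hy
              have : m y k0 = c⁻¹ • z := by
                rw [← hc, smul_smul, inv_mul_cancel₀ hc0, one_smul]
              rw [this]
              exact Submodule.smul_mem _ _ hz1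
          rw [h3, finrank_bot] at h1
          omega
        intro z
        have hz : z ∈ LinearMap.range (m x0) ⊔ Submodule.span F {m y k0} := by
          rw [hsup]; trivial
        obtain ⟨a, ⟨v, rfl⟩, b, hb, rfl⟩ := Submodule.mem_sup.1 hz
        obtain ⟨c, rfl⟩ := Submodule.mem_span_singleton.1 hb
        exact ⟨v, c, rfl⟩)
    apply hsing (y + t • x0)
    rw [map_add, map_smul]
    exact ht
  have hex : ∃ x, m x k0 ≠ 0 := by
    by_contra hno
    push Not at hno
    exact hk0 (hN k0 hno)
  have hle : LinearMap.range (m.flip k0) ≤ LinearMap.range (m x0) := by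
    rintro w ⟨y, rfl⟩
    exact hS1 y
  by_cases h2 : finrank F (LinearMap.range (m.flip k0)) = 2
  · right
    have heq : LinearMap.range (m.flip k0) = LinearMap.range (m x0) :=
      Submodule.eq_of_le_of_finrank_eq hle (by rw [h2, hx0])
    exact plane_case hV hW m hs hsing x0 k0 hk0 hx0n hk0m hx0 heq
  · left
    have h1 : finrank F (LinearMap.range (m.flip k0)) ≤ 1 := by
      have := Submodule.finrank_mono hle
      omega
    rw [finrank_le_one_iff] at h1
    obtain ⟨z, hz⟩ := h1
    obtain ⟨x, hx⟩ := hex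
    have hz0 : (z : W) ≠ 0 := by
      intro h
      obtain ⟨c, hc⟩ := hz ⟨m.flip k0 x, x, rfl⟩
      have := congrArg Subtype.val hc
      simp [h] at this
      exact hx this.symm
    obtain ⟨V', hV'1, hV'2⟩ := line_case hV hW m hs hsing k0 hk0 (z : W) hz0 (by
      intro u
      obtain ⟨c, hc⟩ := hz ⟨m.flip k0 u, u, rfl⟩
      rw [Submodule.mem_span_singleton]
      refine ⟨c, ?_⟩
      have := congrArg Subtype.val hc
      simpa using this) ⟨x, hx⟩
    exact ⟨z, V', hV'1, hV'2⟩

end Cfsg.Agent.H10.Sing
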