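import Cfsg.Agent.H4.TrF
import Cfsg.Agent.Char.Galois
import Cfsg.Agent.Star.NilApp
import Cfsg.Agent.Star.Dec3
import Cfsg.Agent.H10.RankCol2

/-!
# A local idempotent of odd rank (owner: helper10)
-/

set_option autoImplicit false
set_option linter.style.haveILetI false
set_option linter.unusedSectionVars false

namespace Cfsg.Agent.H10.Src

open scoped ComplexConjugate BigOperators
open Cfsg Cfsg.Agent.CharBase Cfsg.Agent.Blk Cfsg.Agent.BlkF Cfsg.Agent.BlkInd Cfsg.Agent.BlkC
  Cfsg.Agent.Star Cfsg.Agent.H4 MonoidAlgebra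

universe u

variable {G : Type u} [Group G] [Fintype G] {M : Ideal AlgInt} [hMp : M.IsPrime]
  {B : Set (IrrCharacter G)} {D : Subgroup G}

theorem rd_Tc_irr (χ : IrrCharacter G) {x : MonoidAlgebra ℂ G} (hx : LR M x) :
    rd M (Tc (χ : G → ℂ) x) = trF (χ : G → ℂ) (Star.red M x) :=
  (rd_Tc (fun g => rv_irr χ g) hx).2

theorem trF_mul_comm (χ : IrrCharacter G) (x y : MonoidAlgebra (kM M) G) :
    trF (χ : G → ℂ) (x * y) = trF (χ : G → ℂ) (y * x) := by
  have h1 := rd_Tc_irr χ (lr_mul (lr_lf x) (lr_lf y))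
  have h2 := rd_Tc_irr χ (lr_mul (lr_lf y) (lr_lf x))
  rw [Star.red_mul (lr_lf _) (lr_lf _), red_lf, red_lf] at h1 h2
  rw [← h1, ← h2, Tc_mul_comm (irr_isClassFunction χ)]

theorem trF_add (χ : G → ℂ) (x y : MonoidAlgebra (kM M) G) :
    trF χ (x + y) = trF χ x + trF χ y := by
  unfold trF
  rw [← Finset.sum_add_distrib]
  refine Finset.sum_congr rfl fun g _ => ?_
  rw [coeff_add, Finsupp.add_apply]; ring

theorem trF_smul (χ : G → ℂ) (c : kM M) (x : MonoidAlgebra (kM M) G) :
    trF χ (c • x) = c * trF χ x := by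
  unfold trF
  rw [Finset.mul_sum]
  refine Finset.sum_congr rfl fun g _ => ?_
  rw [coeff_smul_apply, smul_eq_mul]; ring

theorem trF_zero (χ : G → ℂ) : trF χ (0 : MonoidAlgebra (kM M) G) = 0 := by
  unfold trF
  exact Finset.sum_eq_zero fun g _ => by simp

theorem trF_single (χ : G → ℂ) (g : G) : trF χ (MonoidAlgebra.single g (1 : kM M)) = rd M (χ g) := by
  classical
  unfold trF
  rw [Finset.sum_eq_single g]
  · rw [coeff_single, Finsupp.single_eq_same, one_mul]
  · intro h _ hh
    rw [coeff_single, Finsupp.single_eq_of_ne (Ne.symm hh.symm), zero_mul]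
  · intro h; exact absurd (Finset.mem_univ _) h

/-- values at squares -/
theorem rd_sq (hM : IsPModular 2 M) (χ : IrrCharacter G) (g : G) :
    rd M ((χ : G → ℂ) (g * g)) = rd M ((χ : G → ℂ) g) ^ 2 := by
  haveI := charP_kM hM
  obtain ⟨s, -, hs2, hs3⟩ := Cfsg.Agent.Char.exists_roots_pow (irr_isCharacter χ) g
  have hint : ∀ ω : ℂ, ω ^ orderOf g = 1 → MemLocalRing M ω := by
    intro ω hω
    apply mlr_of_isIntegral
    refine ⟨Polynomial.X ^ (orderOf g) - 1,
      Polynomial.monic_X_pow_sub_C 1 (orderOf_pos g).ne', ?_⟩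
    simp [hω]
  have key : ∀ t : Multiset ℂ, (∀ ω ∈ t, ω ^ orderOf g = 1) →
      MemLocalRing M t.sum ∧ MemLocalRing M (t.map (· ^ 2)).sum ∧
      rd M (t.map (· ^ 2)).sum = rd M t.sum ^ 2 := by
    intro t
    induction t using Multiset.induction_on with
    | empty => intro _; simp [rd_zero, mlr_zero]
    | cons a t ih =>
      intro h
      obtain ⟨i1, i2, i3⟩ := ih fun ω hω => h ω (Multiset.mem_cons_of_mem hω)
      have ha := hint a (h a (Multiset.mem_cons_self a t))
      rw [Multiset.map_cons, Multiset.sum_cons, Multiset.sum_cons]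
      refine ⟨mlr_add ha i1, mlr_add (mlr_pow ha 2) i2, ?_⟩
      rw [rd_add (mlr_pow ha 2) i2, rd_add ha i1, i3, rd_pow ha, add_sq]
      have h2 : (2 : kM M) = 0 := CharP.cast_eq_zero (kM M) 2
      rw [h2]; ring
  have h1 := hs3 1
  have h2 := hs3 2
  rw [pow_one] at h1
  have h3 : (s.map (· ^ 1)).sum = s.sum := by
    congr 1
    conv_rhs => rw [← Multiset.map_id s]
    exact Multiset.map_congr rfl fun a _ => by simp
  rw [← pow_two, h2, h1, h3]
  exact (key s hs2).2.2

/-- the functional commutes with squaring -/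
theorem trF_sq (hM : IsPModular 2 M) (χ : IrrCharacter G) (x : MonoidAlgebra (kM M) G) :
    trF (χ : G → ℂ) (x * x) = trF (χ : G → ℂ) x ^ 2 := by
  classical
  haveI := charP_kM hM
  have h2 : (2 : kM M) = 0 := CharP.cast_eq_zero (kM M) 2
  have key : ∀ s : Finset G, trF (χ : G → ℂ) ((∑ g ∈ s, x.coeff g • MonoidAlgebra.single g (1 : kM M)) *
      (∑ g ∈ s, x.coeff g • MonoidAlgebra.single g (1 : kM M))) =
      trF (χ : G → ℂ) (∑ g ∈ s, x.coeff g • MonoidAlgebra.single g (1 : kM M)) ^ 2 := by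
    intro s
    induction s using Finset.induction_on with
    | empty => simp [trF_zero]
    | insert a s ha ih =>
      rw [Finset.sum_insert ha]
      set y := ∑ g ∈ s, x.coeff g • MonoidAlgebra.single g (1 : kM M) with hy
      set w := x.coeff a • MonoidAlgebra.single a (1 : kM M) with hw
      have h3 : (w + y) * (w + y) = w * w + (w * y + y * w) + y * y := by
        rw [mul_add, add_mul, add_mul]; abel
      have h4 : trF (χ : G → ℂ) (w * w) = trF (χ : G → ℂ) w ^ 2 := by
        rw [hw, smul_mul_smul_comm, MonoidAlgebra.single_mul_single, one_mul, trF_smul, trF_smul,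
          trF_single, trF_single, rd_sq hM]
        ring
      rw [h3, trF_add, trF_add, trF_add, trF_mul_comm χ y w, ih, h4, trF_add]
      linear_combination (trF (χ : G → ℂ) (w * y) - trF (χ : G → ℂ) w * trF (χ : G → ℂ) y) * h2
  have h1 : x = ∑ g : G, x.coeff g • MonoidAlgebra.single g (1 : kM M) := by
    apply Blk.ga_ext; intro g
    rw [coeff_sum, Finsupp.finsetSum_apply, Finset.sum_eq_single g]
    · rw [coeff_smul_apply, coeff_single, Finsupp.single_eq_same, smul_eq_mul, mul_one]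
    · intro h _ hh
      rw [coeff_smul_apply, coeff_single, Finsupp.single_eq_of_ne (Ne.symm hh), smul_zero]
    · intro h; exact absurd (Finset.mem_univ _) h
  have h5 := key Finset.univ
  rw [← h1] at h5
  exact h5

theorem trF_nil (hM : IsPModular 2 M) (χ : IrrCharacter G) {x : MonoidAlgebra (kM M) G}
    (hx : IsNilpotent x) : trF (χ : G → ℂ) x = 0 := by
  obtain ⟨n, hn⟩ := hx
  have key : ∀ m : ℕ, trF (χ : G → ℂ) (x ^ (2 ^ m)) = trF (χ : G → ℂ) x ^ (2 ^ m) := by
    intro m
    induction m with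
    | zero => simp
    | succ m ih => rw [pow_succ 2 m, pow_mul, pow_two, trF_sq hM, ih, ← pow_mul]
  have h1 := key n
  have h2 : x ^ (2 ^ n) = 0 := pow_eq_zero_of_le Nat.lt_two_pow_self.le hn
  rw [h2, trF_zero] at h1
  exact eq_zero_of_pow_eq_zero h1.symm

/-- a primitive idempotent of `(kG)^D` in the block with nonzero trace -/
theorem exists_prim (hM : IsPModular 2 M) (hB : IsPBlock M B)
    (hD : haveI := charP_kM hM; IsDef 2 ⊤ (eB M B) D) {χ : IrrCharacter G} (hχ : χ ∈ B)
    (h0 : blockHeight 2 B (χ : G → ℂ) = 0) :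
    ∃ i : MonoidAlgebra (kM M) G, PrimF D i ∧ eB M B * i = i ∧ trF (χ : G → ℂ) i ≠ 0 := by
  haveI := charP_kM hM
  haveI := isAlgClosed_kM hM.2.1
  have hcardD := card_defectGroup hM hB ((Blk.isDefectGroup_iff hM hB D).2 hD)
  obtain ⟨a, -, haD, hat⟩ := hD.tr
  have hEB := isBlk_eB hB
  have hmd : ((mdeg 2 B χ : ℕ) : kM M) ≠ 0 := by
    rw [Ne, CharP.cast_eq_zero_iff (kM M) 2]; exact mdeg_not_dvd hχ h0
  have ha : trF (χ : G → ℂ) a ≠ 0 := by
    intro h
    have h1 := gp'_mul_trF hM hB hcardD haD hχ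
    rw [h, mul_zero, hat, lam_eB hB, if_pos hχ, mul_one] at h1
    exact hmd h1.symm
  have ha2 : trF (χ : G → ℂ) (a * eB M B) ≠ 0 := by
    rw [trF_mul_comm, trF_mul_left χ hEB.fixed, lam_eB hB, if_pos hχ, one_mul]
    exact ha
  have key : ∀ e : MonoidAlgebra (kM M) G, Fixed D e → e * e = e →
      (trF (χ : G → ℂ) (a * e) ≠ 0 → ∃ i, PrimF D i ∧ e * i = i ∧ trF (χ : G → ℂ) i ≠ 0) := by
    refine idemF_induction D _ ?_ ?_ ?_
    · intro h
      rw [mul_zero, trF_zero] at h
      exact absurd rfl h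
    · intro e he h
      refine ⟨e, he, he.idem, ?_⟩
      intro h3
      apply h
      have h4 : trF (χ : G → ℂ) (a * e) = trF (χ : G → ℂ) (e * a * e) := by
        conv_lhs => rw [← he.idem, ← mul_assoc, trF_mul_comm, ← mul_assoc]
      have hfix : Fixed D (e * a * e) := (he.fixed.mul haD).mul he.fixed
      have h5 : (⟨e, he.fixed⟩ : FA (kM M) D) * ⟨e * a * e, hfix⟩ = ⟨e * a * e, hfix⟩ :=
        Subtype.ext (by
          change e * (e * a * e) = e * a * e
          rw [← mul_assoc, ← mul_assoc, he.idem])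
      have h6 : (⟨e * a * e, hfix⟩ : FA (kM M) D) * ⟨e, he.fixed⟩ = ⟨e * a * e, hfix⟩ :=
        Subtype.ext (by
          change e * a * e * e = e * a * e
          rw [mul_assoc, he.idem])
      obtain ⟨μ, hμ⟩ := ((primF_iff he.fixed).1 he).exists_scalar (k := kM M) h5 h6
      have h7 : IsNilpotent (e * a * e - μ • e) := by
        have h8 := hμ.map (FA (kM M) D).val
        simpa using h8
      have h9 := trF_nil hM χ h7
      have h10 : e * a * e = (e * a * e - μ • e) + μ • e := by abel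
      rw [h4, h10, trF_add, h9, trF_smul, h3, mul_zero, add_zero]
    · intro e f he hf hee hff hef hfe ihe ihf h
      rw [mul_add, trF_add] at h
      by_cases h1 : trF (χ : G → ℂ) (a * e) = 0
      · rw [h1, zero_add] at h
        obtain ⟨i, hi, hi2, hi3⟩ := ihf h
        exact ⟨i, hi, by rw [add_mul, hi2, ← hi2, ← mul_assoc, hef, zero_mul, zero_add, hi2], hi3⟩
      · obtain ⟨i, hi, hi2, hi3⟩ := ihe h1
        exact ⟨i, hi, by rw [add_mul, hi2, ← hi2, ← mul_assoc, hfe, zero_mul, add_zero, hi2], hi3⟩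
  exact key _ (hEB.fixed.mono le_top) hEB.idem ha2

end Cfsg.Agent.H10.Src
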