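import Mathlib

namespace Cfsg.Agent.H10.Twist

open Module

section

variable {F V : Type*} [Field F] [AddCommGroup V] [Module F V]

/-- twisted characters -/
def IsChar (b : V →ₗ[F] V →ₗ[F] V) (t : V →ₗ[F] V) (x : V) (χ : V →ₗ[F] F) : Prop :=
  χ x = 1 ∧ ∀ v w, χ (b v w) = χ (t v) * χ w

variable (b : V →ₗ[F] V →ₗ[F] V) (t : V →ₗ[F] V) (x : V)

theorem t_mul (h2 : ∀ v, b v x = t v)
    (h3 : ∀ v w u, b (b v w) u = b (t v) (b w u)) (v w : V) : t (b v w) = b (t v) (t w) := by
  have := h3 v w x
  rwa [h2, h2] at this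

theorem IsChar.comp (h1 : ∀ w, b x w = w) (h2 : ∀ v, b v x = t v)
    (h3 : ∀ v w u, b (b v w) u = b (t v) (b w u)) {χ : V →ₗ[F] F} (hχ : IsChar b t x χ) :
    IsChar b t x (χ ∘ₗ t) := by
  refine ⟨?_, ?_⟩
  · rw [LinearMap.comp_apply, ← h2, h1, hχ.1]
  · intro v w
    rw [LinearMap.comp_apply, LinearMap.comp_apply, LinearMap.comp_apply,
      t_mul b t x h2 h3, hχ.2]

theorem IsChar.ne (C1 : Submodule.span F {z | ∃ v w, z = b v w - b w v} = ⊤)
    {χ : V →ₗ[F] F} (hχ : IsChar b t x χ) : χ ∘ₗ t ≠ χ := by
  intro he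
  have he' : ∀ v, χ (t v) = χ v := fun v => LinearMap.congr_fun he v
  have hle : Submodule.span F {z | ∃ v w, z = b v w - b w v} ≤ LinearMap.ker χ := by
    rw [Submodule.span_le]
    rintro z ⟨v, w, rfl⟩
    rw [SetLike.mem_coe, LinearMap.mem_ker, map_sub, hχ.2, hχ.2, he', he']
    ring
  rw [C1] at hle
  have h0 : χ x = 0 := hle (Submodule.mem_top)
  rw [hχ.1] at h0
  exact one_ne_zero h0

theorem IsChar.ne2 (hV : finrank F V = 3) (ht : Function.Injective t)
    (h1 : ∀ w, b x w = w) (h2 : ∀ v, b v x = t v)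
    (h3 : ∀ v w u, b (b v w) u = b (t v) (b w u))
    (C1 : Submodule.span F {z | ∃ v w, z = b v w - b w v} = ⊤)
    {χ : V →ₗ[F] F} (hχ : IsChar b t x χ) : (χ ∘ₗ t) ∘ₗ t ≠ χ := by
  intro he
  have : FiniteDimensional F V := FiniteDimensional.of_finrank_pos (by omega)
  have hne := hχ.ne b t x C1
  have hχ1 := hχ.comp b t x h1 h2 h3
  obtain ⟨y, hy⟩ : ∃ y, χ (t y) ≠ χ y := by
    by_contra hno
    push Not at hno
    exact hne (LinearMap.ext hno)
  let g : V →ₗ[F] F × F := χ.prod (χ ∘ₗ t)
  have hgv : ∀ v, g v = (χ v, χ (t v)) := fun v => rfl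
  have hg : Function.Surjective g := by
    rintro ⟨a, c⟩
    have hd : χ y - χ (t y) ≠ 0 := sub_ne_zero.2 (Ne.symm hy)
    refine ⟨(a - (a - c) / (χ y - χ (t y)) * χ y) • x + ((a - c) / (χ y - χ (t y))) • y, ?_⟩
    have hx1 : χ (t x) = 1 := hχ1.1
    rw [hgv, map_add, map_add, map_add, map_smul, map_smul, map_smul, map_smul, map_smul, map_smul,
      hχ.1, hx1]
    simp only [smul_eq_mul]
    refine Prod.ext ?_ ?_
    · simp
    · simp only
      field_simp
      ring
  have hK : finrank F (LinearMap.ker g) = 1 := by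
    have h4 := LinearMap.finrank_range_add_finrank_ker g
    rw [LinearMap.range_eq_top.2 hg, finrank_top, finrank_prod, finrank_self] at h4
    omega
  rw [finrank_eq_one_iff'] at hK
  obtain ⟨n, hn0, hn⟩ := hK
  have hn0' : (n : V) ≠ 0 := fun h => hn0 (Subtype.ext h)
  have hker : ∀ v, g v = 0 ↔ χ v = 0 ∧ χ (t v) = 0 := by
    intro v
    simp [g, Prod.ext_iff]
  have hnn := (hker n).1 n.2
  have hmem : ∀ v, χ v = 0 → χ (t v) = 0 → ∃ c : F, v = c • (n : V) := by
    intro v hv1 hv2
    obtain ⟨c, hc⟩ := hn ⟨v, (hker v).2 ⟨hv1, hv2⟩⟩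
    exact ⟨c, by have := congrArg Subtype.val hc; simpa using this.symm⟩
  have he' : ∀ v, χ (t (t v)) = χ v := fun v => LinearMap.congr_fun he v
  obtain ⟨μ, hμ⟩ := hmem (t n) hnn.2 (by rw [he', hnn.1])
  have hμ0 : μ ≠ 0 := by
    intro h
    rw [h, zero_smul] at hμ
    exact hn0' (ht (by rw [hμ, map_zero]))
  obtain ⟨f, hf⟩ := Module.Projective.exists_dual_ne_zero (R := F) hn0'
  let α : V →ₗ[F] F := (f n)⁻¹ • (f ∘ₗ (b.flip n))
  have hα : ∀ v, b v n = α v • (n : V) := by
    intro v
    obtain ⟨c, hc⟩ := hmem (b v n) (by rw [hχ.2, hnn.1, mul_zero]) (by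
      have := hχ1.2 v n
      rw [LinearMap.comp_apply] at this
      rw [this, LinearMap.comp_apply, LinearMap.comp_apply, hnn.2, mul_zero])
    have : α v = c := by
      simp only [α, LinearMap.smul_apply, LinearMap.comp_apply, LinearMap.flip_apply, hc,
        map_smul, smul_eq_mul]
      field_simp
    rw [this, hc]
  have hαc : IsChar b t x α := by
    refine ⟨?_, ?_⟩
    · have h4 := hα x
      rw [h1] at h4
      have h5 : (α x - 1) • (n : V) = 0 := by rw [sub_smul, one_smul, ← h4, sub_self]
      have h6 := (smul_eq_zero.1 h5).resolve_right hn0'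
      exact sub_eq_zero.1 h6
    · intro v w
      have h4 : (α (b v w) - α (t v) * α w) • (n : V) = 0 := by
        rw [sub_smul, ← hα, h3, hα w, map_smul, hα, smul_smul, mul_comm, sub_self]
      have h6 := (smul_eq_zero.1 h4).resolve_right hn0'
      exact sub_eq_zero.1 h6
  apply hαc.ne b t x C1
  ext v
  rw [LinearMap.comp_apply]
  have h4 : t (b v n) = (α v * μ) • (n : V) := by rw [hα, map_smul, hμ, smul_smul]
  have h5 : t (b v n) = (α (t v) * μ) • (n : V) := by
    rw [t_mul b t x h2 h3, hμ, map_smul, hα, smul_smul, mul_comm]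
  have h6 : ((α (t v) - α v) * μ) • (n : V) = 0 := by
    rw [sub_mul, sub_smul, ← h4, ← h5, sub_self]
  have h7 := (smul_eq_zero.1 h6).resolve_right hn0'
  exact sub_eq_zero.1 ((mul_eq_zero.1 h7).resolve_right hμ0)

theorem exists_char [IsAlgClosed F] (hV : finrank F V = 3) (ht : Function.Injective t)
    (h1 : ∀ w, b x w = w) (h2 : ∀ v, b v x = t v)
    (h3 : ∀ v w u, b (b v w) u = b (t v) (b w u)) : ∃ χ : V →ₗ[F] F, IsChar b t x χ := by
  have : FiniteDimensional F V := FiniteDimensional.of_finrank_pos (by omega)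
  have : Nontrivial V := Module.nontrivial_of_finrank_pos (R := F) (by omega)
  let te : V ≃ₗ[F] V := LinearEquiv.ofInjectiveEndo t ht
  have hte : ∀ v, te v = t v := fun v => by simp [te]
  have hts : ∀ v, t (te.symm v) = v := fun v => by rw [← hte, te.apply_symm_apply]
  -- u not in the line of x
  obtain ⟨u, hu⟩ : ∃ u, u ∉ Submodule.span F {x} := by
    by_contra hno
    push Not at hno
    have htop : Submodule.span F {x} = ⊤ := Submodule.eq_top_iff'.2 hno
    have h4 : finrank F (Submodule.span F {x}) ≤ 1 := by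
      have := finrank_span_le_card (R := F) ({x} : Set V)
      simpa using this
    rw [htop, finrank_top] at h4
    omega
  obtain ⟨c, hc⟩ := Module.End.exists_eigenvalue (K := F)
    (te.symm.toLinearMap ∘ₗ (b.flip u) : Module.End F V)
  obtain ⟨v0, hv0⟩ := hc.exists_hasEigenvector
  have hv0n := hv0.2
  have hv0e : b v0 u = c • t v0 := by
    have h4 := hv0.apply_eq_smul
    have h5 : te.symm (b v0 u) = c • v0 := h4
    rw [← hts (b v0 u), h5, map_smul]
  set u' := u - c • x with hu'
  have hu'0 : u' ≠ 0 := by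
    intro h
    apply hu
    rw [hu', sub_eq_zero] at h
    rw [h]
    exact Submodule.smul_mem _ _ (Submodule.mem_span_singleton_self x)
  have hv0u : b v0 u' = 0 := by
    rw [hu', map_sub, map_smul, h2, hv0e, sub_self]
  set P := LinearMap.range (b.flip u') with hP
  have hinv : ∀ v, ∀ p ∈ P, b v p ∈ P := by
    rintro v p ⟨w, rfl⟩
    refine ⟨b (te.symm v) w, ?_⟩
    rw [LinearMap.flip_apply, LinearMap.flip_apply, h3, hts]
  have hPle : finrank F P ≤ 2 := by
    have h4 := LinearMap.finrank_range_add_finrank_ker (b.flip u')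
    rw [← hP] at h4
    have h5 : 0 < finrank F (LinearMap.ker (b.flip u')) := by
      rw [Module.finrank_pos_iff_exists_ne_zero]
      exact ⟨⟨v0, hv0u⟩, fun h => hv0n (congrArg Subtype.val h)⟩
    omega
  have hPne : 0 < finrank F P := by
    rw [Module.finrank_pos_iff_exists_ne_zero]
    exact ⟨⟨u', x, by rw [LinearMap.flip_apply, h1]⟩, fun h => hu'0 (congrArg Subtype.val h)⟩
  by_cases hd : finrank F P = 1
  · rw [finrank_eq_one_iff'] at hd
    obtain ⟨n, hn0, hn⟩ := hd
    have hn0' : (n : V) ≠ 0 := fun h => hn0 (Subtype.ext h)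
    obtain ⟨f, hf⟩ := Module.Projective.exists_dual_ne_zero (R := F) hn0'
    let α : V →ₗ[F] F := (f n)⁻¹ • (f ∘ₗ (b.flip n))
    have hα : ∀ v, b v n = α v • (n : V) := by
      intro v
      obtain ⟨c, hc⟩ := hn ⟨b v n, hinv v n n.2⟩
      have hc' : c • (n : V) = b v n := by
        have := congrArg Subtype.val hc
        simpa using this
      have : α v = c := by
        simp only [α, LinearMap.smul_apply, LinearMap.comp_apply, LinearMap.flip_apply, ← hc',
          map_smul, smul_eq_mul]
        field_simp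
      rw [this, hc']
    refine ⟨α, ?_, ?_⟩
    · have h4 := hα x
      rw [h1] at h4
      have h5 : (α x - 1) • (n : V) = 0 := by rw [sub_smul, one_smul, ← h4, sub_self]
      have h6 := (smul_eq_zero.1 h5).resolve_right hn0'
      exact sub_eq_zero.1 h6
    · intro v w
      have h4 : (α (b v w) - α (t v) * α w) • (n : V) = 0 := by
        rw [sub_smul, ← hα, h3, hα w, map_smul, hα, smul_smul, mul_comm, sub_self]
      have h6 := (smul_eq_zero.1 h4).resolve_right hn0'
      exact sub_eq_zero.1 h6
  · have hd2 : finrank F P = 2 := by omega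
    have hxP : x ∉ P := by
      intro hx
      have htop : P = ⊤ := by
        rw [Submodule.eq_top_iff']
        intro v
        have := hinv (te.symm v) x hx
        rwa [h2, hts] at this
      rw [htop, finrank_top] at hd2
      omega
    obtain ⟨f, hf, hfP⟩ := Submodule.exists_dual_map_eq_bot_of_notMem hxP inferInstance
    have hPk : P ≤ LinearMap.ker f := by
      intro p hp
      rw [LinearMap.mem_ker]
      have : f p ∈ P.map f := ⟨p, hp, rfl⟩
      rw [hfP] at this
      exact this
    have hkf : finrank F (LinearMap.ker f) = 2 := by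
      have h4 := LinearMap.finrank_range_add_finrank_ker f
      have h5 : finrank F (LinearMap.range f) = 1 := by
        rw [LinearMap.range_eq_top.2 (LinearMap.surjective (by
          intro h; rw [h] at hf; exact hf rfl)), finrank_top, finrank_self]
      omega
    have hPeq : P = LinearMap.ker f := Submodule.eq_of_le_of_finrank_eq hPk (by rw [hd2, hkf])
    let χ : V →ₗ[F] F := (f x)⁻¹ • f
    have hχx : χ x = 1 := by
      simp only [χ, LinearMap.smul_apply, smul_eq_mul]
      exact inv_mul_cancel₀ hf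
    have hχP : ∀ p, χ p = 0 ↔ p ∈ P := by
      intro p
      rw [hPeq, LinearMap.mem_ker]
      simp only [χ, LinearMap.smul_apply, smul_eq_mul, mul_eq_zero, inv_eq_zero]
      exact ⟨fun h => h.resolve_left hf, fun h => Or.inr h⟩
    refine ⟨χ, hχx, fun v w => ?_⟩
    have h4 : χ (b v (w - χ w • x)) = 0 := by
      rw [hχP]
      apply hinv
      rw [← hχP, map_sub, map_smul, hχx, smul_eq_mul, mul_one, sub_self]
    rw [map_sub, map_sub, map_smul, map_smul, h2, smul_eq_mul, sub_eq_zero] at h4
    rw [h4, mul_comm]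

end

/-- **Twisted associative products on a 3-dimensional space.** -/
theorem twist {F V : Type*} [Field F] [IsAlgClosed F] [AddCommGroup V] [Module F V]
    (hV : Module.finrank F V = 3) (b : V →ₗ[F] V →ₗ[F] V) (t : V →ₗ[F] V) (x : V)
    (ht : Function.Injective t) (h1 : ∀ w, b x w = w) (h2 : ∀ v, b v x = t v)
    (h3 : ∀ v w u, b (b v w) u = b (t v) (b w u))
    (C1 : Submodule.span F {z | ∃ v w, z = b v w - b w v} = ⊤)
    (C2 : Submodule.span F {z | ∃ v u, z = b (t v) u - b u v} = ⊤) : False := by
  have : FiniteDimensional F V := FiniteDimensional.of_finrank_pos (by omega)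
  let te : V ≃ₗ[F] V := LinearEquiv.ofInjectiveEndo t ht
  have hte : ∀ v, te v = t v := fun v => by simp [te]
  have hts : ∀ v, t (te.symm v) = v := fun v => by rw [← hte, te.apply_symm_apply]
  have hst : ∀ v, te.symm (t v) = v := fun v => by rw [← hte, te.symm_apply_apply]
  have htx : t x = x := by rw [← h2, h1]
  have hsx : te.symm x = x := by
    conv_lhs => rw [← htx]
    exact hst x
  let M : Monoid V :=
    { mul := fun v w => b (te.symm v) w
      one := x
      mul_assoc := by
        intro v w u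
        change b (te.symm (b (te.symm v) w)) u = b (te.symm v) (b (te.symm w) u)
        have h4 : te.symm (b (te.symm v) w) = b (te.symm (te.symm v)) (te.symm w) := by
          apply ht
          rw [hts, t_mul b t x h2 h3, hts, hts]
        rw [h4, h3, hts]
      one_mul := by
        intro w
        change b (te.symm x) w = w
        rw [hsx, h1]
      mul_one := by
        intro v
        change b (te.symm v) x = v
        rw [h2, hts] }
  have hmon : ∀ χ : V →ₗ[F] F, IsChar b t x χ → ∃ f : @MonoidHom V F M.toMulOneClass.toMulOne _,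
      ∀ v, f v = χ v := by
    intro χ hχ
    refine ⟨@MonoidHom.mk V F M.toMulOneClass.toMulOne _
      (@OneHom.mk V F M.toMulOneClass.toMulOne.toOne _ (fun v => χ v) hχ.1) ?_, ?_⟩
    · intro v w
      change χ (b (te.symm v) w) = χ v * χ w
      rw [hχ.2, hts]
    · intro v; rfl
  obtain ⟨χ, hχ⟩ := exists_char b t x hV ht h1 h2 h3
  have hχ1 := hχ.comp b t x h1 h2 h3
  have hχ2 := hχ1.comp b t x h1 h2 h3
  have hχ3 := hχ2.comp b t x h1 h2 h3
  -- characters are independent
  have key : ∀ (n : ℕ) (g : Fin n → (V →ₗ[F] F)), (∀ i, IsChar b t x (g i)) →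
      Function.Injective g → LinearIndependent F g := by
    intro n g hg hgi
    choose f hf using fun i => hmon (g i) (hg i)
    have hfi : Function.Injective f := by
      intro i j hij
      apply hgi
      ext v
      rw [← hf, ← hf, hij]
    have hli := (@linearIndependent_monoidHom V M.toMulOneClass F _ _).comp f hfi
    apply LinearIndependent.of_comp (LinearMap.ltoFun F V F F)
    have hfg : (LinearMap.ltoFun F V F F ∘ g) = (fun i v => f i v) := by
      funext i v
      exact (hf i v).symm
    rw [hfg]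
    exact hli
  have n01 := hχ.ne b t x C1
  have n12 := hχ1.ne b t x C1
  have n02 := hχ.ne2 b t x hV ht h1 h2 h3 C1
  have n23 := hχ2.ne b t x C1
  have n13 := hχ1.ne2 b t x hV ht h1 h2 h3 C1
  set χ1 := χ ∘ₗ t with hχ1d
  set χ2 := χ1 ∘ₗ t with hχ2d
  set χ3 := χ2 ∘ₗ t with hχ3d
  have h30 : χ3 = χ := by
    by_contra hne
    have hinj : Function.Injective ![χ, χ1, χ2, χ3] := by
      intro i j hij
      fin_cases i <;> fin_cases j <;> first | rfl | skip
      all_goals exfalso
      · exact n01 hij.symm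
      · exact n02 hij.symm
      · exact hne hij.symm
      · exact n01 hij
      · exact n12 hij.symm
      · exact n13 hij.symm
      · exact n02 hij
      · exact n12 hij
      · exact n23 hij.symm
      · exact hne hij
      · exact n13 hij
      · exact n23 hij
    have hli := key 4 ![χ, χ1, χ2, χ3] (by
      intro i; fin_cases i
      · exact hχ
      · exact hχ1
      · exact hχ2
      · exact hχ3) hinj
    have hcard := hli.fintype_card_le_finrank
    rw [Fintype.card_fin] at hcard
    have hd : finrank F (Module.Dual F V) = 3 := by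
      rw [Subspace.dual_finrank_eq, hV]
    change 4 ≤ finrank F (Module.Dual F V) at hcard
    omega
  have hinj : Function.Injective ![χ, χ1, χ2] := by
    intro i j hij
    fin_cases i <;> fin_cases j <;> first | rfl | skip
    all_goals exfalso
    · exact n01 hij.symm
    · exact n02 hij.symm
    · exact n01 hij
    · exact n12 hij.symm
    · exact n02 hij
    · exact n12 hij
  have hli := key 3 ![χ, χ1, χ2] (by
    intro i; fin_cases i
    · exact hχ
    · exact hχ1
    · exact hχ2) hinj
  have e1 : ∀ v, χ (t v) = χ1 v := fun v => rfl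
  have e2 : ∀ v, χ1 (t v) = χ2 v := fun v => rfl
  have e3 : ∀ v, χ2 (t v) = χ v := fun v => LinearMap.congr_fun h30 v
  have hle : Submodule.span F {z | ∃ v u, z = b (t v) u - b u v} ≤ LinearMap.ker (χ + χ1 + χ2) := by
    rw [Submodule.span_le]
    rintro z ⟨v, w, rfl⟩
    rw [SetLike.mem_coe, LinearMap.mem_ker, map_sub]
    simp only [LinearMap.add_apply, hχ.2, hχ1.2, hχ2.2, e1, e2, e3]
    ring
  rw [C2] at hle
  have hz : χ + χ1 + χ2 = 0 := by
    ext v
    exact hle (Submodule.mem_top)
  rw [Fintype.linearIndependent_iff] at hli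
  have := hli ![1, 1, 1] (by
    rw [Fin.sum_univ_three]
    simp only [Matrix.cons_val_zero, Matrix.cons_val_one, Matrix.cons_val, one_smul]
    exact hz) 0
  simp at this

end Cfsg.Agent.H10.Twist
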