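import Cfsg.Agent.H10.ZNum
import Cfsg.Agent.H10.SubSum
import Cfsg.Agent.H10.MCNum

/-!
# Sums over families of subsections; the contributions of a major involution (owner: helper10)
-/

set_option autoImplicit false
set_option linter.style.haveILetI false
set_option linter.unusedSectionVars false

namespace Cfsg.Agent.H10.Col

open scoped ComplexConjugate BigOperators
open Cfsg Cfsg.Agent.CharBase Cfsg.Agent.Blk Cfsg.Agent.BlkInd Cfsg.Agent.BlkC Cfsg.Agent.Star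
  Cfsg.Agent.H4 MonoidAlgebra

universe u

variable {G : Type u} [Group G] [Fintype G] {p : ℕ} [hp : Fact p.Prime] {M : Ideal AlgInt}
  [hMp : M.IsPrime] {B : Set (IrrCharacter G)}

/-- the representative of a subsection -/
theorem exists_rep_t (hM : IsPModular p M) (hB : IsPBlock M B) {X : Finset G} (hX : IsNTRep p X)
    {z : G} (hz1 : z ≠ 1) (hz : ∃ k : ℕ, orderOf z = p ^ k) {C : Subgroup G}
    (hC : C = Subgroup.centralizer ({z} : Set G)) {e : Set (IrrCharacter C)}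
    (hind : IsInducedBlock M C e B) :
    ∃ s : Σ x : G, Set (IrrCharacter (Subgroup.centralizer ({x} : Set G))),
      s ∈ X.sigma (fun x => indB M (Subgroup.centralizer ({x} : Set G)) B) ∧
      SConj z (EB M C e) s.1 (EB M _ s.2) := by
  classical
  obtain ⟨x, ⟨hx, hc⟩, -⟩ := hX.rep z hz hz1
  obtain ⟨g, hg⟩ := isConj_iff.mp hc
  obtain ⟨b, hb, hb2⟩ := exists_conj_block hM hB (x := z) (x' := x) (g := g) hg.symm hz
    hC rfl hind
  exact ⟨⟨x, b⟩, Finset.mem_sigma.mpr ⟨hx, mem_indB.mpr hb⟩, g, hg.symm, hb2⟩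

/-- the contribution of a single subsection is less than one -/
theorem regInner_add_sc_le (hM : IsPModular p M) (hB : IsPBlock M B)
    {z : G} (hz1 : z ≠ 1) (hz : ∃ k : ℕ, orderOf z = p ^ k) {C : Subgroup G} [Fintype C]
    (hC : C = Subgroup.centralizer (Subgroup.zpowers z : Set G)) {e : Set (IrrCharacter C)}
    (hind : IsInducedBlock M C e B) {χ : IrrCharacter G} (hχ : χ ∈ B) :
    (regInner p (χ : G → ℂ) (χ : G → ℂ)).re + (sc p z e (χ : G → ℂ) (χ : G → ℂ)).re ≤ 1 := by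
  classical
  haveI : ∀ x : G, Fintype (Subgroup.centralizer ({x} : Set G)) := fun x => Fintype.ofFinite _
  obtain ⟨X, hX⟩ := exists_isNTRep G p
  obtain ⟨t, ht, hzt⟩ := exists_rep_t hM hB hX hz1 hz (cent_eq hC) hind
  have h1 := charConj_mul_sum hM hB hX hχ hχ
  have h2 := Finset.mem_sigma.mp ht
  have h3 : sc p z e (χ : G → ℂ) (χ : G → ℂ) = sc p t.1 t.2 (χ : G → ℂ) (χ : G → ℂ) :=
    sc_congr hM hC (by rw [centralizer_zpowers_eq]) hz hind.1 (mem_indB.mp h2.2).1 hzt χ χ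
  have h4 : (∑ x ∈ X, ∑ b ∈ indB M (Subgroup.centralizer ({x} : Set G)) B,
      sc p x b (χ : G → ℂ) (χ : G → ℂ)).re = ∑ t ∈ X.sigma (fun x => indB M
        (Subgroup.centralizer ({x} : Set G)) B), (sc p t.1 t.2 (χ : G → ℂ) (χ : G → ℂ)).re := by
    rw [Finset.sum_sigma, Complex.re_sum]
    exact Finset.sum_congr rfl fun _ _ => Complex.re_sum _ _
  have h5 := congrArg Complex.re h1
  rw [Complex.add_re, h4, classInner_irr_self, Complex.one_re] at h5
  have h6 : (sc p t.1 t.2 (χ : G → ℂ) (χ : G → ℂ)).re ≤ ∑ t ∈ X.sigma (fun x => indB M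
        (Subgroup.centralizer ({x} : Set G)) B), (sc p t.1 t.2 (χ : G → ℂ) (χ : G → ℂ)).re :=
    Finset.single_le_sum (f := fun t : Σ x : G, Set (IrrCharacter
      (Subgroup.centralizer ({x} : Set G))) => (sc p t.1 t.2 (χ : G → ℂ) (χ : G → ℂ)).re)
      (fun t _ => sc_self_re_nonneg _ _ _) ht
  rw [h3]
  linarith

theorem regInner_pos (_hB : IsPBlock M B) {χ : IrrCharacter G} (hχ : χ ∈ B) :
    0 < (regInner p (χ : G → ℂ) (χ : G → ℂ)).re := by
  have h1 := contrib_self_pos (p := p) hχ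
  have h2 := contrib_regInner (p := p) hχ χ
  have h4 : (0 : ℝ) < (contrib p B χ χ : ℝ) := by exact_mod_cast h1
  have h5 : ((contrib p B χ χ : ℤ) : ℂ).re = (contrib p B χ χ : ℝ) := by simp
  have h6 : ((p : ℂ) ^ blockDefect p B * regInner p (χ : G → ℂ) (χ : G → ℂ)).re =
      (p : ℝ) ^ blockDefect p B * (regInner p (χ : G → ℂ) (χ : G → ℂ)).re := by
    rw [← Complex.ofReal_natCast, ← Complex.ofReal_pow, Complex.re_ofReal_mul]
  rw [← h5, ← h2, h6] at h4
  have h7 : (0 : ℝ) < (p : ℝ) ^ blockDefect p B := pow_pos (by exact_mod_cast hp.out.pos) _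
  exact (pos_iff_pos_of_mul_pos h4).mp h7

section fam

variable {ι : Type} [Fintype ι] {v : ι → G}
  {es : ∀ i, Set (IrrCharacter (Subgroup.centralizer (Subgroup.zpowers (v i) : Set G)))}

/-- the family is complete -/
def Compl (p : ℕ) (M : Ideal AlgInt) [M.IsPrime] (B : Set (IrrCharacter G)) {ι : Type}
    (v : ι → G)
    (es : ∀ i, Set (IrrCharacter (Subgroup.centralizer (Subgroup.zpowers (v i) : Set G)))) : Prop :=
  ∀ (x : G), x ≠ 1 → (∃ k : ℕ, orderOf x = p ^ k) →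
        ∀ b : Set (IrrCharacter (Subgroup.centralizer ({x} : Set G))),
          IsInducedBlock M (Subgroup.centralizer ({x} : Set G)) b B →
          ∃ i, SConj x (EB M _ b) (v i) (EB M _ (es i))

theorem Fam.sum_eq (hM : IsPModular p M) (hB : IsPBlock M B) (F : Fam p M B v es)
    (hcomp : Compl p M B v es) {X : Finset G} (hX : IsNTRep p X)
    (f : (Σ x : G, Set (IrrCharacter (Subgroup.centralizer ({x} : Set G)))) → ℂ) (F' : ι → ℂ)
    (hf : ∀ i, ∀ t ∈ X.sigma (fun x => indB M (Subgroup.centralizer ({x} : Set G)) B),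
      SConj (v i) (EB M _ (es i)) t.1 (EB M _ t.2) → F' i = f t) :
    ∑ i, F' i = ∑ t ∈ X.sigma (fun x => indB M (Subgroup.centralizer ({x} : Set G)) B), f t := by
  classical
  have hex : ∀ i, ∃ s : Σ x : G, Set (IrrCharacter (Subgroup.centralizer ({x} : Set G))),
      s ∈ X.sigma (fun x => indB M (Subgroup.centralizer ({x} : Set G)) B) ∧
      SConj (v i) (EB M _ (es i)) s.1 (EB M _ s.2) := fun i =>
    exists_rep_t hM hB hX (F.ne i) (F.pel i) (by rw [centralizer_zpowers_eq]) (F.ind i)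
  choose s hs hsc using hex
  have hsinj : Function.Injective s := by
    intro i j hij
    apply F.inj i j
    exact (hsc i).trans (hij ▸ (hsc j).symm)
  have himg : ∑ i, F' i = ∑ t ∈ Finset.univ.image s, f t := by
    rw [Finset.sum_image (fun i _ j _ h => hsinj h)]
    exact Finset.sum_congr rfl fun i _ => hf i _ (hs i) (hsc i)
  rw [himg]
  apply Finset.sum_congr _ (fun _ _ => rfl)
  apply Finset.Subset.antisymm
  · intro t ht
    obtain ⟨i, -, rfl⟩ := Finset.mem_image.mp ht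
    exact hs i
  intro t ht
  have ht2 := Finset.mem_sigma.mp ht
  obtain ⟨i, hi⟩ := hcomp t.1 (hX.ne_one _ ht2.1) (hX.pel _ ht2.1) t.2 (mem_indB.mp ht2.2)
  rw [Finset.mem_image]
  refine ⟨i, Finset.mem_univ _, ?_⟩
  have h1 := (hi.trans (hsc i)).symm
  have hs2 := Finset.mem_sigma.mp (hs i)
  have h2 : (s i).1 = t.1 := by
    obtain ⟨g, hg, -⟩ := h1
    obtain ⟨y, hy, hyu⟩ := hX.rep t.1 (hX.pel _ ht2.1) (hX.ne_one _ ht2.1)
    rw [hyu t.1 ⟨ht2.1, IsConj.refl _⟩]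
    exact hyu _ ⟨hs2.1, isConj_iff.mpr ⟨g⁻¹, by rw [hg]; group⟩⟩
  obtain ⟨x, b⟩ := t
  generalize s i = t' at *
  obtain ⟨x', b'⟩ := t'
  simp only at h2
  subst h2
  obtain ⟨g, hg1, hg2⟩ := h1
  simp only at hg1 hg2
  have hgc : g ∈ Subgroup.centralizer ({x'} : Set G) := by
    rw [Subgroup.mem_centralizer_singleton_iff]
    calc g * x' = g * x' * g⁻¹ * g := by group
      _ = x' * g := by rw [← hg1]
  have hbb := (mem_indB.mp hs2.2).1
  have hbb2 := (mem_indB.mp ht2.2).1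
  rw [(isBlk_EB hbb).fixed g hgc] at hg2
  have h9 : b = b' := EB_injective hbb2 hbb hg2
  rw [h9]

/-- the decomposition of the inner product -/
theorem Fam.sum_sc [∀ i, Fintype (Subgroup.centralizer (Subgroup.zpowers (v i) : Set G))]
    (hM : IsPModular p M) (hB : IsPBlock M B) (F : Fam p M B v es)
    (hcomp : Compl p M B v es) {χ ψ : IrrCharacter G} (hχ : χ ∈ B) (hψ : ψ ∈ B) :
    regInner p (χ : G → ℂ) (ψ : G → ℂ) + ∑ i, sc p (v i) (es i) (χ : G → ℂ) (ψ : G → ℂ) =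
      classInner (χ : G → ℂ) (ψ : G → ℂ) := by
  classical
  haveI : ∀ x : G, Fintype (Subgroup.centralizer ({x} : Set G)) := fun x => Fintype.ofFinite _
  obtain ⟨X, hX⟩ := exists_isNTRep G p
  rw [← charConj_mul_sum hM hB hX hχ hψ]
  congr 1
  rw [← Finset.sum_sigma X (fun x => indB M (Subgroup.centralizer ({x} : Set G)) B)
    (f := fun t => sc p t.1 t.2 (χ : G → ℂ) (ψ : G → ℂ))]
  refine F.sum_eq hM hB hcomp hX _ _ fun i t ht h => ?_
  have h2 := Finset.mem_sigma.mp ht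
  exact sc_congr hM rfl (by rw [centralizer_zpowers_eq]) (F.pel i) (F.ind i).1
    (mem_indB.mp h2.2).1 h χ ψ

end fam

section zd

variable {M : Ideal AlgInt} [hMp : M.IsPrime] {B : Set (IrrCharacter G)} {C : Subgroup G}
  [Fintype C] {e : Set (IrrCharacter C)}

/-- **the contributions of a major involution** -/
theorem exists_ZD (hM : IsPModular 2 M) (hB : IsPBlock M B) {m : ℕ} {z : G} (hz : orderOf z = 2)
    (hC : C = Subgroup.centralizer (Subgroup.zpowers z : Set G)) (hind : IsInducedBlock M C e B)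
    (hd : blockDefect 2 e = blockDefect 2 B) (hdB : 2 ^ blockDefect 2 B = 4 * 2 ^ m) :
    ∃ W : IrrCharacter G → IrrCharacter G → ℤ,
      (∀ χ ∈ B, ∀ ψ ∈ B, (W χ ψ : ℂ) = 4 * 2 ^ m * sc 2 z e (χ : G → ℂ) (ψ : G → ℂ)) ∧
      ZD (Bfin B) (fun χ => blockHeight 2 B (χ : G → ℂ)) m W (blockRank 2 e) := by
  classical
  have hx : ∃ k : ℕ, orderOf z = 2 ^ k := ⟨1, by rw [hz]; norm_num⟩
  have hz1 : z ≠ 1 := by
    intro h
    rw [h, orderOf_one] at hz
    norm_num at hz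
  obtain ⟨w, hw1, hw2, hw3⟩ := exists_val hM hB (j := 0) ⟨1, le_refl _, by rw [hz]; norm_num⟩
    (cent_eq hC) hind hd
  have hc : ∀ χ ψ : IrrCharacter G, ∃ a : ℤ, χ ∈ B → w χ ψ = (a : ℂ) := by
    intro χ ψ
    by_cases h : χ ∈ B
    · obtain ⟨a, ha⟩ := int_of_cycRing_two (hw2 χ h ψ)
      exact ⟨a, fun _ => ha⟩
    · exact ⟨0, fun h' => absurd h' h⟩
  choose a ha using hc
  have hpow : ((2 : ℕ) : ℂ) ^ blockDefect 2 B = 4 * 2 ^ m := by exact_mod_cast hdB
  set W : IrrCharacter G → IrrCharacter G → ℤ := fun χ ψ =>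
    2 ^ blockHeight 2 B (χ : G → ℂ) * a χ ψ with hW
  have hWsc : ∀ χ ∈ B, ∀ ψ ∈ B, (W χ ψ : ℂ) = 4 * 2 ^ m * sc 2 z e (χ : G → ℂ) (ψ : G → ℂ) := by
    intro χ hχ ψ _
    rw [← hpow, hw1 χ hχ ψ, ha χ ψ hχ, hW]
    push_cast
    rfl
  have h4 : conj (4 * 2 ^ m : ℂ) = 4 * 2 ^ m := by
    rw [← hpow, map_pow, Complex.conj_natCast]
  refine ⟨W, hWsc, ?_, ?_, ?_, ?_, ?_⟩
  · intro χ hχ ψ hψ
    refine ⟨a χ ψ, rfl, ?_⟩
    have h1 := hw3 χ (mem_Bfin.mp hχ) ψ (mem_Bfin.mp hψ)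
    rw [ha χ ψ (mem_Bfin.mp hχ), mli_intCast_iff hM] at h1
    rw [← Int.not_even_iff_odd, even_iff_two_dvd]
    push_cast at h1
    constructor
    · intro h
      by_contra hcon
      exact h (h1.mpr hcon)
    · intro h hcon
      exact (h1.mp hcon) h
  · intro χ hχ ψ hψ
    have h1 := hWsc χ (mem_Bfin.mp hχ) ψ (mem_Bfin.mp hψ)
    have h2 := hWsc ψ (mem_Bfin.mp hψ) χ (mem_Bfin.mp hχ)
    rw [← sc_conj] at h2
    have h3 : (W ψ χ : ℂ) = conj (W χ ψ : ℂ) := by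
      rw [h2, h1, map_mul, h4]
    rw [map_intCast] at h3
    exact_mod_cast h3.symm
  · intro χ hχ θ hθ
    have h1 := sum_sc hM hx (cent_eq hC) hind (χ : G → ℂ) (θ : G → ℂ)
    have h2 : ((∑ ψ ∈ Bfin B, W χ ψ * W ψ θ : ℤ) : ℂ) = ((4 * 2 ^ m * W χ θ : ℤ) : ℂ) := by
      push_cast
      rw [hWsc χ (mem_Bfin.mp hχ) θ (mem_Bfin.mp hθ), ← h1, Finset.mul_sum, Finset.mul_sum]
      refine Finset.sum_congr rfl fun ψ hψ => ?_
      rw [hWsc χ (mem_Bfin.mp hχ) ψ (mem_Bfin.mp hψ), hWsc ψ (mem_Bfin.mp hψ) θ (mem_Bfin.mp hθ)]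
      ring
    exact_mod_cast h2
  · have h1 := sum_sc_self hM hx (cent_eq hC) hind
    have h2 : ((∑ χ ∈ Bfin B, W χ χ : ℤ) : ℂ) = ((4 * 2 ^ m * (blockRank 2 e : ℕ) : ℤ) : ℂ) := by
      push_cast
      rw [← h1, Finset.mul_sum]
      exact Finset.sum_congr rfl fun ψ hψ => hWsc ψ (mem_Bfin.mp hψ) ψ (mem_Bfin.mp hψ)
    exact_mod_cast h2
  · intro χ hχ
    have hχB := mem_Bfin.mp hχ
    have h1 := regInner_add_sc_le hM hB hz1 hx hC hind hχB
    have h2 := regInner_pos (p := 2) hB hχB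
    have h3 : (W χ χ : ℝ) = 4 * 2 ^ m * (sc 2 z e (χ : G → ℂ) (χ : G → ℂ)).re := by
      have h5 := hWsc χ hχB χ hχB
      rw [← ofReal_sc_self_re] at h5
      exact_mod_cast h5
    have h6 : (W χ χ : ℝ) < 4 * 2 ^ m := by
      rw [h3]
      have : (0 : ℝ) < 4 * 2 ^ m := by positivity
      nlinarith
    exact_mod_cast h6

end zd

end Cfsg.Agent.H10.Col
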