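import Cfsg.Agent.H10.YGrp
import Cfsg.Agent.H10.ZCol
import Cfsg.Agent.H10.DihC

/-!
# Subsections outside the cyclic maximal subgroup, and the complete family (owner: helper10)
-/

set_option autoImplicit false
set_option linter.style.haveILetI false
set_option linter.unusedSectionVars false

namespace Cfsg.Agent.H10

open scoped BigOperators
open Cfsg Cfsg.Agent.CharBase Cfsg.Agent.Blk Cfsg.Agent.BlkF Cfsg.Agent.BlkInd Cfsg.Agent.BlkC
  Cfsg.Agent.Star Cfsg.Agent.H4 Cfsg.Agent.H10.Col Cfsg.Agent.Fus MonoidAlgebra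

universe u

/-- elements of odd order normalizing a subgroup of a group of order 4 containing a central
element -/
theorem cent_four {H : Type*} [Group H] [Finite H] {P Q : Subgroup H} (hP : Nat.card P = 4)
    (hQ : Q ≤ P) {u : H} (hu : u ∈ P) (hu1 : u ≠ 1) (huc : ∀ g : H, g * u = u * g) {w : H}
    (h2 : ¬ 2 ∣ orderOf w) (hw : w ∈ Subgroup.normalizer (Q : Set H)) :
    w ∈ Subgroup.centralizer (Q : Set H) := by
  classical
  rw [Subgroup.mem_centralizer_iff]
  intro q hq
  by_contra hne
  have hnorm : ∀ q ∈ Q, w * q * w⁻¹ ∈ Q := fun q hq => (Subgroup.mem_normalizer_iff.mp hw q).mp hq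
  set q1 := w * q * w⁻¹ with hq1
  set q2 := w * q1 * w⁻¹ with hq2
  have hq1Q := hnorm q hq
  have hq2Q := hnorm q1 hq1Q
  have e1 : q1 ≠ q := by
    intro h
    apply hne
    rw [hq1, mul_inv_eq_iff_eq_mul] at h
    exact h.symm
  have e2 : q2 ≠ q1 := by
    intro h
    apply e1
    have h3 : w * q1 * w⁻¹ = w * q * w⁻¹ := h
    exact mul_left_cancel (mul_right_cancel h3)
  have e3 : q2 ≠ q := by
    intro h
    have h3 : w ^ 2 * q * (w ^ 2)⁻¹ = q := by
      have : w ^ 2 * q * (w ^ 2)⁻¹ = w * (w * q * w⁻¹) * w⁻¹ := by rw [pow_two]; group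
      rw [this]; exact h
    have hodd : Nat.Coprime (orderOf w) 2 := by
      exact ((Nat.Prime.coprime_iff_not_dvd Nat.prime_two).2 h2).symm
    have hmem : w ∈ Subgroup.zpowers (w ^ 2) := by
      rw [mem_zpowers_pow_iff]; exact hodd.symm
    obtain ⟨c, hc⟩ := Subgroup.mem_zpowers_iff.mp hmem
    have h4 : w ^ 2 ∈ Subgroup.centralizer ({q} : Set H) := by
      rw [Subgroup.mem_centralizer_singleton_iff]
      calc w ^ 2 * q = w ^ 2 * q * (w ^ 2)⁻¹ * w ^ 2 := by group
        _ = _ := by rw [h3]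
    have h5 : w ∈ Subgroup.centralizer ({q} : Set H) := by
      rw [← hc]; exact Subgroup.zpow_mem _ h4 c
    exact hne (Subgroup.mem_centralizer_singleton_iff.mp h5).symm
  have hone : ∀ g : H, w * g * w⁻¹ = 1 → g = 1 := by
    intro g hg
    have h3 : w * g * w⁻¹ = w * 1 * w⁻¹ := by rw [hg]; group
    exact mul_left_cancel (mul_right_cancel h3)
  have f0 : q ≠ 1 := by rintro h; apply e1; rw [hq1, h]; group
  have f1 : q1 ≠ 1 := fun h => f0 (hone q h)
  have f2 : q2 ≠ 1 := fun h => f1 (hone q1 h)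
  have hwu : w * u * w⁻¹ = u := by rw [huc]; group
  have g0 : u ≠ q := by rintro h; exact e1 (by rw [hq1, ← h, hwu])
  have g1 : u ≠ q1 := by rintro h; exact e2 (by rw [hq2, ← h, hwu])
  have g2 : u ≠ q2 := by
    rintro h
    have h3 : w * q1 * w⁻¹ = w * q2 * w⁻¹ := by rw [← h, hwu]; exact h.symm
    exact e2 (mul_left_cancel (mul_right_cancel h3)).symm
  have hsub : (({1, u, q, q1, q2} : Finset H) : Set H) ⊆ (P : Set H) := by
    intro g hg
    simp only [Finset.coe_insert, Finset.coe_singleton, Set.mem_insert_iff,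
      Set.mem_singleton_iff] at hg
    rcases hg with rfl | rfl | rfl | rfl | rfl
    · exact P.one_mem
    · exact hu
    · exact hQ hq
    · exact hQ hq1Q
    · exact hQ hq2Q
  have hcard := Set.ncard_le_ncard hsub (Set.toFinite _)
  rw [Set.ncard_coe_finset, ← Nat.card_coe_set_eq] at hcard
  have hPc : Nat.card ((P : Set H) : Type _) = 4 := hP
  rw [hPc, Finset.card_insert_of_notMem (by simp [hu1.symm, f0.symm, f1.symm, f2.symm]),
    Finset.card_insert_of_notMem (by simp [g0, g1, g2]),
    Finset.card_insert_of_notMem (by simp [e1.symm, e3.symm]),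
    Finset.card_insert_of_notMem (by simp [e2.symm]), Finset.card_singleton] at hcard
  omega

section loc

variable {G : Type u} [Group G] [Fintype G] {M : Ideal AlgInt} [hMp : M.IsPrime]
  {B : Set (IrrCharacter G)} {D : Subgroup G} {E : MonoidAlgebra (kM M) G}
  {eG : ∀ v : G, Set (IrrCharacter (Subgroup.centralizer (Subgroup.zpowers v : Set G)))}

/-- the blocks below a maximal pair -/
structure Loc (M : Ideal AlgInt) [M.IsPrime] (B : Set (IrrCharacter G)) (D : Subgroup G)
    (E : MonoidAlgebra (kM M) G)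
    (eG : ∀ v : G, Set (IrrCharacter (Subgroup.centralizer (Subgroup.zpowers v : Set G)))) :
    Prop where
  mle : ∀ v ∈ D, MLe 2 (Subgroup.zpowers v) (EB M _ (eG v)) D E
  ind : ∀ v ∈ D, IsInducedBlock M _ (eG v) B
  pel : ∀ v ∈ D, ∃ k : ℕ, orderOf v = 2 ^ k

theorem exists_Loc (hM : IsPModular 2 M) (hB : IsPBlock M B)
    (he : haveI := charP_kM hM; MMax 2 D E)
    (hb : haveI := charP_kM hM; MPairOf 2 (eB M B) D E) : ∃ eG, Loc M B D E eG := by
  classical
  have hex : ∀ v : G, ∃ f : Set (IrrCharacter (Subgroup.centralizer (Subgroup.zpowers v : Set G))),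
      v ∈ D → (MLe 2 (Subgroup.zpowers v) (EB M _ f) D E ∧ IsInducedBlock M _ f B ∧
        ∃ k : ℕ, orderOf v = 2 ^ k) := by
    intro v
    by_cases hv : v ∈ D
    · obtain ⟨f, h1, h2, h3⟩ := exists_below hM hB he hb hv
      exact ⟨f, fun _ => ⟨h1, h2, h3⟩⟩
    · exact ⟨∅, fun h => absurd h hv⟩
  choose eG heG using hex
  exact ⟨eG, fun v hv => (heG v hv).1, fun v hv => (heG v hv).2.1, fun v hv => (heG v hv).2.2⟩

/-- conjugacy of subsections below the maximal pair -/
def SC (M : Ideal AlgInt) [M.IsPrime]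
    (eG : ∀ v : G, Set (IrrCharacter (Subgroup.centralizer (Subgroup.zpowers v : Set G))))
    (u v : G) : Prop := SConj u (EB M _ (eG u)) v (EB M _ (eG v))

theorem SC.refl (u : G) : SC M eG u u := SConj.refl _ _

theorem SC.symm {u v : G} (h : SC M eG u v) : SC M eG v u := SConj.symm h

theorem SC.trans {u v w : G} (h : SC M eG u v) (h' : SC M eG v w) : SC M eG u w :=
  SConj.trans h h'

theorem Loc.uniq (hM : IsPModular 2 M) (L : Loc M B D E eG)
    (he : haveI := charP_kM hM; MMax 2 D E) {v : G} (hv : v ∈ D)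
    {f : MonoidAlgebra (kM M) G} (hf : MLe 2 (Subgroup.zpowers v) f D E) : f = EB M _ (eG v) := by
  haveI := charP_kM hM
  exact MLe.unique he.1 _ _ _ hf (L.mle v hv)

/-- from a pair of pairs below -/
theorem Loc.sc (hM : IsPModular 2 M) (L : Loc M B D E eG)
    (he : haveI := charP_kM hM; MMax 2 D E) {v g : G} (hv : v ∈ D) (hv' : g * v * g⁻¹ ∈ D)
    {f : MonoidAlgebra (kM M) G} (hf : MLe 2 (Subgroup.zpowers v) f D E)
    (hf' : MLe 2 (Subgroup.zpowers (g * v * g⁻¹)) (Blk.cj g f) D E) :
    SC M eG v (g * v * g⁻¹) := by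
  have h1 := L.uniq hM he hv hf
  have h2 := L.uniq hM he hv' hf'
  exact ⟨g, rfl, by rw [← h1, ← h2]⟩

theorem Loc.sc_mem (hM : IsPModular 2 M) (L : Loc M B D E eG)
    (he : haveI := charP_kM hM; MMax 2 D E) {v w : G} (hv : v ∈ D) (hw : w ∈ D) :
    SC M eG v (w * v * w⁻¹) := by
  haveI := charP_kM hM
  have hv' : w * v * w⁻¹ ∈ D := D.mul_mem (D.mul_mem hw hv) (D.inv_mem hw)
  refine L.sc hM he hv hv' (L.mle v hv) ?_
  have := BlkF.mle_cj_of_mem he.1 (L.mle v hv) hw
  rwa [show cjS w (Subgroup.zpowers v) = Subgroup.zpowers (w * v * w⁻¹) from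
    MonoidHom.map_zpowers (MulAut.conj w).toMonoidHom _] at this

/-- every subsection is conjugate to one below the maximal pair -/
theorem Loc.exists_sc (hM : IsPModular 2 M) (L : Loc M B D E eG)
    (he : haveI := charP_kM hM; MMax 2 D E)
    (hb : haveI := charP_kM hM; MPairOf 2 (eB M B) D E) {v : G}
    {f : MonoidAlgebra (kM M) G} (hf : MPairOf 2 (eB M B) (Subgroup.zpowers v) f) :
    ∃ v' ∈ D, SConj v f v' (EB M _ (eG v')) ∧ ∃ g : G, v' = g * v * g⁻¹ := by
  haveI := charP_kM hM
  obtain ⟨g, hg⟩ := he.exists_conj_le hb hf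
  rw [zpowers_conj'] at hg
  have hv' : g * v * g⁻¹ ∈ D := hg.le (Subgroup.mem_zpowers _)
  refine ⟨g * v * g⁻¹, hv', ⟨g, rfl, ?_⟩, g, rfl⟩
  rw [← L.uniq hM he hv' hg]

theorem SC.orderOf_eq {u v : G} (h : SC M eG u v) : orderOf u = orderOf v := by
  obtain ⟨g, hg, -⟩ := h
  rw [hg, Col.orderOf_conj']

end loc

namespace MC

variable {G : Type u} [Group G] [Fintype G] {M : Ideal AlgInt} [hMp : M.IsPrime]
  {B : Set (IrrCharacter G)} {D : Subgroup G} {E : MonoidAlgebra (kM M) G} {x y : G} {h t : ℕ}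
  {eG : ∀ v : G, Set (IrrCharacter (Subgroup.centralizer (Subgroup.zpowers v : Set G)))}

theorem fullyCent_out (hM : IsPModular 2 M) (he : haveI := charP_kM hM; MMax 2 D E)
    (L : Loc M B D E eG)
    (H : MC D x y h t) {u : G} (hu : u ∈ D)
    (hunf : ∀ i : ℕ, ¬ SC M eG u (x ^ i)) :
    haveI := charP_kM hM
    (blkFus he.1).IsFullyCentralized (Subgroup.zpowers u) := by
  haveI := charP_kM hM
  have hux : ∀ v ∈ D, SC M eG u v → v ∉ Subgroup.zpowers x := by
    intro v _ hs hv
    obtain ⟨i, -, rfl⟩ := H.exists_pow hv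
    exact hunf i hs
  refine ⟨Subgroup.zpowers_le.mpr hu, fun R hR => ?_⟩
  rw [H.card_centIn_out hu (hux u hu (SC.refl u))]
  obtain ⟨f', hf', hR2⟩ := Fus.isConj_iff.mp hR
  have h1 : R = Subgroup.zpowers (f' u) := by
    rw [← hR2]
    apply le_antisymm
    · intro w hw
      obtain ⟨v, hv, rfl⟩ := hf'.mem_img.mp hw
      obtain ⟨a, rfl⟩ := Subgroup.mem_zpowers_iff.mp hv
      rw [hf'.map_zpow (Subgroup.mem_zpowers _)]
      exact Subgroup.zpow_mem_zpowers _ _
    · rw [Subgroup.zpowers_le]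
      exact subset_img (Subgroup.mem_zpowers _)
  obtain ⟨g, hg, f, hf1, hf2⟩ := (isMap_blkFus he.1).mp hf'
  have hgu : f' u = g * u * g⁻¹ := hg u (Subgroup.mem_zpowers _)
  have hfD : f' u ∈ D := hf'.mem (Subgroup.mem_zpowers _)
  rw [show cjS g (Subgroup.zpowers u) = Subgroup.zpowers (g * u * g⁻¹) from
    MonoidHom.map_zpowers (MulAut.conj g).toMonoidHom _] at hf2
  have h2 : SC M eG u (f' u) := by
    rw [hgu] at hfD ⊢
    exact L.sc hM he hu hfD hf1 hf2
  rw [h1, H.card_centIn_out hfD (hux _ hfD h2)]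

/-- the block of an unfused outer element -/
theorem nilp_out (hM : IsPModular 2 M) (he : haveI := charP_kM hM; MMax 2 D E)
    (L : Loc M B D E eG)
    (H : MC D x y h t) {u : G} (hu : u ∈ D)
    (hunf : ∀ i : ℕ, ¬ SC M eG u (x ^ i)) :
    blockRank 2 (eG u) = 1 ∧ 2 ^ blockDefect 2 (eG u) = 4 := by
  haveI := charP_kM hM
  haveI := Fintype.ofFinite (Subgroup.centralizer (Subgroup.zpowers u : Set G))
  have hux : u ∉ Subgroup.zpowers x := by
    intro hv
    obtain ⟨i, -, rfl⟩ := H.exists_pow hv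
    exact hunf i (SC.refl _)
  have hb := (L.ind u hu).1
  have h1 := (isFullyCentralized_iff he (L.mle u hu)).1 (H.fullyCent_out hM he L hu hunf)
  have hcard := H.card_centIn_out hu hux
  set P : Subgroup G := D ⊓ Subgroup.centralizer (Subgroup.zpowers u : Set G) with hP
  have hPC : P ≤ Subgroup.centralizer (Subgroup.zpowers u : Set G) := inf_le_right
  have hcardP : Nat.card P = 4 := hcard
  have huC : u ∈ Subgroup.centralizer (Subgroup.zpowers u : Set G) := by
    rw [Subgroup.mem_centralizer_iff]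
    intro g hg
    obtain ⟨a, rfl⟩ := Subgroup.mem_zpowers_iff.mp hg
    exact (Commute.refl u).zpow_left a
  set P' := P.subgroupOf (Subgroup.centralizer (Subgroup.zpowers u : Set G)) with hP'
  have hmap : P'.map (Subgroup.subtype _) = P := map_subgroupOf hPC
  have h2 : IsDef 2 ⊤ (Blk.eB M (eG u)) P' := by
    rw [← isDef_incl_top_iff, hmap, ← EB_eq]
    exact h1
  have hcardP' : Nat.card P' = 4 := by
    rw [← hcardP]
    exact Nat.card_congr (Subgroup.subgroupOfEquivOfLe hPC).toEquiv
  have hn : IsNilpotentBlock 2 M (eG u) := by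
    refine nilp_of_aut hM hb h2 ?_
    intro Q hQ w hw hw2
    refine cent_four hcardP' hQ (u := ⟨u, huC⟩) ?_ ?_ ?_ hw2 hw
    · rw [hP', Subgroup.mem_subgroupOf]
      exact ⟨hu, huC⟩
    · intro hc
      have : u = 1 := congrArg Subtype.val hc
      exact hux (this ▸ Subgroup.one_mem _)
    · intro g
      exact Subtype.ext (cent_comm u (g : G) g.2).symm
  refine ⟨(Cfsg.Agent.S4689.result 2 M hM _ hn).1, ?_⟩
  rw [← card_of_isDef hM hb h1]
  exact hcardP

/-- the two outer representatives -/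
def yv (x y : G) (j : Fin 2) : G := if j = 0 then y else x * y

theorem yv_mem (H : MC D x y h t) (j : Fin 2) : yv x y j ∈ D := by
  unfold yv; split_ifs
  · exact H.hy
  · exact D.mul_mem H.hx H.hy

theorem yv_out (H : MC D x y h t) (j : Fin 2) : yv x y j ∉ Subgroup.zpowers x := by
  unfold yv; split_ifs
  · exact H.hyx
  · have := H.pow_y_notMem 1
    rwa [pow_one] at this

/-- the representative is not fused into the cyclic subgroup nor to the previous one -/
def Unf (M : Ideal AlgInt) [M.IsPrime] (x y : G)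
    (eG : ∀ v : G, Set (IrrCharacter (Subgroup.centralizer (Subgroup.zpowers v : Set G))))
    (j : Fin 2) : Prop :=
  (∀ i : ℕ, ¬ SC M eG (yv x y j) (x ^ i)) ∧ (j = 1 → ¬ SC M eG (yv x y 1) (yv x y 0))

/-- the elements of the complete family -/
def vf (M : Ideal AlgInt) [M.IsPrime] (x y : G) (h t : ℕ)
    (eG : ∀ v : G, Set (IrrCharacter (Subgroup.centralizer (Subgroup.zpowers v : Set G)))) :
    Fin h ⊕ {j : Fin 2 // Unf M x y eG j} → G
  | Sum.inl i => x ^ rr h t (i.val + 1)
  | Sum.inr j => yv x y j.1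

theorem vf_mem (H : MC D x y h t) (i : Fin h ⊕ {j : Fin 2 // Unf M x y eG j}) :
    vf M x y h t eG i ∈ D := by
  rcases i with i | j
  · exact D.pow_mem H.hx _
  · exact H.yv_mem _

theorem fus_pow (hM : IsPModular 2 M) (he : haveI := charP_kM hM; MMax 2 D E)
    (L : Loc M B D E eG) (H : MC D x y h t) {i j : ℕ} (hi : ¬ h ∣ i) (hj : ¬ h ∣ j)
    (hs : SC M eG (x ^ i) (x ^ j)) : x ^ j = x ^ i ∨ x ^ j = x ^ (t * i) := by
  obtain ⟨g, hg1, hg2⟩ := hs
  exact H.fusX hM he hi hj (L.mle _ (D.pow_mem H.hx i)) (by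
    rw [← hg1, ← hg2]; exact L.mle _ (D.pow_mem H.hx j)) hg1.symm

theorem not_dvd_of_lt {i : ℕ} (hi : 0 < i) (hi2 : i < 2 * h) (hih : i ≠ h) : ¬ h ∣ i := by
  rintro ⟨c, hc⟩
  have : c < 2 := by
    by_contra hcon
    push Not at hcon
    nlinarith
  interval_cases c
  · omega
  · omega

/-- **the complete family of subsections** -/
theorem famC (hM : IsPModular 2 M) (hB : IsPBlock M B)
    (he : haveI := charP_kM hM; MMax 2 D E)
    (hb : haveI := charP_kM hM; MPairOf 2 (eB M B) D E) (L : Loc M B D E eG)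
    (H : MC D x y h t) [Fintype {j : Fin 2 // Unf M x y eG j}] :
    Fam 2 M B (vf M x y h t eG) (fun i => eG (vf M x y h t eG i)) ∧
    Compl 2 M B (vf M x y h t eG) (fun i => eG (vf M x y h t eG i)) := by
  classical
  haveI := charP_kM hM
  have hpos := H.pos
  have hsq : ∀ k, 0 < k → k < 2 * h → k ≠ h → x ^ k * x ^ k ≠ 1 := by
    intro k hk hk2 hkh hc
    rw [← pow_add, H.pow_eq_one] at hc
    obtain ⟨c, hc⟩ := hc
    have h1 : c < 2 := by
      by_contra hcon
      push Not at hcon
      nlinarith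
    interval_cases c
    · omega
    · omega
  constructor
  · refine ⟨?_, fun i => L.pel _ (H.vf_mem i), fun i => L.ind _ (H.vf_mem i), ?_⟩
    · rintro (i | j)
      · intro hc
        have h1 := H.rr_lt (i := i.val + 1) (by omega) i.2
        change x ^ rr h t (i.val + 1) = 1 at hc
        rw [H.pow_eq_one] at hc
        have := Nat.le_of_dvd h1.1 hc
        omega
      · intro hc
        have h1 := H.yv_out j.1
        have h2 : yv x y j.1 = 1 := hc
        rw [h2] at h1
        exact h1 (Subgroup.one_mem _)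
    · intro i j hs
      have hs' : SC M eG (vf M x y h t eG i) (vf M x y h t eG j) := hs
      rcases i with i | i <;> rcases j with j | j
      · congr 1
        apply Fin.ext
        have hs2 : SC M eG (x ^ rr h t (i.val + 1)) (x ^ rr h t (j.val + 1)) := hs'
        obtain ⟨a1, a2, a3⟩ := H.rr_lt (i := i.val + 1) (by omega) i.2
        obtain ⟨b1, b2, b3⟩ := H.rr_lt (i := j.val + 1) (by omega) j.2
        have horder := hs2.orderOf_eq
        by_cases hi : i.val + 1 = h
        · by_cases hj : j.val + 1 = h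
          · omega
          · exfalso
            apply hsq (rr h t (j.val + 1)) b1 b2 (fun hc => hj (b3.mp hc))
            have h3 : orderOf (x ^ rr h t (j.val + 1)) = 2 := by
              rw [← horder, a3.mpr hi, H.ord_z]
            rw [← pow_two, ← h3, pow_orderOf_eq_one]
        · by_cases hj : j.val + 1 = h
          · exfalso
            apply hsq (rr h t (i.val + 1)) a1 a2 (fun hc => hi (a3.mp hc))
            have h3 : orderOf (x ^ rr h t (i.val + 1)) = 2 := by
              rw [horder, b3.mpr hj, H.ord_z]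
            rw [← pow_two, ← h3, pow_orderOf_eq_one]
          · have hi' : rr h t (i.val + 1) ≠ h := fun hc => hi (a3.mp hc)
            have hj' : rr h t (j.val + 1) ≠ h := fun hc => hj (b3.mp hc)
            have h1 := H.fus_pow hM he L (not_dvd_of_lt a1 a2 hi') (not_dvd_of_lt b1 b2 hj') hs2
            obtain ⟨c1, c2, c3⟩ := H.pow_tj a1 a2 hi'
            rw [c1, H.pow_inj_lt b2 a2, H.pow_inj_lt b2 c3] at h1
            have := H.rr_inj (i := j.val + 1) (j := i.val + 1) (by omega) (by omega) (by omega)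
              (by omega) h1
            omega
      · exfalso
        exact j.2.1 _ hs'.symm
      · exfalso
        exact i.2.1 _ hs'
      · congr 1
        apply Subtype.ext
        have hs2 : SC M eG (yv x y i.1) (yv x y j.1) := hs'
        obtain ⟨i, hi⟩ := i
        obtain ⟨j, hj⟩ := j
        simp only at hs2 ⊢
        fin_cases i <;> fin_cases j
        · rfl
        · exact absurd hs2.symm (hj.2 rfl)
        · exact absurd hs2 (hi.2 rfl)
        · rfl
  · -- completeness
    have hpow : ∀ k : ℕ, x ^ k ≠ 1 → ∃ i, SC M eG (x ^ k) (vf M x y h t eG i) := by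
      intro k hk
      obtain ⟨k', hk', hkk⟩ := H.exists_pow (mem_zp k)
      rw [hkk] at hk ⊢
      have hk0 : 0 < k' := by
        rcases Nat.eq_zero_or_pos k' with rfl | h1
        · exact absurd (pow_zero x) hk
        · exact h1
      by_cases hkh : k' = h
      · refine ⟨Sum.inl ⟨h - 1, by omega⟩, ?_⟩
        have : vf M x y h t eG (Sum.inl ⟨h - 1, by omega⟩) = x ^ k' := by
          change x ^ rr h t (h - 1 + 1) = x ^ k'
          rw [Nat.sub_add_cancel hpos, H.rr_h, hkh]
        rw [this]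
        exact SC.refl _
      · obtain ⟨j, hj0, hj, h1⟩ := H.rr_surj hk0 hk' hkh
        refine ⟨Sum.inl ⟨j - 1, by omega⟩, ?_⟩
        have h2 : vf M x y h t eG (Sum.inl ⟨j - 1, by omega⟩) = x ^ rr h t j := by
          change x ^ rr h t (j - 1 + 1) = _
          rw [Nat.sub_add_cancel hj0]
        rw [h2]
        rcases h1 with h1 | h1
        · rw [h1]; exact SC.refl _
        · obtain ⟨a1, a2, a3⟩ := H.rr_lt hj0 hj.le
          obtain ⟨c1, c2, c3⟩ := H.pow_tj a1 a2 (fun hc => by have := a3.mp hc; omega)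
          rw [h1, ← c1, ← H.conj_pow]
          exact (L.sc_mem hM he (D.pow_mem H.hx _) H.hy).symm
    have hy0 : ∃ i, SC M eG (yv x y 0) (vf M x y h t eG i) := by
      by_cases hU : ∀ i : ℕ, ¬ SC M eG (yv x y 0) (x ^ i)
      · exact ⟨Sum.inr ⟨0, hU, fun h => absurd h (by decide)⟩, SC.refl _⟩
      · push Not at hU
        obtain ⟨i, hi⟩ := hU
        obtain ⟨j, hj⟩ := hpow i (by
          intro hc
          have h1 := hi.orderOf_eq
          rw [hc, orderOf_one, orderOf_eq_one_iff] at h1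
          exact H.yv_out 0 (h1 ▸ Subgroup.one_mem _))
        exact ⟨j, hi.trans hj⟩
    have hy1 : ∃ i, SC M eG (yv x y 1) (vf M x y h t eG i) := by
      by_cases hU : ∀ i : ℕ, ¬ SC M eG (yv x y 1) (x ^ i)
      · by_cases hU1 : SC M eG (yv x y 1) (yv x y 0)
        · obtain ⟨i, hi⟩ := hy0
          exact ⟨i, hU1.trans hi⟩
        · exact ⟨Sum.inr ⟨1, hU, fun _ => hU1⟩, SC.refl _⟩
      · push Not at hU
        obtain ⟨i, hi⟩ := hU
        obtain ⟨j, hj⟩ := hpow i (by
          intro hc
          have h1 := hi.orderOf_eq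
          rw [hc, orderOf_one, orderOf_eq_one_iff] at h1
          exact H.yv_out 1 (h1 ▸ Subgroup.one_mem _))
        exact ⟨j, hi.trans hj⟩
    intro w hw hwp b hind
    have h1 := mpairOf_of_ind hM hwp rfl hind
    obtain ⟨v', hv', hs, g, hg⟩ := L.exists_sc hM he hb h1
    have hv1 : v' ≠ 1 := by
      rw [hg]
      intro hc
      apply hw
      have : w = g⁻¹ * (g * w * g⁻¹) * g := by group
      rw [this, hc]; group
    have key : ∃ i, SC M eG v' (vf M x y h t eG i) := by
      by_cases hvx : v' ∈ Subgroup.zpowers x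
      · obtain ⟨k, -, rfl⟩ := H.exists_pow hvx
        exact hpow k hv1
      · obtain ⟨r, hr, hr2⟩ := H.rep_out hv' hvx
        have h2 := L.sc_mem hM he hv' hr
        rcases hr2 with hr2 | hr2
        · rw [hr2] at h2
          obtain ⟨i, hi⟩ := hy0
          exact ⟨i, h2.trans hi⟩
        · rw [hr2] at h2
          obtain ⟨i, hi⟩ := hy1
          exact ⟨i, h2.trans hi⟩
    obtain ⟨i, hi⟩ := key
    exact ⟨i, hs.trans hi⟩

end MC

end Cfsg.Agent.H10
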