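import Cfsg.Agent.H10.MCDih
import Cfsg.Agent.H10.MCInv
import Cfsg.Agent.H10.MCLev

/-!
# Elements of a 2-group with a cyclic maximal subgroup (owner: helper10)
-/

set_option autoImplicit false
set_option linter.style.haveILetI false
set_option linter.unusedSectionVars false

namespace Cfsg.Agent.H10.MC

open Cfsg Cfsg.Agent.Fus

variable {G : Type*} [Group G] {D : Subgroup G} {x y : G} {h t : ℕ}

/-- representatives of the orbits on the powers of `x` -/
def rr (h t i : ℕ) : ℕ := if t = 2 * h - 1 then i else if i % 4 = 3 then 2 * h - i else i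

/-- the other element of the orbit -/
def tj (h t j : ℕ) : ℕ := if t = 2 * h - 1 then 2 * h - j else
  if j % 2 = 0 then 2 * h - j else if j < h then h - j else 3 * h - j

theorem pow_inj_lt (H : MC D x y h t) {a b : ℕ} (ha : a < 2 * h) (hb : b < 2 * h) :
    x ^ a = x ^ b ↔ a = b := by
  rw [H.pow_eq_pow]
  unfold Nat.ModEq
  rw [Nat.mod_eq_of_lt ha, Nat.mod_eq_of_lt hb]

theorem pow_add_two (H : MC D x y h t) (a : ℕ) : x ^ (a + 2 * h) = x ^ a := by
  rw [H.pow_eq_pow]
  exact Nat.ModEq.symm (Nat.modEq_iff_dvd.mpr ⟨1, by push_cast; ring⟩)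

theorem pow_tj (H : MC D x y h t) {j : ℕ} (hj0 : 0 < j) (hj : j < 2 * h) (hjh : j ≠ h) :
    x ^ (t * j) = x ^ tj h t j ∧ 0 < tj h t j ∧ tj h t j < 2 * h := by
  have hpos := H.pos
  obtain ⟨h2, h0, h3⟩ := H.ht
  unfold tj
  rcases h3 with h3 | ⟨h4, h3⟩
  · rw [if_pos h3]
    refine ⟨?_, by omega, by omega⟩
    rw [H.pow_eq_pow, h3]
    apply Nat.ModEq.symm
    rw [Nat.modEq_iff_dvd]
    refine ⟨(j : ℤ) - 1, ?_⟩
    push_cast [Nat.cast_sub (show 1 ≤ 2 * h by omega), Nat.cast_sub hj.le]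
    ring
  · rw [if_neg (by omega)]
    have h5 : (t : ℤ) = h - 1 := by omega
    split_ifs with h6 h7
    · refine ⟨?_, by omega, by omega⟩
      rw [H.pow_eq_pow]
      apply Nat.ModEq.symm
      rw [Nat.modEq_iff_dvd]
      obtain ⟨c, hc⟩ : ∃ c, j = 2 * c := ⟨j / 2, by omega⟩
      refine ⟨(c : ℤ) - 1, ?_⟩
      push_cast [Nat.cast_sub hj.le, h5]
      rw [hc]; push_cast; ring
    · refine ⟨?_, by omega, by omega⟩
      rw [H.pow_eq_pow]
      apply Nat.ModEq.symm
      rw [Nat.modEq_iff_dvd]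
      obtain ⟨c, hc⟩ : ∃ c, j = 2 * c + 1 := ⟨j / 2, by omega⟩
      refine ⟨(c : ℤ), ?_⟩
      push_cast [Nat.cast_sub h7.le, h5]
      rw [hc]; push_cast; ring
    · refine ⟨?_, by omega, by omega⟩
      rw [H.pow_eq_pow]
      apply Nat.ModEq.symm
      rw [Nat.modEq_iff_dvd]
      obtain ⟨c, hc⟩ : ∃ c, j = 2 * c + 1 := ⟨j / 2, by omega⟩
      refine ⟨(c : ℤ) - 1, ?_⟩
      push_cast [Nat.cast_sub (show j ≤ 3 * h by omega), h5]
      rw [hc]; push_cast; ring

theorem rr_lt (H : MC D x y h t) {i : ℕ} (hi : 0 < i) (hi2 : i ≤ h) :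
    0 < rr h t i ∧ rr h t i < 2 * h ∧ (rr h t i = h ↔ i = h) := by
  have hpos := H.pos
  obtain ⟨h2, h0, h3⟩ := H.ht
  unfold rr
  rcases h3 with h3 | ⟨h4, h3⟩
  · rw [if_pos h3]; omega
  · rw [if_neg (by omega)]
    split_ifs <;> omega

theorem rr_h (H : MC D x y h t) : rr h t h = h :=
  ((H.rr_lt H.pos le_rfl).2.2).mpr rfl

theorem rr_inj (H : MC D x y h t) {i j : ℕ} (hi : 0 < i) (hi2 : i < h) (hj : 0 < j)
    (hj2 : j < h) (hij : rr h t i = rr h t j ∨ rr h t i = tj h t (rr h t j)) : i = j := by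
  obtain ⟨h2, h0, h3⟩ := H.ht
  unfold rr tj at hij
  rcases h3 with h3 | ⟨h4, h3⟩
  · simp only [if_pos h3] at hij; omega
  · have h5 : ¬ t = 2 * h - 1 := by omega
    simp only [if_neg h5] at hij
    obtain ⟨g, rfl⟩ := h4
    split_ifs at hij <;> omega

theorem rr_surj (H : MC D x y h t) {k : ℕ} (hk0 : 0 < k) (hk : k < 2 * h) (hkh : k ≠ h) :
    ∃ j, 0 < j ∧ j < h ∧ (k = rr h t j ∨ k = tj h t (rr h t j)) := by
  obtain ⟨h2, h0, h3⟩ := H.ht
  unfold rr tj
  rcases h3 with h3 | ⟨h4, h3⟩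
  · simp only [if_pos h3]
    by_cases h1 : k < h
    · exact ⟨k, hk0, h1, Or.inl rfl⟩
    · exact ⟨2 * h - k, by omega, by omega, Or.inr (by omega)⟩
  · have h5 : ¬ t = 2 * h - 1 := by omega
    simp only [if_neg h5]
    obtain ⟨g, rfl⟩ := h4
    rcases Nat.lt_or_ge k (4 * g) with h1 | h1
    · by_cases h6 : k % 4 = 3
      · refine ⟨4 * g - k, by omega, by omega, Or.inr ?_⟩
        have e1 : ¬ (4 * g - k) % 4 = 3 := by omega
        rw [if_neg e1]
        have e2 : ¬ (4 * g - k) % 2 = 0 := by omega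
        rw [if_neg e2, if_pos (by omega)]
        omega
      · refine ⟨k, hk0, h1, Or.inl ?_⟩
        rw [if_neg h6]
    · by_cases h6 : k % 2 = 0
      · refine ⟨2 * (4 * g) - k, by omega, by omega, Or.inr ?_⟩
        have e1 : ¬ (2 * (4 * g) - k) % 4 = 3 := by omega
        rw [if_neg e1, if_pos (by omega)]
        omega
      · by_cases h7 : k % 4 = 1
        · refine ⟨2 * (4 * g) - k, by omega, by omega, Or.inl ?_⟩
          have e1 : (2 * (4 * g) - k) % 4 = 3 := by omega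
          rw [if_pos e1]
          omega
        · refine ⟨k - 4 * g, by omega, by omega, Or.inr ?_⟩
          have e1 : (k - 4 * g) % 4 = 3 := by omega
          rw [if_pos e1]
          have e2 : ¬ (2 * (4 * g) - (k - 4 * g)) % 2 = 0 := by omega
          rw [if_neg e2, if_neg (by omega)]
          omega

/-- multiplication by `z` fixes exactly one orbit -/
theorem rr_z (H : MC D x y h t) {i : ℕ} (hi : 0 < i) (hi2 : i < h) :
    x ^ (rr h t i + h) = x ^ (t * rr h t i) ↔ 2 * i = h := by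
  obtain ⟨a1, a2, a3⟩ := H.rr_lt hi hi2.le
  obtain ⟨b1, b2, b3⟩ := H.pow_tj a1 a2 (fun hc => by have := a3.mp hc; omega)
  rw [b1]
  have hpos := H.pos
  obtain ⟨h2, h0, h3⟩ := H.ht
  have key : ∀ a, a < 2 * h → (a < h → x ^ (a + h) = x ^ (a + h)) ∧
      (h ≤ a → x ^ (a + h) = x ^ (a - h)) := by
    intro a ha
    refine ⟨fun _ => rfl, fun hah => ?_⟩
    have : a + h = (a - h) + 2 * h := by omega
    rw [this, H.pow_add_two]
  rcases Nat.lt_or_ge (rr h t i) h with h5 | h5
  · rw [H.pow_inj_lt (by omega) b3]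
    unfold rr tj at *
    rcases h3 with h3 | ⟨h4, h3⟩
    · simp only [if_pos h3] at *; omega
    · have h6 : ¬ t = 2 * h - 1 := by omega
      simp only [if_neg h6] at *
      obtain ⟨g, rfl⟩ := h4
      split_ifs at * <;> omega
  · rw [(key _ a2).2 h5, H.pow_inj_lt (by omega) b3]
    unfold rr tj at *
    rcases h3 with h3 | ⟨h4, h3⟩
    · simp only [if_pos h3] at *; omega
    · have h6 : ¬ t = 2 * h - 1 := by omega
      simp only [if_neg h6] at *
      obtain ⟨g, rfl⟩ := h4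
      split_ifs at * <;> omega

/-- the action of the elements outside the cyclic subgroup -/
theorem conj_out (H : MC D x y h t) {u : G} (hu : u ∈ D) (hux : u ∉ Subgroup.zpowers x) (i : ℕ) :
    u * x ^ i * u⁻¹ = x ^ (t * i) := by
  obtain ⟨j, rfl | rfl⟩ := H.cov u hu
  · exact absurd (mem_zp j) hux
  · have h1 : x ^ j * y * x ^ i * (x ^ j * y)⁻¹ = x ^ j * (y * x ^ i * y⁻¹) * (x ^ j)⁻¹ := by group
    rw [h1, H.conj_pow, ← pow_add, add_comm, pow_add, mul_inv_cancel_right]

theorem comm_out (H : MC D x y h t) {u : G} (hu : u ∈ D) (hux : u ∉ Subgroup.zpowers x) {c : G}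
    (hc : c ∈ Subgroup.zpowers x) (huc : c * u = u * c) : c = 1 ∨ c = x ^ h := by
  obtain ⟨i, hi, rfl⟩ := H.exists_pow hc
  have h1 : y * x ^ i * y⁻¹ = x ^ i := by
    rw [H.conj_pow, ← H.conj_out hu hux i, ← huc]; group
  have h2 := H.fixed_iff.mp h1
  obtain ⟨c, hc⟩ := h2
  have hpos := H.pos
  have : c < 2 := by
    by_contra hcon
    push Not at hcon
    nlinarith
  interval_cases c
  · left; rw [hc, mul_zero, pow_zero]
  · right; rw [hc, mul_one]

/-- centralizers of the elements outside the cyclic subgroup -/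
theorem centIn_out (H : MC D x y h t) {u : G} (hu : u ∈ D) (hux : u ∉ Subgroup.zpowers x) {d : G} :
    d ∈ FusionSystem.centralizerIn D (Subgroup.zpowers u) ↔
      d = 1 ∨ d = x ^ h ∨ d = u ∨ d = x ^ h * u := by
  constructor
  · rintro ⟨hd1, hd2⟩
    have hcomm : u * d = d * u := (Subgroup.mem_centralizer_iff.mp hd2) u (Subgroup.mem_zpowers _)
    by_cases hdx : d ∈ Subgroup.zpowers x
    · rcases H.comm_out hu hux hdx hcomm.symm with h1 | h1
      · exact Or.inl h1
      · exact Or.inr (Or.inl h1)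
    · have h2 := H.div_mem hd1 hu hdx hux
      have h3 : d * u⁻¹ * u = u * (d * u⁻¹) := by
        rw [← mul_assoc, hcomm]; group
      rcases H.comm_out hu hux h2 h3 with h1 | h1
      · right; right; left
        exact mul_inv_eq_one.mp h1
      · right; right; right
        rw [← h1]; group
  · intro h1
    have hz := H.z_central hu
    have hzm : x ^ h ∈ D := D.pow_mem H.hx h
    have key : ∀ d ∈ D, u * d = d * u → d ∈ FusionSystem.centralizerIn D (Subgroup.zpowers u) := by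
      intro d hd hdu
      refine ⟨hd, Subgroup.mem_centralizer_iff.mpr ?_⟩
      intro g hg
      obtain ⟨a, rfl⟩ := Subgroup.mem_zpowers_iff.mp hg
      exact (Commute.zpow_left (show Commute u d from hdu) a)
    rcases h1 with rfl | rfl | rfl | rfl
    · exact key _ D.one_mem (by simp)
    · exact key _ hzm hz
    · exact key _ hu rfl
    · exact key _ (D.mul_mem hzm hu) (by rw [← mul_assoc, hz])

theorem card_centIn_out (H : MC D x y h t) {u : G} (hu : u ∈ D) (hux : u ∉ Subgroup.zpowers x) :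
    Nat.card (FusionSystem.centralizerIn D (Subgroup.zpowers u)) = 4 := by
  classical
  have h1 : ((FusionSystem.centralizerIn D (Subgroup.zpowers u) : Subgroup G) : Set G) =
      (({1, x ^ h, u, x ^ h * u} : Finset G) : Set G) := by
    ext d
    rw [SetLike.mem_coe, H.centIn_out hu hux]
    simp
  have h2 : Nat.card (FusionSystem.centralizerIn D (Subgroup.zpowers u)) =
      Nat.card ((({1, x ^ h, u, x ^ h * u} : Finset G) : Set G)) := by
    rw [← h1]; rfl
  have hz := H.z_ne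
  have hzz := H.z_sq
  have hu1 : u ≠ 1 := by rintro rfl; exact hux (Subgroup.one_mem _)
  have huz : u ≠ x ^ h := by rintro rfl; exact hux (mem_zp h)
  have e1 : (1 : G) ∉ ({x ^ h, u, x ^ h * u} : Finset G) := by
    simp only [Finset.mem_insert, Finset.mem_singleton, not_or]
    refine ⟨hz.symm, hu1.symm, ?_⟩
    intro hc
    apply huz
    have : x ^ h * (x ^ h * u) = x ^ h * 1 := by rw [← hc]
    rwa [← mul_assoc, hzz, one_mul, mul_one] at this
  have e2 : x ^ h ∉ ({u, x ^ h * u} : Finset G) := by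
    simp only [Finset.mem_insert, Finset.mem_singleton, not_or]
    refine ⟨huz.symm, ?_⟩
    intro hc
    apply hu1
    have : x ^ h * 1 = x ^ h * u := by rw [mul_one]; exact hc
    exact (mul_left_cancel this).symm
  have e3 : u ∉ ({x ^ h * u} : Finset G) := by
    simp only [Finset.mem_singleton]
    intro hc
    apply hz
    have : 1 * u = x ^ h * u := by rw [one_mul]; exact hc
    exact (mul_right_cancel this).symm
  rw [h2, Nat.card_coe_set_eq, Set.ncard_coe_finset, Finset.card_insert_of_notMem e1,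
    Finset.card_insert_of_notMem e2, Finset.card_insert_of_notMem e3, Finset.card_singleton]

/-- the elements outside the cyclic subgroup, up to conjugation -/
theorem rep_out (H : MC D x y h t) {v : G} (hv : v ∈ D) (hvx : v ∉ Subgroup.zpowers x) :
    ∃ w ∈ D, w * v * w⁻¹ = y ∨ w * v * w⁻¹ = x * y := by
  have hconj : ∀ k i : ℕ, x ^ k * (x ^ i * y) * (x ^ k)⁻¹ = x ^ (i + k) * (x ^ (t * k))⁻¹ * y := by
    intro k i
    have h1 := H.conj_pow k
    have h2 : y * (x ^ k)⁻¹ = (x ^ (t * k))⁻¹ * y := by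
      rw [← h1]; group
    calc x ^ k * (x ^ i * y) * (x ^ k)⁻¹ = x ^ k * x ^ i * (y * (x ^ k)⁻¹) := by group
      _ = _ := by rw [h2, ← pow_add, add_comm k i]; group
  obtain ⟨i, rfl | rfl⟩ := H.cov v hv
  · exact absurd (mem_zp i) hvx
  -- find `k` with `(1 - t) k = (i' - i)`
  have hpar : ∃ i' : ℕ, (i' = 0 ∨ i' = 1) ∧ ∃ c : ℕ, i = i' + 2 * c := by
    rcases Nat.even_or_odd' i with ⟨c, hc | hc⟩
    · exact ⟨0, Or.inl rfl, c, by omega⟩
    · exact ⟨1, Or.inr rfl, c, by omega⟩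
  obtain ⟨i', hi', c, hc⟩ := hpar
  obtain ⟨m, hm⟩ := H.hp
  -- `(t - 1) / 2` is odd or `h`-coprime
  have hk : ∃ k : ℕ, ((2 * h : ℕ) : ℤ) ∣ (i : ℤ) + k - t * k - i' := by
    obtain ⟨h2, h0, h3⟩ := H.ht
    have hodd : ∃ a : ℤ, ∃ q : ℤ, (1 - (t : ℤ)) = 2 * a ∧ a = 1 + 2 * q ∨ h = 2 ∧ (1 - (t : ℤ)) = 2 * a ∧ a = -1 := by
      rcases h3 with h3 | ⟨h4, h3⟩
      · have h5 : (t : ℤ) = 2 * h - 1 := by omega
        obtain ⟨g, hg⟩ := h2
        exact ⟨1 - h, -g, Or.inl ⟨by rw [h5]; ring, by rw [hg]; push_cast; ring⟩⟩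
      · have h5 : (t : ℤ) = h - 1 := by omega
        obtain ⟨g, hg⟩ := h4
        exact ⟨1 - 2 * g, -g, Or.inl ⟨by rw [h5, hg]; push_cast; ring, by ring⟩⟩
    obtain ⟨a, q, ⟨ha, haq⟩ | ⟨hh2, ha, haq⟩⟩ := hodd
    · have hcop : IsCoprime (h : ℤ) a := by
        have : (h : ℤ) = 2 ^ m := by exact_mod_cast hm
        rw [this]
        refine IsCoprime.pow_left ?_
        exact ⟨-q, 1, by rw [haq]; ring⟩
      obtain ⟨r, s, hrs⟩ := hcop
      -- k ≡ - c * s mod h
      have h6 : (0 : ℤ) < h := by exact_mod_cast h0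
      refine ⟨((-c * s) % (h : ℤ)).toNat, ?_⟩
      have h7 : ((((-c * s) % (h : ℤ)).toNat : ℕ) : ℤ) = (-c * s) % (h : ℤ) :=
        Int.toNat_of_nonneg (Int.emod_nonneg _ h6.ne')
      rw [h7]
      have h8 := Int.emod_add_mul_ediv (-(c : ℤ) * s) (h : ℤ)
      set e := (-(c : ℤ) * s) % (h : ℤ) with he
      set f := (-(c : ℤ) * s) / (h : ℤ) with hf
      have h9 : e = -c * s - h * f := by linarith
      refine ⟨c * r - a * f, ?_⟩
      have h10 : (i : ℤ) = i' + 2 * c := by exact_mod_cast hc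
      have h11 : (t : ℤ) = 1 - 2 * a := by linarith
      rw [h10, h11, h9]
      push_cast
      linear_combination (-2 * (c : ℤ)) * hrs
    · refine ⟨c, ?_⟩
      have h10 : (i : ℤ) = i' + 2 * c := by exact_mod_cast hc
      have h11 : (t : ℤ) = 1 - 2 * a := by linarith
      rw [h10, h11, haq, hh2]
      exact ⟨0, by push_cast; ring⟩
  obtain ⟨k, hk⟩ := hk
  have h1 : x ^ (i + k) * (x ^ (t * k))⁻¹ = x ^ i' := by
    rw [mul_inv_eq_iff_eq_mul, ← pow_add, H.pow_eq_pow]
    apply Nat.ModEq.symm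
    rw [Nat.modEq_iff_dvd]
    obtain ⟨c', hc'⟩ := hk
    exact ⟨c', by push_cast at hc' ⊢; linarith⟩
  refine ⟨x ^ k, D.pow_mem H.hx k, ?_⟩
  rw [hconj, h1]
  rcases hi' with rfl | rfl
  · left; rw [pow_zero, one_mul]
  · right; rw [pow_one]

/-- `x ^ (h / 2)` multiplies the outer elements by `z` -/
theorem conj_half (H : MC D x y h t) {u : G} (hu : u ∈ D) (hux : u ∉ Subgroup.zpowers x) :
    x ^ (h / 2) * u * (x ^ (h / 2))⁻¹ = x ^ h * u := by
  have h1 := H.conj_out hu hux (h / 2)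
  have h2 : x ^ (t * (h / 2)) = x ^ (h / 2) * x ^ h := by
    rw [← pow_add, H.pow_eq_pow]
    apply Nat.ModEq.symm
    rw [Nat.modEq_iff_dvd]
    obtain ⟨⟨g, hg⟩, h0, h3⟩ := H.ht
    have e1 : h / 2 = g := by omega
    rw [e1]
    rcases h3 with h3 | ⟨⟨c, hc⟩, h3⟩
    · have h5 : (t : ℤ) = 2 * h - 1 := by omega
      refine ⟨(g : ℤ) - 1, ?_⟩
      push_cast
      rw [h5]
      have h6 : (h : ℤ) = 2 * g := by exact_mod_cast hg
      rw [h6]; ring
    · have h5 : (t : ℤ) = h - 1 := by omega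
      have h6 : (h : ℤ) = 2 * g := by exact_mod_cast hg
      have h7 : (g : ℤ) = 2 * c := by
        have : (h : ℤ) = 4 * c := by exact_mod_cast hc
        linarith
      refine ⟨(c : ℤ) - 1, ?_⟩
      push_cast
      rw [h5, h6, h7]; ring
  have h3 : u * x ^ (h / 2) = x ^ (h / 2) * x ^ h * u := by
    rw [← h2, ← h1]; group
  have hz := H.z_central hu
  have hzz := H.z_sq
  -- x^(h/2) u = z u x^(h/2)
  have h4 : x ^ h * (u * x ^ (h / 2)) = x ^ (h / 2) * u := by
    rw [h3]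
    calc x ^ h * (x ^ (h / 2) * x ^ h * u) = x ^ (h / 2) * (x ^ h * x ^ h) * u := by
          have : x ^ h * x ^ (h / 2) = x ^ (h / 2) * x ^ h := by
            rw [← pow_add, ← pow_add, add_comm]
          rw [← mul_assoc, ← mul_assoc, this]; group
      _ = _ := by rw [hzz, mul_one]
  rw [← h4]; group

end Cfsg.Agent.H10.MC
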