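import Cfsg.Agent.H10.LevNum2

/-!
# Arithmetic of the contributions of the central involution (owner: helper10)
-/

set_option autoImplicit false

namespace Cfsg.Agent.H10

open scoped BigOperators

variable {ι : Type*} {I : Finset ι} {ht : ι → ℕ} {m : ℕ}

/-- the contributions of the central involution, multiplied by `4 h`, `h = 2 ^ m` -/
structure ZD (I : Finset ι) (ht : ι → ℕ) (m : ℕ) (W : ι → ι → ℤ) (lam : ℕ) : Prop where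
  val : ∀ χ ∈ I, ∀ ψ ∈ I, ∃ w : ℤ, W χ ψ = 2 ^ ht χ * w ∧ (Odd w ↔ ht ψ = 0)
  symm : ∀ χ ∈ I, ∀ ψ ∈ I, W χ ψ = W ψ χ
  idem : ∀ χ ∈ I, ∀ θ ∈ I, ∑ ψ ∈ I, W χ ψ * W ψ θ = 4 * 2 ^ m * W χ θ
  tr : ∑ χ ∈ I, W χ χ = 4 * 2 ^ m * lam
  lt : ∀ χ ∈ I, W χ χ < 4 * 2 ^ m

namespace ZD

variable {W : ι → ι → ℤ} {lam : ℕ}

theorem ne_zero (Z : ZD I ht m W lam) {χ ψ : ι} (hχ : χ ∈ I) (hψ : ψ ∈ I) (h0 : ht ψ = 0) :
    W χ ψ ≠ 0 := by
  obtain ⟨w, hw, hw2⟩ := Z.val χ hχ ψ hψ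
  intro h
  rw [h] at hw
  have h1 : w = 0 := by
    rcases mul_eq_zero.mp hw.symm with h2 | h2
    · exact absurd h2 (by positivity)
    · exact h2
  have h2 := hw2.mpr h0
  rw [h1] at h2
  exact absurd h2 (by decide)

theorem sum_sq (Z : ZD I ht m W lam) {χ : ι} (hχ : χ ∈ I) :
    ∑ ψ ∈ I, W χ ψ ^ 2 = 4 * 2 ^ m * W χ χ := by
  rw [← Z.idem χ hχ χ hχ]
  exact Finset.sum_congr rfl fun ψ hψ => by rw [Z.symm ψ hψ χ hχ]; ring

theorem pos (Z : ZD I ht m W lam) (hex : ∃ ψ ∈ I, ht ψ = 0) {χ : ι} (hχ : χ ∈ I) :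
    0 < W χ χ := by
  obtain ⟨ψ, hψ, h0⟩ := hex
  have h1 := Z.sum_sq hχ
  have h2 : 0 < ∑ ψ ∈ I, W χ ψ ^ 2 := by
    apply Finset.sum_pos' (fun _ _ => sq_nonneg _)
    exact ⟨ψ, hψ, by have := Z.ne_zero hχ hψ h0; positivity⟩
  rw [h1] at h2
  by_contra hcon
  push Not at hcon
  have : (0 : ℤ) < 4 * 2 ^ m := by positivity
  nlinarith

/-- characters of positive height with divisible contributions -/
theorem str (Z : ZD I ht m W lam) (h4 : (I.filter (fun χ => ht χ = 0)).card = 4)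
    {χ : ι} (hχ : χ ∈ I) (h0 : ht χ ≠ 0) (hd : ∀ ψ ∈ I, (2 : ℤ) ^ m ∣ W χ ψ) :
    ht χ = m ∧ W χ χ = 2 * 2 ^ m ∧ (∀ ψ ∈ I, ht ψ = 0 → W χ ψ ^ 2 = (2 ^ m) ^ 2) ∧
      (∀ ψ ∈ I, ht ψ ≠ 0 → ψ ≠ χ → W χ ψ = 0) := by
  classical
  have hex : ∃ ψ ∈ I, ht ψ = 0 := by
    obtain ⟨ψ, hψ⟩ := Finset.card_pos.mp (show 0 < (I.filter (fun χ => ht χ = 0)).card by omega)
    exact ⟨ψ, (Finset.mem_filter.mp hψ).1, (Finset.mem_filter.mp hψ).2⟩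
  choose! V hV using hd
  have h2m : (0 : ℤ) < 2 ^ m := by positivity
  have hVs : ∑ ψ ∈ I, V ψ ^ 2 = 4 * V χ := by
    have h1 := Z.sum_sq hχ
    rw [Finset.sum_congr rfl fun ψ hψ => by rw [hV ψ hψ, mul_pow], ← Finset.mul_sum,
      hV χ hχ] at h1
    have h2 : (2 ^ m) ^ 2 * ∑ ψ ∈ I, V ψ ^ 2 = (2 ^ m) ^ 2 * (4 * V χ) := by
      rw [h1]; ring
    exact mul_left_cancel₀ (by positivity) h2
  have hVlt : V χ < 4 := by
    have h1 := Z.lt χ hχ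
    rw [hV χ hχ] at h1
    by_contra hcon
    push Not at hcon
    nlinarith
  have hVpos : 0 < V χ := by
    have h1 := Z.pos hex hχ
    rw [hV χ hχ] at h1
    by_contra hcon
    push Not at hcon
    nlinarith
  obtain ⟨ψ₀, hψ₀, hψ00⟩ := hex
  have hge : m ≤ ht χ := by
    by_contra hlt
    push Not at hlt
    obtain ⟨w, hw, hw2⟩ := Z.val χ hχ ψ₀ hψ₀
    obtain ⟨k, hk⟩ : ∃ k, m = ht χ + (k + 1) := ⟨m - ht χ - 1, by omega⟩
    rw [hV ψ₀ hψ₀, hk, pow_add, mul_assoc] at hw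
    have h1 := mul_left_cancel₀ (by positivity) hw
    have h2 := hw2.mpr hψ00
    rw [← h1, pow_succ] at h2
    rw [← Int.not_even_iff_odd] at h2
    exact h2 ⟨2 ^ k * V ψ₀, by ring⟩
  obtain ⟨δ, hδ⟩ : ∃ δ, ht χ = m + δ := ⟨ht χ - m, by omega⟩
  have hVw : ∀ ψ ∈ I, ∃ w : ℤ, V ψ = 2 ^ δ * w ∧ (Odd w ↔ ht ψ = 0) := by
    intro ψ hψ
    obtain ⟨w, hw, hw2⟩ := Z.val χ hχ ψ hψ
    refine ⟨w, ?_, hw2⟩
    rw [hV ψ hψ, hδ, pow_add, mul_assoc] at hw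
    exact mul_left_cancel₀ (by positivity) hw
  obtain ⟨w, hw, hw2⟩ := hVw χ hχ
  have hweven : Even w := by
    rw [← Int.not_odd_iff_even, hw2]; exact h0
  obtain ⟨c, hc⟩ := hweven
  have hδ0 : δ = 0 := by
    by_contra hne
    obtain ⟨k, hk⟩ := Nat.exists_eq_succ_of_ne_zero hne
    have h1 : V χ = 4 * (2 ^ k * c) := by
      rw [hw, hk, Nat.succ_eq_add_one, pow_succ, hc]; ring
    omega
  rw [hδ0, pow_zero, one_mul] at hw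
  have hV2 : V χ = 2 := by omega
  have hodd1 : ∀ ψ ∈ I, ht ψ = 0 → 1 ≤ V ψ ^ 2 := by
    intro ψ hψ h
    obtain ⟨w', hw', hw2'⟩ := hVw ψ hψ
    rw [hδ0, pow_zero, one_mul] at hw'
    rw [hw']
    exact one_le_sq_of_odd (hw2'.mpr h)
  rw [hV2] at hVs
  have key : ∑ ψ ∈ I, (V ψ ^ 2 - (if ht ψ = 0 then 1 else 0) - (if ψ = χ then 4 else 0)) = 0 := by
    rw [Finset.sum_sub_distrib, Finset.sum_sub_distrib, hVs, Finset.sum_ite_eq' I χ, if_pos hχ,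
      ← Finset.sum_filter]
    simp only [Finset.sum_const, nsmul_eq_mul, mul_one, h4]
    norm_num
  have hnn : ∀ ψ ∈ I, 0 ≤ V ψ ^ 2 - (if ht ψ = 0 then 1 else 0) - (if ψ = χ then 4 else 0) := by
    intro ψ hψ
    by_cases h1 : ht ψ = 0
    · have h2 : ψ ≠ χ := by rintro rfl; exact h0 h1
      rw [if_pos h1, if_neg h2]
      have := hodd1 ψ hψ h1
      omega
    · rw [if_neg h1]
      by_cases h2 : ψ = χ
      · rw [if_pos h2, h2, hV2]; norm_num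
      · rw [if_neg h2]
        have := sq_nonneg (V ψ)
        omega
  have hz := (Finset.sum_eq_zero_iff_of_nonneg hnn).mp key
  refine ⟨by omega, by rw [hV χ hχ, hV2]; ring, ?_, ?_⟩
  · intro ψ hψ h1
    have h2 : ψ ≠ χ := by rintro rfl; exact h0 h1
    have h3 := hz ψ hψ
    rw [if_pos h1, if_neg h2] at h3
    rw [hV ψ hψ, mul_pow]
    have : V ψ ^ 2 = 1 := by omega
    rw [this, mul_one]
  · intro ψ hψ h1 h2
    have h3 := hz ψ hψ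
    rw [if_neg h1, if_neg h2, sub_zero, sub_zero] at h3
    rw [hV ψ hψ, pow_eq_zero_iff two_ne_zero |>.mp h3, mul_zero]

/-- Bessel's inequality -/
theorem bessel (Z : ZD I ht m W lam) {S : Finset ι} (hSI : S ⊆ I)
    (hS1 : ∀ χ ∈ S, W χ χ = 2 * 2 ^ m) (hS2 : ∀ χ ∈ S, ∀ χ' ∈ S, χ' ≠ χ → W χ χ' = 0) {ψ : ι}
    (hψ : ψ ∈ I) (hψS : ∀ χ ∈ S, W χ ψ ^ 2 = (2 ^ m) ^ 2) :
    2 ^ m * (S.card : ℤ) ≤ 2 * W ψ ψ := by
  classical
  set h : ℤ := 2 ^ m with hh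
  have hpos : 0 < h := by rw [hh]; positivity
  have hψS' : ∀ χ ∈ S, W ψ χ ^ 2 = h ^ 2 := fun χ hχ => by
    rw [Z.symm ψ hψ χ (hSI hχ)]; exact hψS χ hχ
  have h1 : 0 ≤ ∑ φ ∈ I, (2 * h * W ψ φ - ∑ χ ∈ S, W ψ χ * W χ φ) ^ 2 :=
    Finset.sum_nonneg fun _ _ => sq_nonneg _
  have e1 : ∑ φ ∈ I, (2 * h * W ψ φ - ∑ χ ∈ S, W ψ χ * W χ φ) ^ 2 =
      4 * h ^ 2 * ∑ φ ∈ I, W ψ φ ^ 2 - 4 * h * ∑ χ ∈ S, W ψ χ * ∑ φ ∈ I, W χ φ * W ψ φ +
      ∑ χ ∈ S, ∑ χ' ∈ S, W ψ χ * W ψ χ' * ∑ φ ∈ I, W χ φ * W χ' φ := by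
    have e2 : ∀ φ, (2 * h * W ψ φ - ∑ χ ∈ S, W ψ χ * W χ φ) ^ 2 =
        4 * h ^ 2 * W ψ φ ^ 2 - 4 * h * (∑ χ ∈ S, W ψ χ * (W χ φ * W ψ φ)) +
        ∑ χ ∈ S, ∑ χ' ∈ S, W ψ χ * W ψ χ' * (W χ φ * W χ' φ) := by
      intro φ
      have e3 : (∑ χ ∈ S, W ψ χ * W χ φ) ^ 2 =
          ∑ χ ∈ S, ∑ χ' ∈ S, W ψ χ * W ψ χ' * (W χ φ * W χ' φ) := by
        rw [pow_two, Finset.sum_mul_sum]
        exact Finset.sum_congr rfl fun _ _ => Finset.sum_congr rfl fun _ _ => by ring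
      have e4 : W ψ φ * ∑ χ ∈ S, W ψ χ * W χ φ = ∑ χ ∈ S, W ψ χ * (W χ φ * W ψ φ) := by
        rw [Finset.mul_sum]
        exact Finset.sum_congr rfl fun _ _ => by ring
      rw [← e3, ← e4]; ring
    rw [Finset.sum_congr rfl fun φ _ => e2 φ, Finset.sum_add_distrib, Finset.sum_sub_distrib,
      ← Finset.mul_sum, ← Finset.mul_sum]
    congr 1
    · congr 1
      congr 1
      rw [Finset.sum_comm]
      exact Finset.sum_congr rfl fun χ _ => by rw [Finset.mul_sum]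
    · rw [Finset.sum_comm]
      refine Finset.sum_congr rfl fun χ _ => ?_
      rw [Finset.sum_comm]
      exact Finset.sum_congr rfl fun χ' _ => by rw [Finset.mul_sum]
  have hidem : ∀ χ ∈ I, ∀ θ ∈ I, ∑ φ ∈ I, W χ φ * W θ φ = 4 * h * W χ θ := by
    intro χ hχ θ hθ
    rw [← Z.idem χ hχ θ hθ]
    exact Finset.sum_congr rfl fun φ hφ => by rw [Z.symm φ hφ θ hθ]
  have e5 : ∑ χ ∈ S, W ψ χ * ∑ φ ∈ I, W χ φ * W ψ φ = 4 * h * (S.card * h ^ 2) := by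
    rw [Finset.sum_congr rfl (g := fun _ => 4 * h * h ^ 2) fun χ hχ => ?_]
    · simp only [Finset.sum_const, nsmul_eq_mul]; ring
    · rw [hidem χ (hSI hχ) ψ hψ, Z.symm χ (hSI hχ) ψ hψ, ← hψS' χ hχ]; ring
  have e6 : ∑ χ ∈ S, ∑ χ' ∈ S, W ψ χ * W ψ χ' * ∑ φ ∈ I, W χ φ * W χ' φ =
      8 * h ^ 2 * (S.card * h ^ 2) := by
    rw [Finset.sum_congr rfl (g := fun _ => 8 * h ^ 2 * h ^ 2) fun χ hχ => ?_]
    · simp only [Finset.sum_const, nsmul_eq_mul]; ring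
    · rw [Finset.sum_eq_single χ]
      · rw [hidem χ (hSI hχ) χ (hSI hχ), hS1 χ hχ]
        calc W ψ χ * W ψ χ * (4 * h * (2 * h)) = 8 * h ^ 2 * W ψ χ ^ 2 := by ring
          _ = 8 * h ^ 2 * h ^ 2 := by rw [hψS' χ hχ]
      · intro χ' hχ' hne
        rw [hidem χ (hSI hχ) χ' (hSI hχ'), hS2 χ hχ χ' hχ' hne]; ring
      · intro h'; exact absurd hχ h'
  rw [e1, e5, e6, Z.sum_sq hψ] at h1
  have h7 : 0 ≤ 8 * h ^ 3 * (2 * W ψ ψ - h * S.card) := by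
    have : 8 * h ^ 3 * (2 * W ψ ψ - h * S.card) =
      4 * h ^ 2 * (4 * h * W ψ ψ) - 4 * h * (4 * h * (S.card * h ^ 2)) +
        8 * h ^ 2 * (S.card * h ^ 2) := by ring
    rw [this]; exact h1
  have h8 : 0 < 8 * h ^ 3 := by positivity
  have h9 : 0 ≤ 2 * W ψ ψ - h * S.card := by
    by_contra hcon
    push Not at hcon
    nlinarith
  linarith

/-- the number of divisible characters -/
theorem card_le (Z : ZD I ht m W lam) (h4 : (I.filter (fun χ => ht χ = 0)).card = 4)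
    {S : Finset ι} (hSI : S ⊆ I) (hS : ∀ χ ∈ S, ht χ ≠ 0 ∧ ∀ ψ ∈ I, (2 : ℤ) ^ m ∣ W χ ψ) :
    S.card ≤ lam ∧ ((∃ τ ∈ I, ht τ ≠ 0 ∧ τ ∉ S) → S.card + 1 ≤ lam) := by
  classical
  set h : ℤ := 2 ^ m with hh
  have hpos : 0 < h := by rw [hh]; positivity
  have hex : ∃ ψ ∈ I, ht ψ = 0 := by
    obtain ⟨ψ, hψ⟩ := Finset.card_pos.mp (show 0 < (I.filter (fun χ => ht χ = 0)).card by omega)
    exact ⟨ψ, (Finset.mem_filter.mp hψ).1, (Finset.mem_filter.mp hψ).2⟩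
  have hstr := fun χ (hχ : χ ∈ S) => Z.str h4 (hSI hχ) (hS χ hχ).1 (hS χ hχ).2
  set H := I.filter (fun χ => ht χ = 0) with hH
  have hHS : Disjoint H S := by
    rw [Finset.disjoint_left]
    intro χ h1 h2
    exact (hS χ h2).1 (Finset.mem_filter.mp h1).2
  have e1 : ∑ χ ∈ S, W χ χ = 2 * h * S.card := by
    rw [Finset.sum_congr rfl fun χ hχ => (hstr χ hχ).2.1]
    simp only [Finset.sum_const, nsmul_eq_mul]; ring
  have e2 : 2 * h * S.card ≤ ∑ ψ ∈ H, W ψ ψ := by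
    have h1 : ∑ ψ ∈ H, h * (S.card : ℤ) ≤ ∑ ψ ∈ H, 2 * W ψ ψ := by
      apply Finset.sum_le_sum
      intro ψ hψ
      have h2 := Finset.mem_filter.mp hψ
      refine Z.bessel hSI (fun χ hχ => (hstr χ hχ).2.1) ?_ h2.1
        (fun χ hχ => (hstr χ hχ).2.2.1 ψ h2.1 h2.2)
      intro χ hχ χ' hχ' hne
      exact (hstr χ hχ).2.2.2 χ' (hSI hχ') (hS χ' hχ').1 hne
    rw [Finset.sum_const, h4, ← Finset.mul_sum] at h1
    simp only [nsmul_eq_mul] at h1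
    push_cast at h1
    linarith
  have e3 : ∑ χ ∈ H ∪ S, W χ χ = ∑ χ ∈ H, W χ χ + ∑ χ ∈ S, W χ χ :=
    Finset.sum_union hHS
  have hsub : H ∪ S ⊆ I := Finset.union_subset (Finset.filter_subset _ _) hSI
  have e4 : 4 * h * S.card ≤ ∑ χ ∈ H ∪ S, W χ χ := by rw [e3, e1]; linarith
  have e5 : ∑ χ ∈ H ∪ S, W χ χ ≤ 4 * h * lam := by
    rw [hh, ← Z.tr]
    exact Finset.sum_le_sum_of_subset_of_nonneg hsub fun χ hχ _ => (Z.pos hex hχ).le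
  refine ⟨?_, ?_⟩
  · have : 4 * h * (S.card : ℤ) ≤ 4 * h * lam := e4.trans e5
    have := le_of_mul_le_mul_left this (by positivity)
    exact_mod_cast this
  · rintro ⟨τ, hτ, hτ0, hτS⟩
    have e6 : ∑ χ ∈ H ∪ S, W χ χ < 4 * h * lam := by
      rw [hh, ← Z.tr]
      apply Finset.sum_lt_sum_of_subset (f := fun χ => W χ χ) hsub hτ _ (Z.pos hex hτ)
        fun χ hχ _ => (Z.pos hex hχ).le
      rw [Finset.mem_union]
      rintro (h1 | h1)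
      · exact hτ0 (Finset.mem_filter.mp h1).2
      · exact hτS h1
    have : 4 * h * (S.card : ℤ) < 4 * h * lam := lt_of_le_of_lt e4 e6
    have := lt_of_mul_lt_mul_left this (by positivity)
    exact_mod_cast this

end ZD

end Cfsg.Agent.H10
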